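import Cfsg.Agent.H8.Q4HallC

set_option autoImplicit false
set_option linter.unusedSectionVars false

/-! M. Hall's theorem on four-fold transitive groups (relative form). -/

namespace CfsgH1.Q4

open MulAction Subgroup CfsgH8.Hall

theorem _root_.CfsgH8.Hall.hall_aux {G Ω X : Type*} [Group G] [MulAction G Ω] [Finite Ω] [Group X] [Finite X] (N : Subgroup G)
    (F : Set Ω) [MulAction X F] (ψ : N →* X) (hs : Function.Surjective ψ)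
    (key : ∀ (n : N) (x : F), ((ψ n • x : F) : Ω) = (n : G) • (x : Ω))
    (hf : ∀ g : X, (∀ x : F, g • x = x) → g = 1) (h4 : T4 N F) (hc : 4 ≤ F.ncard)
    (ho : ∀ g ∈ N, 4 ≤ (F ∩ Fx Ω g).ncard → ∃ m, Odd m ∧ ∀ x ∈ F, g ^ m • x = x) : HallC N F := by
  have k1 : ∀ (n : N) (x y : F), ψ n • x = y ↔ (n : G) • (x : Ω) = y := fun n x y => by
    rw [← key, Subtype.ext_iff]
  have dv : ∀ {a b c d : F}, D4 a b c d ↔ D4 (a : Ω) b c d := fun {a b c d} => by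
    simp only [D4, ne_eq, Subtype.ext_iff]
  have H : HH X F := ⟨hf, fun a b c d a' b' c' d' D D' => by
    obtain ⟨g, hg, e1, e2, e3, e4⟩ := h4 (dv.1 D) (dv.1 D') a.2 b.2 c.2 d.2 a'.2 b'.2 c'.2 d'.2
    exact ⟨ψ ⟨g, hg⟩, (k1 _ _ _).2 e1, (k1 _ _ _).2 e2, (k1 _ _ _).2 e3, (k1 _ _ _).2 e4⟩,
    fun a b c d g D e1 e2 e3 e4 => by
    obtain ⟨n, rfl⟩ := hs g
    obtain ⟨m, hm, h⟩ := ho n n.2 ((dv.1 D).le_ncard ⟨a.2, (k1 _ _ _).1 e1⟩ ⟨b.2, (k1 _ _ _).1 e2⟩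
      ⟨c.2, (k1 _ _ _).1 e3⟩ ⟨d.2, (k1 _ _ _).1 e4⟩)
    exact hm.of_dvd_nat (orderOf_dvd_of_pow_eq_one (hf _ fun x => by
      rw [← map_pow, k1]; exact h x x.2))⟩
  have cd : Nat.card F = F.ncard := rfl
  refine ⟨?_, fun h7 g hg h x hx => ?_, fun h7 a ha b hb c hc' ab ac bc => ?_, fun h6 g hg h => ?_,
    fun h6 N0 h0 h2 => ?_⟩
  · by_cases h8 : 8 ≤ F.ncard
    · have := H.card11 h8
      omega
    · omega
  · obtain ⟨a, ha, b, hb, c, hc, d, hd, D⟩ := exists_D4_mem h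
    have := H.triv (g := ψ ⟨g, hg⟩) h7 (show D4 (⟨a, ha.1⟩ : F) ⟨b, hb.1⟩ ⟨c, hc.1⟩ ⟨d, hd.1⟩ from dv.2 D)
      ((k1 _ _ _).2 ha.2) ((k1 _ _ _).2 hb.2) ((k1 _ _ _).2 hc.2) ((k1 _ _ _).2 hd.2)
    exact (k1 ⟨g, hg⟩ ⟨x, hx⟩ ⟨x, hx⟩).1 (by rw [this, one_smul])
  · obtain ⟨g, e1, e2, e3, e4⟩ := H.cyc (i := ⟨a, ha⟩) (j := ⟨b, hb⟩) (k := ⟨c, hc'⟩) h7
      (by simpa using ab) (by simpa using ac) (by simpa using bc)
    obtain ⟨n, rfl⟩ := hs g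
    exact ⟨n, n.2, (k1 _ _ _).1 e1, (k1 _ _ _).1 e2, (k1 _ _ _).1 e3, fun x hx x1 x2 x3 =>
      (k1 _ _ _).1 (e4 ⟨x, hx⟩ (by simpa using x1) (by simpa using x2) (by simpa using x3))⟩
  · obtain ⟨x, y, xy, u, v⟩ := H.two_fix (a := ψ ⟨g, hg⟩) h6 (hf _ fun x => by
      rw [← map_mul, k1, Subgroup.coe_mul, mul_smul]; exact h x x.2)
    rw [← Set.ncard_pair (Subtype.coe_injective.ne xy)]
    refine Set.ncard_le_ncard ?_
    rintro z (rfl | rfl)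
    exacts [⟨x.2, (k1 _ _ _).1 u⟩, ⟨y.2, (k1 _ _ _).1 v⟩]
  · refine H.idx (X0 := (N0.subgroupOf N).map ψ) h6 ?_
    rw [index_map_eq _ hs fun n hn => h0 n n.2 fun x hx =>
      (k1 n ⟨x, hx⟩ ⟨x, hx⟩).1 (by rw [MonoidHom.mem_ker.1 hn, one_smul])]
    exact h2

/-- M. Hall's theorem. -/
theorem hall (G Ω : Type*) [Group G] [Finite G] [MulAction G Ω] [Finite Ω] : HallThm G Ω := by
  intro N F hN h4 hc ho
  let S : SubMulAction N Ω := ⟨F, fun n _ hx => hN n n.2 _ hx⟩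
  letI : MulAction N F := inferInstanceAs (MulAction N S)
  exact hall_aux N F (MulAction.toPermHom N F).rangeRestrict (MonoidHom.rangeRestrict_surjective _)
    (fun _ _ => rfl) (fun g h => Subtype.ext (Equiv.ext h)) h4 hc ho

end CfsgH1.Q4
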