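import Cfsg.Agent.H8.JB2a
import Cfsg.Agent.H3.JG
import Cfsg.Agent.H5.WielFrob

/-! S3403, piece (B2). -/

set_option autoImplicit false
set_option linter.unusedSectionVars false

namespace CfsgJ

open CfsgH5 CfsgH6 CfsgFT Subgroup Cfsg JY

universe u

variable {G Ω : Type u} [Group G] [Finite G] [MulAction G Ω] [Finite Ω] {P : Ω → Subgroup G}

namespace SB

theorem b2_inf (h : SB G Ω P) {L : Subgroup G} (hL : ML P L) {m : G} (h1 : m ∈ L) (h2 : m ∈ C L) :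
    m = 1 := h.toGeo.inf_C hL.1 (h.fb L hL).cen h1 h2

theorem b2_split (h : SB G Ω P) {L : Subgroup G} (hL : ML P L) {z a : G} (hz : z ∈ L)
    (ha : a ∈ C1 z ⊓ N L) : ∃ m ∈ L ⊓ C1 z, ∃ w ∈ C L, a = m * w := by
  obtain ⟨m, hm, w, hw, rfl⟩ := (h.fb L hL).split a ha.2
  exact ⟨m, ⟨hm, (mul_mem_cancel_right (C_le_C1 hz hw)).mp ha.1⟩, w, hw, rfl⟩

theorem b2_pow (h : SB G Ω P) {L : Subgroup G} (hL : ML P L) {z a : G} (hz : z ∈ L)
    (oz : orderOf z = 2) (ha : a ∈ C1 z ⊓ N L) : a ^ 120 ∈ C L ∧ (a ^ 120 = 1 → a ∈ L) := by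
  obtain ⟨m, hm, w, hw, rfl⟩ := h.b2_split hL hz ha
  have e : m ^ 120 = 1 := by
    rw [← (h.fb L hL).cz z hz oz]
    exact orderOf_dvd_iff_pow_eq_one.mp (orderOf_dvd_natCard _ hm)
  rw [(comm_of_C hm.1 hw).mul_pow, e, one_mul]
  refine ⟨pow_mem hw _, fun e2 => ?_⟩
  have c : (Nat.card (C L)).Coprime 120 :=
    Nat.Coprime.coprime_dvd_right (by norm_num : 120 ∣ 30 ^ 3) ((h.w30 L hL).pow_right 3)
  have : w = 1 := orderOf_eq_one_iff.mp (Nat.eq_one_of_dvd_coprimes c (orderOf_dvd_natCard _ hw)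
    (orderOf_dvd_iff_pow_eq_one.mpr e2))
  rw [this, mul_one]; exact hm.1

theorem b2_cardH (h : SB G Ω P) {L : Subgroup G} (hL : ML P L) {z : G} (hz : z ∈ L)
    (oz : orderOf z = 2) : Nat.card ↥(C1 z ⊓ N L) = 120 * Nat.card (C L) := by
  have e : C1 z ⊓ N L = (L ⊓ C1 z) ⊔ C L := by
    refine le_antisymm (fun a ha => ?_) (sup_le (fun a ha => ⟨ha.2, le_N L ha.1⟩)
      (le_inf (C_le_C1 hz) (C_le_N L)))
    obtain ⟨m, hm, w, hw, rfl⟩ := h.b2_split hL hz ha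
    exact mul_mem_sup hm hw
  have e2 : (L ⊓ C1 z) ⊓ C L = ⊥ := eq_bot_iff.mpr fun a ha => h.b2_inf hL ha.1.1 ha.2
  have := card_sup_mul (X := L ⊓ C1 z) (Y := C L) (Or.inl fun a ha x hx => by
    rw [(comm_of_C ha.1 hx).eq, mul_inv_cancel_right]; exact hx)
  rwa [e2, card_bot, mul_one, ← e, (h.fb L hL).cz z hz oz] at this

theorem b2_wiel (h : SB G Ω P) {L : Subgroup G} (hL : ML P L) {z : G} (hz : z ∈ L)
    (oz : orderOf z = 2) : ∃ K : Subgroup G, K ≤ C1 z ∧ Nrm (C1 z) K ∧ L ⊓ C1 z ≤ K ∧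
      K ⊓ N L ≤ L ∧ K ⊔ (C1 z ⊓ N L) = C1 z ∧
      Nat.card K * Nat.card (C L) = Nat.card (C1 z) := by
  have hT : L ⊓ C1 z ≤ C1 z ⊓ N L := fun a ha => ⟨ha.2, le_N L ha.1⟩
  have hn : ∀ a ∈ C1 z ⊓ N L, ∀ t ∈ L ⊓ C1 z, a * t * a⁻¹ ∈ L ⊓ C1 z := fun a ha t ht =>
    ⟨conj_mem_of_mem_N ha.2 ht.1, (C1 z).mul_mem ((C1 z).mul_mem ha.1 ht.2) ((C1 z).inv_mem ha.1)⟩
  have hH : ∀ a ∈ C1 z ⊓ N L, a ∉ L ⊓ C1 z → ∀ g ∈ C1 z, g * a * g⁻¹ ∈ C1 z ⊓ N L →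
      g ∈ C1 z ⊓ N L := fun a ha ha' g hg hga => by
    obtain ⟨a1, a2⟩ := h.b2_pow hL hz oz ha
    obtain ⟨a3, -⟩ := h.b2_pow hL hz oz hga
    rw [conj_pow] at a3
    have a4 : g * a ^ 120 * g⁻¹ ∈ C (cj g L) := by rw [← cj_C]; exact conj_mem_cj.mpr a1
    exact ⟨hg, mem_N.mpr (h.toLS.W_inf (h.toGeo.ml_cj hL g) hL
      (conj_ne_one fun e => ha' ⟨a2 e, ha.1⟩) a4 a3)⟩
  obtain ⟨K, hK, hs⟩ := CfsgH5.WF.wielandt hT hn inf_le_left hH
  have k1 : K ≤ C1 z := fun x hx => ((hK x).mp hx).1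
  have k2 : Nrm (C1 z) K := fun a ha x hx => (hK _).mpr ⟨mul_mem (mul_mem ha (k1 hx)) (inv_mem ha),
    fun g hg e => by
      have := ((hK x).mp hx).2 (g * a) (mul_mem hg ha) (by simpa [mul_assoc] using e)
      simpa [mul_assoc] using this⟩
  have k3 : L ⊓ C1 z ≤ K := fun x hx => (hK x).mpr ⟨hx.2, fun g hg e => by
    by_contra e'
    have := hH _ e e' g⁻¹ (inv_mem hg) (by simpa [mul_assoc] using hT hx)
    exact e' (hn g (by simpa using inv_mem this) x hx)⟩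
  have k4 : K ⊓ N L ≤ L := fun x hx => by
    have := ((hK x).mp hx.1).2 1 (one_mem _) (by simpa using ⟨k1 hx.1, hx.2⟩)
    simpa using this.1
  refine ⟨K, k1, k2, k3, k4, hs, ?_⟩
  have e : K ⊓ (C1 z ⊓ N L) = L ⊓ C1 z :=
    le_antisymm (fun x hx => ⟨k4 ⟨hx.1, hx.2.2⟩, hx.2.1⟩) (le_inf k3 hT)
  have := card_sup_mul (X := K) (Y := C1 z ⊓ N L) (Or.inr fun a ha => k2 a ha.1)
  rw [hs, e, h.b2_cardH hL hz oz, (h.fb L hL).cz z hz oz] at this
  apply Nat.eq_of_mul_eq_mul_right (show 0 < 120 by norm_num)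
  rw [this]; ring

theorem b2_tr (h : SB G Ω P) {z : G} (oz : orderOf z = 2) {i j : Ω} (hi : z • i = i)
    (hj : z • j = j) : ∃ g ∈ C1 z, g • i = j := by
  by_cases e : i = j
  · exact ⟨1, one_mem _, by rw [one_smul, e]⟩
  obtain ⟨M, hM, h1, h2⟩ := h.ex i j e
  have hz : z ∈ M := h.mem M hM z (h.toLS.mem_N hM e h1 h2 (hi.symm ▸ h1) (hj.symm ▸ h2)) (sq_two oz)
  obtain ⟨g, -, g1, g2⟩ := (h.fb M hM).trz z hz oz i j h1 h2 hi hj
  exact ⟨g, mem_C1.mpr g1, g2⟩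

theorem b2_cardX (h : SB G Ω P) {L : Subgroup G} (hL : ML P L) {y : G} (hy : y ∈ L)
    (oy : orderOf y = 10) {i : Ω} (hi : P i ≤ L) (hyi : y • i = i) (oz : orderOf (y ^ 5) = 2) :
    Nat.card (C1 (y ^ 5)) =
      Nat.card ↥(C (P i) ⊓ C1 (y ^ 5)) * 10 * {j : Ω | (y ^ 5) • j = j}.ncard := by
  set z := y ^ 5 with hz
  have zi : z • i = i := (MulAction.stabilizer G i).pow_mem hyi 5
  have e1 := card_mul_index (MulAction.stabilizer (C1 z) i)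
  have e2 : MulAction.orbit (C1 z) i = {j : Ω | z • j = j} := by
    ext j
    constructor
    · rintro ⟨g, rfl⟩
      change z • (g : G) • i = (g : G) • i
      rw [← mul_smul, ← mem_C1.mp g.2, mul_smul, zi]
    · intro hj
      obtain ⟨g, hg, e⟩ := h.b2_tr oz zi hj
      exact ⟨⟨g, hg⟩, e⟩
  rw [MulAction.index_stabilizer, e2] at e1
  rw [← e1]
  congr 1
  obtain ⟨φ, -, hφ⟩ := h.toGeo.aut i
  let ι : MulAction.stabilizer (C1 z) i →* MulAction.stabilizer G i :=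
    { toFun := fun g => ⟨g.1.1, g.2⟩, map_one' := rfl, map_mul' := fun _ _ => rfl }
  let f := φ.comp ι
  have yz : y ∈ C1 z := mem_C1.mpr (by rw [hz]; group)
  have hr : f.range = ⊤ := by
    apply eq_top_of_le_card
    let y' : MulAction.stabilizer (C1 z) i := ⟨⟨y, yz⟩, hyi⟩
    have o1 : orderOf (f y') = 10 := by
      rw [← oy, orderOf_eq_orderOf_iff]
      intro n
      rw [← map_pow]
      change φ (ι (y' ^ n)) = 1 ↔ _
      rw [hφ]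
      change y ^ n ∈ C (P i) ↔ _
      refine ⟨fun a => ?_, fun a => a ▸ one_mem _⟩
      have b : y ^ n ∈ P i := (h.fb L hL).cen i hi ▸ (⟨pow_mem hy n, a⟩ : y ^ n ∈ L ⊓ C (P i))
      by_contra c
      have d := orderOf_pow_dvd (x := y) n
      rw [h.toGeo.order b c, oy] at d
      omega
    have o2 : Nat.card (ZMod 11)ˣ = 10 := by
      haveI : Fact (Nat.Prime 11) := ⟨by norm_num⟩
      rw [Nat.card_eq_fintype_card, ZMod.card_units]
    rw [o2, ← o1]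
    exact Nat.le_of_dvd Nat.card_pos (orderOf_dvd_natCard _ ⟨y', rfl⟩)
  have e3 := card_mul_index f.ker
  rw [index_ker, hr, card_top] at e3
  have o2 : Nat.card (ZMod 11)ˣ = 10 := by
    haveI : Fact (Nat.Prime 11) := ⟨by norm_num⟩
    rw [Nat.card_eq_fintype_card, ZMod.card_units]
  rw [← e3, o2]
  congr 1
  refine Nat.card_congr ⟨fun g => ⟨g.1.1.1, (hφ (ι g.1)).mp g.2, g.1.1.2⟩,
    fun g => ⟨⟨⟨g.1, g.2.2⟩, h.toGeo.fix_C g.2.1⟩, (hφ _).mpr g.2.1⟩, fun _ => rfl, fun _ => rfl⟩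

theorem b2_fpf (h : SB G Ω P) {z v : G} (oz : orderOf z = 2) (ov : orderOf v = 2)
    (e : v * z = z * v) {i : Ω} (hz : z • i = i) (hv : v • i = i) : v = z := by
  obtain ⟨φ, -, hφ⟩ := h.toGeo.aut i
  have key : ∀ a : G, orderOf a = 2 → ∀ ha : a • i = i, φ ⟨a, ha⟩ = -1 := fun a oa ha => by
    have a1 : φ ⟨a, ha⟩ ≠ 1 := fun e => by
      have := h.kodd i a ((hφ _).mp e) (sq_two oa)
      rw [this] at oa; simp at oa
    have a2 : φ ⟨a, ha⟩ * φ ⟨a, ha⟩ = 1 := by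
      rw [← map_mul, ← map_one φ]; congr 1; exact Subtype.ext (sq_two oa)
    revert a1 a2
    generalize φ ⟨a, ha⟩ = x
    revert x
    decide
  have a : φ (⟨v, hv⟩ * ⟨z, hz⟩) = 1 := by rw [map_mul, key v ov, key z oz]; simp
  have b := h.kodd i (v * z) ((hφ _).mp a) (by
    calc v * z * (v * z) = v * (z * v) * z := by group
      _ = v * v * (z * z) := by rw [← e]; group
      _ = 1 := by rw [sq_two ov, sq_two oz, one_mul])
  rw [eq_inv_of_mul_eq_one_left b]; exact inv_eq_of_mul_eq_one_right (sq_two oz)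

theorem b2_line (h : SB G Ω P) {z v : G} (oz : orderOf z = 2) (ov : orderOf v = 2)
    (e : v * z = z * v) (hvz : v ≠ z) {i : Ω} (hz : z • i = i) :
    ∃ M, (ML P M ∧ P i ≤ M ∧ z ∈ M) ∧ v ∈ M ∧ ∀ M', ML P M' → P i ≤ M' → v ∈ M' → M' = M := by
  have hv : i ≠ v • i := fun a => hvz (h.b2_fpf oz ov e hz a.symm)
  obtain ⟨M, hM, h1, h2⟩ := h.ex i _ hv
  have zv : z • v • i = v • i := by rw [← mul_smul, ← e, mul_smul, hz]
  refine ⟨M, ⟨hM, h1, h.mem M hM z (h.toLS.mem_N hM hv h1 h2 (hz.symm ▸ h1) (zv.symm ▸ h2))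
    (sq_two oz)⟩, h.mem M hM v (h.toLS.mem_N hM hv h1 h2 h2 (by
      rw [← mul_smul, sq_two ov, one_smul]; exact h1)) (sq_two ov), fun M' hM' a b => ?_⟩
  exact h.uniq M' M hM' hM i _ hv a ((h.toGeo.on_mem b).mpr a) h1 h2

theorem b2_count (h : SB G Ω P) {z : G} (oz : orderOf z = 2) {i : Ω} (hz : z • i = i) :
    {v : G | orderOf v = 2 ∧ v * z = z * v ∧ v ≠ z}.ncard =
      30 * {M | ML P M ∧ P i ≤ M ∧ z ∈ M}.ncard := by
  have key := CfsgH8.Pron.dcount {v : G | orderOf v = 2 ∧ v * z = z * v ∧ v ≠ z}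
    {M | ML P M ∧ P i ≤ M ∧ z ∈ M} (fun v M => v ∈ M) 1 30 ?_ ?_
  · omega
  · rintro v ⟨a, b, c⟩
    obtain ⟨M, h1, h2, h3⟩ := h.b2_line oz a b c hz
    rw [Set.ncard_eq_one]
    refine ⟨M, ?_⟩
    ext M'
    simp only [Set.mem_setOf_eq, Set.mem_singleton_iff]
    exact ⟨fun d => h3 M' d.1.1 d.1.2.1 d.2, fun d => d ▸ ⟨h1, h2⟩⟩
  · rintro M ⟨a, b, c⟩
    rw [← (h.fb M a).ninv z c oz]
    congr 1
    ext v
    simp only [Set.mem_setOf_eq]
    tauto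

theorem b2_Nt (h : SB G Ω P) {L : Subgroup G} (hL : ML P L) {t : G} (ht : t ∈ L)
    (ot : orderOf t = 5) : N (zpowers t) ≤ N L := fun g hg => by
  obtain ⟨i, j, hij, hi, hj, ti, tj⟩ := (h.fb L hL).five t ht ot
  have tc : t ∉ C (P i) := fun a => by
    have b : t ∈ P i := (h.fb L hL).cen i hi ▸ (⟨ht, a⟩ : t ∈ L ⊓ C (P i))
    have := h.toGeo.order b (by rintro rfl; simp at ot)
    omega
  have key : ∀ k : Ω, t • k = k → P (g • k) ≤ L := fun k hk => by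
    refine h.toLS.fix5 hL ot hi ti tc (le_N L ht) ?_
    have a : g⁻¹ * t * g⁻¹⁻¹ ∈ MulAction.stabilizer G k :=
      zpowers_le.mpr hk (conj_mem_of_mem_N (inv_mem hg) (mem_zpowers t))
    have b : (g⁻¹ * t * g⁻¹⁻¹) • k = k := a
    rw [inv_inv, mul_smul, mul_smul, inv_smul_eq_iff] at b
    exact b
  exact h.toLS.mem_N hL hij hi hj (key i ti) (key j tj)

theorem elim (h : SB G Ω P) (y : YSt.{u}) : False := by
  obtain ⟨i, j, hij⟩ := h.two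
  obtain ⟨L, hL, hi, -⟩ := h.ex i j hij
  have B := h.fb L hL
  obtain ⟨y0, hy, oy, yi, -⟩ := B.tor i hi
  have oz : orderOf (y0 ^ 5) = 2 := by rw [orderOf_pow' _ (by norm_num), oy]; norm_num
  have hX := h.b2_cardX hL hy oy hi yi oz
  have hz : y0 ^ 5 ∈ L := pow_mem hy 5
  have zi : (y0 ^ 5) • i = i := (MulAction.stabilizer G i).pow_mem yi 5
  generalize y0 ^ 5 = z at oz hX hz zi
  obtain ⟨t, ht, ot, -, zt⟩ := B.tz z hz oz i hi zi
  obtain ⟨-, hN, s, hs, os, sz, sz', st⟩ := B.ctz t ht z hz ot oz zt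
  obtain ⟨c, hc, h5, hcW, c1, c2, c3, F, hF, cF, nF⟩ := h.frob L hL z hz oz i hi zi
  obtain ⟨K, k1, k2, k3, k4, k5, k6⟩ := h.b2_wiel hL hz oz
  have hK : Nat.card K = 10 * c * (1 + 11 * c) := by
    apply Nat.eq_of_mul_eq_mul_right (card_pos (C L))
    rw [k6, hX, c2, c3]; ring
  have hFK : F ≤ K := le_of_coprime_relIndex hF k2 (by
    rw [relIndex_eq_of_mul k1 k6, cF]; exact hcW)
  have zK : z ∈ K := k3 ⟨hz, self_mem_C1 z⟩
  have tK : t ∈ K := k3 ⟨ht, mem_C1.mpr zt.symm⟩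
  have sK : s ∈ K := k3 ⟨hs, mem_C1.mpr sz'⟩
  have zF : z ∉ F := fun a => by
    have a1 : 2 ∣ Nat.card ↥(C (P i) ⊓ C1 z) := by
      rw [c3, ← cF, ← oz]; exact (orderOf_dvd_natCard _ a).mul_right _
    obtain ⟨x, hx, ox⟩ := exists_mem_orderOf_eq Nat.prime_two a1
    rw [h.kodd i x hx.1 (sq_two ox)] at ox
    simp at ox
  have cl : ∀ v : G, orderOf v = 2 → v * z = z * v → v ≠ z →
      ∃ g ∈ K, g * s * g⁻¹ = v ∨ g * s * g⁻¹ = v * z := fun v ov vz vz' => by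
    obtain ⟨M, ⟨hM, m1, m2⟩, m3, -⟩ := h.b2_line oz ov vz vz' zi
    obtain ⟨k, -, kz, rfl⟩ := h.ztr L M hL hM z hz m2 oz i hi m1 zi
    have kX : k ∈ K ⊔ (C1 z ⊓ N L) := k5.symm ▸ mem_C1.mpr kz
    obtain ⟨κ, hκ, a, ha, rfl⟩ := (mem_sup_nrm' (k2.mono inf_le_left)).mp kX
    rw [← cj_cj, mem_N.mp ha.2] at m3
    have κz := mem_C1.mp (k1 hκ)
    have w1 : κ⁻¹ * v * κ ∈ C1 z := mul_mem (mul_mem (inv_mem (k1 hκ)) (mem_C1.mpr vz)) (k1 hκ)
    obtain ⟨g, hg, gz, e⟩ := B.clsz z hz s hs _ (mem_cj.mp m3) oz os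
      (by rw [← ov, ← orderOf_conj' κ⁻¹ v, inv_inv]) sz' (mem_C1.mp w1) sz (fun e => vz' (by
        have : v = κ * (κ⁻¹ * v * κ) * κ⁻¹ := by group
        rw [this, e, κz, mul_inv_cancel_right]))
    refine ⟨κ * g, mul_mem hκ (k3 ⟨hg, mem_C1.mpr gz⟩), ?_⟩
    have e0 : κ * g * s * (κ * g)⁻¹ = κ * (g * s * g⁻¹) * κ⁻¹ := by group
    rcases e with e | e
    · left; rw [e0, e]; group
    · right
      rw [e0, e]
      calc κ * (κ⁻¹ * v * κ * z) * κ⁻¹ = v * (κ * z) * κ⁻¹ := by group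
        _ = v * z := by rw [κz]; group
  refine quo_step y (K := K) (z := ⟨z, zK⟩) (t := ⟨t, tK⟩) (s := ⟨s, sK⟩) (F.subgroupOf K) hc h5
    (by rw [← orderOf_coe]; exact oz) (fun g => Subtype.ext (mem_C1.mp (k1 g.2))) hK
    (by rw [← orderOf_coe]; exact ot) ?_ (by rw [← orderOf_coe]; exact os)
    (fun e => sz (congrArg Subtype.val e)) (Subtype.ext st) ?_ ?_
    (by rw [← cF]; exact Nat.card_congr (subgroupOfEquivOfLe hFK).toEquiv) zF
    (Group.nilpotent_of_mulEquiv (subgroupOfEquivOfLe hFK).symm)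
  · have le : L ⊓ C1 z ⊓ N (zpowers t) ≤ K := inf_le_left.trans k3
    rw [← hN, ← Nat.card_congr (subgroupOfEquivOfLe le).toEquiv]
    congr 2
    ext g
    rw [mem_subgroupOf]
    constructor
    · intro hg
      have a : (g : G) ∈ N (zpowers t) := by
        apply mem_N_of_cj_le
        rw [cj_zpowers, zpowers_le]
        obtain ⟨k, hk⟩ := conj_mem_of_mem_N hg (mem_zpowers _)
        exact ⟨k, by simpa using congrArg Subtype.val hk⟩
      exact ⟨⟨k4 ⟨g.2, h.b2_Nt hL ht ot a⟩, k1 g.2⟩, a⟩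
    · intro hg
      apply mem_N_of_cj_le
      rw [cj_zpowers, zpowers_le]
      obtain ⟨k, hk⟩ := conj_mem_of_mem_N hg.2 (mem_zpowers _)
      exact ⟨k, Subtype.ext (by simpa using hk)⟩
  · rw [← c1, ← h.b2_count oz zi, ← Set.ncard_image_of_injective _ Subtype.val_injective]
    congr 1
    ext v
    constructor
    · rintro ⟨w, ⟨a, b⟩, rfl⟩
      exact ⟨by rw [orderOf_coe]; exact a, mem_C1.mp (k1 w.2), fun e => b (Subtype.ext e)⟩
    · rintro ⟨a, b, c⟩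
      obtain ⟨g, hg, e⟩ := cl v a b c
      have m : g * s * g⁻¹ ∈ K := mul_mem (mul_mem hg sK) (inv_mem hg)
      have vK : v ∈ K := by
        rcases e with e | e
        · exact e ▸ m
        · exact (mul_mem_cancel_right zK).mp (e ▸ m)
      exact ⟨⟨v, vK⟩, ⟨by rw [← orderOf_coe]; exact a, fun e => c (congrArg Subtype.val e)⟩, rfl⟩
  · intro v a b
    obtain ⟨g, hg, e⟩ := cl v (by rw [orderOf_coe]; exact a) (mem_C1.mp (k1 v.2))
      fun e => b (Subtype.ext e)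
    exact ⟨⟨g, hg⟩, e.imp (fun e => Subtype.ext e) fun e => Subtype.ext e⟩

end SB

end CfsgJ
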