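import Cfsg.Agent.H8.JINa

/-! S3403, piece (IN). -/

set_option autoImplicit false
set_option linter.unusedSectionVars false

namespace CfsgJ

open CfsgH5 CfsgH6 CfsgFT Subgroup Cfsg JY

universe u

variable {G Ω : Type u} [Group G] [Finite G] [MulAction G Ω] [Finite Ω] {P : Ω → Subgroup G}
  {L M : Subgroup G} {i j k : Ω} {s u w m : G}

theorem in_four {V : Subgroup G} (hV : Nat.card V = 4) (h2 : ∀ x ∈ V, x * x = 1) :
    ∃ a ∈ V, ∃ b ∈ V, a ≠ 1 ∧ b ≠ 1 ∧ b ≠ a ∧ ∀ x ∈ V, x = 1 ∨ x = a ∨ x = b ∨ x = a * b := by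
  have hc : (V : Set G).ncard = 4 := hV
  obtain ⟨a, ha, a1⟩ : ∃ a ∈ V, a ≠ 1 := by
    by_contra hn
    push Not at hn
    have := Set.ncard_le_ncard (s := (V : Set G)) (t := {1}) fun x hx => hn x hx
    rw [Set.ncard_singleton] at this
    omega
  obtain ⟨b, hb, b1, ba⟩ : ∃ b ∈ V, b ≠ 1 ∧ b ≠ a := by
    by_contra hn
    push Not at hn
    have := (Set.ncard_le_ncard (s := (V : Set G)) (t := {1, a}) fun x hx => by
      by_cases e : x = 1
      · exact Or.inl e
      · exact Or.inr (hn x hx e)).trans (Set.ncard_insert_le _ _)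
    rw [Set.ncard_singleton] at this
    omega
  refine ⟨a, ha, b, hb, a1, b1, ba, fun x hx => ?_⟩
  have e1 : a * b ≠ 1 := fun e => ba (by
    rw [eq_inv_of_mul_eq_one_right e]; exact inv_eq_of_mul_eq_one_right (h2 a ha))
  have e : ({1, a, b, a * b} : Set G) = V := Set.eq_of_subset_of_ncard_le (by
    rintro x (rfl | rfl | rfl | rfl)
    exacts [V.one_mem, ha, hb, V.mul_mem ha hb]) (by
    rw [hc, Set.ncard_insert_of_notMem (by simp [a1.symm, b1.symm, e1.symm]),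
      Set.ncard_insert_of_notMem (by simp [ba.symm, b1]), Set.ncard_pair (by simp [a1])])
  exact (e ▸ hx : x ∈ ({1, a, b, a * b} : Set G))

theorem in_comm {E : Subgroup G} (h2 : ∀ x ∈ E, x * x = 1) {x y : G} (hx : x ∈ E) (hy : y ∈ E) :
    x * y = y * x := by
  have e := inv_eq_of_mul_eq_one_right (h2 _ (mul_mem hx hy))
  rw [← e, mul_inv_rev, inv_eq_of_mul_eq_one_right (h2 x hx), inv_eq_of_mul_eq_one_right (h2 y hy)]

theorem in_cyc (h : IsCyclic (C L)) : (InI L).ncard ≤ 1 :=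
  (Set.ncard_le_one (Set.toFinite _)).mpr fun a ha b hb => by
    have e := eq_of_isCyclic_of_card_eq h (zpowers_le.2 ha.1) (zpowers_le.2 hb.1)
      (by rw [Nat.card_zpowers, Nat.card_zpowers, ha.2, hb.2])
    exact ((mem_zp_two hb.2).mp (e ▸ mem_zpowers a)).resolve_left (in_ne ha.2)

namespace SA

variable (h : SA G Ω P)
include h

theorem in_uniq (h1 : ∀ M, ML P M → (InI M).ncard = 1) (hM : ML P M) (hu : u ∈ InI M)
    (hw : w ∈ C M) (h2 : w * w = 1) : w = 1 ∨ w = u := by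
  obtain ⟨z, hz⟩ := Set.ncard_eq_one.mp (h1 M hM)
  by_cases e : w = 1
  · exact Or.inl e
  · have a : w ∈ InI M := ⟨hw, ord_two h2 e⟩
    rw [hz] at a hu
    exact Or.inr (a.trans hu.symm)

theorem in_three (h1 : ∀ M, ML P M → (InI M).ncard = 1) {E : Subgroup G} (hE : Nat.card E = 8)
    (h2 : ∀ x ∈ E, x * x = 1) (hT : ∀ x ∈ E, x ≠ 1 → TW P x) {e : G} (he : e ∈ E) (e1 : e ≠ 1) :
    ∃ g ∈ N E, g ^ 3 = 1 ∧ g * e = e * g ∧ ∀ x ∈ E, x ≠ 1 → g * x = x * g → x = e := by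
  obtain ⟨oe, M, hM, eM⟩ := hT e he e1
  have hV : ∀ f ∈ E, f ∈ E ⊓ M ∨ f * e ∈ E ⊓ M := fun f hf => by
    by_cases f1 : f = 1
    · left; rw [f1]; exact one_mem _
    by_cases fM : f ∈ C M
    · right
      rw [(h.in_uniq h1 hM ⟨eM, oe⟩ fM (h2 f hf)).resolve_left f1, h2 e he]
      exact one_mem _
    obtain ⟨m, hm, w, hw, rfl, -, ww⟩ := h.in_out (hT f hf f1) hM
      (h.toLS.C1_le_N hM e1 eM (mem_C1.mpr (in_comm h2 hf he))) fM
    rcases h.in_uniq h1 hM ⟨eM, oe⟩ hw ww with rfl | rfl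
    · left; exact ⟨hf, by simpa using hm⟩
    · right; exact ⟨mul_mem hf he, by rw [mul_assoc, ww, mul_one]; exact hm⟩
  have eV : e ∉ E ⊓ M := fun a => e1 (h.in_inf hM a.2 eM)
  have eN : e ∈ N (E ⊓ M) := mem_N_of_conj fun x hx => by
    rw [← in_comm h2 hx.1 he, mul_inv_cancel_right]; exact hx
  have hs : E ⊓ M ⊔ zpowers e = E := by
    refine le_antisymm (sup_le inf_le_left (zpowers_le.mpr he)) fun f hf => ?_
    rcases hV f hf with a | a
    · exact mem_sup_left a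
    · exact (mul_mem_cancel_right (mem_sup_right (mem_zpowers e))).mp (mem_sup_left a)
  have hc := CfsgH8.Mat.card_sup_inv (h2 e he) eV eN
  rw [hs, hE] at hc
  obtain ⟨a, ha, b, hb, a1, b1, ba, hx⟩ := in_four (V := E ⊓ M) (by omega) fun x hx => h2 x hx.1
  obtain ⟨g, hg, og, ga, gb⟩ := (h.fa M hM).a4 a ha.2 b hb.2 (ord_two (h2 a ha.1) a1)
    (ord_two (h2 b hb.1) b1) ba (in_comm h2 ha.1 hb.1)
  have ge : g * e = e * g := (comm_of_C hg eM).eq
  have gab : g * (a * b) * g⁻¹ = a := by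
    rw [← conj_mul, ga, gb, in_comm h2 ha.1 hb.1, ← mul_assoc, h2 b hb.1, one_mul]
  have k1 : ∀ x ∈ E ⊓ M, g * x * g⁻¹ ∈ E := fun x hx' => by
    rcases hx x hx' with rfl | rfl | rfl | rfl
    · simp
    · rw [ga]; exact hb.1
    · rw [gb]; exact E.mul_mem ha.1 hb.1
    · rw [gab]; exact ha.1
  have k2 : ∀ x ∈ E ⊓ M, g * x = x * g → x = 1 := fun x hx' c => by
    have c' : g * x * g⁻¹ = x := by rw [c, mul_inv_cancel_right]
    rcases hx x hx' with rfl | rfl | rfl | rfl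
    · rfl
    · exact absurd (ga.symm.trans c') ba
    · exact absurd (by simpa using gb.symm.trans c') a1
    · exact absurd (by simpa using gab.symm.trans c') b1
  refine ⟨g, mem_N_of_conj fun x hx' => ?_, by rw [← og]; exact pow_orderOf_eq_one g, ge,
    fun x hx' x1 c => ?_⟩
  · rcases hV x hx' with d | d
    · exact k1 x d
    · have := k1 _ d
      rw [← conj_mul, ge, mul_inv_cancel_right] at this
      exact (mul_mem_cancel_right he).mp this
  · rcases hV x hx' with d | d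
    · exact absurd (k2 x d c) x1
    · have := k2 _ d (by rw [← mul_assoc, c, mul_assoc, ge, mul_assoc])
      rw [eq_inv_of_mul_eq_one_left this]; exact inv_eq_of_mul_eq_one_right (h2 e he)

theorem in_seven (h1 : ∀ M, ML P M → (InI M).ncard = 1) {E : Subgroup G} (hE : Nat.card E = 8)
    (h2 : ∀ x ∈ E, x * x = 1) (hT : ∀ x ∈ E, x ≠ 1 → TW P x) {e : G} (he : e ∈ E) (e1 : e ≠ 1) :
    7 ∣ Nat.card G := by
  have sub : ∀ x, (∃ g ∈ N E, g * e * g⁻¹ = x) → x ∈ E ∧ x ≠ 1 := by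
    rintro _ ⟨g, hg, rfl⟩
    exact ⟨conj_mem_of_mem_N hg he, conj_ne_one e1⟩
  have key : ∀ f ∈ E, f ≠ 1 → {x | ∃ g ∈ N E, g * e * g⁻¹ = x}.ncard ≡
      ({x | ∃ g ∈ N E, g * e * g⁻¹ = x} ∩ {f}).ncard [MOD 3] := fun f hf f1 => by
    obtain ⟨g, hg, g3, gf, hx⟩ := h.in_three h1 hE h2 hT hf f1
    have := CfsgH1.Q4.ncard_modEq_conj Nat.prime_three 1 (g := g)
      (S := {x | ∃ g ∈ N E, g * e * g⁻¹ = x})
      (by rintro _ ⟨a, ha, rfl⟩; exact ⟨g * a, mul_mem hg ha, by group⟩)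
      (fun x _ => by rw [pow_one, g3]; exact Commute.one_left x)
    convert this using 2
    ext x
    exact and_congr_right fun a => ⟨fun b => by rw [show x = f from b]; exact gf,
      fun b => hx x (sub x a).1 (sub x a).2 b⟩
  have all : ∀ f, f ∈ E ∧ f ≠ 1 ↔ ∃ g ∈ N E, g * e * g⁻¹ = f := fun f => ⟨fun hf => by
    by_contra hn
    have a := key e he e1
    have b := key f hf.1 hf.2
    have c : e ∈ {x | ∃ g ∈ N E, g * e * g⁻¹ = x} := ⟨1, one_mem _, by simp⟩
    have d : f ∉ {x | ∃ g ∈ N E, g * e * g⁻¹ = x} := hn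
    rw [Set.inter_eq_right.mpr (Set.singleton_subset_iff.mpr c), Set.ncard_singleton] at a
    rw [Set.inter_singleton_eq_empty.mpr d, Set.ncard_empty] at b
    have := a.symm.trans b
    revert this
    decide, sub f⟩
  have a := CfsgH8.Mat.relIndex_C1_eq_of all
  have b := CfsgH8.Mat.card_ne_one E
  rw [← a, hE] at b
  rw [show 7 = (C1 e).relIndex (N E) by omega]
  exact (relIndex_dvd_card' _ _).trans (card_subgroup_dvd_card _)

theorem in_not7 (hn : Nat.card Ω = 1332) : ¬ 7 ∣ Nat.card G := fun h7 => by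
  haveI : Fact (Nat.Prime 7) := ⟨by norm_num⟩
  obtain ⟨g, og⟩ := exists_prime_orderOf_dvd_card' 7 h7
  have a := CfsgH1.Q4.card_modEq (Ω := Ω) (p := 7) (by norm_num) (g := g)
    (by rw [← og]; exact pow_orderOf_eq_one g)
  rw [hn] at a
  unfold Nat.ModEq at a
  obtain ⟨i, j, hi, hj, hij⟩ := (Set.one_lt_ncard_iff (s := CfsgH1.Q4.Fx Ω g)).mp (by omega)
  obtain ⟨L, hL, h1, h2⟩ := h.ex i j hij
  have b : g ∈ C (P i) := mem_of_pow_mem_of_coprime' (n := 10) (by rw [og]; norm_num)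
    (h.toGeo.pow10 hi)
  have c := h.star L hL i j hij h1 h2 g b hj
  have d : CfsgH1.Q4.Fx Ω g = {k | P k ≤ L} := by
    ext k
    exact h.in_fix hL c (by rintro rfl; simp at og)
  rw [d, (h.fa L hL).npts] at a
  omega

theorem in_nofix (hL : ML P L) (hs : s ∈ L) (os : orderOf s = 2) (i : Ω) : s • i ≠ i := by
  intro hi
  have ts : TW P s := h.in_TW os (h.notN L hL s hs (sq_two os) i hi)
  have all : ∀ m ∈ L, orderOf m = 2 → TW P m := fun m hm om => by
    obtain ⟨g, -, rfl⟩ := (h.fa L hL).cls s hs m hm os om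
    exact h.in_cj ts g
  obtain ⟨-, M, hM, sM⟩ := id ts
  have p1 : 0 < (InI L).ncard := by
    rw [h.in_I hL hM]; exact (Set.ncard_pos (Set.toFinite _)).mpr ⟨s, sM, os⟩
  obtain ⟨z, hz⟩ := (Set.ncard_pos (Set.toFinite _)).mp p1
  obtain ⟨r, r0, hn, hr⟩ := h.in_main hL hs os hz
  have le : ∀ m, InJ P L m ⊆ insert 1 (InI L) := fun m w hw => by
    by_cases e : w = 1
    · exact Or.inl e
    · exact Or.inr ⟨hw.1, ord_two hw.2.1 e⟩
  have le2 := (Set.ncard_le_ncard (le s)).trans (Set.ncard_insert_le _ _)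
  have h1 : (InI L).ncard = 1 := by
    by_cases e : r = 1
    · subst e
      have := in_cyc (h.w61 (by omega) L hL)
      omega
    · have : (InI L).ncard * 2 ≤ (InI L).ncard * r := Nat.mul_le_mul_left _ (by omega)
      omega
  have h1' : ∀ M, ML P M → (InI M).ncard = 1 := fun M hM => by rw [← h.in_I hL hM, h1]
  obtain ⟨s', hs', os', ne, cm⟩ := (h.fa L hL).four s hs os
  have ss : s * s' * (s * s') = 1 := by
    calc s * s' * (s * s') = s * (s' * s) * s' := by group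
      _ = s * s * (s' * s') := by rw [← cm]; group
      _ = 1 := by rw [sq_two os, sq_two os', one_mul]
  have ss1 : s * s' ≠ 1 := fun e => ne (by
    rw [eq_inv_of_mul_eq_one_right e]; exact inv_eq_of_mul_eq_one_right (sq_two os))
  have j2 : 2 ≤ (InJ P L s).ncard := by
    obtain ⟨m, hm, w, hw, e, om, ww⟩ := h.in_out (all s' hs' os') hM
      (h.toLS.C1_le_N hM (in_ne os) sM (mem_C1.mpr cm.symm)) fun a =>
        (h.in_uniq h1' hM ⟨sM, os⟩ a (sq_two os')).elim (in_ne os') ne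
    rw [h.in_J hL hM hs os hm om]
    refine (Set.one_lt_ncard_iff (Set.toFinite _)).mpr ⟨w, w * s, ⟨hw, ww, e ▸ all s' hs' os'⟩,
      ⟨mul_mem hw sM, ?_, ?_⟩, by simpa using in_ne os⟩
    · rcases h.in_uniq h1' hM ⟨sM, os⟩ hw ww with rfl | rfl
      · simpa using sq_two os
      · rw [ww, one_mul]
    · rw [← mul_assoc, ← e, ← cm]
      exact all _ (mul_mem hs hs') (ord_two ss ss1)
  have hz' : ∀ m ∈ L, orderOf m = 2 → TW P (m * z) := fun m hm om => by
    have e : InJ P L m = insert 1 (InI L) := Set.eq_of_subset_of_ncard_le (le m)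
      ((Set.ncard_insert_le _ _).trans (by rw [← h.in_J hL hL hs os hm om]; omega))
    exact (e ▸ Or.inr hz : z ∈ InJ P L m).2.2
  have n1 : s' ∉ zpowers s := fun a => ((mem_zp_two os).mp a).elim (in_ne os') ne
  have n2 : s' ∈ N (zpowers s) := mem_N_of_cj_le (by
    rw [cj_zpowers, ← cm, mul_inv_cancel_right])
  have c4 := CfsgH8.Mat.card_sup_inv (sq_two os') n1 n2
  rw [Nat.card_zpowers, os] at c4
  set V := zpowers s ⊔ zpowers s' with hV
  have VL : V ≤ L := sup_le (zpowers_le.mpr hs) (zpowers_le.mpr hs')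
  have V2 : ∀ x ∈ V, x * x = 1 := fun x hx => by
    have i1 := inv_eq_of_mul_eq_one_right (sq_two os')
    rcases CfsgH8.Mat.mem_sup_inv (sq_two os') n2 hx with a | a <;>
      rcases (mem_zp_two os).mp a with b | b
    · rw [b, one_mul]
    · rw [b, sq_two os]
    · rw [eq_inv_of_mul_eq_one_left b, i1, sq_two os']
    · rw [eq_mul_inv_of_mul_eq b, i1, ss]
  have n3 : z ∉ V := fun a => in_ne hz.2 (h.in_inf hL (VL a) hz.1)
  have n4 : z ∈ N V := mem_N_of_conj fun x hx => by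
    rw [← (comm_of_C (VL hx) hz.1).eq, mul_inv_cancel_right]; exact hx
  have c8 := CfsgH8.Mat.card_sup_inv (sq_two hz.2) n3 n4
  rw [h1, one_mul] at hr
  refine h.in_not7 (by omega) (h.in_seven h1' (E := V ⊔ zpowers z) (by omega) (fun x hx => ?_)
    (fun x hx x1 => ?_) (mem_sup_right (mem_zpowers z)) (in_ne hz.2))
  · rcases CfsgH8.Mat.mem_sup_inv (sq_two hz.2) n4 hx with a | a
    · exact V2 x a
    · obtain ⟨m, rfl⟩ : ∃ m, x = m * z := ⟨x * z, by rw [mul_assoc, sq_two hz.2, mul_one]⟩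
      rw [mul_assoc, sq_two hz.2, mul_one] at a
      calc m * z * (m * z) = m * (z * m) * z := by group
        _ = m * m * (z * z) := by rw [← (comm_of_C (VL a) hz.1).eq]; group
        _ = 1 := by rw [V2 m a, sq_two hz.2, one_mul]
  · rcases CfsgH8.Mat.mem_sup_inv (sq_two hz.2) n4 hx with a | a
    · exact all x (VL a) (ord_two (V2 x a) x1)
    · obtain ⟨m, rfl⟩ : ∃ m, x = m * z := ⟨x * z, by rw [mul_assoc, sq_two hz.2, mul_one]⟩
      rw [mul_assoc, sq_two hz.2, mul_one] at a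
      by_cases e : m = 1
      · rw [e, one_mul]; exact ⟨hz.2, L, hL, hz.1⟩
      · exact hz' m (VL a) (ord_two (V2 m a) e)

theorem inv : Inv P := by
  intro L hL s hs os
  refine ⟨h.in_nofix hL hs os, fun w hw ow => ?_⟩
  obtain ⟨r, r0, hn, hr⟩ := h.in_main hL hs os (u := w) ⟨hw, ow⟩
  have fx : ∀ u : G, TW P u → ∃ i : Ω, u • i = i := by
    rintro u ⟨-, M, hM, b⟩
    obtain ⟨i, -, -, hi, -⟩ := hM.1.two
    exact ⟨i, h.toGeo.fix_W b hi⟩
  have le : InJ P L s ⊆ InI L := fun x hx => ⟨hx.1, ord_two hx.2.1 (by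
    rintro rfl
    obtain ⟨i, hi⟩ := fx _ hx.2.2
    exact h.in_nofix hL hs os i (by simpa using hi))⟩
  have p1 : 0 < (InI L).ncard := (Set.ncard_pos (Set.toFinite _)).mpr ⟨w, hw, ow⟩
  have le2 := Set.ncard_le_ncard le
  have r1 : r = 1 := by
    by_contra e
    have : (InI L).ncard * 2 ≤ (InI L).ncard * r := Nat.mul_le_mul_left _ (by omega)
    omega
  subst r1
  have e := Set.eq_of_subset_of_ncard_le le (by omega)
  exact ⟨by omega, fx _ (e ▸ ⟨hw, ow⟩ : w ∈ InJ P L s).2.2⟩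

end SA

end CfsgJ
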