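import Cfsg.Agent.H8.JYa

/-! S3403, piece (Y). -/

set_option autoImplicit false
set_option linter.unusedSectionVars false

namespace CfsgJ

open CfsgH5 CfsgH6 CfsgFT Subgroup Cfsg CfsgL
open scoped ComplexConjugate

universe u

namespace JY

variable {Y : Type u} [Group Y] [Finite Y]

theorem exists_lam {t : Y} (ht : orderOf t = 5) : ∃ l : zpowers t → ℂ, IsIrrCharacter _ l ∧
    l 1 = 1 ∧ l ≠ (fun _ => 1) ∧ (fun g => conj (l g)) ≠ l := by
  have h1 : (⟨t, mem_zpowers t⟩ : zpowers t) ≠ 1 := fun e => by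
    have : t = 1 := congrArg Subtype.val e
    rw [this] at ht; simp at ht
  have := mt eq_one_of_forall_irr h1
  push Not at this
  obtain ⟨χ, hχ, hne⟩ := this
  obtain ⟨l, rfl⟩ := irr_hom_of_comm hχ
  rw [map_one] at hne
  refine ⟨l, hχ, map_one l, fun e => hne (congrFun e _), fun e => hne ?_⟩
  set a : zpowers t := ⟨t, mem_zpowers t⟩ with ha
  have h5 : l a ^ 5 = 1 := by
    rw [← map_pow, show a ^ 5 = 1 from Subtype.ext (by
      change t ^ 5 = 1; rw [← ht]; exact pow_orderOf_eq_one t), map_one]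
  have e1 : conj (l a) = l a := congrFun e a
  rw [conj_eq_inv_of_pow_eq_one (by norm_num) h5] at e1
  have h0 : l a ≠ 0 := by rintro h; rw [h] at h5; norm_num at h5
  have e2 : l a * l a = 1 := by
    nth_rewrite 1 [← e1]; exact inv_mul_cancel₀ h0
  calc l a = l a * (l a * l a) ^ 2 := by rw [e2]; ring
    _ = l a ^ 5 := by ring
    _ = 1 := h5

theorem D10.exists_chars [Fintype Y] {t s : Y} (h : D10 t s) : ∃ χ ψ : Y → ℂ,
    IsIrrCharacter Y χ ∧ IsIrrCharacter Y ψ ∧ (∀ g, ¬ 5 ∣ orderOf g → 1 + χ g - ψ g = 0) ∧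
    ψ 1 = χ 1 + 1 ∧
    classInner (conv (classInd s) (classInd s)) ((fun _ => 1) + χ - ψ) = 5 := by
  classical
  obtain ⟨l, hl, l1, hne, hnc⟩ := exists_lam h.ot
  set β : zpowers t → ℂ := (fun _ => 1) - l with hβ
  have β1 : β 1 = 0 := by simp [hβ, l1]
  have hβg : IsGeneralizedCharacter _ β := gen_sub gen_one (gen_of_irr hl)
  set θ := indFun (zpowers t) β with hθd
  have hθ : IsGeneralizedCharacter Y θ := gen_indFun _ hβg
  have hlc := irr_conj hl
  have hnc1 : (fun g => conj (l g)) ≠ fun _ => (1 : ℂ) := fun e => hne (by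
    ext g
    have := congrArg conj (congrFun e g)
    simpa using this)
  have h3 : classInner θ θ = 3 := by
    rw [hθd, inner_indFun_left _ _ (indFun_class _ _)]
    have : (fun g : zpowers t => indFun (zpowers t) β g) =
        β + ((fun _ => 1) - fun g => conj (l g)) := by
      ext g
      rw [h.ind_apply β β1 g]
      simp [hβ, char_apply_inv (irr_isChar hl)]
    rw [this, hβ]
    simp only [CfsgL.inner_sub_left, CfsgL.inner_sub_right, CfsgL.inner_add_right,
      inner_irr_self irr_one, inner_irr_self hl, inner_irr_ne irr_one hl hne.symm,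
      inner_irr_ne hl irr_one hne, inner_irr_ne irr_one hlc hnc1.symm,
      inner_irr_ne hl hlc hnc.symm]
    norm_num
  have h1 : classInner θ (fun _ => 1) = 1 := by
    rw [hθd, inner_indFun_one, hβ, CfsgL.inner_sub_left, inner_irr_self irr_one,
      inner_irr_ne hl irr_one hne, sub_zero]
  have hv : ∀ g, ¬ 5 ∣ orderOf g → θ g = 0 := fun g hg => indFun_eq_zero _ _ _ fun x hx => by
    by_cases e : x⁻¹ * g * x = 1
    · rw [← β1]; congr 1; exact Subtype.ext e
    · have := h.ord hx e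
      have e2 := orderOf_conj' x⁻¹ g
      rw [inv_inv, this] at e2
      exact absurd (e2 ▸ dvd_rfl) hg
  obtain ⟨χ, ψ, hχ, hψ, e⟩ := dec hθ h3 h1 (hv 1 (by simp))
  have hv' : ∀ g, ¬ 5 ∣ orderOf g → 1 + χ g - ψ g = 0 := fun g hg => by
    rw [← hv g hg, e]; simp
  refine ⟨χ, ψ, hχ, hψ, hv', ?_, ?_⟩
  · have := hv' 1 (by simp)
    linear_combination -this
  · rw [← e, hθd, inner_indFun_right _ _ (conv_class (classInd_class s) (classInd_class s))]
    have : classInner (fun g : zpowers t => conv (classInd s) (classInd s) g) β =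
        classInner ((5 : ℂ) • fun _ => (1 : ℂ)) β := by
      unfold classInner
      congr 1
      refine Finset.sum_congr rfl fun g _ => ?_
      by_cases hg : g = 1
      · rw [hg, β1]; simp
      · beta_reduce
        rw [h.conv_apply g.2 fun e => hg (Subtype.ext e)]; simp
    rw [this, CfsgL.inner_smul_left, hβ, CfsgL.inner_sub_right, inner_irr_self irr_one,
      inner_irr_ne irr_one hl hne.symm]
    ring

theorem not_dvd {c c1 c2 d m p : ℕ} (h5 : c % 5 = 1) (hc : c = c1 * c2) (h1 : c1 ∣ d)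
    (hp : p.Prime) (hp1 : p ∣ c1) (hp2 : ¬ p ∣ c2) (h : 5 * c * (1 + 11 * c) = d * m) :
    ¬ p ∣ m := by
  intro hm
  obtain ⟨d', rfl⟩ := h1
  have hc1 : 0 < c1 := Nat.pos_of_ne_zero (by rintro rfl; omega)
  have hpc : p ∣ c := hc ▸ hp1.mul_right c2
  have e : 5 * c2 * (1 + 11 * c) = d' * m := by
    apply Nat.eq_of_mul_eq_mul_left hc1
    rw [← mul_assoc c1 d', ← h]
    conv_rhs => rw [hc]
    conv_lhs => rw [hc]
    ring
  have : p ∣ 5 * c2 * (1 + 11 * c) := e ▸ hm.mul_left d'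
  rcases (Nat.Prime.dvd_mul hp).mp this with a | a
  · rcases (Nat.Prime.dvd_mul hp).mp a with b | b
    · rw [(Nat.prime_dvd_prime_iff_eq hp (by norm_num)).mp b] at hpc
      omega
    · exact hp2 b
  · exact hp.one_lt.ne' (Nat.dvd_one.mp ((Nat.dvd_add_left (hpc.mul_left 11)).mp a))

end JY

open JY in
theorem lemY : YSt.{u} := by
  intro Y _ _ c t s F hc h5 hY ht _ hN hs hst hK hF hnil
  classical
  letI := Fintype.ofFinite Y
  have h : D10 t s := ⟨ht, hs, hst, hN⟩
  obtain ⟨χ, ψ, hχ, hψ, hv, hd, hin⟩ := h.exists_chars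
  obtain ⟨d, hd0, hd1⟩ := irr_deg_pos hχ
  have hd2 : ψ 1 = ((d + 1 : ℕ) : ℂ) := by rw [hd, hd1]; push_cast; ring
  obtain ⟨a, ha⟩ : ∃ a : ℤ, χ s = a := char_int_of_rational (irr_isChar hχ) s fun k hk => by
    rw [hs] at hk
    obtain ⟨j, rfl⟩ := Nat.coprime_two_right.mp hk
    rw [pow_succ, pow_mul, sq, h.ss, one_pow, one_mul]
  have hb : ψ s = a + 1 := by
    have := hv s (by rw [hs]; norm_num)
    rw [ha] at this
    linear_combination -this
  set m := Nat.card (centralizer ({s} : Set Y)) with hm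
  have hm1 : m * (15 * c) = 5 * c * (1 + 11 * c) := by
    rw [← hY, ← hK, ← card_mul_index (centralizer ({s} : Set Y)), ← card_conj_eq_index]
    rfl
  have hm2 : 3 * m = 1 + 11 * c := by
    apply Nat.eq_of_mul_eq_mul_left (show 0 < 5 * c by omega)
    rw [← hm1]; ring
  have hci := classInd_class s
  rw [CfsgL.inner_sub_right, CfsgL.inner_add_right, inner_conv _ hci irr_one, inner_conv _ hci hχ,
    inner_conv _ hci hψ, inner_classInd s (class_const 1),
    inner_classInd s (char_isClass (irr_isChar hχ)),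
    inner_classInd s (char_isClass (irr_isChar hψ)), ha, hb, hd1, hd2, hY, ← hm, ← hm2] at hin
  have m0 : (m : ℂ) ≠ 0 := by exact_mod_cast (show m ≠ 0 by omega)
  have d0 : (d : ℂ) ≠ 0 := by exact_mod_cast hd0.ne'
  have d1 : (d : ℂ) + 1 ≠ 0 := by exact_mod_cast (show d + 1 ≠ 0 by omega)
  simp only [map_one, map_add, map_intCast] at hin
  push_cast at hin
  field_simp at hin
  have h3 : ((1 + 11 * c) * d * (d + 1) : ℤ) = 9 * c * (d - a) ^ 2 := by
    have e : ((1 + 11 * c : ℕ) : ℤ) = ((3 * m : ℕ) : ℤ) := by rw [hm2]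
    push_cast at e
    rw [e]
    have : ((3 * m * d * (d + 1) : ℤ) : ℂ) = ((9 * c * (d - a) ^ 2 : ℤ) : ℂ) := by
      push_cast
      linear_combination -3 * hin
    exact_mod_cast this
  have hcop : d.Coprime (d + 1) := by simp
  have v1 := irr_deg_dvd_card hχ hd1
  have v2 := irr_deg_dvd_card hψ hd2
  refine arith hc h5 hd0 (hY ▸ hcop.mul_dvd_of_dvd_of_dvd v1 v2) ?_ h3
  have hcd : c ∣ d * (d + 1) := by
    have e1 : (c : ℤ) ∣ ((1 + 11 * c) * (d * (d + 1)) : ℕ) := by
      push_cast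
      rw [← mul_assoc, h3]
      exact Dvd.intro (9 * (d - a) ^ 2) (by ring)
    have e2 : c.Coprime (1 + 11 * c) := by simp
    exact e2.dvd_of_dvd_mul_left (Int.natCast_dvd_natCast.mp e1)
  obtain ⟨c1, c2, g1, g2, hc12⟩ := exists_dvd_and_dvd_of_dvd_mul hcd
  by_contra hn
  push Not at hn
  obtain ⟨p, hp, hp1⟩ := Nat.exists_prime_and_dvd
    (show c1 ≠ 1 by rintro rfl; exact hn.2 (by rw [hc12, one_mul]; exact g2))
  obtain ⟨q, hq, hq1⟩ := Nat.exists_prime_and_dvd
    (show c2 ≠ 1 by rintro rfl; exact hn.1 (by rw [hc12, mul_one]; exact g1))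
  have hc' : c1.Coprime c2 := Nat.Coprime.coprime_dvd_left g1 (Nat.Coprime.coprime_dvd_right g2 hcop)
  have hp2 : ¬ p ∣ c2 := fun e => hp.one_lt.ne' (Nat.eq_one_of_dvd_coprimes hc' hp1 e)
  have hq2 : ¬ q ∣ c1 := fun e => hq.one_lt.ne' (Nat.eq_one_of_dvd_coprimes hc' e hq1)
  obtain ⟨x, hx, ox⟩ := exists_mem_orderOf_eq (X := F) hp (by rw [hF, hc12]; exact hp1.mul_right _)
  obtain ⟨y, hy, oy⟩ := exists_mem_orderOf_eq (X := F) hq (by rw [hF, hc12]; exact hq1.mul_left _)
  have hxy : (orderOf x).Coprime (orderOf y) := by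
    rw [ox, oy]; exact (Nat.coprime_primes hp hq).mpr (by rintro rfl; exact hp2 hq1)
  have og : orderOf (x * y) = p * q := by
    rw [Commute.orderOf_mul_eq_mul_orderOf_of_coprime (comm_of_nilpotent hnil hx hy hxy) hxy, ox, oy]
  obtain ⟨m1, e1⟩ := v1
  obtain ⟨m2, e2⟩ := v2
  have z1 := CfsgH2.defect_zero_vanish hχ hp hd1 e1
    (not_dvd h5 hc12 g1 hp hp1 hp2 (hY ▸ e1)) (g := x * y) (by rw [og]; exact dvd_mul_right _ _)
  have z2 := CfsgH2.defect_zero_vanish hψ hq hd2 e2
    (not_dvd h5 (hc12.trans (mul_comm _ _)) g2 hq hq1 hq2 (hY ▸ e2)) (g := x * y)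
    (by rw [og]; exact dvd_mul_left _ _)
  have := hv (x * y) fun h5' => by
    have := h5'.trans (orderOf_dvd_natCard F (mul_mem hx hy))
    rw [hF] at this
    omega
  rw [z1, z2] at this
  norm_num at this

end CfsgJ
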