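import Cfsg.Agent.H6.ST1
import Cfsg.Agent.H2.Eig
import Cfsg.Agent.H8.DihedralIso
import Cfsg.Agent.L.Char5

set_option autoImplicit false

/-! A group of order `21504` with Sylow 3-subgroup of order three: an involution centralizing
an element of order three does not invert one. -/

namespace CfsgH8

open Finset Cfsg CfsgL CfsgH5 CfsgH6 CfsgFT CfsgSZ Subgroup

universe u

variable {X : Type u} [Group X]

theorem pm_sum_prod (s : Multiset ℂ) (h : ∀ z ∈ s, z ^ 2 = 1) :
    ∃ k : ℕ, s.sum + 2 * k = s.card ∧ s.prod = (-1) ^ k := by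
  induction s using Multiset.induction_on with
  | empty => exact ⟨0, by simp⟩
  | cons z s ih =>
    obtain ⟨k, h1, h2⟩ := ih fun w hw => h w (Multiset.mem_cons_of_mem hw)
    rcases sq_eq_one_iff.1 (h z (Multiset.mem_cons_self z s)) with rfl | rfl
    · exact ⟨k, by simp [← h1]; ring, by simp [h2]⟩
    · exact ⟨k + 1, by simp [← h1]; ring, by simp [h2, pow_succ]⟩

theorem char_ne_one {χ : X → ℂ} (hχ : IsCharacter X χ) (perf : ∀ f : X →* ℂ, ∀ g, f g = 1)
    {a : X} (a2 : a * a = 1) (h7 : χ 1 = 7) : χ a ≠ 1 := fun e => by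
  obtain ⟨n, ρ, rfl⟩ := hχ
  have h1 : (LinearMap.toMatrix' (ρ a)) ^ 2 = 1 := by
    rw [pow_two, ← LinearMap.toMatrix'_mul, ← map_mul, a2, map_one, LinearMap.toMatrix'_one]
  obtain ⟨k, h2, h3⟩ := pm_sum_prod (LinearMap.toMatrix' (ρ a)).charpoly.roots fun z hz =>
    (CfsgH2.isEig_iff_isRoot.2 (Polynomial.isRoot_of_mem_roots hz)).pow_eq_one h1
  rw [← Matrix.det_eq_prod_roots_charpoly, LinearMap.det_toMatrix'] at h3
  rw [← Matrix.trace_eq_sum_roots_charpoly, IsAlgClosed.card_roots_eq_natDegree,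
    Matrix.charpoly_natDegree_eq_dim, Fintype.card_fin, ← LinearMap.toMatrix_eq_toMatrix',
    ← LinearMap.trace_eq_matrix_trace] at h2
  have h4 : (n : ℂ) = 7 := by simpa using h7
  change ρ.character a + _ = _ at h2
  rw [e, h4] at h2
  obtain rfl : k = 3 := by
    have : (k : ℂ) = 3 := by linear_combination h2 / 2
    exact_mod_cast this
  have h5 := perf (LinearMap.det.comp ρ) a
  change LinearMap.det (ρ a) = 1 at h5
  rw [h5] at h3
  norm_num at h3

theorem avg_cyc [Finite X] {χ : X → ℂ} (hχ : IsCharacter X χ) {g : X} {m : ℕ} (hg : g ^ m = 1) :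
    ∃ n : ℕ, ∑ k ∈ range m, χ (g ^ k) = m * n := by
  obtain ⟨s, -, h1, h2⟩ := char_eigenvalues hχ g
  replace h1 : ∀ z ∈ s, z ^ m = 1 := fun z hz => by
    obtain ⟨k, rfl⟩ := orderOf_dvd_of_pow_eq_one hg
    rw [pow_mul, h1 z hz, one_pow]
  replace h2 : ∀ k : ℕ, χ (g ^ k) = (s.map (· ^ k)).sum := fun k => by
    simpa only [zpow_natCast] using h2 k
  simp only [h2]
  clear h2
  induction s using Multiset.induction_on with
  | empty => exact ⟨0, by simp⟩
  | cons z s ih =>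
    obtain ⟨n, e⟩ := ih fun w hw => h1 w (Multiset.mem_cons_of_mem hw)
    simp only [Multiset.map_cons, Multiset.sum_cons, sum_add_distrib, e]
    by_cases hz : z = 1
    · exact ⟨n + 1, by simp [hz]; ring⟩
    · exact ⟨n, by rw [geom_sum_eq hz, h1 z (Multiset.mem_cons_self z s)]; simp⟩

theorem exists_chi [Finite X] {y : X} (y3 : orderOf y = 3) (hI : Inv2 3 (zpowers y)) :
    ∃ χ ψ : IrrCharacter X, χ ≠ triv X ∧ (∀ g, 3 ∣ orderOf g → χ.1 g = 1) ∧ ψ.1 1 = χ.1 1 + 1 := by
  classical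
  haveI := Fact.mk Nat.prime_three
  have := Fintype.ofFinite (zpowers y)
  have h1 := hI.card_irr
  rw [Nat.card_zpowers, y3] at h1
  obtain ⟨l, hl⟩ := Fintype.exists_ne_of_one_lt_card (by omega) (triv (zpowers y))
  have cc : ∀ m : IrrCharacter (zpowers y), irrConj (irrConj m) = m := fun m =>
    Subtype.ext (funext fun g => by simp [irrConj])
  have h2 : ∀ m, m ≠ triv _ → Dv 3 (zpowers y) m = Dv 3 (zpowers y) l := fun m hm => by
    refine st_eq_of_three (hI.sum_Dv_sq hm) (hI.sum_Dv_sq hl) ?_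
    have h3 : irrConj m ≠ triv _ := fun e => hm (by
      rw [← cc m, e]; exact Subtype.ext (funext fun g => by simp [irrConj]))
    have h4 : l ∈ ({triv _, m, irrConj m} : Finset _) := by
      rw [eq_univ_of_card _ ((card_eq_three.2 ⟨_, _, _, hm.symm, h3.symm, (hI.conj_ne hm).symm,
        rfl⟩).trans h1.symm)]
      exact mem_univ l
    rw [hI.sum_Dv hm hl]
    simp only [mem_insert, mem_singleton, hl, false_or] at h4
    rcases h4 with rfl | rfl
    · simp [hI.conj_ne hl]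
    · simp [cc, hI.conj_ne hm]
  obtain ⟨a, b, a1, b1, ab, ha, hb, h0⟩ := int_norm_three _ (hI.sum_Dv_sq hl) (Dv_triv hl)
  have h3 := hI.sum_Dv_reg l (y := 1) (by simp)
  rw [← sum_subset (subset_univ {triv X, a, b}) fun i _ hi => by
    simp only [mem_insert, mem_singleton, not_or] at hi
    simp [h0 i hi.1 hi.2.1 hi.2.2], sum_insert (by simp [a1.symm, b1.symm]), sum_pair ab,
    Dv_triv hl] at h3
  have k : ∀ c, Dv 3 (zpowers y) l c = 1 → ∀ g, 3 ∣ orderOf g → c.1 g = 1 := fun c hc g hg => by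
    simpa using hI.apply_eq (χ := c) (δ := 1) (by
      by_contra e
      simp [Dv_of_notMem l e] at hc) (fun m hm => by rw [h2 m hm, hc]) hg
  obtain ⟨n, n0, hn⟩ := irr_deg_pos a.2
  obtain ⟨m, m0, hm⟩ := irr_deg_pos b.2
  rcases sq_eq_one_iff.1 ha with e1 | e1 <;>
    rcases sq_eq_one_iff.1 hb with e2 | e2 <;> simp [e1, e2] at h3
  · rw [hn, hm] at h3
    exact absurd (show 1 + (n + m) = 0 by exact_mod_cast h3) (by omega)
  · exact ⟨a, b, a1, k a e1, by linear_combination -h3⟩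
  · exact ⟨b, a, b1, k b e2, by linear_combination -h3⟩
  · rw [hn, hm] at h3
    exact absurd (show n + m = 1 by exact_mod_cast (by linear_combination -h3 : (n : ℂ) + m = 1))
      (by omega)

set_option maxHeartbeats 1600000 in
theorem not_inv_three [Finite X] (hX : Nat.card X = 21504) {y : X} (y3 : orderOf y = 3)
    (hI : Inv2 3 (zpowers y)) (perf : ∀ f : X →* ℂ, ∀ g, f g = 1) {a z : X} (a2 : a * a = 1)
    (ay : a * y = y * a) (z3 : orderOf z = 3) (az : a * z * a⁻¹ = z⁻¹) : False := by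
  classical
  have := Fintype.ofFinite X
  obtain ⟨χ, ψ, h1, h2, h3⟩ := exists_chi y3 hI
  have hχ := irr_isChar χ.2
  obtain ⟨n, -, hn⟩ := irr_deg_pos χ.2
  have o2 : ∀ g : X, orderOf g = 3 → χ.1 (g ^ 2) = 1 := fun g hg =>
    h2 _ (by rw [orderOf_pow' g two_ne_zero, hg]; rfl)
  have h7 : χ.1 1 = 7 := by
    obtain ⟨k, hk⟩ := avg_cyc hχ (m := 3) (y3 ▸ pow_orderOf_eq_one y)
    simp only [sum_range_succ, sum_range_zero, pow_zero, pow_one, o2 y y3, h2 y y3.symm.dvd, hn] at hk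
    have h4 := irr_deg_dvd_card ψ.2 (n := n + 1) (by rw [h3, hn]; simp)
    rcases (by decide +kernel : ∀ n ∈ Nat.divisors 21504, n + 1 ∣ 21504 → n % 3 = 1 → n = 1 ∨ n = 7)
      n (Nat.mem_divisors.2 ⟨hX ▸ irr_deg_dvd_card χ.2 hn, by norm_num⟩) (hX ▸ h4) (by
        have : 0 + n + 1 + 1 = 3 * k := by exact_mod_cast hk
        omega) with rfl | rfl
    · obtain ⟨l, hl⟩ := char_deg_one_hom hχ (by simpa using hn)
      exact absurd (Subtype.ext (funext fun g => by rw [← hl, perf]; rfl)) h1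
    · simpa using hn
  have y1 : y ^ 3 = 1 := y3 ▸ pow_orderOf_eq_one y
  have hc : Commute a y := ay
  have a3 : a ^ 2 = 1 := (pow_two a).trans a2
  obtain ⟨k, hk⟩ := avg_cyc hχ (g := a * y) (m := 6) (by
    rw [hc.mul_pow, show 6 = 2 * 3 from rfl, pow_mul, a3, pow_mul', y1]; simp)
  have h4 : ∀ j, ¬ 3 ∣ j → χ.1 ((a * y) ^ j) = 1 := fun j hj => h2 _ (by
    by_contra e
    have e1 := pow_orderOf_eq_one ((a * y) ^ j)
    rw [← pow_mul, hc.mul_pow] at e1
    have e2 : y ^ (j * orderOf ((a * y) ^ j) * 2) = 1 := by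
      rw [pow_mul, eq_inv_of_mul_eq_one_right e1, inv_pow, ← pow_mul, pow_mul', a3]; simp
    rw [← orderOf_dvd_iff_pow_eq_one, y3, Nat.prime_three.dvd_mul, Nat.prime_three.dvd_mul] at e2
    omega)
  simp only [sum_range_succ, sum_range_zero, pow_zero, h4 1 (by decide), h4 2 (by decide),
    h4 4 (by decide), h4 5 (by decide), h7] at hk
  rw [hc.mul_pow, y1, pow_succ, a3, one_mul, mul_one] at hk
  obtain ⟨m, hm⟩ := char_inner_nat (char_comp (dihedralHom z3 a3 az) hχ) char_one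
  have z1 : z ^ 3 = 1 := z3 ▸ pow_orderOf_eq_one z
  have haz : a * z = z⁻¹ * a := mul_inv_eq_iff_eq_mul.1 az
  have h5 : χ.1 (a * z ^ 2) = χ.1 a := by
    rw [← char_isClass hχ a z⁻¹, ← haz, inv_inv, pow_two, mul_assoc]
  have h6 : χ.1 (a * z) = χ.1 a := by
    rw [← char_isClass hχ a z, show z * a * z⁻¹ = a * (a * z * a⁻¹) * (a * a) * z⁻¹ * z ^ 3 by
      rw [z1, ← mul_assoc a, ← mul_assoc a, a2, one_mul, mul_one, mul_one,
        inv_eq_of_mul_eq_one_right a2], az, a2]
    congr 1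
    group
  rw [classInner, show (univ : Finset (DihedralGroup 3)) = {.r 0, .r 1, .r 2, .sr 0, .sr 1, .sr 2} by
    decide, sum_insert (by decide), sum_insert (by decide), sum_insert (by decide),
    sum_insert (by decide), sum_pair (by decide), DihedralGroup.nat_card] at hm
  change _ * (χ.1 (z ^ 0) * _ + (χ.1 (z ^ 1) * _ + (χ.1 (z ^ 2) * _ + (χ.1 (a * z ^ 0) * _ +
    (χ.1 (a * z ^ 1) * _ + χ.1 (a * z ^ 2) * _))))) = _ at hm
  simp only [pow_zero, pow_one, mul_one, map_one, h5, h6, h7, o2 z z3, h2 z z3.symm.dvd] at hm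
  have h8 : χ.1 a = 2 * m - 3 := by push_cast at hm; linear_combination 2 * hm
  have h9 := char_norm_le hχ a
  have h10 : m ≤ 5 := by
    have := (norm_add_le (χ.1 a) 3).trans (add_le_add h9 le_rfl)
    rw [h8, h7, sub_add_cancel] at this
    simp at this
    exact_mod_cast (by linarith : (m : ℝ) ≤ 5)
  have h11 : 2 * m + 8 = 6 * k := by
    exact_mod_cast (by push_cast at hk; linear_combination hk - h8 : (2 * m + 8 : ℂ) = 6 * k)
  obtain rfl | rfl : m = 2 ∨ m = 5 := by omega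
  · exact char_ne_one hχ perf a2 h7 (by rw [h8]; norm_num)
  · have h12 := (mem_charKer_iff hχ (g := a)).2 (by rw [h8, h7]; norm_num)
    have h13 := charKer_apply (mul_mem ((charKer_normal (char_isClass hχ)).conj_mem a h12 z)
      (inv_mem h12))
    rw [show z * a * z⁻¹ * a⁻¹ = z * (a * z * a⁻¹)⁻¹ by group, az, inv_inv, ← pow_two, o2 z z3,
      h7] at h13
    norm_num at h13

end CfsgH8
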