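import Cfsg.Agent.H8.M23A

set_option autoImplicit false

/-! Sums over conjugacy classes under a subgroup; counting `3'`-elements. -/

namespace CfsgH8.Mat

open Subgroup Finset CfsgH5 CfsgH6 CfsgFT

variable {G : Type*} [Group G]

attribute [local irreducible] nord

/-- conjugacy under a subgroup -/
def Cj (K : Subgroup G) (a b : G) : Prop := ∃ g ∈ K, g * a * g⁻¹ = b

namespace Cj

variable {K : Subgroup G} {a b c : G}

theorem refl (a : G) : Cj K a a := ⟨1, one_mem K, by simp⟩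

theorem symm (h : Cj K a b) : Cj K b a := by
  obtain ⟨g, hg, rfl⟩ := h
  exact ⟨g⁻¹, inv_mem hg, by group⟩

theorem trans (h : Cj K a b) (h' : Cj K b c) : Cj K a c := by
  obtain ⟨g, hg, rfl⟩ := h
  obtain ⟨k, hk, rfl⟩ := h'
  exact ⟨k * g, mul_mem hk hg, by group⟩

theorem mono {L : Subgroup G} (h : Cj K a b) (h' : K ≤ L) : Cj L a b :=
  h.imp fun _ e => ⟨h' e.1, e.2⟩

theorem inv (h : Cj K a b) : Cj K a⁻¹ b⁻¹ := by
  obtain ⟨g, hg, rfl⟩ := h
  exact ⟨g, hg, by group⟩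

theorem ord (h : Cj K a b) : orderOf b = orderOf a := by
  obtain ⟨g, -, rfl⟩ := h
  exact orderOf_conj' g a

theorem card_inf (h : Cj K a b) : Nat.card ↥(K ⊓ C1 b) = Nat.card ↥(K ⊓ C1 a) := by
  obtain ⟨g, hg, rfl⟩ := h
  rw [← card_cj g (K ⊓ C1 a), cj_inf, cj_self hg, cj_C1]

theorem card_C1 (h : Cj K a b) : Nat.card (C1 b) = Nat.card (C1 a) := by
  obtain ⟨g, -, rfl⟩ := h
  rw [← cj_C1, card_cj]

end Cj

/-- closed under conjugation -/
def Clo (K : Subgroup G) (U : Finset G) : Prop := ∀ a ∈ U, ∀ b, Cj K a b → b ∈ U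

/-- pairwise non-conjugate -/
def Sep (K : Subgroup G) (R : Finset G) : Prop := ∀ a ∈ R, ∀ b ∈ R, Cj K a b → a = b

/-- covering by classes -/
def Cov (K : Subgroup G) (R U : Finset G) : Prop := ∀ b ∈ U, ∃ a ∈ R, Cj K a b

section

variable [Fintype G] {K : Subgroup G} {R U : Finset G} (F : G → ℕ)
  (hF : ∀ a b, Cj K a b → F b = F a)
include hF

open Classical in
theorem sum_cl (a : G) : ∑ b ∈ univ.filter (Cj K a), F b = (C1 a).relIndex K * F a := by
  rw [sum_congr rfl fun b hb => hF a b (mem_filter.1 hb).2, sum_const, smul_eq_mul,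
    relIndex_C1_eq, ← Fintype.card_subtype, ← Nat.card_eq_fintype_card]
  rfl

theorem reps_le_sum (h1 : Clo K U) (h2 : R ⊆ U) (h3 : Sep K R) :
    ∑ a ∈ R, (C1 a).relIndex K * F a ≤ ∑ b ∈ U, F b := by
  classical
  rw [← sum_congr rfl fun a _ => sum_cl F hF a, ← sum_biUnion fun a ha b hb e =>
    disjoint_left.2 fun c hc hc' => e (h3 a ha b hb
      ((mem_filter.1 hc).2.trans (mem_filter.1 hc').2.symm))]
  refine sum_le_sum_of_subset fun c hc => ?_
  obtain ⟨a, ha, e⟩ := mem_biUnion.1 hc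
  exact h1 a (h2 ha) c (mem_filter.1 e).2

theorem sum_le_reps (h1 : Cov K R U) :
    ∑ b ∈ U, F b ≤ ∑ a ∈ R, (C1 a).relIndex K * F a := by
  classical
  rw [← sum_congr rfl fun a _ => sum_cl F hF a]
  simp only [sum_filter]
  rw [sum_comm]
  refine (sum_le_sum fun b hb => ?_).trans (sum_le_sum_of_subset (subset_univ U))
  obtain ⟨a, ha, e⟩ := h1 b hb
  exact (if_pos e).ge.trans
    (single_le_sum (f := fun a => if Cj K a b then F b else 0) (fun _ _ => Nat.zero_le _) ha)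

theorem sum_eq_reps (h1 : Clo K U) (h2 : R ⊆ U) (h3 : Sep K R) (h4 : Cov K R U) :
    ∑ b ∈ U, F b = ∑ a ∈ R, (C1 a).relIndex K * F a :=
  le_antisymm (sum_le_reps F hF h4) (reps_le_sum F hF h1 h2 h3)

end

theorem exists_reps {K : Subgroup G} {U : Finset G} (h1 : Clo K U) :
    ∃ R ⊆ U, Sep K R ∧ Cov K R U := by
  classical
  let s : Setoid G := ⟨Cj K, Cj.refl, Cj.symm, Cj.trans⟩
  have e : ∀ a, Cj K (Quotient.mk s a).out a := fun a => Quotient.mk_out (s := s) a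
  refine ⟨U.image fun a => (Quotient.mk s a).out, fun b hb => ?_, fun a ha b hb h => ?_,
    fun b hb => ⟨_, mem_image_of_mem _ hb, e b⟩⟩
  · obtain ⟨a, ha, rfl⟩ := mem_image.1 hb
    exact h1 a ha _ (e a).symm
  · obtain ⟨a, -, rfl⟩ := mem_image.1 ha
    obtain ⟨b, -, rfl⟩ := mem_image.1 hb
    rw [Quotient.sound (s := s) ((e a).symm.trans (h.trans (e b)))]

theorem dvd_sum_cl [Fintype G] {K : Subgroup G} {U : Finset G} (F : G → ℕ)
    (hF : ∀ a b, Cj K a b → F b = F a) (h1 : Clo K U) {n : ℕ}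
    (h : ∀ a ∈ U, n ∣ (C1 a).relIndex K * F a) : n ∣ ∑ b ∈ U, F b := by
  obtain ⟨R, h2, h3, h4⟩ := exists_reps h1
  rw [sum_eq_reps F hF h1 h2 h3 h4]
  exact dvd_sum fun a ha => h a (h2 ha)

theorem relIndex_mul_inf [Finite G] (K : Subgroup G) (a : G) :
    (C1 a).relIndex K * Nat.card ↥(K ⊓ C1 a) = Nat.card K := by
  rw [mul_comm, inf_comm, card_inf_mul_relIndex]

/-- the number of elements of order dividing 140 -/
noncomputable def ph (L : Subgroup G) : ℕ := Nat.card {g // g ∈ L ∧ g ^ 140 = 1}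

theorem ph_cj (g : G) (L : Subgroup G) : ph (cj g L) = ph L :=
  (Nat.card_congr ((MulAut.conj g).toEquiv.subtypeEquiv fun a => by
    simp [conj_mem_cj, conj_pow])).symm

theorem ph_eq [Finite G] (L : Subgroup G) : ph L = ∑ d ∈ (140 : ℕ).divisors, nord L d := by
  rw [← card_pow_eq_one_eq_sum (by norm_num)]
  exact Nat.card_congr ⟨fun g => ⟨⟨g.1, g.2.1⟩, Subtype.ext g.2.2⟩,
    fun g => ⟨g.1.1, g.1.2, congrArg Subtype.val g.2⟩, fun _ => rfl, fun _ => rfl⟩

theorem ph_pos [Finite G] (L : Subgroup G) : 0 < ph L :=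
  Nat.card_pos_iff.2 ⟨⟨⟨1, one_mem L, one_pow _⟩⟩, inferInstance⟩

theorem Cj.ph {K : Subgroup G} {a b : G} (h : Cj K a b) : ph (K ⊓ C1 b) = ph (K ⊓ C1 a) := by
  obtain ⟨g, hg, rfl⟩ := h
  rw [← ph_cj g (K ⊓ C1 a), cj_inf, cj_self hg, cj_C1]

open Classical in
theorem card_eq_sum_ph [Fintype G] {L : Subgroup G} (h : ∀ g ∈ L, g ^ 420 = 1) :
    Nat.card L = ∑ e ∈ univ.filter (fun e => e ∈ L ∧ e ^ 3 = 1), ph (L ⊓ C1 e) := by
  rw [Nat.card_eq_fintype_card, Fintype.card_subtype, card_eq_sum_card_fiberwise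
    (f := fun g => g ^ 280) (t := univ.filter fun e => e ∈ L ∧ e ^ 3 = 1) fun g hg => by
      have := (mem_filter.1 (mem_coe.1 hg)).2
      exact mem_coe.2 (mem_filter.2 ⟨mem_univ _, pow_mem this _, by
        rw [← pow_mul, show 280 * 3 = 420 * 2 from rfl, pow_mul, h g this, one_pow]⟩)]
  refine sum_congr rfl fun e he => ?_
  obtain ⟨-, e1, e2⟩ := mem_filter.1 he
  rw [ph, Nat.card_eq_fintype_card, Fintype.card_subtype]
  refine card_nbij' (fun g => g ^ 141) (fun k => e * k) (fun g hg => ?_) (fun k hk => ?_)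
    (fun g hg => ?_) fun k hk => ?_
  · simp only [coe_filter, mem_filter, mem_univ, true_and, Set.mem_setOf_eq] at hg ⊢
    refine ⟨⟨pow_mem hg.1 _, hg.2 ▸ mem_C1.2 (by rw [← pow_add, ← pow_add])⟩, ?_⟩
    rw [← pow_mul, show 141 * 140 = 420 * 47 from rfl, pow_mul, h g hg.1, one_pow]
  · simp only [coe_filter, mem_filter, mem_univ, true_and, Set.mem_setOf_eq] at hk ⊢
    refine ⟨mul_mem e1 hk.1.1, ?_⟩
    rw [(show Commute e k from (mem_C1.1 hk.1.2).symm).mul_pow, show 280 = 140 * 2 from rfl,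
      pow_mul k, hk.2, show 140 * 2 = 3 * 93 + 1 from rfl, pow_succ, pow_mul, e2]
    simp
  · simp only [coe_filter, mem_filter, mem_univ, true_and, Set.mem_setOf_eq] at hg ⊢
    rw [← hg.2, ← pow_add, pow_succ, h g hg.1, one_mul]
  · simp only [coe_filter, mem_filter, mem_univ, true_and, Set.mem_setOf_eq] at hk ⊢
    rw [(show Commute e k from (mem_C1.1 hk.1.2).symm).mul_pow, show 141 = 3 * 47 from rfl,
      pow_mul e, e2, show 3 * 47 = 140 + 1 from rfl, pow_succ k, hk.2]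
    simp

open Classical in
theorem sum_ph [Fintype G] : ∑ b ∈ univ.filter (fun b : G => orderOf b = 3), ph (C1 b) =
    ∑ d ∈ (140 : ℕ).divisors, nord G (3 * d) := by
  rw [sum_congr rfl fun b _ => ph_eq (C1 b), sum_comm]
  exact sum_congr rfl fun d hd => (nord_mul_coprime
    ((by decide : ∀ d ∈ (140 : ℕ).divisors, Nat.Coprime 3 d) d hd)).symm

end CfsgH8.Mat
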