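import Cfsg.Agent.H8.JYa
import Cfsg.Agent.H8.PronA

/-! S3403, piece (B2): passing to the quotient by a central involution. -/

set_option autoImplicit false
set_option linter.unusedSectionVars false

namespace CfsgJ.JY

open CfsgH5 CfsgH6 CfsgFT Subgroup Cfsg

universe u

variable {K : Type u} [Group K] [Finite K]

theorem sq_two {z : K} (hz : orderOf z = 2) : z * z = 1 := by
  rw [← sq, ← hz]; exact pow_orderOf_eq_one z

theorem ord_two {z : K} (h : z * z = 1) (h1 : z ≠ 1) : orderOf z = 2 :=
  orderOf_eq_prime (by rw [sq, h]) h1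

theorem mem_zp_two {z x : K} (hz : orderOf z = 2) : x ∈ zpowers z ↔ x = 1 ∨ x = z := by
  constructor
  · intro hx
    obtain ⟨k, rfl⟩ := mem_powers_iff_mem_zpowers.mpr hx
    rcases Nat.even_or_odd' k with ⟨j, rfl | rfl⟩
    · left; simp only; rw [pow_mul, sq, sq_two hz, one_pow]
    · right; simp only; rw [pow_succ, pow_mul, sq, sq_two hz, one_pow, one_mul]
  · rintro (rfl | rfl)
    · exact one_mem _
    · exact mem_zpowers _

theorem D10.cent {t s : K} (h : D10 t s) : C1 t = zpowers t := by
  refine le_antisymm (fun x hx => ?_) fun x hx => ?_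
  · have e := mem_C1_iff_conj.mp hx
    have t1 : t ≠ 1 := by rintro rfl; simpa using h.ot
    rcases h.cases (h.ti (mem_zpowers t) t1 (x := x) (by rw [e]; exact mem_zpowers t)) with a | a
    · exact a
    · exfalso
      have e2 := h.inverts (mem_zpowers t) a
      have e3 : x⁻¹ * t * x = t := by
        conv_lhs => rw [← e]
        group
      rw [e3] at e2
      have : orderOf t ∣ 2 := orderOf_dvd_iff_pow_eq_one.mpr (by
        rw [sq]; nth_rewrite 1 [e2]; exact inv_mul_cancel t)
      rw [h.ot] at this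
      omega
  · obtain ⟨k, rfl⟩ := hx
    exact mem_C1.mpr (by simp only; group)

theorem quo_step (y : YSt.{u}) {c : ℕ} {z t s : K} (F : Subgroup K) (hc : 1 < c) (h5 : c % 5 = 1)
    (hz : orderOf z = 2) (hzc : ∀ g, g * z = z * g) (hK : Nat.card K = 10 * c * (1 + 11 * c))
    (ht : orderOf t = 5) (hN : Nat.card (N (zpowers t)) = 20) (hs : orderOf s = 2) (hsz : s ≠ z)
    (hst : s * t * s⁻¹ = t⁻¹) (hI : {v : K | orderOf v = 2 ∧ v ≠ z}.ncard = 30 * c)
    (hcl : ∀ v : K, orderOf v = 2 → v ≠ z → ∃ g, g * s * g⁻¹ = v ∨ g * s * g⁻¹ = v * z)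
    (hF : Nat.card F = c) (hzF : z ∉ F) (hnil : Group.IsNilpotent F) : False := by
  have zz := sq_two hz
  have z1 : z ≠ 1 := by rintro rfl; simp at hz
  haveI : (zpowers z).Normal := ⟨fun x hx g => by
    rcases (mem_zp_two hz).mp hx with rfl | rfl
    · simp
    · rw [hzc g, mul_inv_cancel_right]; exact mem_zpowers _⟩
  let π : K →* K ⧸ zpowers z := QuotientGroup.mk' _
  have hπ : Function.Surjective π := QuotientGroup.mk'_surjective _
  have heq : ∀ a b : K, π a = π b ↔ b = a ∨ b = a * z := fun a b => by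
    change (a : K ⧸ zpowers z) = b ↔ _
    rw [QuotientGroup.eq, mem_zp_two hz, inv_mul_eq_one, inv_mul_eq_iff_eq_mul, eq_comm]
  have hone : ∀ a : K, π a = 1 ↔ a = 1 ∨ a = z := fun a => by
    rw [← map_one π, eq_comm, heq, one_mul]
  have hY : Nat.card K = Nat.card (K ⧸ zpowers z) * 2 := by
    rw [card_eq_card_quotient_mul_card_subgroup (zpowers z), Nat.card_zpowers, hz]
  have t5 : t ^ 5 = 1 := by rw [← ht]; exact pow_orderOf_eq_one t
  haveI : Fact (Nat.Prime 5) := ⟨by norm_num⟩
  have ht' : orderOf (π t) = 5 := orderOf_eq_prime (by rw [← map_pow, t5, map_one]) (by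
    rw [Ne, hone]
    rintro (rfl | rfl)
    · simp at ht
    · omega)
  have hs' : orderOf (π s) = 2 := ord_two (by rw [← map_mul, sq_two hs, map_one]) (by
    rw [Ne, hone]
    rintro (rfl | rfl)
    · simp at hs
    · exact hsz rfl)
  have hst' : π s * π t * (π s)⁻¹ = (π t)⁻¹ := by rw [← map_inv, ← map_inv, ← map_mul, ← map_mul, hst]
  have hN' : Nat.card (N (zpowers (π t))) = 10 := by
    have e : (N (zpowers (π t))).comap π = N (zpowers t) := by
      ext g
      rw [mem_comap]
      constructor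
      · intro hg
        apply mem_N_of_cj_le
        rw [cj_zpowers, zpowers_le]
        obtain ⟨k, hk⟩ := conj_mem_of_mem_N hg (mem_zpowers (π t))
        simp only at hk
        rw [← map_zpow, ← map_inv, ← map_mul, ← map_mul, heq] at hk
        rcases hk with hk | hk
        · rw [hk]; exact zpow_mem (mem_zpowers t) k
        · have a1 : (g * t * g⁻¹) ^ 6 = g * t * g⁻¹ := by
            rw [conj_pow, pow_succ, t5, one_mul]
          have a2 : (t ^ k * z) ^ 6 = (t ^ k) ^ 6 := by
            rw [Commute.mul_pow (hzc _), show 6 = 2 * 3 from rfl, pow_mul z, sq z, zz, one_pow,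
              mul_one]
          rw [← a1, hk, a2]
          exact pow_mem (zpow_mem (mem_zpowers t) k) 6
      · intro hg
        apply mem_N_of_cj_le
        rw [cj_zpowers, zpowers_le, ← map_inv, ← map_mul, ← map_mul]
        obtain ⟨k, hk⟩ := conj_mem_of_mem_N hg (mem_zpowers t)
        simp only at hk
        rw [← hk, map_zpow]
        exact zpow_mem (mem_zpowers _) k
    have e1 := card_mul_index (N (zpowers t))
    have e2 := card_mul_index (N (zpowers (π t)))
    rw [← e, index_comap_of_surjective _ hπ, e, hN, hY, ← e2] at e1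
    have := (N (zpowers (π t))).index_ne_zero_of_finite
    apply Nat.eq_of_mul_eq_mul_right (Nat.pos_of_ne_zero this)
    omega
  have hD : D10 (π t) (π s) := ⟨ht', hs', hst', hN'⟩
  let f : F →* K ⧸ zpowers z := π.comp F.subtype
  have hf : Function.Injective f := (injective_iff_map_eq_one f).mpr fun a ha => by
    rcases (hone a).mp ha with e | e
    · exact Subtype.ext e
    · exact absurd (e ▸ a.2) hzF
  refine y (K ⧸ zpowers z) c (π t) (π s) f.range hc h5 (by
    apply Nat.eq_of_mul_eq_mul_right (show 0 < 2 by norm_num); rw [← hY, hK]; ring) ht' hD.cent hN'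
    hs' hst' ?_ (by rw [← hF]; exact (Nat.card_congr (MonoidHom.ofInjective hf).toEquiv).symm)
    (Group.nilpotent_of_mulEquiv (MonoidHom.ofInjective hf))
  have key := CfsgH8.Pron.dcount {v : K | orderOf v = 2 ∧ v ≠ z} {v | IsConj (π s) v}
    (fun a b => π a = b) 1 2 ?_ ?_
  · omega
  · rintro v ⟨hv, hvz⟩
    rw [Set.ncard_eq_one]
    refine ⟨π v, ?_⟩
    ext b
    simp only [Set.mem_setOf_eq, Set.mem_singleton_iff]
    refine ⟨fun h => h.2.symm, ?_⟩
    rintro rfl
    refine ⟨?_, rfl⟩
    obtain ⟨g, hg⟩ := hcl v hv hvz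
    refine isConj_iff.mpr ⟨π g, ?_⟩
    rw [← map_inv, ← map_mul, ← map_mul, eq_comm, heq]
    exact hg
  · intro b hb
    obtain ⟨g', rfl⟩ := isConj_iff.mp hb
    obtain ⟨g, rfl⟩ := hπ g'
    set v := g * s * g⁻¹ with hv
    have ov : orderOf v = 2 := by rw [hv, orderOf_conj', hs]
    have v1 : v ≠ 1 := by rintro e; rw [e] at ov; simp at ov
    have vz : v ≠ z := fun e => hsz (by
      have : s = g⁻¹ * v * g := by rw [hv]; group
      rw [this, e, hzc]; group)
    rw [Set.ncard_eq_two]
    refine ⟨v, v * z, by simpa using z1, ?_⟩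
    ext a
    rw [← map_inv, ← map_mul, ← map_mul, ← hv]
    simp only [Set.mem_setOf_eq, Set.mem_insert_iff, Set.mem_singleton_iff]
    rw [eq_comm (a := π a), heq]
    refine ⟨fun h => h.2, fun h => ⟨?_, h⟩⟩
    rcases h with rfl | rfl
    · exact ⟨ov, vz⟩
    · refine ⟨ord_two ?_ fun e => vz ?_, by simpa using v1⟩
      · calc v * z * (v * z) = v * (z * v) * z := by group
          _ = v * v * (z * z) := by rw [← hzc v]; group
          _ = 1 := by rw [sq_two ov, zz, one_mul]
      · rw [eq_inv_of_mul_eq_one_left e]; exact inv_eq_of_mul_eq_one_right zz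

end CfsgJ.JY
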