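import Cfsg.Agent.H8.JB2a
import Cfsg.Agent.H3.JG
import Cfsg.Agent.H1.Q4Base
import Cfsg.Agent.H8.MatLocA

/-! S3403, piece (IN): involutions centralising a line, counting. -/

set_option autoImplicit false
set_option linter.unusedSectionVars false

namespace CfsgJ

open CfsgH5 CfsgH6 CfsgFT Subgroup Cfsg JY

universe u

variable {G Ω : Type u} [Group G] [Finite G] [MulAction G Ω] [Finite Ω] {P : Ω → Subgroup G}
  {L M : Subgroup G} {i j k : Ω} {s u w m : G}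

/-- involutions centralising a maximal line -/
def TW (P : Ω → Subgroup G) (u : G) : Prop := orderOf u = 2 ∧ ∃ L, ML P L ∧ u ∈ C L

/-- the involutions of `C L` -/
def InI (L : Subgroup G) : Set G := {w | w ∈ C L ∧ orderOf w = 2}

/-- the elements `w` of `C L` with `s * w` of type `W` -/
def InJ (P : Ω → Subgroup G) (L : Subgroup G) (s : G) : Set G :=
  {w | w ∈ C L ∧ w * w = 1 ∧ TW P (s * w)}

theorem in_ne (h : orderOf s = 2) : s ≠ 1 := by rintro rfl; simp at h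

theorem in_ncard_conj (g : G) {S T : Set G} (h : ∀ x, x ∈ S ↔ g * x * g⁻¹ ∈ T) :
    S.ncard = T.ncard := by
  rw [← Set.ncard_image_of_injective S (MulAut.conj g).injective]
  congr 1
  ext y
  constructor
  · rintro ⟨x, hx, rfl⟩; exact (h x).mp hx
  · intro hy
    exact ⟨g⁻¹ * y * g, (h _).mpr (by simpa [mul_assoc] using hy), by simp [mul_assoc]⟩

theorem in_offDiag {A : Set Ω} (h : A.ncard = 12) : A.offDiag.ncard = 132 := by
  classical
  obtain ⟨A, rfl⟩ := (Set.toFinite A).exists_finset_coe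
  rw [Set.ncard_coe_finset] at h
  rw [← Finset.coe_offDiag, Set.ncard_coe_finset, Finset.offDiag_card, h]

namespace SA

variable (h : SA G Ω P)
include h

theorem in_inf (hL : ML P L) (h1 : m ∈ L) (h2 : m ∈ C L) : m = 1 :=
  h.toGeo.inf_C hL.1 (h.fa L hL).cen h1 h2

theorem in_cj (hu : TW P u) (g : G) : TW P (g * u * g⁻¹) := by
  obtain ⟨a, L, hL, b⟩ := hu
  exact ⟨by rw [orderOf_conj', a], cj g L, h.toGeo.ml_cj hL g, by
    rw [← cj_C]; exact conj_mem_cj.mpr b⟩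

theorem in_TW (hu : orderOf u = 2) (hi : u ∈ C (P i)) : TW P u := by
  have a := CfsgH1.Q4.card_modEq (Ω := Ω) Nat.prime_two (g := u) (by rw [sq, sq_two hu])
  have : ∃ j, j ≠ i ∧ u • j = j := by
    by_contra hn
    push Not at hn
    have e : CfsgH1.Q4.Fx Ω u = {i} := by
      ext j
      refine ⟨fun hj => by_contra fun e => hn j e hj, ?_⟩
      rintro rfl
      exact h.toGeo.fix_C hi
    rw [e, Set.ncard_singleton] at a
    have := h.even
    rw [Nat.even_iff] at this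
    unfold Nat.ModEq at a
    omega
  obtain ⟨j, hj, hj'⟩ := this
  obtain ⟨L, hL, h1, h2⟩ := h.ex i j hj.symm
  exact ⟨hu, L, hL, h.star L hL i j hj.symm h1 h2 u hi hj'⟩

theorem in_split (hM : ML P M) (hm : m ∈ M) (hw : w ∈ C M) (e : m * w * (m * w) = 1) :
    m * m = 1 ∧ w * w = 1 := by
  have e2 : m * m * (w * w) = 1 := by
    rw [← e]
    calc m * m * (w * w) = m * (m * w) * w := by group
      _ = m * (w * m) * w := by rw [(comm_of_C hm hw).eq]
      _ = _ := by group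
  have a : m * m = 1 := h.in_inf hM (mul_mem hm hm) (by
    rw [eq_inv_of_mul_eq_one_left e2]; exact inv_mem (mul_mem hw hw))
  rw [a, one_mul] at e2
  exact ⟨a, e2⟩

theorem in_N (hu : TW P u) (hM : ML P M) (h1 : u ∈ N M) (hk : P k ≤ M) (h2 : u • k = k) :
    u ∈ C M := by
  obtain ⟨a, L, hL, b⟩ := hu
  obtain ⟨p, hp, c, hc, rfl⟩ := h.b M hM k hk u (C_anti (h.wfix L hL u b (in_ne a) k h2) b) h1
  have e := (h.in_split hM (hk hp) hc (sq_two a)).1
  by_cases p1 : p = 1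
  · rw [p1, one_mul]; exact hc
  · have := h.toGeo.order hp p1
    rw [ord_two e p1] at this
    omega

theorem in_out (hu : TW P u) (hM : ML P M) (h1 : u ∈ N M) (h2 : u ∉ C M) :
    ∃ m ∈ M, ∃ w ∈ C M, u = m * w ∧ orderOf m = 2 ∧ w * w = 1 := by
  obtain ⟨m, hm, w, hw, rfl⟩ := (h.fa M hM).out u h1 (sq_two hu.1)
    fun i hi e => h2 (h.in_N hu hM h1 hi e)
  obtain ⟨a, b⟩ := h.in_split hM hm hw (sq_two hu.1)
  exact ⟨m, hm, w, hw, rfl, ord_two a (by rintro rfl; exact h2 (by simpa using hw)), b⟩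

theorem in_pair (hL : ML P L) (hM : ML P M) (hs : s ∈ L) (os : orderOf s = 2) (hm : m ∈ M)
    (om : orderOf m = 2) : ∃ g, cj g L = M ∧ g * s * g⁻¹ = m := by
  obtain ⟨g, rfl⟩ := h.toLS.conj hL hM
  obtain ⟨a, ha, e⟩ := (h.fa _ hM).cls _ (conj_mem_cj.mpr hs) m hm (by rw [orderOf_conj', os]) om
  exact ⟨a * g, by rw [← cj_cj, mem_N.mp (le_N _ ha)], by rw [← e]; group⟩

theorem in_I (hL : ML P L) (hM : ML P M) : (InI L).ncard = (InI M).ncard := by
  obtain ⟨g, rfl⟩ := h.toLS.conj hL hM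
  refine in_ncard_conj g fun x => ?_
  simp only [InI, Set.mem_setOf_eq]
  rw [← cj_C, conj_mem_cj, orderOf_conj']

theorem in_J (hL : ML P L) (hM : ML P M) (hs : s ∈ L) (os : orderOf s = 2) (hm : m ∈ M)
    (om : orderOf m = 2) : (InJ P L s).ncard = (InJ P M m).ncard := by
  obtain ⟨g, rfl, rfl⟩ := h.in_pair hL hM hs os hm om
  refine in_ncard_conj g fun x => ?_
  simp only [InJ, Set.mem_setOf_eq]
  rw [← cj_C, conj_mem_cj, conj_mul, conj_mul]
  refine and_congr_right fun _ => and_congr (by simp) ⟨fun a => h.in_cj a g, fun a => ?_⟩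
  simpa [mul_assoc] using h.in_cj a g⁻¹

theorem in_fix (hL : ML P L) (hu : u ∈ C L) (h1 : u ≠ 1) : u • k = k ↔ P k ≤ L :=
  ⟨h.wfix L hL u hu h1 k, h.toGeo.fix_W hu⟩

theorem in_off (hL : ML P L) : 12 + {k | ¬ P k ≤ L}.ncard = Nat.card Ω := by
  rw [← (h.fa L hL).npts]
  exact Set.ncard_add_ncard_compl _

theorem in_c1 (hL : ML P L) :
    {u | TW P u}.ncard * 132 = {p : Ω × Ω | p.1 ≠ p.2}.ncard * (InI L).ncard := by
  refine CfsgH8.Pron.dcount _ _ (fun u p => u • p.1 = p.1 ∧ u • p.2 = p.2) _ _ ?_ ?_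
  · rintro u ⟨a, M, hM, b⟩
    rw [← in_offDiag (h.fa M hM).npts]
    congr 1
    ext p
    simp only [Set.mem_setOf_eq, Set.mem_offDiag, h.in_fix hM b (in_ne a)]
    tauto
  · intro p hp
    obtain ⟨M, hM, h1, h2⟩ := h.ex p.1 p.2 hp
    rw [h.in_I hL hM]
    congr 1
    ext u
    constructor
    · rintro ⟨⟨a, M', hM', b⟩, c, d⟩
      rw [h.in_fix hM' b (in_ne a)] at c d
      exact ⟨h.uniq M' M hM' hM _ _ hp c d h1 h2 ▸ b, a⟩
    · rintro ⟨a, b⟩
      exact ⟨⟨b, M, hM, a⟩, h.toGeo.fix_W a h1, h.toGeo.fix_W a h2⟩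

theorem in_swap (hM : ML P M) (hm : m ∈ M) (om : orderOf m = 2) (e : m • i = j) : m • j = i := by
  rw [← e, ← mul_smul, sq_two om, one_smul]

theorem in_five (hM : ML P M) (hij : i ≠ j) (hi : P i ≤ M) (hj : P j ≤ M) :
    {m | m ∈ M ∧ orderOf m = 2 ∧ m • i = j}.ncard = 5 := by
  obtain ⟨t, ht, ot, ti, tj, h1, s, hs, os, si, st⟩ := (h.fa M hM).tor i j hij hi hj
  have sj := h.in_swap hM hs os si
  have e : {m | m ∈ M ∧ orderOf m = 2 ∧ m • i = j} = (s * ·) '' (zpowers t : Set G) := by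
    ext m
    constructor
    · rintro ⟨a, b, c⟩
      refine ⟨s * m, h1 _ (mul_mem hs a) (by rw [mul_smul, c, sj])
        (by rw [mul_smul, h.in_swap hM a b c, si]), ?_⟩
      simp only
      rw [← mul_assoc, sq_two os, one_mul]
    · rintro ⟨x, hx, rfl⟩
      have xi : x • i = i := (zpowers_le.mpr ti : zpowers t ≤ MulAction.stabilizer G i) hx
      have c : (s * x) • i = j := by rw [mul_smul, xi, si]
      refine ⟨mul_mem hs (zpowers_le.mpr ht hx), ord_two ?_ fun e => hij ?_, c⟩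
      · obtain ⟨n, rfl⟩ := hx
        have e1 : s * t ^ n * s⁻¹ = (t ^ n)⁻¹ := by rw [← conj_zpow, st, inv_zpow]
        rw [inv_eq_of_mul_eq_one_right (sq_two os)] at e1
        simp only
        rw [← mul_assoc, e1, inv_mul_cancel]
      · simp only at e
        rw [← c, e, one_smul]
  rw [e, Set.ncard_image_of_injective _ (mul_right_injective s), ← Nat.card_coe_set_eq, ← ot]
  exact Nat.card_zpowers t

theorem in_c2 (hL : ML P L) (hs : s ∈ L) (os : orderOf s = 2) :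
    {u | TW P u}.ncard * {k | ¬ P k ≤ L}.ncard =
      {p : Ω × Ω | p.1 ≠ p.2}.ncard * (5 * (InJ P L s).ncard) := by
  refine CfsgH8.Pron.dcount _ _ (fun u p => u • p.1 = p.2) _ _ ?_ ?_
  · rintro u ⟨a, M, hM, b⟩
    have e1 := h.in_off hL
    have e2 := h.in_off hM
    rw [show {k | ¬ P k ≤ L}.ncard = {k | ¬ P k ≤ M}.ncard by omega,
      ← Set.ncard_image_of_injective {k | ¬ P k ≤ M} (f := fun k => (k, u • k))
        fun x y e => congrArg Prod.fst e]
    congr 1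
    ext p
    constructor
    · rintro ⟨c, d⟩
      refine ⟨p.1, fun e => c ?_, by simp only [d]⟩
      rw [← d, h.toGeo.fix_W b e]
    · rintro ⟨x, hx, rfl⟩
      exact ⟨fun e => hx ((h.in_fix hM b (in_ne a)).mp (Eq.symm e)), rfl⟩
  · intro p hp
    obtain ⟨M, hM, h1, h2⟩ := h.ex p.1 p.2 hp
    have key := CfsgH8.Pron.dcount {u | u ∈ {u | TW P u} ∧ u • p.1 = p.2}
      {m | m ∈ M ∧ orderOf m = 2 ∧ m • p.1 = p.2} (fun u m => ∃ w ∈ C M, u = m * w) 1
      (InJ P L s).ncard ?_ ?_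
    · rw [h.in_five hM hp h1 h2, mul_one] at key
      exact key
    · rintro u ⟨a, b⟩
      have c : u • p.2 = p.1 := by rw [← b, ← mul_smul, sq_two a.1, one_smul]
      obtain ⟨m, hm, w, hw, rfl, om, -⟩ := h.in_out a hM
        (h.toLS.mem_N hM hp h1 h2 (b.symm ▸ h2) (c.symm ▸ h1))
        fun e => hp ((h.toGeo.fix_W e h1).symm.trans b)
      rw [Set.ncard_eq_one]
      refine ⟨m, ?_⟩
      ext m'
      simp only [Set.mem_setOf_eq, Set.mem_singleton_iff]
      constructor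
      · rintro ⟨⟨d, -⟩, w', hw', e⟩
        have : m⁻¹ * m' = w * w'⁻¹ := by
          rw [inv_mul_eq_iff_eq_mul, ← mul_assoc, e, mul_inv_cancel_right]
        have := h.in_inf hM (mul_mem (inv_mem hm) d) (this ▸ mul_mem hw (inv_mem hw'))
        exact (inv_mul_eq_one.mp this).symm
      · rintro rfl
        exact ⟨⟨hm, om, by rw [← b, h.toGeo.smul_W hw h1]⟩, w, hw, rfl⟩
    · rintro m ⟨a, b, c⟩
      rw [h.in_J hL hM hs os a b, ← Set.ncard_image_of_injective (InJ P M m) (mul_right_injective m)]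
      congr 1
      ext u
      constructor
      · rintro ⟨⟨d, -⟩, w, hw, rfl⟩
        exact ⟨w, ⟨hw, (h.in_split hM a hw (sq_two d.1)).2, d⟩, rfl⟩
      · rintro ⟨w, ⟨d, -, e⟩, rfl⟩
        exact ⟨⟨e, by simp only; rw [h.toGeo.smul_W d h1, c]⟩, w, d, rfl⟩

theorem in_twelve (hL : ML P L) (hu : u ∈ InI L) : 12 ∣ {k | ¬ P k ≤ L}.ncard := by
  have tw : TW P u := ⟨hu.2, L, hL, hu.1⟩
  have key : ∀ k, ¬ P k ≤ L → ∃ M, ML P M ∧ P k ≤ M ∧ u ∈ N M ∧ (∀ x, P x ≤ M → ¬ P x ≤ L) ∧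
      ∀ x, P x ≤ M → {y | ∀ M', ML P M' → P x ≤ M' → P (u • x) ≤ M' → P y ≤ M'} =
        {y | P y ≤ M} := fun k hk => by
    have a : k ≠ u • k := fun e => hk ((h.in_fix hL hu.1 (in_ne hu.2)).mp e.symm)
    obtain ⟨M, hM, h1, h2⟩ := h.ex _ _ a
    have b : u ∈ N M := h.toLS.mem_N hM a h1 h2 h2 (by
      rw [← mul_smul, sq_two hu.2, one_smul]; exact h1)
    have c : ∀ x, P x ≤ M → ¬ P x ≤ L := fun x hx e =>
      a (h.toGeo.fix_W (h.in_N tw hM b hx (h.toGeo.fix_W hu.1 e)) h1).symm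
    refine ⟨M, hM, h1, b, c, fun x hx => ?_⟩
    have d : P (u • x) ≤ M := (h.toGeo.on_N b).mpr hx
    ext y
    refine ⟨fun e => e M hM hx d, fun e M' hM' e1 e2 => ?_⟩
    rw [h.uniq M' M hM' hM x (u • x)
      (fun e => c x hx ((h.in_fix hL hu.1 (in_ne hu.2)).mp e.symm)) e1 e2 hx d]
    exact e
  refine ⟨_, CfsgH8.Pron.card_fib
    (fun x => {y | ∀ M', ML P M' → P x ≤ M' → P (u • x) ≤ M' → P y ≤ M'}) 12 _ ?_ ?_⟩
  · intro k hk
    obtain ⟨M, hM, h1, -, c, d⟩ := key k hk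
    rw [d k h1]
    exact ⟨h1, c, (h.fa M hM).npts⟩
  · intro k hk x hx
    obtain ⟨M, hM, h1, -, c, d⟩ := key k hk
    rw [d k h1] at hx ⊢
    exact d x hx

theorem in_main (hL : ML P L) (hs : s ∈ L) (os : orderOf s = 2) (hu : u ∈ InI L) :
    ∃ r, 0 < r ∧ Nat.card Ω = 12 + 660 * r ∧ (InJ P L s).ncard = (InI L).ncard * r := by
  have a1 := h.in_c1 hL
  have a2 := h.in_c2 hL hs os
  have a3 := h.in_off hL
  have a4 := h.in_twelve hL hu
  have a5 := h.m11
  have a6 := h.m5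
  have a7 := h.big
  obtain ⟨r, hr⟩ : 660 ∣ {k | ¬ P k ≤ L}.ncard := by omega
  refine ⟨r, by omega, by omega, ?_⟩
  obtain ⟨i, j, hij⟩ := h.two
  have : 0 < {p : Ω × Ω | p.1 ≠ p.2}.ncard :=
    (Set.ncard_pos (Set.toFinite _)).mpr ⟨(i, j), hij⟩
  apply Nat.eq_of_mul_eq_mul_left (Nat.mul_pos this (show 0 < 5 by norm_num))
  rw [mul_assoc, ← a2, hr]
  calc _ = {u | TW P u}.ncard * 132 * (5 * r) := by ring
    _ = _ := by rw [a1]; ring

end SA

end CfsgJ
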