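import Cfsg.Agent.H3.JDef
import Cfsg.Agent.H2.DegA

/-! S3403, piece (Y): arithmetic and the dihedral group of order ten. -/

set_option autoImplicit false
set_option linter.unusedSectionVars false

namespace CfsgJ.JY

open CfsgH5 CfsgH6 CfsgFT Subgroup Cfsg CfsgL
open scoped ComplexConjugate

universe u

theorem nsq {m r n : ℤ} (h : 9 * m ^ 2 = n) (hr : 0 ≤ r) (h1 : r ^ 2 < n) (h2 : n < (r + 1) ^ 2) :
    False := by
  have e : |3 * m| ^ 2 = n := by rw [sq_abs]; linarith
  have h0 := abs_nonneg (3 * m)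
  rcases le_or_gt |3 * m| r with h3 | h3
  · nlinarith
  · have : r + 1 ≤ |3 * m| := h3
    nlinarith

theorem arith1 {c k e : ℕ} (hc : 1 < c) (h5 : c % 5 = 1) (hk : 0 < k)
    (h : k * (k * c + 1) * e = 5 + 55 * c) : False := by
  have hc6 : 6 ≤ c := by omega
  have he : 0 < e := Nat.pos_of_ne_zero (by rintro rfl; omega)
  have h1 : k * k * e ≤ 55 := by
    by_contra h'
    have : 56 ≤ k * k * e := by omega
    nlinarith [Nat.mul_le_mul_right c this, Nat.zero_le (k * e)]
  have hk7 : k ≤ 7 := by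
    by_contra h'
    have : 8 * 8 * 1 ≤ k * k * e := Nat.mul_le_mul (Nat.mul_le_mul (by omega) (by omega)) he
    omega
  have he55 : e ≤ 55 := by nlinarith [Nat.mul_le_mul hk hk]
  interval_cases k <;> interval_cases e <;> omega

theorem arith3 {c d k e : ℕ} (hc : 6 ≤ c) (h5 : c % 5 = 1) (hk : d + 1 = k * c)
    (h : d * k * e = 5 + 55 * c) (he : 0 < e) (hk0 : 0 < k) (h1 : k * k * e ≤ 67) (hk8 : k ≤ 8) :
    k = 1 ∧ (c = 6 ∨ c = 11 ∨ c = 16 ∨ c = 21 ∨ c = 31 ∨ c = 61) := by
  have he' : e ≤ 67 / (k * k) :=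
    (Nat.le_div_iff_mul_le (Nat.mul_pos hk0 hk0)).mpr (by rw [mul_comm]; exact h1)
  clear h1
  interval_cases k <;> norm_num at he' <;> interval_cases e <;> omega

theorem arith2 {c d k e : ℕ} {m : ℤ} (hc : 1 < c) (h5 : c % 5 = 1) (hk : d + 1 = k * c)
    (h : d * k * e = 5 + 55 * c)
    (h3 : ((1 + 11 * c) * d * (d + 1) : ℤ) = 9 * c * m ^ 2) : False := by
  have hc6 : 6 ≤ c := by omega
  have he : 0 < e := Nat.pos_of_ne_zero (by rintro rfl; omega)
  have hk0 : 0 < k := Nat.pos_of_ne_zero (by rintro rfl; omega)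
  have hd : 5 * (k * c) ≤ 6 * d := by nlinarith
  have h1 : k * k * e ≤ 67 := by
    by_contra h'
    have h68 : 68 ≤ k * k * e := by omega
    have a1 : 5 * (k * c) * (k * e) ≤ 6 * d * (k * e) := Nat.mul_le_mul_right _ hd
    have a2 : 68 * c ≤ k * k * e * c := Nat.mul_le_mul_right _ h68
    nlinarith
  have hk8 : k ≤ 8 := by
    by_contra h'
    have : 9 * 9 * 1 ≤ k * k * e := Nat.mul_le_mul (Nat.mul_le_mul (by omega) (by omega)) he
    omega
  have key := arith3 hc6 h5 hk h he hk0 h1 hk8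
  obtain ⟨rfl, hc'⟩ := key
  have hd' : (d : ℤ) = c - 1 := by omega
  rw [hd'] at h3
  rcases hc' with rfl | rfl | rfl | rfl | rfl | rfl
  · exact nsq (m := m) (r := 18) (n := 335) (by push_cast at h3; linarith) (by norm_num) (by norm_num) (by norm_num)
  · exact nsq (m := m) (r := 34) (n := 1220) (by push_cast at h3; linarith) (by norm_num) (by norm_num) (by norm_num)
  · exact nsq (m := m) (r := 51) (n := 2655) (by push_cast at h3; linarith) (by norm_num) (by norm_num) (by norm_num)
  · exact nsq (m := m) (r := 68) (n := 4640) (by push_cast at h3; linarith) (by norm_num) (by norm_num) (by norm_num)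
  · exact nsq (m := m) (r := 101) (n := 10260) (by push_cast at h3; linarith) (by norm_num) (by norm_num) (by norm_num)
  · exact nsq (m := m) (r := 200) (n := 40320) (by push_cast at h3; linarith) (by norm_num) (by norm_num) (by norm_num)

theorem arith {c d : ℕ} {m : ℤ} (hc : 1 < c) (h5 : c % 5 = 1) (hd : 0 < d)
    (h1 : d * (d + 1) ∣ 5 * c * (1 + 11 * c)) (h2 : c ∣ d ∨ c ∣ d + 1)
    (h3 : ((1 + 11 * c) * d * (d + 1) : ℤ) = 9 * c * m ^ 2) : False := by
  obtain ⟨e, he⟩ := h1
  rcases h2 with ⟨k, hk⟩ | ⟨k, hk⟩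
  · refine arith1 (k := k) (e := e) hc h5 (Nat.pos_of_ne_zero (by rintro rfl; omega)) ?_
    apply Nat.eq_of_mul_eq_mul_left (show 0 < c by omega)
    rw [hk] at he
    nlinarith
  · refine arith2 (k := k) (e := e) hc h5 (by rw [hk, mul_comm]) ?_ h3
    apply Nat.eq_of_mul_eq_mul_left (show 0 < c by omega)
    rw [hk] at he
    nlinarith

variable {Y : Type u} [Group Y] [Finite Y]

/-- a norm three virtual character through the trivial character -/
theorem dec [Fintype Y] {θ : Y → ℂ} (hθ : IsGeneralizedCharacter Y θ) (h3 : classInner θ θ = 3)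
    (h1 : classInner θ (fun _ => 1) = 1) (h0 : θ 1 = 0) :
    ∃ χ ψ : Y → ℂ, IsIrrCharacter Y χ ∧ IsIrrCharacter Y ψ ∧ θ = (fun _ => 1) + χ - ψ := by
  classical
  set φ : Y → ℂ := θ - fun _ => 1 with hφd
  have hφ : IsGeneralizedCharacter Y φ := gen_sub hθ gen_one
  have h2 : classInner φ φ = 2 := by
    rw [hφd, CfsgL.inner_sub_left, CfsgL.inner_sub_right, CfsgL.inner_sub_right, h3, h1,
      gen_inner_comm gen_one hθ, h1, inner_irr_self irr_one]
    norm_num
  have hs : ∑ χ : IrrCharacter Y, coef φ χ ^ 2 = 2 := by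
    rw [← coef_self_eq_sum hφ]; exact coef_eq (by simpa using h2)
  obtain ⟨α, -, hα⟩ := Finset.exists_ne_zero_of_sum_ne_zero (hs ▸ two_ne_zero)
  have hα0 : coef φ α ≠ 0 := fun h => hα (by simp [h])
  have hle : coef φ α ^ 2 ≤ 2 := hs ▸ Finset.single_le_sum
    (f := fun χ : IrrCharacter Y => coef φ χ ^ 2) (fun _ _ => sq_nonneg _) (Finset.mem_univ α)
  have hα1 : coef φ α = 1 ∨ coef φ α = -1 := by
    have : -2 < coef φ α := by nlinarith
    have : coef φ α < 2 := by nlinarith
    omega
  have hsq : (coef φ α : ℂ) * coef φ α = 1 := by rcases hα1 with h | h <;> simp [h]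
  set ω : Y → ℂ := φ - (coef φ α : ℂ) • (α : Y → ℂ) with hωd
  have hω : IsGeneralizedCharacter Y ω := gen_sub hφ (gen_int_smul _ (gen_of_irr α.2))
  have hωn : classInner ω ω = 1 := by
    simp only [hωd, CfsgL.inner_sub_left, CfsgL.inner_sub_right, CfsgL.inner_smul_left,
      CfsgL.inner_smul_right, h2, inner_irr_self α.2, gen_inner_comm (gen_of_irr α.2) hφ,
      ← coef_Irr hφ, map_intCast]
    linear_combination -hsq
  obtain ⟨a, ha0, ha⟩ := irr_deg_pos α.2
  have hω1 : ω 1 = -1 - (coef φ α : ℂ) * a := by simp [hωd, hφd, h0, ha]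
  rcases irr_or_neg_of_norm_one hω hωn with hi | hi
  · obtain ⟨b, hb0, hb⟩ := irr_deg_pos hi
    rcases hα1 with h | h
    · rw [hb, h] at hω1
      have : (b : ℤ) = -1 - 1 * a := by exact_mod_cast hω1
      omega
    · refine ⟨ω, α, hi, α.2, ?_⟩
      rw [hωd, h, hφd]; ext g; simp; ring
  · obtain ⟨b, hb0, hb⟩ := irr_deg_pos hi
    rcases hα1 with h | h
    · refine ⟨α, -ω, α.2, hi, ?_⟩
      rw [hωd, h, hφd]; ext g; simp; ring
    · have e : -(b : ℂ) = -1 - (coef φ α : ℂ) * a := by rw [← hω1, ← hb]; simp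
      rw [h] at e
      have : -(b : ℤ) = -1 - (-1) * a := by exact_mod_cast e
      omega

/-- the dihedral normaliser -/
structure D10 (t s : Y) : Prop where
  ot : orderOf t = 5
  os : orderOf s = 2
  inv : s * t * s⁻¹ = t⁻¹
  card : Nat.card (N (zpowers t)) = 10

namespace D10

variable {t s : Y} (h : D10 t s)
include h

theorem ss : s * s = 1 := by rw [← sq, ← h.os]; exact pow_orderOf_eq_one s

theorem sinv : s⁻¹ = s := inv_eq_of_mul_eq_one_right h.ss

theorem cardT : Nat.card (zpowers t) = 5 := by rw [Nat.card_zpowers, h.ot]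

theorem ord {g : Y} (hg : g ∈ zpowers t) (h1 : g ≠ 1) : orderOf g = 5 := by
  have := orderOf_dvd_of_mem_zpowers hg
  rw [h.ot] at this
  exact ((Nat.dvd_prime (by norm_num)).mp this).resolve_left (by simpa using h1)

theorem s_not : s ∉ zpowers t := fun hs => by
  have := h.ord hs (by rintro rfl; simpa using h.os)
  rw [h.os] at this; omega

theorem inv_all {g : Y} (hg : g ∈ zpowers t) : s * g * s⁻¹ = g⁻¹ := by
  obtain ⟨k, rfl⟩ := hg
  simp only
  rw [← conj_zpow, h.inv, inv_zpow]

theorem s_mem : s ∈ N (zpowers t) := mem_N_of_conj fun x hx => by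
  rw [h.inv_all hx]; exact inv_mem hx

theorem cases {x : Y} (hx : x ∈ N (zpowers t)) : x ∈ zpowers t ∨ s * x ∈ zpowers t := by
  have hi : ((zpowers t).subgroupOf (N (zpowers t))).index = 2 := by
    have := card_mul_relIndex (le_N (zpowers t))
    rw [h.card, h.cardT] at this
    change (zpowers t).relIndex _ = 2
    omega
  have := (mul_mem_iff_of_index_two hi (a := ⟨s, h.s_mem⟩) (b := ⟨x, hx⟩))
  simp only [mem_subgroupOf, coe_mul] at this
  by_cases hx' : x ∈ zpowers t
  · exact Or.inl hx'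
  · exact Or.inr (this.mpr ⟨fun a => absurd a h.s_not, fun a => absurd a hx'⟩)

theorem not_both {x : Y} (h1 : x ∈ zpowers t) (h2 : s * x ∈ zpowers t) : False :=
  h.s_not (by simpa using mul_mem h2 (inv_mem h1))

theorem ti {g x : Y} (hg : g ∈ zpowers t) (h1 : g ≠ 1) (hx : x * g * x⁻¹ ∈ zpowers t) :
    x ∈ N (zpowers t) := by
  have e : zpowers g = zpowers t := eq_of_le_of_card_eq (zpowers_le.mpr hg)
    (by rw [Nat.card_zpowers, h.ord hg h1, h.cardT])
  apply mem_N_of_cj_le
  conv_lhs => rw [← e, cj_zpowers]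
  exact zpowers_le.mpr hx

theorem comm {g x : Y} (hg : g ∈ zpowers t) (hx : x ∈ zpowers t) : x⁻¹ * g * x = g := by
  obtain ⟨k, rfl⟩ := hg
  obtain ⟨l, rfl⟩ := hx
  simp only
  group

theorem inverts {g x : Y} (hg : g ∈ zpowers t) (hx : s * x ∈ zpowers t) : x⁻¹ * g * x = g⁻¹ := by
  have e := h.comm (inv_mem hg) hx
  rw [← h.inv_all hg] at e
  rw [← h.inv_all hg, ← e, h.sinv, mul_inv_rev, h.sinv]
  calc x⁻¹ * g * x = x⁻¹ * (s * s) * g * (s * s) * x := by rw [h.ss]; simp
    _ = _ := by group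

theorem isConj {x : Y} (hx : s * x ∈ zpowers t) : IsConj s x := by
  set a := s * x with ha
  have hx' : x = s * a := by rw [ha, ← mul_assoc, h.ss, one_mul]
  have h5 : a ^ 5 = 1 := by
    have := orderOf_dvd_of_mem_zpowers hx
    rw [h.ot] at this
    exact orderOf_dvd_iff_pow_eq_one.mp this
  have e := h.inv_all (pow_mem hx 2)
  refine isConj_iff.mpr ⟨a ^ 2, ?_⟩
  have e2 : a ^ 2 * s = s * (a ^ 2)⁻¹ := by
    rw [← e, h.sinv, ← mul_assoc, ← mul_assoc, h.ss, one_mul]
  rw [e2]
  conv_rhs => rw [hx']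
  calc s * (a ^ 2)⁻¹ * (a ^ 2)⁻¹ = s * a * (a ^ 5)⁻¹ := by group
    _ = s * a := by rw [h5]; simp

theorem sq_of_conj {x : Y} (hx : IsConj s x) : x * x = 1 := by
  obtain ⟨c, rfl⟩ := isConj_iff.mp hx
  calc c * s * c⁻¹ * (c * s * c⁻¹) = c * (s * s) * c⁻¹ := by group
    _ = 1 := by rw [h.ss]; simp

open Classical in
theorem sum_T [Fintype Y] (z : ℂ) : ∑ x : Y, (if x ∈ zpowers t then z else 0) = 5 * z := by
  rw [Finset.sum_ite, Finset.sum_const_zero, add_zero, Finset.sum_const, nsmul_eq_mul]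
  congr 1
  have := h.cardT
  rw [Nat.card_eq_fintype_card, Fintype.card_subtype] at this
  exact_mod_cast this

open Classical in
theorem sum_sT [Fintype Y] (z : ℂ) : ∑ x : Y, (if s * x ∈ zpowers t then z else 0) = 5 * z := by
  rw [← h.sum_T z]
  exact Equiv.sum_comp (Equiv.mulLeft s) (fun x => if x ∈ zpowers t then z else 0)

theorem ind_apply [Fintype Y] (β : zpowers t → ℂ) (h1 : β 1 = 0) (g : zpowers t) :
    indFun (zpowers t) β g = β g + β g⁻¹ := by
  classical
  by_cases hg : g = 1
  · subst hg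
    rw [OneMemClass.coe_one, indFun_one, inv_one, h1]; simp
  have hg' : (g : Y) ≠ 1 := fun e => hg (Subtype.ext e)
  unfold indFun
  have : ∀ x : Y, extendByZero (zpowers t) β (x⁻¹ * g * x) =
      (if x ∈ zpowers t then β g else 0) + (if s * x ∈ zpowers t then β g⁻¹ else 0) := by
    intro x
    by_cases a : x ∈ zpowers t
    · rw [if_pos a, if_neg (h.not_both a), h.comm g.2 a, extendByZero_coe, add_zero]
    · by_cases b : s * x ∈ zpowers t
      · rw [if_neg a, if_pos b, h.inverts g.2 b, zero_add]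
        exact extendByZero_coe _ β g⁻¹
      · rw [if_neg a, if_neg b, add_zero]
        apply extendByZero_of_not_mem
        intro c
        have := h.ti g.2 hg' (x := x⁻¹) (by simpa using c)
        rcases h.cases (by simpa using inv_mem this) with d | d
        · exact a d
        · exact b d
  rw [Finset.sum_congr rfl fun x _ => this x, Finset.sum_add_distrib, h.sum_T, h.sum_sT, h.cardT]
  push_cast
  ring

theorem conv_apply [Fintype Y] {g : Y} (hg : g ∈ zpowers t) (h1 : g ≠ 1) :
    conv (classInd s) (classInd s) g = 5 := by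
  classical
  unfold conv
  have : ∀ x : Y, classInd s x * classInd s (x⁻¹ * g) = if s * x ∈ zpowers t then 1 else 0 := by
    intro x
    unfold classInd
    by_cases b : s * x ∈ zpowers t
    · have c : s * (x⁻¹ * g) ∈ zpowers t := by
        have e : x⁻¹ = x := inv_eq_of_mul_eq_one_right (h.sq_of_conj (h.isConj b))
        rw [e, ← mul_assoc]; exact mul_mem b hg
      rw [if_pos b, if_pos (h.isConj b), if_pos (h.isConj c), one_mul]
    · rw [if_neg b]
      by_cases a1 : IsConj s x
      · by_cases a2 : IsConj s (x⁻¹ * g)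
        · exfalso
          have e1 := h.sq_of_conj a1
          have e2 := h.sq_of_conj a2
          have e3 : x⁻¹ = x := inv_eq_of_mul_eq_one_right e1
          have e4 : x * g * x⁻¹ = g⁻¹ := by
            rw [e3] at e2 ⊢
            exact eq_inv_of_mul_eq_one_left (by rw [← e2]; group)
          rcases h.cases (h.ti hg h1 (by rw [e4]; exact inv_mem hg)) with d | d
          · have x1 : x ≠ 1 := by
              rintro rfl
              have := isConj_one_left.mp a1
              have := h.os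
              simp_all
            have := h.ord d x1
            have h2 : orderOf x ∣ 2 := orderOf_dvd_iff_pow_eq_one.mpr (by rw [sq, e1])
            rw [this] at h2
            omega
          · exact b d
        · rw [if_neg a2, mul_zero]
      · rw [if_neg a1, zero_mul]
  rw [Finset.sum_congr rfl fun x _ => this x, h.sum_sT, mul_one]

end D10

end CfsgJ.JY
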