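import Cfsg.Agent.H8.M23D

set_option autoImplicit false

/-! Recognition of `M22` from the order statistics: centralizers of elements of prime order. -/

namespace CfsgH8.Mat

open Subgroup Finset CfsgH5 CfsgH6 CfsgFT

variable {G : Type*} [Group G]

attribute [local irreducible] nord

theorem class_lt_sum [Fintype G] (F : G → ℕ) (hF : ∀ x g, F (g * x * g⁻¹) = F x) {z t : G}
    (ht : orderOf t = orderOf z) (h : ¬ ∃ g, g * z * g⁻¹ = t) (h1 : 0 < F t) :
    (C1 z).index * F z < ∑ x ∈ univ.filter (fun x : G => orderOf x = orderOf z), F x := by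
  classical
  rw [← sum_class F hF]
  refine sum_lt_sum_of_subset (fun x hx => mem_filter.2 ⟨mem_univ _, ?_⟩)
    (mem_filter.2 ⟨mem_univ t, ht⟩) (fun e => h (isConj_iff.1 (mem_filter.1 e).2)) h1
    fun _ _ _ => Nat.zero_le _
  obtain ⟨g, rfl⟩ := isConj_iff.1 (mem_filter.1 hx).2
  exact orderOf_conj' _ _

/-- the normal four-subgroup of the centralizer -/
structure OW (x : G) (W : Subgroup G) : Prop where
  card : Nat.card W = 4
  le : W ≤ C1 x
  mem : ∀ u ∈ C1 x, u * u = 1 → u ∈ W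

theorem OW.cjj {x : G} {W : Subgroup G} (h : OW x W) (g : G) : OW (g * x * g⁻¹) (cj g W) :=
  ⟨(card_cj g W).trans h.card, cj_C1 g x ▸ cj_mono h.le, fun u hu e => mem_cj.2 (h.mem _
    (mem_cj.1 (cj_C1 g x ▸ hu)) (by
      calc _ = g⁻¹ * (u * u) * g := by group
        _ = 1 := by rw [e]; group))⟩

theorem OW.eq [Finite G] {x : G} {W A : Subgroup G} (h : OW x W) (h1 : A ≤ C1 x)
    (h2 : Nat.card A = 4) (h3 : ∀ a ∈ A, a * a = 1) : A = W :=
  eq_of_le_of_card_eq (fun a ha => h.mem a (h1 ha) (h3 a ha)) (h2.trans h.card.symm)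

theorem OW.mem_N [Finite G] {x g : G} {W : Subgroup G} (h : OW x W) (h3 : ∀ a ∈ W, a * a = 1)
    (hg : g ∈ N (C1 x)) : g ∈ N W :=
  mem_N_of_conj fun w hw => h.mem _ (conj_mem_of_mem_N hg (h.le hw)) (by
    rw [conj_mul, h3 w hw]; group)

namespace Nse22

variable [Finite G] (h : Nse22 G)
include h

theorem ne_ord (n : ℕ) (hn : n ∉ ({1, 2, 3, 4, 5, 6, 7, 8, 11} : Finset ℕ)) (g : G) :
    orderOf g ≠ n := fun e => hn (e ▸ h.ord g)

theorem not_dvd {v : G} {n : ℕ} (hv : orderOf v = n) (p : ℕ) {K : Subgroup G} (hK : K ≤ C1 v)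
    (hp : p.Prime := by norm_num) (h2 : p.Coprime n := by norm_num)
    (h3 : p * n ∉ ({1, 2, 3, 4, 5, 6, 7, 8, 11} : Finset ℕ) := by decide) :
    ¬ p ∣ Nat.card K := by
  subst hv
  exact not_dvd_card_C1 hp hK h2 (h.ne_ord _ h3)

theorem dvd_idx {v : G} {n : ℕ} (hv : orderOf v = n) (p : ℕ) (hp : p.Prime := by norm_num)
    (h1 : p ∣ 443520 := by norm_num) (h2 : p.Coprime n := by norm_num)
    (h3 : p * n ∉ ({1, 2, 3, 4, 5, 6, 7, 8, 11} : Finset ℕ) := by decide) :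
    p ∣ (C1 v).index := dvd_index_of_not hp (by rwa [h.card]) (h.not_dvd hv p le_rfl hp h2 h3)

theorem sq3 {x : G} (hx : orderOf x = 3) (u : G) (hu : u ∈ C1 x) (k : ℕ) (e : u ^ 2 ^ k = 1) :
    u * u = 1 := by
  have h1 : (orderOf u).Coprime 3 := Nat.Coprime.coprime_dvd_left (orderOf_dvd_of_pow_eq_one e)
    (Nat.Coprime.pow_left k (by norm_num))
  have h2 := h.ord (u * x)
  rw [orderOf_mul_C1 hu (hx ▸ h1), hx] at h2
  rw [← pow_two, ← orderOf_dvd_iff_pow_eq_one]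
  exact (by decide : ∀ n ∈ ({1, 2, 3, 4, 5, 6, 7, 8, 11} : Finset ℕ),
    n * 3 ∈ ({1, 2, 3, 4, 5, 6, 7, 8, 11} : Finset ℕ) → n ∣ 2) _ (h.ord u) h2

theorem conj3 {x : G} (hx : orderOf x = 3) (t : G) (ht : orderOf t = 3) :
    ∃ g, g * x * g⁻¹ = t := by
  by_contra hc
  have := Fintype.ofFinite G
  have h1 := class_lt_sum (fun x : G => 1 + nord (C1 x) 2) (fun x g => by rw [nord_cent_conj])
    (ht.trans hx.symm) hc (Nat.add_pos_left one_pos _)
  rw [hx, sum_inv, h.n3, h.n6] at h1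
  have h2 := dvd_index_inv (by rw [h.card]; norm_num) (by rw [h.card]; norm_num) (h.sq3 hx)
  have h3 := (h.dvd_idx hx 5).mul_right (1 + nord (C1 x) 2)
  have h4 := (h.dvd_idx hx 7).mul_right (1 + nord (C1 x) 2)
  have h6 := (h.dvd_idx hx 11).mul_right (1 + nord (C1 x) 2)
  exact absurd ((Nat.le_of_dvd (Nat.mul_pos (Nat.pos_of_ne_zero index_ne_zero_of_finite)
    (Nat.add_pos_left one_pos _)) (cdvd (cdvd (cdvd h2 h3) h4) h6)).trans_lt h1) (by norm_num)

theorem card_C3 {x : G} (hx : orderOf x = 3) : Nat.card (C1 x) = 36 ∧ nord (C1 x) 2 = 3 := by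
  have := Fintype.ofFinite G
  obtain ⟨h1, h2⟩ := nord_six hx (h.conj3 hx)
  have h3 := (C1 x).card_mul_index
  rw [← h1, h.n3, h.card] at h3
  rw [h.n3, h.n6] at h2
  omega

theorem exists_OW {x : G} (hx : orderOf x = 3) : ∃ W, OW x W ∧ ∀ w ∈ W, w * w = 1 := by
  obtain ⟨W, hW⟩ := exists_sylIn 2 (C1 x)
  have h1 : Nat.card W = 4 :=
    card_of_sylIn (k := 2) (m := 9) Nat.prime_two hW (h.card_C3 hx).1 (by norm_num)
  have h2 : ∀ w ∈ W, w * w = 1 := fun w hw => h.sq3 hx w (hW.le hw) 2 (pow_card_eq h1 hw)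
  refine ⟨W, ⟨h1, hW.le, fun u hu e => ?_⟩, h2⟩
  by_cases u1 : u = 1
  · exact u1 ▸ one_mem W
  have h3 := card_ne_one W
  obtain ⟨c, e⟩ := (Function.Injective.bijective_of_nat_card_le
    (f := fun b : {b : G // b ∈ W ∧ b ≠ 1} => (⟨b.1, hW.le b.2.1, orderOf_two (h2 _ b.2.1) b.2.2⟩ :
      {b // b ∈ C1 x ∧ orderOf b = 2})) (fun b c e => Subtype.ext (Subtype.mk.inj e))
    (by rw [← nord_sub, (h.card_C3 hx).2]; omega)).2 ⟨u, hu, orderOf_two e u1⟩
  exact (show c.1 = u from congrArg Subtype.val e) ▸ c.2.1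

theorem syl3 {M : Subgroup G} (hM : Nat.card M = 9) : SylIn 3 M ⊤ :=
  sylIn_of_card (k := 2) (m := 49280) Nat.prime_three le_top hM
    (by rw [card_top, h.card]; norm_num) (by norm_num)

theorem idx2 {t : G} (ht : orderOf t = 2) : (C1 t).index ≤ 1155 ∧ 5 * 7 * 11 ∣ (C1 t).index :=
  ⟨by simpa [ht, h.n2] using index_le_nord t,
    cdvd (cdvd (h.dvd_idx ht 5) (h.dvd_idx ht 7)) (h.dvd_idx ht 11)⟩

theorem NM_eq {M : Subgroup G} (hM : Nat.card M = 9) {x : G} (hx : x ∈ M) (hx1 : x ≠ 1) :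
    N M ⊓ C1 x = M := by
  haveI := Fact.mk Nat.prime_three
  obtain ⟨h1, h2⟩ := syl_nine hM (h.ne_ord _ (by decide))
  have x3 := orderOf_three (h1 x hx) hx1
  have hC : ∀ m ∈ M, M ≤ C1 m := fun m hm a ha => mem_C1.2 (h2 a ha m hm)
  have h4 := sylIn_modEq Nat.prime_three ((h.syl3 hM).of_le (hC x hx) le_top)
  have h5 := card_inf_mul_relIndex (N M) (C1 x)
  have h6 := le_inf (le_N M) (hC x hx)
  obtain ⟨k, hk⟩ := card_dvd_of_le h6
  rw [hM] at hk
  rw [(h.card_C3 x3).1, hk] at h5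
  have h7 : k ≤ 4 := by nlinarith [relIndex_pos (N M) (C1 x)]
  rw [Nat.ModEq] at h4
  refine (eq_of_le_of_card_eq h6 ?_).symm
  rw [hM, hk]
  by_contra h8
  have h9 : C1 x ≤ N M := relIndex_eq_one.1 (by interval_cases k <;> omega)
  obtain ⟨W, hW, w2⟩ := h.exists_OW x3
  have h10 : W ≤ C M := le_C_of_coprime (nrm_of_le_N (hW.le.trans h9)) (nrm_of_le_N fun m hm =>
    hW.mem_N w2 (le_N _ (hC x hx hm))) (by rw [hW.card, hM]; norm_num)
  have h11 : ∀ m ∈ M, m ≠ 1 → C1 m = C M := fun m hm m1 => (eq_of_le_of_card_le (C_le_C1 hm) (by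
    rw [(h.card_C3 (orderOf_three (h1 m hm) m1)).1]
    exact Nat.le_of_dvd (card_pos _) (cdvd (hW.card ▸ card_dvd_of_le h10)
      (hM ▸ card_dvd_of_le (ab_iff.2 h2))))).symm
  have h12 := card_mul_relIndex h9
  rw [(relIndex_eight (h.syl3 hM) hM (h.ne_ord _ (by decide)) hx hx1 (h.conj3 x3)).1,
    (h.card_C3 x3).1] at h12
  obtain ⟨T, hT⟩ := exists_sylIn 2 (N M)
  have h13 : Nat.card T = 32 := card_of_sylIn (k := 5) (m := 9) Nat.prime_two hT h12.symm
    (by norm_num)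
  obtain ⟨w, hw, w1⟩ := (bot_or_exists_ne_one _).resolve_left (inf_C_ne_bot_of_isPGroup
    Nat.prime_two (IsPGroup.of_card (n := 2) hW.card) hT.isPGroup (nrm_of_le_N fun t ht =>
      hW.mem_N w2 (h11 x hx hx1 ▸ (nrm_N_C M).le_N (hT.le ht))) fun e => by simpa [e] using hW.card)
  have h14 : N M ≤ C1 w := inf_eq_left.1 (eq_of_le_of_card_dvd inf_le_left (h12 ▸ cdvd
    (hM ▸ card_dvd_of_le (le_inf (le_N M) (le_C1_iff.2 (h10 hw.1))) : 9 ∣ _)
    (h13 ▸ card_dvd_of_le (le_inf hT.le (le_C1_iff.2 hw.2)) : 32 ∣ _) |> fun e => by simpa using e))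
  obtain ⟨h15, h16⟩ := h.idx2 (orderOf_two (w2 w hw.1) w1)
  have h17 := (C1 w).card_mul_index
  have h18 := card_mul_relIndex h14
  have h19 := Nat.le_of_dvd (Nat.pos_of_ne_zero index_ne_zero_of_finite) h16
  rw [h.card, ← h18, ← h12] at h17
  obtain ⟨g, hg, hg'⟩ := SetLike.not_le_iff_exists.1 fun e : C1 w ≤ N M => by
    rw [relIndex_eq_one.2 e] at h17
    omega
  have h20 : N (cj g M) ⊓ M ≠ ⊥ := fun e => by
    have h21 := relIndex_le_of_le_right ((le_N M).trans h14) (relIndex_ne_zero' (N (cj g M)) _)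
    rw [relIndex_of_inf_eq_bot e, hM, ← cj_N, ← cj_self hg, relIndex_cj] at h21
    nlinarith
  obtain ⟨m, hm, m1⟩ := (bot_or_exists_ne_one _).resolve_left h20
  have h21 : m ∈ cj g M := zpowers_le.1 ((h.syl3 ((card_cj g M).trans hM)).le_of_nrm'
    Nat.prime_three le_top (isPGroup_zpowers' (k := 1) (h1 m hm.2)) (nrm_zpowers_iff.2 hm.1))
  exact hg' (mem_N.2 ((h.syl3 hM).eq_of_nrm Nat.prime_three (h.syl3 ((card_cj g M).trans hM))
    (nrm_of_le_C (h11 m hm.2 m1 ▸ le_C1_iff.2 (((ab_iff.2 h2).cjj g) h21)))))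

theorem cent3 {M : Subgroup G} (hM : Nat.card M = 9) : C M ≤ M := by
  obtain ⟨x, hx, x3⟩ := exists_ord Nat.prime_three (K := M) (by rw [hM]; norm_num)
  exact (le_inf (C_le_N M) (C_le_C1 hx)).trans (h.NM_eq hM hx (ne_one_of_ord x3)).le

theorem card_NM {M : Subgroup G} (hM : Nat.card M = 9) : Nat.card (N M) = 72 := by
  obtain ⟨x, hx, x3⟩ := exists_ord Nat.prime_three (K := M) (by rw [hM]; norm_num)
  have h8 := card_inf_mul_relIndex (C1 x) (N M)
  rw [(relIndex_eight (h.syl3 hM) hM (h.ne_ord _ (by decide)) hx (ne_one_of_ord x3)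
    (h.conj3 x3)).1, inf_comm, h.NM_eq hM hx (ne_one_of_ord x3), hM] at h8
  exact h8.symm

theorem card_C2 {t : G} (ht : orderOf t = 2) : Nat.card (C1 t) = 384 := by
  haveI := Fact.mk Nat.prime_three
  obtain ⟨h1, h2⟩ := h.idx2 ht
  have h6 := (C1 t).card_mul_index
  rw [h.card] at h6
  have h7 : 3 ∣ (C1 t).index := by
    by_contra e
    obtain ⟨M, hM⟩ := Sylow.exists_subgroup_card_pow_prime (G := C1 t) 3 (n := 2)
      ((((Nat.Prime.coprime_iff_not_dvd Nat.prime_three).2 e).pow_left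
        2).dvd_of_dvd_mul_right (h6 ▸ by norm_num))
    have h1 : Nat.card (M.map (C1 t).subtype) = 9 :=
      (card_map_of_injective (C1 t).subtype_injective).trans hM
    exact ne_one_of_ord ht (eq_one_of_sq_of_nine h1
      (h.cent3 h1 (le_C1_iff.1 (map_subtype_le M))) (ht ▸ pow_orderOf_eq_one t))
  have h8 := Nat.le_of_dvd (Nat.pos_of_ne_zero index_ne_zero_of_finite) (cdvd h2 h7)
  rw [le_antisymm h1 h8] at h6
  exact Nat.eq_of_mul_eq_mul_right (by norm_num) (h6.trans (by norm_num))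

theorem conj2 {t u : G} (ht : orderOf t = 2) (hu : orderOf u = 2) : ∃ g, g * t * g⁻¹ = u := by
  have h1 := (C1 t).card_mul_index
  rw [h.card_C2 ht, h.card] at h1
  exact conj_of_nord_le (by rw [ht, h.n2]; omega) (hu.trans ht.symm)

theorem card_two_le {x : G} (hx : orderOf x = 3) (A : Subgroup G) (hA : A ≤ C1 x)
    (h2 : IsPGroup 2 A) : Nat.card A ≤ 4 := by
  obtain ⟨k, hk⟩ := two_pow_of_pg h2
  have h1 := card_dvd_of_le hA
  rw [(h.card_C3 hx).1, hk] at h1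
  exact hk ▸ Nat.le_of_dvd (by norm_num) (Nat.Coprime.dvd_of_dvd_mul_right (n := 9)
    (Nat.Coprime.pow_left k (by norm_num)) h1)

theorem ctx {M : Subgroup G} {x y : G} (hb : Bas M x y) : Ctx M x y :=
  ⟨hb, h.cent3 hb.card, fun m hm m1 => h.card_two_le (orderOf_three (hb.cube m hm) m1),
    fun m hm m1 => h.sq3 (orderOf_three (hb.cube m hm) m1)⟩

end Nse22

end CfsgH8.Mat
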