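import Cfsg.Agent.H8.M22A

set_option autoImplicit false

/-! Recognition of `M22` from the order statistics: the `3`-local configuration. -/

namespace CfsgH8.Mat

open Subgroup CfsgH5 CfsgH6 CfsgFT
open scoped commutatorElement

variable {G : Type*} [Group G]

attribute [local irreducible] nord

theorem PD.cjj {W P : Subgroup G} (h : PD W P) (t : G) : PD (cj t W) (cj t P) :=
  ⟨cj_C t W ▸ cj_mono h.le, isPGroup_cj h.pg t, fun g hg k e => mem_cj.2 (h.mem _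
    (mem_cj.1 (cj_C t W ▸ hg)) k (by rw [← inv_inv t, inv_inv t⁻¹, conj_pow, e]; group))⟩

theorem Ctx.eq_of_sixteen [Finite G] {M W P A B : Subgroup G} {x y : G} (h : Ctx M x y)
    (hW : IsW M W) (hP : PD W P) (h16 : Nat.card P = 16) (hA : IsW M A) (hB : IsW M B)
    (h1 : A ≤ C W) (h2 : B ≤ C W) (h3 : A ≠ W) (h4 : B ≠ W) : A = B := by
  by_contra h5
  obtain ⟨i, hi⟩ := h.exists_ln_eq hP.pg hW (h.le_P hW hP)
  obtain ⟨j, hj⟩ := h.exists_ln_eq hP.pg hA (hP.le_of h1 hA.pg)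
  obtain ⟨k, hk⟩ := h.exists_ln_eq hP.pg hB (hP.le_of h2 hB.pg)
  have h6 := Finset.prod_dvd_prod_of_subset {i, j, k} Finset.univ
    (fun k => Nat.card ↥(P ⊓ C1 (ln x y k))) (Finset.subset_univ _)
  have e1 : i ≠ j := fun e => h3 (by rw [hi, hj, e])
  have e2 : i ≠ k := fun e => h4 (by rw [hi, hk, e])
  have e3 : j ≠ k := fun e => h5 (by rw [hj, hk, e])
  rw [← wielandt4 h.bas h.cent hP.pg (h.nrm_P hW hP), h16, Finset.prod_insert (by simp [e1, e2]),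
    Finset.prod_pair e3, ← hi, ← hj, ← hk, hW.card, hA.card, hB.card] at h6
  exact absurd h6 (by norm_num)

set_option synthInstance.maxSize 1000 in
theorem mat_q8 : ∀ m : M4, m.1 = 2 → m.2.1 = 1 → m.pow 8 = M4.one →
    (∀ i j : Fin 3, i * m.1 + j * m.2.2.1 = i → i * m.2.1 + j * m.2.2.2 = j → i = 0 ∧ j = 0) →
    (∀ i j : Fin 3, i * (m.mul (0, 2, 1, 0)).1 + j * (m.mul (0, 2, 1, 0)).2.2.1 = i →
      i * (m.mul (0, 2, 1, 0)).2.1 + j * (m.mul (0, 2, 1, 0)).2.2.2 = j → i = 0 ∧ j = 0) →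
    m = (2, 1, 1, 1) ∨ m = (2, 1, 2, 2) := by decide +kernel

/-- the `3`-local configuration in `M22` -/
structure Dat2 (M W P T : Subgroup G) (x y q r : G) : Prop where
  ctx : Ctx M x y
  hW : IsW M W
  oW : OW x W
  hP : PD W P
  c16 : Nat.card P = 16
  c48 : Nat.card (C W) = 48
  TN : T ≤ N M
  T8 : Nat.card T = 8
  qT : q ∈ T
  rT : r ∈ T
  actq : Acts x y q (0, 2, 1, 0)
  actr : Acts x y r (2, 1, 1, 1) ∨ Acts x y r (2, 1, 2, 2)
  adj : cj q W ≤ C W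

namespace Nse22

variable [Finite G] (h : Nse22 G) {M T : Subgroup G} {x y : G} (hb : Bas M x y)
include h hb

theorem isW {W : Subgroup G} {m : G} (hm : m ∈ M) (m1 : m ≠ 1) (hW : OW m W) : IsW M W :=
  ⟨nrm_of_le_N fun a ha => hW.mem_N (fun w hw => h.sq3 (orderOf_three (hb.cube m hm) m1) w
    (hW.le hw) 2 (pow_card_eq hW.card hw)) (le_N _ (mem_C1.2 (hb.comm a ha m hm))), hW.card,
    m, hm, m1, hW.le⟩

variable (hT : T ≤ N M) (T8 : Nat.card T = 8)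
include hT T8

theorem fpf {t m : G} (ht : t ∈ T) (hm : m ∈ M) (e : t ∈ C1 m) (m1 : m ≠ 1) : t = 1 :=
  mem_bot.1 (inf_two_eq_bot hb (IsPGroup.of_card (n := 3) T8) ▸
    mem_inf.2 ⟨ht, h.NM_eq hb.card hm m1 ▸ mem_inf.2 ⟨hT ht, e⟩⟩)

theorem inv_of_two {z : G} (hz : z ∈ T) (z2 : z * z = 1) (z1 : z ≠ 1) :
    ∀ m ∈ M, z * m * z⁻¹ = m⁻¹ := fun m hm => by
  have h1 := conj_mem_of_mem_N (hT hz) hm
  by_contra e
  refine z1 (h.fpf hb hT T8 hz (mul_mem hm h1) (mem_C1_iff_conj.2 ?_)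
    fun e2 => e (eq_inv_of_mul_eq_one_right e2))
  calc _ = z * m * z⁻¹ * ((z * z) * m * (z * z)⁻¹) := by group
    _ = _ := by rw [z2, one_mul, inv_one, mul_one, hb.comm _ h1 m hm]

theorem transT {m : G} (hm : m ∈ M) (m1 : m ≠ 1) : ∃ t ∈ T, t * x * t⁻¹ = m := by
  obtain ⟨g, hg, e⟩ := (relIndex_eight (h.syl3 hb.card) hb.card (h.ne_ord _ (by decide)) hb.xV hb.x1
    (h.conj3 (orderOf_three hb.x3 hb.x1))).2 m hm m1
  exact e ▸ trans_T hb.comm hb.xV hT (inf_two_eq_bot hb (IsPGroup.of_card (n := 3) T8))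
    (by rw [h.card_NM hb.card, T8, hb.card]) hg

theorem card_P {W : Subgroup G} (oW : OW x W) :
    ∃ P, PD W P ∧ Nat.card P = 16 ∧ Nat.card (C W) = 48 := by
  classical
  have hc := h.ctx hb
  have hW := h.isW hb hb.xV hb.x1 oW
  obtain ⟨z, hz, z2⟩ := exists_ord Nat.prime_two (K := T) (by rw [T8]; norm_num)
  have zi := h.inv_of_two hb hT T8 hz (mul_self_of_ord z2) (ne_one_of_ord z2)
  obtain ⟨w, hw, w2⟩ := exists_ord Nat.prime_two (K := W) (by rw [hW.card]; norm_num)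
  have h1 := h.card_C2 w2 ▸ card_dvd_of_le (C_le_C1 hw)
  obtain ⟨P, hP, e⟩ := hc.exists_PD hW oW.le zi (oW.mem_N (fun w => hc.sq_W hW)
    (mem_N.2 (by rw [cj_C1, zi x hb.xV, C1_inv]))) (inf_le_left.trans (eq_of_le_of_card_eq
      (sup_le (fun m hm => mem_C1.2 (hb.comm m hm x hb.xV)) oW.le) (by
        rw [card_sup_of_inf_eq_bot (Or.inl hW.nrm) (by rw [inf_comm]; exact inf_two_eq_bot hb hW.pg),
          hb.card, hW.card, (h.card_C3 (orderOf_three hb.x3 hb.x1)).1])).ge)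
    (fun e => absurd (e.trans h1) (by norm_num)) fun g hg e =>
      ⟨7, orderOf_dvd_iff_pow_eq_one.1 (e.dvd_of_dvd_mul_right
        (((C W).orderOf_dvd_natCard hg).trans h1))⟩
  have h2 := Nat.le_of_dvd (by norm_num) h1
  suffices h16 : Nat.card P = 16 from ⟨P, hP, h16, by rw [e, h16]⟩
  refine ((hc.card_cases hW hP oW.le (by omega)).resolve_left (hc.card_ne_four hW hP oW.le
    hw (ne_one_of_ord w2) (m := 3) (h.card_C2 w2) (by norm_num)
    (h.ne_ord _ (by decide)))).resolve_right fun h64 => ?_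
  choose t t1 t2 using fun k => h.transT hb hT T8 (ln_mem hb k) (ln_ne hb k)
  have v1 : ∀ k, IsW M (cj (t k) W) := fun k => hW.cjj (hT (t1 k))
  have v2 : ∀ k, OW (ln x y k) (cj (t k) W) := fun k => t2 k ▸ oW.cjj (t k)
  have v3 : ∀ k, ∃ l, ¬ cj (t l) W ≤ C (cj (t k) W) ∧
      ∀ l', l' ≠ l → cj (t l') W ≤ C (cj (t k) W) := fun k => by
    have p1 := hP.cjj (t k)
    have p2 := wielandt4 hb hc.cent p1.pg (hc.nrm_P (v1 k) p1)
    have p3 : ∀ l, Nat.card ↥(cj (t k) P ⊓ C1 (ln x y l)) =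
        if decide (cj (t l) W ≤ C (cj (t k) W)) then 4 else 1 := fun l => by
      rw [hc.card_inf_ln p1.pg (hc.nrm_P (v1 k) p1), ← ite_not]
      refine if_congr ⟨fun h3 => decide_eq_true ?_, fun h3 h4 => (v1 l).ne_bot (eq_bot_iff.2
        (h4 ▸ le_inf (p1.le_of (of_decide_eq_true h3) (v1 l).pg) (v2 l).le))⟩ rfl rfl
      have h4 := hc.isW_inf p1.pg (hc.nrm_P (v1 k) p1) (ln_mem hb l) (ln_ne hb l) h3
      rw [← (v2 l).eq inf_le_right h4.card fun a => hc.sq_W h4]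
      exact inf_le_left.trans p1.le
    rw [card_cj, h64, Finset.prod_congr rfl fun l _ => p3 l] at p2
    simpa using (by decide : ∀ f : Fin 4 → Bool, 64 = (∏ l, if f l then 4 else 1) →
      ∃ l, ¬ f l ∧ ∀ l', l' ≠ l → f l') _ p2
  obtain ⟨d, d1, d2⟩ := v3 0
  obtain ⟨e, e1, e2⟩ := v3 d
  obtain rfl : 0 = e := by
    by_contra e3
    exact d1 (le_C_symm (e2 0 e3))
  have d0 : d ≠ 0 := by rintro rfl; exact d1 (hc.ab_W (v1 0))
  obtain ⟨a, b, a0, ad, b0, bd, hab⟩ := (by decide : ∀ d : Fin 4, d ≠ 0 → ∃ a b, a ≠ 0 ∧ a ≠ d ∧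
    b ≠ 0 ∧ b ≠ d ∧ ∀ l, l = a ∨ l = b ∨ l = 0 ∨ l = d) d d0
  have h3 := le_inf
    (hc.comm_le (v1 0) (hP.cjj _) (by rw [card_cj]; omega) (v1 a) (v1 b) (d2 a ad) (d2 b bd))
    (hc.comm_le (v1 d) (hP.cjj _) (by rw [card_cj]; omega) (v1 a) (v1 b) (e2 a a0) (e2 b b0))
  rw [hc.inf_eq_bot (v1 0) (v1 d) fun e => d1 (e ▸ hc.ab_W (v1 0)), le_bot_iff,
    comm_eq_bot_iff'] at h3
  obtain ⟨l, l1, -⟩ := v3 a
  rcases hab l with rfl | rfl | rfl | rfl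
  exacts [l1 (hc.ab_W (v1 l)), l1 h3, l1 (le_C_symm (d2 a ad)), l1 (le_C_symm (e2 a a0))]

omit hb hT T8 in
theorem exists_dat : ∃ (M W P T : Subgroup G) (x y q r : G), Dat2 M W P T x y q r := by
  haveI := Fact.mk Nat.prime_three
  obtain ⟨M, hM⟩ := Sylow.exists_subgroup_card_pow_prime (G := G) 3 (n := 2)
    (by rw [h.card]; norm_num)
  obtain ⟨M3, Mc⟩ := syl_nine hM (h.ne_ord _ (by decide))
  obtain ⟨x, xM, x3⟩ := exists_ord Nat.prime_three (K := M) (by rw [hM]; norm_num)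
  have x1 := ne_one_of_ord x3
  obtain ⟨y0, y1, y2⟩ := SetLike.not_le_iff_exists.1 fun e : M ≤ zpowers x => by
    have := card_le_of_le e
    rw [hM, Nat.card_zpowers, x3] at this
    omega
  have hb0 : Bas M x y0 := ⟨hM, M3, Mc, xM, y1, x1, y2⟩
  have hc := h.ctx hb0
  obtain ⟨T, hT⟩ := exists_sylIn 2 (N M)
  have T8 : Nat.card T = 8 :=
    card_of_sylIn (k := 3) (m := 9) Nat.prime_two hT (h.card_NM hM) (by norm_num)
  obtain ⟨W, oW, -⟩ := h.exists_OW x3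
  have hW := h.isW hb0 xM x1 oW
  obtain ⟨P, hP, c16, c48⟩ := h.card_P hb0 hT.le T8 oW
  obtain ⟨-, -, k, k0, k1, -⟩ := hc.sixteen hW hP oW.le c16
  obtain ⟨q, qT, e⟩ := h.transT hb0 hT.le T8 (ln_mem hb0 k) (ln_ne hb0 k)
  have h1 : P ⊓ C1 (ln x y0 k) = cj q W :=
    (e ▸ oW.cjj q).eq inf_le_right k1.card fun a => hc.sq_W k1
  have h2 : cj q W ≤ C W := h1 ▸ inf_le_left.trans hP.le
  have h3 : cj q W ≠ W := fun e2 => hW.ne_bot (eq_bot_iff.2 fun u hu => hc.eq_one_of_ln hW k0.symm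
    (by rw [ln_zero]; exact oW.le) hu (by rw [← e2, ← h1] at hu; exact hu.2))
  have h4 : cj q⁻¹ W = cj q W := hc.eq_of_sixteen hW hP c16 (hW.cjj (inv_mem (hT.le qT)))
    (hW.cjj (hT.le qT)) (by rw [cj_le_iff, inv_inv, cj_C]; exact le_C_symm h2) h2
    (fun e => h3 (by rw [cj_eq_iff, inv_inv] at e; exact e.symm)) h3
  have h5 : ∀ t ∈ T, cj t W = W → t * x * t⁻¹ ∈ zpowers x := fun t ht e => by
    obtain ⟨i, j, e2⟩ := hb0.surj (conj_mem_of_mem_N (hT.le ht) xM)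
    obtain ⟨l, hl⟩ := (by decide : ∀ i j : Fin 3, ∃ k : Fin 4, ∃ c,
      i = c * (lp k).1 ∧ j = c * (lp k).2) i j
    have h5 := e2 ▸ (mem_ln hb0 l i j).2 hl
    by_cases l0 : l = 0
    · rwa [l0, ln_zero] at h5
    · exact absurd (eq_bot_iff.2 fun u hu => hc.eq_one_of_ln hW l0 (by
        rw [← C1_eq_of_mem hb0 (ln_mem hb0 l) (by simpa using x1) h5, ← e]
        exact (oW.cjj t).le) hu (by rw [ln_zero]; exact oW.le hu)) hW.ne_bot
  have h6 : q * q * x * (q * q)⁻¹ = x⁻¹ := by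
    rcases mem_zpowers_three hb0.x3 (h5 _ (mul_mem qT qT) (by rw [← cj_cj, ← h4, cj_cj_inv]))
      with e | e | e
    · exact absurd (conj_eq_one_iff.1 e) x1
    · have h6 := h.fpf hb0 hT.le T8 (mul_mem qT qT) xM (mem_C1_iff_conj.2 e) x1
      exact absurd ((oW.cjj q).eq (by
        rw [h.inv_of_two hb0 hT.le T8 qT h6 (by rintro rfl; exact h3 (cj_one W)) x xM, C1_inv]
        exact oW.le) hW.card fun a => hc.sq_W hW).symm h3
    · exact e
  have hb : Bas M x (q⁻¹ * x * q) := ⟨hM, M3, Mc, xM, (nrm_N M).conj' (hT.le qT) xM, x1, fun e =>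
    h3 (h4 ▸ ((oW.cjj q⁻¹).eq (by
      rw [inv_inv, C1_eq_of_mem hb0 xM (by simpa [mul_assoc, inv_mul_eq_one] using x1) e]
      exact oW.le) hW.card
      fun a => hc.sq_W hW).symm)⟩
  have actq : Acts x (q⁻¹ * x * q) q (0, 2, 1, 0) := ⟨by
    rw [hb.el_zero_two, mul_inv_rev, mul_inv_rev, ← h6]; group, by rw [el_one_zero]; group⟩
  obtain ⟨r, rT, e2⟩ := h.transT hb hT.le T8 (el_mem hb.xV hb.yV 2 1) fun e => by
    simpa using hb.inj (e.trans (el_zero _ _).symm)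
  obtain ⟨m, hm⟩ := hb.exists_acts fun v hv => conj_mem_of_mem_N (hT.le rT) hv
  have h7 := hb.inj (hm.1.symm.trans e2)
  have h8 := hb.pow hm 8
  rw [pow_card_eq T8 rT] at h8
  have h9 : ∀ t ∈ T, ∀ m, Acts x (q⁻¹ * x * q) t m → m ≠ M4.one → ∀ i j : Fin 3,
      i * m.1 + j * m.2.2.1 = i → i * m.2.1 + j * m.2.2.2 = j → i = 0 ∧ j = 0 := by
    intro t ht m hm m1 i j e1 e2
    by_contra e3
    refine m1 (hb.unique (h.fpf hb hT.le T8 ht (el_mem hb.xV hb.yV i j) (mem_C1_iff_conj.2 (by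
      rw [hb.conj_el hm, e1, e2])) (fun e => e3 (hb.inj (e.trans (el_zero _ _).symm))) ▸ hm) Bas.one)
  refine ⟨M, W, P, T, x, _, q, r, h.ctx hb, hW, oW, hP, c16, c48, hT.le, T8, qT, rT, actq, ?_, h2⟩
  rcases mat_q8 m h7.1 h7.2 (hb.unique h8 Bas.one) (h9 r rT m hm (by rintro rfl; simp [M4.one] at h7))
    (h9 _ (mul_mem rT qT) _ (hb.mul hm actq) (by
      obtain ⟨a, b, c, d⟩ := m
      obtain ⟨rfl, rfl⟩ := h7
      exact (by decide : ∀ c d : Fin 3, M4.mul (2, 1, c, d) (0, 2, 1, 0) ≠ M4.one) c d)) with rfl | rfl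
  exacts [Or.inl hm, Or.inr hm]

end Nse22

end CfsgH8.Mat
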