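import Cfsg.Agent.H8.M22B

set_option autoImplicit false

/-! Recognition of `M22` from the order statistics: the centralizer of an involution. -/

namespace CfsgH8.Mat

open Subgroup CfsgH5 CfsgH6 CfsgFT Equiv

variable {G : Type*} [Group G]

attribute [local irreducible] nord

theorem exists_perm_hom [Finite G] {Y H : Subgroup G} {n : ℕ} (h : H.relIndex Y = n) :
    ∃ φ : Y →* Perm (Fin n), ∀ g : Y, φ g = 1 ↔ g.1 ∈ core Y H := by
  refine ⟨(Finite.equivFinOfCardEq h).permCongrHom.toMonoidHom.comp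
    (MulAction.toPermHom Y (Y ⧸ H.subgroupOf Y)), fun g => ?_⟩
  rw [MonoidHom.comp_apply, MulEquiv.coe_toMonoidHom, MulEquiv.map_eq_one_iff, ← MonoidHom.mem_ker,
    ← normalCore_eq_ker, core]
  exact ⟨fun e => ⟨g, e, rfl⟩, fun ⟨g', e, e'⟩ => Subtype.ext e' ▸ e⟩

namespace Dat2

variable [Finite G] {M W P T : Subgroup G} {x y q r : G} (d : Dat2 M W P T x y q r)
include d

theorem pgT : IsPGroup 2 T := IsPGroup.of_card (n := 3) d.T8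

theorem eq_acts {t u : G} (ht : t ∈ T) (hu : u ∈ T) {m : M4} (h1 : Acts x y t m)
    (h2 : Acts x y u m) : t = u := eq_of_acts d.ctx.bas d.ctx.cent d.pgT ht hu h1 h2

theorem actz : Acts x y (q * q) (2, 0, 0, 2) := d.ctx.bas.mul d.actq d.actq

theorem z2 : q * q * (q * q) = 1 :=
  d.eq_acts (mul_mem (mul_mem d.qT d.qT) (mul_mem d.qT d.qT)) (one_mem T)
    (d.ctx.bas.mul d.actz d.actz) Bas.one

theorem zinv : ∀ m ∈ M, q * q * m * (q * q)⁻¹ = m⁻¹ := d.ctx.bas.acts_neg.1 d.actz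

theorem zx : q * q * x * (q * q)⁻¹ = x⁻¹ := d.zinv x d.ctx.bas.xV

theorem x3 : orderOf x = 3 := orderOf_three d.ctx.bas.x3 d.ctx.bas.x1

theorem not_inv {g : G} (h : g * x * g⁻¹ = x⁻¹) : g ∉ C1 x := fun e =>
  d.ctx.bas.x1 (eq_one_of_sq_of_nine d.ctx.bas.card d.ctx.bas.xV (by
    rw [pow_two, ← eq_inv_iff_mul_eq_one, ← h, mem_C1_iff_conj.1 e]))

theorem z1 : q * q ≠ 1 := fun e => d.not_inv d.zx (e ▸ one_mem _)

theorem zN_C1 : q * q ∈ N (C1 x) := mem_N.2 (by rw [cj_C1, d.zx, C1_inv])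

theorem zN : q * q ∈ N W := d.oW.mem_N (fun _ => d.ctx.sq_W d.hW) d.zN_C1

theorem xW : x ∈ C W := le_C1_iff.1 d.oW.le

theorem abP : Ab P := (d.ctx.sixteen d.hW d.hP d.oW.le d.c16).1

theorem WP : W ≤ P := d.ctx.le_P d.hW d.hP

theorem zP : q * q ∉ P := fun e => d.ctx.not_cent d.hW d.zinv (d.hP.le e)

theorem le_ln {t : G} {m : M4} (ht : Acts x y t m) {k : Fin 4}
    (e : ∃ c, m.1 = c * (lp k).1 ∧ m.2.1 = c * (lp k).2) : cj t W ≤ C1 (ln x y k) := by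
  rw [← C1_eq_of_mem d.ctx.bas (ln_mem d.ctx.bas k) (mt conj_eq_one_iff.1 d.ctx.bas.x1)
    (ht.1 ▸ (mem_ln d.ctx.bas k _ _).2 e)]
  exact (d.oW.cjj t).le

theorem W0 : W ≤ C1 (ln x y 0) := by rw [ln_zero]; exact d.oW.le

theorem inf_q : W ⊓ cj q W = ⊥ := eq_bot_iff.2 fun _ hu =>
  d.ctx.eq_one_of_ln d.hW (k := 0) (l := 1) (by decide) d.W0 hu.1 (d.le_ln d.actq (by decide) hu.2)

theorem P_eq : W ⊔ cj q W = P :=
  eq_of_le_of_card_eq (sup_le d.WP (d.hP.le_of d.adj (isPGroup_cj d.hW.pg q))) (by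
    rw [card_sup_of_inf_eq_bot (Or.inr (nrm_of_le_C d.adj)) d.inf_q, card_cj, d.hW.card, d.c16])

theorem qN : q ∈ N P := mem_N.2 (by rw [← d.P_eq, cj_sup, cj_cj, mem_N.1 d.zN, sup_comm])

theorem sqP {u : G} (hu : u ∈ P) : u * u = 1 := by
  obtain ⟨a, ha, b, hb, rfl⟩ := (mem_sup_nrm' (nrm_of_le_C d.adj)).1 (d.P_eq ▸ hu)
  rw [mul_assoc, ← mul_assoc b, ← d.adj hb a ha, mul_assoc a, d.ctx.sq_W (d.hW.cjj (d.TN d.qT)) hb,
    mul_one, d.ctx.sq_W d.hW ha]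

theorem nonadj {t : G} (tN : t ∈ N M) {m : M4} (ht : Acts x y t m) {k : Fin 4} (k0 : 0 ≠ k)
    (k1 : 1 ≠ k) (e : ∃ c, m.1 = c * (lp k).1 ∧ m.2.1 = c * (lp k).2) {w : G} (hw : w ∈ W)
    (w1 : w ≠ 1) : w * (t * w * t⁻¹) * (w * (t * w * t⁻¹)) ≠ 1 := fun e1 => by
  have h1 := d.le_ln ht e
  have h2 := d.hW.cjj tN
  have h3 : t * w * t⁻¹ ∈ cj t W := conj_mem_cj.2 hw
  have h4 := d.ctx.le_C_of_comm d.hW h2 k0 d.W0 h1 hw w1 h3 (mt conj_eq_one_iff.1 w1) (mem_C1.2 (by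
    rw [← inv_eq_of_mul_eq_one_right e1, mul_inv_rev, inv_eq_of_mul_eq_one_right (d.ctx.sq_W h2 h3),
      inv_eq_of_mul_eq_one_right (d.ctx.sq_W d.hW hw)]))
  have h5 := d.ctx.eq_of_sixteen d.hW d.hP d.c16 h2 (d.hW.cjj (d.TN d.qT)) h4 d.adj
    (fun e => w1 (d.ctx.eq_one_of_ln d.hW k0 d.W0 hw (h1 (e.symm ▸ hw))))
    fun e => d.hW.ne_bot (by simpa [e] using d.inf_q)
  exact w1 (conj_eq_one_iff.1 (d.ctx.eq_one_of_ln h2 k1 (h5 ▸ d.le_ln d.actq (by decide)) h3 (h1 h3)))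

variable (h : Nse22 G) {w : G} (hw : w ∈ W) (w1 : w ≠ 1) (hz : w ∈ C1 (q * q))
include h hw w1

theorem c384 : Nat.card (C1 w) = 384 := h.card_C2 (orderOf_two (d.ctx.sq_W d.hW hw) w1)

theorem C6 : Nat.card ↥(C1 w ⊓ C1 x) = 12 ∧ C1 w ⊓ C1 x ≤ C W := by
  have h4 : Nat.card (zpowers x) = 3 := by rw [Nat.card_zpowers, d.x3]
  have h1 : Nat.card ↥(W ⊔ zpowers x) = 12 := by
    rw [card_sup_of_inf_eq_bot (Or.inr (nrm_of_le_C (zpowers_le.2 d.xW)))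
      (inf_eq_bot_of_coprime' (by rw [d.hW.card, h4]; norm_num)), d.hW.card, h4]
  have h2 := sup_le (d.ctx.ab_W d.hW) (zpowers_le.2 d.xW)
  rw [← eq_of_le_of_card_dvd (le_inf (h2.trans (C_le_C1 hw))
    (sup_le d.oW.le (zpowers_le.2 (self_mem_C1 x)))) (h1 ▸ Nat.dvd_gcd
      (d.c384 h hw w1 ▸ card_dvd_of_le inf_le_left)
      ((h.card_C3 d.x3).1 ▸ card_dvd_of_le inf_le_right))]
  exact ⟨h1, h2⟩

include hz

theorem N3 : N (zpowers x) ⊓ C1 w = C1 w ⊓ C1 x ⊔ zpowers (q * q) := by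
  have zw := mem_C1_comm.1 hz
  refine le_antisymm (fun g hg => ?_) (sup_le (le_inf (inf_le_right.trans
    ((C_zpowers x).ge.trans (C_le_N _))) inf_le_left)
    (zpowers_le.2 ⟨mem_N.2 (by rw [cj_zpowers, d.zx, zpowers_inv]), zw⟩))
  rcases mem_zpowers_three d.ctx.bas.x3 (conj_mem_of_mem_N hg.1 (mem_zpowers x)) with e | e | e
  · exact absurd (conj_eq_one_iff.1 e) d.ctx.bas.x1
  · exact mem_sup_left ⟨hg.2, mem_C1_iff_conj.2 e⟩
  · rw [← mul_inv_cancel_left (q * q) g]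
    refine mul_mem (mem_sup_right (mem_zpowers _)) (mem_sup_left
      ⟨(C1 w).mul_mem ((C1 w).inv_mem zw) hg.2, mem_C1_iff_conj.2 ?_⟩)
    calc _ = (q * q)⁻¹ * (g * x * g⁻¹) * (q * q) := by simp only [mul_inv_rev, inv_inv, mul_assoc]
      _ = x := by rw [e, ← d.zx]; group

theorem le_NP : C1 w ≤ N P := by
  haveI := Fact.mk Nat.prime_two
  have c1 := d.c384 h hw w1
  obtain ⟨hab, ⟨m, hm, h3⟩, -⟩ := d.ctx.sixteen d.hW d.hP d.oW.le d.c16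
  have zP := d.hP.nrm.le_N d.zN
  have zw := mem_C1_comm.1 hz
  obtain ⟨S, h4, hS⟩ := exists_sylIn_ge (sup_le (d.hP.le.trans (C_le_C1 hw)) (zpowers_le.2 zw))
    (IsPGroup.of_card (p := 2) (n := 5) (by rw [card_sup_inv d.z2 d.zP zP, d.c16]; rfl))
  have h5 : Nat.card S = 128 := card_of_sylIn (k := 7) (m := 3) Nat.prime_two hS c1 (by norm_num)
  obtain ⟨g, g1, g2, g3⟩ := exists_nrm_of_lt hS.isPGroup (lt_of_le_of_ne h4 fun e => by
    rw [← e, card_sup_inv d.z2 d.zP zP, d.c16] at h5; omega)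
  have h6 := card_lt_of_lt (show P ⊔ zpowers (q * q) < S ⊓ N P from SetLike.lt_iff_le_and_exists.2
    ⟨le_inf h4 (sup_le (le_N P) (zpowers_le.2 zP)), g, mem_inf.2 ⟨g1, mem_N_of_fix hab d.c16 d.z2 zP
      d.zP (card_fix_le hab d.c16 ((d.ctx.nrm_P d.hW d.hP).le_N hm) (d.ctx.bas.cube m hm)
        (d.zinv m hm) h3) g3⟩, g2⟩)
  have l2 : C W ≤ C1 w ⊓ N P := le_inf (C_le_C1 hw) ((C_le_N W).trans d.hP.nrm.le_N)
  have l3 : 64 ∣ Nat.card ↥(C1 w ⊓ N P) := by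
    refine Dvd.dvd.trans ?_ (card_dvd_of_le (inf_le_inf_right (N P) hS.le))
    rw [card_sup_inv d.z2 d.zP zP, d.c16] at h6
    exact (by decide +kernel : ∀ n ∈ Nat.divisors 128, 16 * 2 < n → 64 ∣ n) _
      (Nat.mem_divisors.2 ⟨h5 ▸ card_dvd_of_le inf_le_left, by norm_num⟩) h6
  have l6 := c1 ▸ card_dvd_of_le (inf_le_left : C1 w ⊓ N P ≤ _)
  have l7 := sylIn_modEq Nat.prime_three (sylIn_of_card (k := 1) (m := 128) Nat.prime_three
    (zpowers_le.2 (l2 d.xW)) (by rw [Nat.card_zpowers, d.x3]; rfl) l6 (by norm_num))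
  have l8 := card_inf_mul_relIndex (N (zpowers x)) (C1 w ⊓ N P)
  rw [← inf_assoc, d.N3 h hw w1 hz, inf_eq_left.2 (sup_le (((d.C6 h hw w1).2.trans l2).trans
      inf_le_right) (zpowers_le.2 zP)), card_sup_inv d.z2 (fun e => d.not_inv d.zx (mem_inf.1 e).2)
      (nrm_zpowers_iff.1 ((Nrm.of_le (zpowers_le.2 zw)).inf (nrm_zpowers_iff.2 d.zN_C1))),
    (d.C6 h hw w1).1] at l8
  rw [Nat.ModEq] at l7
  exact inf_eq_left.1 (eq_of_le_of_card_eq inf_le_left (c1 ▸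
    (by decide +kernel : ∀ n ∈ Nat.divisors 384, 64 ∣ n → 24 ∣ n → n / 24 % 3 = 1 → n = 384) _
      (Nat.mem_divisors.2 ⟨l6, by norm_num⟩) l3 (Dvd.intro _ l8)
      (by rw [← l8, Nat.mul_div_cancel_left _ (by norm_num)]; exact l7)))

theorem exists_hom : ∃ φ : C1 w →* Perm (Fin 4), ∀ g, φ g = 1 ↔ g.1 ∈ P := by
  haveI := Fact.mk Nat.prime_three
  have c1 := d.c384 h hw w1
  have zw := mem_C1_comm.1 hz
  have zC := (nrm_N_C W).le_N d.zN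
  have h1 : C W ⊔ zpowers (q * q) ≤ C1 w := sup_le (C_le_C1 hw) (zpowers_le.2 zw)
  have h2 := card_sup_inv d.z2 (d.ctx.not_cent d.hW d.zinv) zC
  rw [d.c48] at h2
  obtain ⟨φ, hφ⟩ := exists_perm_hom (relIndex_eq_of_mul (n := 4) h1 (by rw [h2, c1]))
  obtain ⟨K, hK⟩ : ∃ K, K = core (C1 w) (C W ⊔ zpowers (q * q)) := ⟨_, rfl⟩
  have k1 : K ≤ C1 w := hK ▸ core_le_left _ _
  have k2 : Nrm (C1 w) K := hK ▸ nrm_core _ _
  have k3 : K ≤ C W ⊔ zpowers (q * q) := hK ▸ core_le_right _ _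
  have k4 : P ≤ K := hK ▸ le_core (d.hP.le.trans (C_le_C1 hw)) (d.hP.le.trans le_sup_left)
    (nrm_of_le_N (d.le_NP h hw w1 hz))
  have xw := C_le_C1 hw d.xW
  have s3 := sylIn_of_card (k := 1) (m := 128) Nat.prime_three (zpowers_le.2 xw)
    (by rw [Nat.card_zpowers, d.x3]; rfl) (dvd_of_eq c1) (by norm_num)
  have k5 : x ∉ K := fun e => by
    have := card_le_of_le ((frattini_arg Nat.prime_three (s3.of_le (zpowers_le.2 e) k1)
      ⟨k1, k2⟩).ge.trans (sup_le k3 (by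
        rw [inf_comm, d.N3 h hw w1 hz]; exact sup_le_sup_right (d.C6 h hw w1).2 _)))
    omega
  have k6 : ¬ 3 ∣ Nat.card K := fun e => by
    obtain ⟨u, hu, u3⟩ := exists_ord Nat.prime_three e
    obtain ⟨g, hg, e2⟩ := (sylIn_of_card (k := 1) (m := 128) Nat.prime_three (zpowers_le.2 (k1 hu))
      (by rw [Nat.card_zpowers, u3]; rfl) (dvd_of_eq c1) (by norm_num)).conj s3
    exact k5 (zpowers_le.1 (e2 ▸ (cj_mono (zpowers_le.2 hu)).trans (k2.cj_eq hg).le))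
  refine ⟨φ, fun g => (hφ g).trans (hK ▸ ⟨fun hg => ?_, fun hg => k4 hg⟩)⟩
  rcases mem_sup_inv d.z2 zC (k3 hg) with e | e
  · exact d.hP.mem _ e 7 (orderOf_dvd_iff_pow_eq_one.1 ((K.orderOf_dvd_natCard hg).trans
      (dvd_of_not_dvd Nat.prime_three ((card_dvd_of_le k1).trans (dvd_of_eq c1) : _ ∣ 2 ^ 7 * 3) k6)))
  · have h4 : Nat.card (zpowers x) = 3 := by rw [Nat.card_zpowers, d.x3]
    have h5 : Nrm (zpowers x) P := d.hP.nrm.mono (zpowers_le.2 (C_le_N W d.xW))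
    rw [← eq_of_le_of_card_eq (sup_le d.hP.le (zpowers_le.2 d.xW)) (by
      rw [card_sup_of_inf_eq_bot (Or.inr h5) (inf_eq_bot_of_coprime' (by rw [d.c16, h4]; norm_num)),
        d.c16, h4, d.c48])] at e
    obtain ⟨p, hp, u, hu, e2⟩ := (mem_sup_nrm' h5).1 e
    have h6 := K.mul_mem (K.inv_mem (k4 hp)) hg
    have h7 := K.mul_mem h6 (k2 x xw _ (K.inv_mem h6))
    have h8 : p⁻¹ * g.1 * x * (p⁻¹ * g.1)⁻¹ = x⁻¹ := by
      rw [eq_mul_inv_of_mul_eq e2, inv_eq_of_mul_eq_one_right d.z2]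
      calc _ = u * (q * q * x * (q * q)⁻¹) * u⁻¹ := by group
        _ = _ := by
          rw [d.zx, ← conj_inv, mem_C1_iff_conj'.1 (C1_le_C1_of_mem_zpowers hu (self_mem_C1 x))]
    rw [← mul_assoc, ← mul_assoc, h8, ← mul_inv_rev, inv_mem_iff] at h7
    refine (k5 ?_).elim
    rw [show x = x * x * (x * x) * (x ^ 3)⁻¹ by simp [pow_succ, mul_assoc], d.ctx.bas.x3, inv_one,
      mul_one]
    exact K.mul_mem h7 h7

theorem transP {u : G} (hu : u ∈ P) (u1 : u ≠ 1) : ∃ g ∈ N P, g * w * g⁻¹ = u := by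
  have h1 := card_mul_relIndex (d.le_NP h hw w1 hz)
  have h2 := card_ne_one P
  have h3 : ∀ g ∈ N P, g * w * g⁻¹ ∈ P ∧ g * w * g⁻¹ ≠ 1 := fun g hg =>
    ⟨conj_mem_of_mem_N hg (d.WP hw), mt conj_eq_one_iff.1 w1⟩
  have h4 := relIndex_C1_le_of (p := fun b => b ∈ P ∧ b ≠ 1) h3
  have h5 := h.card ▸ card_subgroup_dvd_card (N P)
  have MN := (d.ctx.nrm_P d.hW d.hP).le_N
  have h6 := d.ctx.bas.card ▸ card_dvd_of_le MN
  rw [d.c384 h hw w1] at h1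
  rw [← h1] at h5 h6
  rw [d.c16] at h2
  refine conj_of_le_relIndex (p := fun b => b ∈ P ∧ b ≠ 1) h3 ?_ ⟨hu, u1⟩
  rcases (by decide +kernel : ∀ n ≤ 15, 384 * n ∣ 443520 → 9 ∣ 384 * n → n = 3 ∨ n = 15) _
    (by omega) h5 h6 with e | e
  · have h7 := card_ne_one W
    rw [relIndex_C1_eq, d.hW.card] at *
    obtain ⟨c, e2⟩ := (Function.Injective.bijective_of_nat_card_le
      (f := fun b : {b : G // b ∈ W ∧ b ≠ 1} => (⟨b.1, by
        rcases (d.ctx.four_cases d.hW hw d.ctx.bas.yV (d.ctx.not_mem_y d.hW d.oW.le hw w1)).2 _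
          b.2.1 with e | e | e | e
        exacts [absurd e b.2.2, ⟨1, one_mem _, by simp [e]⟩, ⟨y, MN d.ctx.bas.yV, e.symm⟩,
          ⟨y * y, MN (mul_mem d.ctx.bas.yV d.ctx.bas.yV), by rw [e]; group⟩]⟩ :
        {b // ∃ g ∈ N P, g * w * g⁻¹ = b})) (fun b c e => Subtype.ext (Subtype.mk.inj e))
      (by omega)).2 ⟨_, q, d.qN, rfl⟩
    exact absurd (conj_eq_one_iff.1 (mem_bot.1 (d.inf_q ▸ mem_inf.2
      ⟨(show c.1 = q * w * q⁻¹ from Subtype.mk.inj e2) ▸ c.2.1, conj_mem_cj.2 hw⟩))) w1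
  · omega

theorem exists_E : ∃ (E : Subgroup G) (φ : C1 (q * q) →* Perm (Fin 4)), (∀ g, φ g = 1 ↔ g.1 ∈ E) ∧
    Ab E ∧ (∀ e ∈ E, e * e = 1) ∧ q * q ∈ E ∧ IsPGroup 2 E ∧ ∀ u ∈ P, u ∈ E → u = 1 := by
  obtain ⟨φ, hφ⟩ := d.exists_hom h hw w1 hz
  obtain ⟨g, hg⟩ := h.conj2 (orderOf_two (d.ctx.sq_W d.hW hw) w1) (orderOf_two d.z2 d.z1)
  have h1 : ∀ a : C1 (q * q), g⁻¹ * a * g ∈ C1 w := fun a => mem_cj.1 (by rw [cj_C1, hg]; exact a.2)
  refine ⟨cj g P, φ.comp (MonoidHom.mk' (fun a => ⟨_, h1 a⟩) fun a b => Subtype.ext (by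
    simp [mul_assoc])), fun a => (hφ _).trans mem_cj.symm, d.abP.cjj g, fun e he => ?_,
    hg ▸ conj_mem_cj.2 (d.WP hw), isPGroup_cj d.hP.pg g, fun u hu he => ?_⟩
  · obtain ⟨p, hp, rfl⟩ := mem_cj'.1 he
    rw [conj_mul, d.sqP hp]
    group
  · by_contra u1
    obtain ⟨a, ha, e1⟩ := d.transP h hw w1 hz hu u1
    obtain ⟨b, hb, e2⟩ := d.transP h hw w1 hz (mem_cj.1 he) (by
      simpa [mul_assoc, inv_mul_eq_one] using u1)
    have h2 := d.le_NP h hw w1 hz (mem_C1_iff_conj.2 (show a⁻¹ * g * b * w * (a⁻¹ * g * b)⁻¹ = w by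
      calc _ = a⁻¹ * g * (b * w * b⁻¹) * g⁻¹ * a := by group
        _ = w := by rw [e2, ← e1]; group))
    have h3 : g ∈ N P := by
      simpa [mul_assoc] using (N P).mul_mem ((N P).mul_mem ha h2) ((N P).inv_mem hb)
    exact d.zP (hg ▸ conj_mem_of_mem_N h3 (d.WP hw))

end Dat2

end CfsgH8.Mat
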