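import Cfsg.Agent.H8.M23D
import Cfsg.Agent.H8.M23Cert

set_option autoImplicit false

/-! Recognition of `M23` from the order statistics: generators and relations. -/

namespace CfsgH8.Mat

open Subgroup CfsgH5 CfsgH6 CfsgFT CfsgH3.TC
open scoped commutatorElement

variable {G : Type*} [Group G]

attribute [local irreducible] nord

/-- five generators -/
def vals (x y a s w : G) : ℕ → G
  | 1 => x
  | 2 => y
  | 3 => a
  | 4 => s
  | 5 => w
  | _ => 1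

theorem sq_mul_of_comm {u v : G} (hu : u * u = 1) (hv : v * v = 1) (h : u * v = v * u) :
    (u * v) ^ 2 = 1 := by
  rw [pow_two, mul_assoc, ← mul_assoc v, ← h, mul_assoc u, hv, mul_one, hu]

theorem Nse23.card_mod [Finite G] (h : Nse23 G) {p : ℕ} (hp : p = 11 ∨ p = 23) {e : G}
    (he : orderOf e = p) {K : Subgroup G} (hK : e ∈ N K) (h1 : ¬ p ∣ Nat.card K) :
    Nat.card K ≡ 1 [MOD p] := by
  have h2 : p.Prime := by rcases hp with rfl | rfl <;> norm_num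
  have h3 := card_modEq_C1 h2 (he ▸ pow_orderOf_eq_one e) hK
  rwa [show Nat.card ↥(K ⊓ C1 e) = 1 from by
    by_contra h4
    obtain ⟨q, hq, h5⟩ := Nat.exists_prime_and_dvd h4
    obtain ⟨u, hu, rfl⟩ := exists_ord hq h5
    have h6 : (orderOf u).Coprime p := (Nat.coprime_primes hq h2).2 fun e =>
      h1 (e ▸ K.orderOf_dvd_natCard hu.1)
    have h7 := h.ord (u * e)
    rw [orderOf_mul_C1 hu.2 (he ▸ h6), he] at h7
    exact hq.ne_one ((by decide : ∀ p ∈ [11, 23],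
      ∀ n ∈ ({1, 2, 3, 4, 5, 6, 7, 8, 11, 14, 15, 23} : Finset ℕ),
      n * p ∈ ({1, 2, 3, 4, 5, 6, 7, 8, 11, 14, 15, 23} : Finset ℕ) → n = 1) p (by simpa using hp) _
      (h.ord u) h7)] at h3

theorem Nse23.not_dvd_N [Finite G] (h : Nse23 G) {p : ℕ} (hp : p = 11 ∨ p = 23) {U : Subgroup G}
    (hU : Nat.card U = 16) : ¬ p ∣ Nat.card (N U) := fun e => by
  obtain ⟨e, he, e1⟩ := exists_ord (by rcases hp with rfl | rfl <;> norm_num) e
  have := h.card_mod hp e1 he (by rw [hU]; rcases hp with rfl | rfl <;> norm_num)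
  rw [hU] at this
  rcases hp with rfl | rfl <;> exact absurd this (by decide)

namespace Dat

variable {M W : Subgroup G} {x y a s : G} (d : Dat M W x y a s) [Finite G] (h : Nse23 G)
  (hb : cj (s * a ^ 2) W ≤ C W) {w : G} (hw : w ∈ W) (w1 : w ≠ 1) (hz : w ∈ C1 (a ^ 4))
include d h hb hw w1 hz

theorem sat8 : Sat (vals x y (a ^ 2) s w) M23.rels8 := by
  refine ⟨rfl, ?_⟩
  obtain ⟨b, e⟩ : ∃ b, b = a ^ 2 := ⟨_, rfl⟩
  have r1 := d.ctx.bas.x3
  have r2 := d.ctx.bas.y3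
  have r3 := d.ctx.bas.xy.eq
  have r4 : b ^ 4 = 1 := by rw [e, ← pow_mul, d.a8]
  have r5 := d.s2
  have r6 : s * b * s * b = 1 := by rw [e, d.sa_pow, ← pow_add, d.a8]
  have r7 : b * x * b⁻¹ = y := e ▸ (d.ctx.bas.pow d.acta 2).1.trans (el_zero_one x y)
  have r8 : b * y * b⁻¹ = x⁻¹ := e ▸ (d.ctx.bas.pow d.acta 2).2.trans d.ctx.bas.el_two_zero
  have r9 := mem_C1.1 d.sx
  have r10 := d.sy
  have r11 := d.ctx.sq_W d.hW hw
  have r12 := mem_C1.1 (d.Wx hw)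
  have r13 := (d.ctx.four_cases d.hW hw d.ctx.bas.yV (d.ctx.not_mem_y d.hW d.Wx hw w1)).1
  have r14 : w * b ^ 2 = b ^ 2 * w := by rw [e, ← pow_mul]; exact mem_C1.1 hz
  have r15 := d.ws h hw w1 hz
  have r16 := sq_mul_of_comm r11 (d.ctx.sq_W (d.hW.cjj (mul_mem d.sN (pow_mem d.aN 2)))
    (conj_mem_cj.2 hw)) (hb (conj_mem_cj.2 hw) w hw)
  rw [← e] at r16 ⊢
  rw [← mul_inv_eq_one] at r3 r7 r8 r9 r10 r12 r14
  simp only [M23.rels8, List.mem_cons, List.not_mem_nil, or_false, forall_eq_or_imp, forall_eq,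
    wval_cons, wval_nil, mul_one, sval, vals]
  simp only [pow_succ, pow_zero, one_mul, mul_assoc, mul_inv_rev, inv_inv] at *
  exact ⟨r1, r2, r3, r4, r5, r6, r7, r8, r9, r10, r11, r12, r13, r14, r15, r16⟩

theorem seven : (w * x * a ^ 2) ^ 7 = 1 := by
  have h1 := fun p t => mem_of_tgt (p := p) (w := t) (d.sat8 h hb hw w1 hz) (H := C1 (a ^ 4))
    (by
      simp only [M23.subs8, List.mem_cons, List.not_mem_nil, or_false, forall_eq_or_imp, forall_eq,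
        wval_cons, wval_nil, mul_one, sval, vals]
      exact ⟨show a ^ 2 ∈ _ from mem_C1.2 (by group), mem_C1.2 d.sz, hz⟩) M23.cA_c
  have e1 : wval (vals x y (a ^ 2) s w) M23.g7 = (w * x * a ^ 2) ^ 7 := by
    generalize a ^ 2 = b
    simp [M23.g7, sval, vals, pow_succ, mul_assoc]
  have e2 : wval (vals x y (a ^ 2) s w) M23.g7' = ((w * x * a ^ 2) ^ 7)⁻¹ := by
    generalize a ^ 2 = b
    simp [M23.g7', sval, vals, pow_succ, mul_assoc]
  have t0 := h1 _ _ M23.cA_t0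
  have t1 := h1 _ _ M23.cA_t1
  have t2 := h1 _ _ M23.cA_t2
  have t3 := h1 _ _ M23.cA_t3
  have t4 := h1 _ _ M23.cA_t4
  have t5 := h1 _ _ M23.cA_t5
  simp only [wval_append, e1, e2, wval_cons, wval_nil, mul_one, one_mul, sval, vals] at t0 t1 t2 t3 t4 t5
  generalize (w * x * a ^ 2) ^ 7 = c at *
  have c1 : c ∈ C1 x := mem_C1_iff_conj.2 (mul_inv_eq_one.1 (d.ctx.eq_one_of_fix d.zinv t0 t1 t2))
  have c2 : c ∈ C1 (a ^ 2) :=
    mem_C1_iff_conj.2 (mul_inv_eq_one.1 (d.ctx.eq_one_of_fix d.zinv t3 t4 t5))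
  have c3 : c ∈ C1 (a ^ 4) := by simpa [← pow_mul] using C1_le_C1_pow _ 2 c2
  have c4 : y ∈ C1 c := by
    rw [← (d.ctx.bas.pow d.acta 2).1.trans (el_zero_one x y)]
    exact Nrm.self _ _ (mem_C1_comm.1 c2) _ (mem_C1_comm.1 c1)
  refine d.ctx.eq_one_of_fix d.zinv c3 ?_ ?_
  · rwa [mul_assoc, mem_C1.1 c1, inv_mul_cancel_left]
  · rwa [mul_assoc, ← mem_C1.1 c4, inv_mul_cancel_left]

variable (ha : cj (s * a) W ≤ C W) (hn : ¬ cj (s * a ^ 2) W ≤ C (cj (s * a) W))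
include ha hn

omit hw w1 hz hn in
theorem comm_ab : ⁅cj (s * a) W, cj (s * a ^ 2) W⁆ ≤ W := by
  obtain ⟨P, hP, hc⟩ := d.exists_P h
  exact d.ctx.comm_le d.hW hP (by rw [d.card_P h hP hc]; norm_num) (d.hW.cjj (mul_mem d.sN d.aN))
    (d.hW.cjj (mul_mem d.sN (pow_mem d.aN 2))) ha hb

theorem sat (hu : ∀ u ∈ W, u ∈ C1 (a ^ 4) → u = 1 ∨ u = w) : Sat (vals x y a s w) M23.rels := by
  refine ⟨rfl, ?_⟩
  have hA := d.hW.cjj (mul_mem d.sN d.aN)
  have hB := d.hW.cjj (mul_mem d.sN (pow_mem d.aN 2))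
  have r1 := d.ctx.bas.x3
  have r2 := d.ctx.bas.y3
  have r3 := d.ctx.bas.xy.eq
  have r4 := d.a8
  have r5 := d.s2
  have r6 := d.sas
  have r7 : a * x * a⁻¹ = x * y ^ 2 := by simpa [el] using d.acta.1
  have r8 : a * y * a⁻¹ = x * y := by simpa [el] using d.acta.2
  have r9 := mem_C1.1 d.sx
  have r10 := d.sy
  have r11 := d.ctx.sq_W d.hW hw
  have r12 := mem_C1.1 (d.Wx hw)
  have r13 := (d.ctx.four_cases d.hW hw d.ctx.bas.yV (d.ctx.not_mem_y d.hW d.Wx hw w1)).1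
  have r14 := mem_C1.1 hz
  have r15 := d.ws h hw w1 hz
  have u1 : _ ∈ cj (s * a) W := conj_mem_cj.2 hw
  have u2 : _ ∈ cj (s * a ^ 2) W := conj_mem_cj.2 hw
  have r16 := sq_mul_of_comm r11 (d.ctx.sq_W hB u2) (hb u2 w hw)
  have r17 := sq_mul_of_comm r11 (d.ctx.sq_W hA u1) (ha u1 w hw)
  have r18 : (s * a * w * (s * a)⁻¹ * (s * a ^ 2 * w * (s * a ^ 2)⁻¹)) ^ 2 * w = 1 := by
    have h1 := d.comm_ab h hb ha (commutator_mem_commutator u1 u2)
    have h2 : ∀ n, s * a ^ n * w * (s * a ^ n)⁻¹ ∈ C1 (a ^ 4) := fun n => Nrm.self _ _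
      (mul_mem (mem_C1.2 d.sz) (mem_C1.2 (by group))) w hz
    have h3 := h2 1
    rw [pow_one] at h3
    rcases hu _ h1 (mul_mem (mul_mem (mul_mem h3 (h2 2)) (inv_mem h3)) (inv_mem (h2 2))) with e | e
    · refine absurd (d.ctx.le_C_of_comm hA hB (k := lam (1, true)) (l := lam (2, true)) (by decide)
        ?_ ?_ u1 (mt conj_eq_one_iff.1 w1) u2 (mt conj_eq_one_iff.1 w1)
        (mem_C1.2 (commutatorElement_eq_one_iff_mul_comm.1 e).symm)) hn
      · rw [← d.cj_tau_C1]; simpa [tau] using cj_mono d.Wx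
      · rw [← d.cj_tau_C1]; exact cj_mono d.Wx
    · rw [commutatorElement_def, inv_eq_of_mul_eq_one_right (d.ctx.sq_W hA u1),
        inv_eq_of_mul_eq_one_right (d.ctx.sq_W hB u2), mul_assoc, ← pow_two] at e
      rw [e, r11]
  have r19 := d.seven h hb hw w1 hz
  clear u1 u2 hu hA hB
  rw [← mul_inv_eq_one] at r3 r6 r7 r8 r9 r10 r12 r14
  simp only [M23.rels, List.mem_cons, List.not_mem_nil, or_false, forall_eq_or_imp, forall_eq,
    wval_cons, wval_nil, mul_one, sval, vals]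
  simp only [pow_succ, pow_zero, one_mul, mul_assoc, mul_inv_rev, inv_inv] at *
  exact ⟨r1, r2, r3, r4, r5, r6, r7, r8, r9, r10, r11, r12, r13, r14, r15, r16, r17, r18, r19⟩

omit hw w1 hz hn h hb in
theorem card_U : Nat.card ↥(W ⊔ cj (s * a) W) = 16 := by
  have hA := d.hW.cjj (mul_mem d.sN d.aN)
  rw [card_sup_of_inf_eq_bot (Or.inr (nrm_of_le_C ha)) (eq_bot_iff.2 fun u hu =>
    d.ctx.eq_one_of_ln d.hW (k := 0) (l := lam (1, true)) (by decide) (by rw [ln_zero]; exact d.Wx)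
      hu.1 (by rw [← d.cj_tau_C1]; simpa [tau] using cj_mono d.Wx hu.2)), d.hW.card, hA.card]

omit hw w1 hz hn in
theorem nrm_U : Nrm (cj (s * a ^ 2) W) (W ⊔ cj (s * a) W) :=
  nrm_iff_commutator_le.2 (comm_sup_le (Nrm.of_le le_sup_left) (Nrm.of_le le_sup_right)
    ((comm_eq_bot_iff'.2 hb).le.trans bot_le) ((d.comm_ab h hb ha).trans le_sup_left))

omit w1 hz hn in
theorem subs_mem : ∀ t ∈ M23.subs, wval (vals x y a s w) t ∈ N (W ⊔ cj (s * a) W) := by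
  have h1 := (d.hW.nrm.sup (d.hW.cjj (mul_mem d.sN d.aN)).nrm).le_N
  simp only [M23.subs, List.mem_cons, List.not_mem_nil, or_false, forall_eq_or_imp, forall_eq,
    wval_cons, wval_nil, mul_one, sval, vals]
  refine ⟨h1 d.ctx.bas.xV, h1 d.ctx.bas.yV, mem_N.2 ?_, le_N _ (mem_sup_left hw), ?_⟩
  · change cj (s * a) _ = _
    rw [cj_sup, cj_cj, ← mul_assoc, d.sas, ← pow_succ, mem_N.1 (d.zN h), sup_comm]
  · simpa [pow_two, mul_assoc] using (d.nrm_U h hb ha).le_N (conj_mem_cj.2 hw)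

theorem gen : Gen 5 (vals x y a s w) = ⊤ := by
  obtain ⟨K, hK⟩ : ∃ K, K = Gen 5 (vals x y a s w) := ⟨_, rfl⟩
  have m : ∀ i, 1 ≤ i → i ≤ 5 → vals x y a s w i ∈ K := fun i => hK ▸ mem_Gen _
  have mx : x ∈ K := m 1 (by norm_num) (by norm_num)
  have ma : a ∈ K := m 3 (by norm_num) (by norm_num)
  have ms : s ∈ K := m 4 (by norm_num) (by norm_num)
  have mw : w ∈ K := m 5 (by norm_num) (by norm_num)
  have mM : M ≤ K := d.ctx.bas.le mx (m 2 (by norm_num) (by norm_num))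
  have mW : W ≤ K := inf_eq_left.1 (d.ctx.eq_of_le d.hW (d.hW.nrm.inf (Nrm.of_le mM)) inf_le_left
    fun e => w1 (mem_bot.1 (e ▸ mem_inf.2 ⟨hw, mw⟩)))
  have hA := d.hW.cjj (mul_mem d.sN d.aN)
  have hB := d.hW.cjj (mul_mem d.sN (pow_mem d.aN 2))
  have M9 := d.ctx.bas.card
  have c1 : N M ≤ K := by
    have h1 := card_dvd_of_le (le_inf (sup_le (zpowers_le.2 d.aN) (zpowers_le.2 d.sN))
      (sup_le (zpowers_le.2 ma) (zpowers_le.2 ms)))
    have h2 : orderOf a = 2 ^ 3 :=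
      haveI := Fact.mk Nat.prime_two
      orderOf_eq_prime_pow d.z1 d.a8
    rw [card_sup_inv d.s2 (fun e => d.z1 (by
      have h3 := mem_C1.1 (C1_le_C1_of_mem_zpowers e (self_mem_C1 a))
      have h4 := d.sas
      rw [← h3, mul_assoc, d.s2, mul_one] at h4
      calc a ^ 4 = (a ^ 3 * a⁻¹) ^ 2 := by group
        _ = 1 := by rw [← h4]; group))
      (mem_N_of_cj_le (by rw [cj_zpowers, d.si, d.sas]; exact zpowers_le.2 (pow_mem (mem_zpowers a) 3))),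
      Nat.card_zpowers, h2] at h1
    exact inf_eq_left.1 (eq_of_le_of_card_dvd inf_le_left (by
      rw [(h.card_NM M9 d.ctx.bas.xV d.ctx.bas.x1).2]
      exact cdvd h1 (M9 ▸ card_dvd_of_le (le_inf (le_N M) mM))))
  have c2 : Nat.card ↥(C1 x ⊓ K) = 180 := by
    have h1 : M ⊔ W ≤ C1 x ⊓ K := le_inf (sup_le d.MX d.Wx) (sup_le mM mW)
    have h2 := card_dvd_of_le h1
    have h3 := card_lt_of_lt (lt_of_le_not_ge h1 fun e =>
      d.ne (sup_le d.hW.nrm.le_N (le_N W) (e ⟨d.sx, ms⟩)))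
    have h4 := card_dvd_of_le (inf_le_left : C1 x ⊓ K ≤ _)
    rw [card_sup_of_inf_eq_bot (Or.inl d.hW.nrm) (by
      rw [inf_comm]; exact inf_two_eq_bot d.ctx.bas d.hW.pg), M9, d.hW.card] at h2 h3
    rw [(h.card_C3 d.x3).1] at h4
    exact (by decide +kernel : ∀ n ∈ Nat.divisors 180, 9 * 4 ∣ n → 9 * 4 < n → n = 180) _
      (Nat.mem_divisors.2 ⟨h4, by norm_num⟩) h2 h3
  have c3 : 128 ∣ Nat.card K := by
    have zs : ∀ n, a ^ 4 ∈ N (cj (s * a ^ n) W) := fun n => mem_N.2 (by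
      rw [cj_cj, ← mul_assoc, ← d.sz, mul_assoc, ← pow_add, add_comm, pow_add, ← mul_assoc, ← cj_cj,
        mem_N.1 (d.zN h)])
    have z1 := zs 1
    rw [pow_one] at z1
    have h1 := card_dvd_of_le (sup_le (sup_le (sup_le mW (cj_le_of_le mW (mul_mem ms ma)))
      (cj_le_of_le mW (mul_mem ms (pow_mem ma 2)))) (zpowers_le.2 (pow_mem ma 4)))
    rwa [card_sup_inv d.z2 (fun e => d.ctx.not_cent d.hW d.zinv
        (sup_le (sup_le (d.ctx.ab_W d.hW) ha) hb e))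
      (nrm_zpowers_iff.1 (((nrm_zpowers_iff.2 (d.zN h)).sup (nrm_zpowers_iff.2 z1)).sup
        (nrm_zpowers_iff.2 (zs 2)))),
      card_sup_of_inf_eq_bot (Or.inr (d.nrm_U h hb ha)) (by
        by_contra e
        exact hn ((inf_eq_right.1 (d.ctx.eq_of_le hB ((d.hW.nrm.sup hA.nrm).inf hB.nrm)
          inf_le_right e)).trans (sup_le (le_C_symm ha) (d.ctx.ab_W hA)))),
      d.card_U ha, hB.card] at h1
  have c4 : 7 ∣ Nat.card K := by
    haveI : Fact (Nat.Prime 7) := ⟨by norm_num⟩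
    rw [← orderOf_eq_prime (d.seven h hb hw w1 hz) fun e => d.ctx.bas.yx ?_]
    · exact K.orderOf_dvd_natCard (mul_mem (mul_mem mw mx) (pow_mem ma 2))
    · rw [← (d.ctx.bas.pow d.acta 2).1.trans (el_zero_one x y), mem_C1_iff_conj.1
        (eq_inv_of_mul_eq_one_right e ▸ inv_mem (mul_mem (d.Wx hw) (self_mem_C1 x)))]
      exact mem_zpowers x
  obtain ⟨k, hk⟩ := cdvd (cdvd c3 c4) ((by norm_num : 45 ∣ 180).trans
    (c2 ▸ card_dvd_of_le inf_le_right))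
  have c5 := h.card ▸ card_subgroup_dvd_card K
  have c6 := sylIn_modEq Nat.prime_three ((h.syl3 M9).of_le mM le_top)
  rw [relIndex_eq_of_mul (n := 280 * k) c1 (by
    rw [(h.card_NM M9 d.ctx.bas.xV d.ctx.bas.x1).2, hk]; ring)] at c6
  rw [hk] at c5
  rcases (by decide +kernel : ∀ k ∈ Nat.divisors 253, 280 * k ≡ 1 [MOD 3] → k = 1 ∨ k = 253) k
    (Nat.mem_divisors.2 ⟨Nat.dvd_of_mul_dvd_mul_left (by norm_num)
      (show 128 * 7 * 45 * k ∣ 128 * 7 * 45 * 253 from c5), by norm_num⟩) c6 with rfl | rfl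
  · obtain ⟨f, hf, f5⟩ := exists_ord Nat.prime_five (K := C1 x ⊓ K) (by rw [c2]; norm_num)
    have c7 := sylIn_modEq Nat.prime_five (h.syl5 f5 K hf.2)
    have c8 := card_inf_mul_relIndex (N (zpowers f)) K
    have c9 := h.card_N5 f5 ▸ card_dvd_of_le (inf_le_left : N (zpowers f) ⊓ K ≤ _)
    have c10 := cdvd (f5 ▸ (N (zpowers f) ⊓ K).orderOf_dvd_natCard ⟨le_N _ (mem_zpowers f), hf.2⟩)
      (d.x3 ▸ (N (zpowers f) ⊓ K).orderOf_dvd_natCard
        ⟨C_le_N _ (by rw [C_zpowers]; exact mem_C1_comm.1 hf.1), mx⟩)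
    rw [hk] at c8
    rw [Nat.ModEq] at c7
    rcases (by decide +kernel : ∀ n ∈ Nat.divisors 60, 5 * 3 ∣ n → n = 15 ∨ n = 30 ∨ n = 60) _
      (Nat.mem_divisors.2 ⟨c9, by norm_num⟩) c10 with e | e | e <;> rw [e] at c8 <;> omega
  · exact hK ▸ eq_top_of_card_eq K (by rw [hk, h.card])

end Dat

theorem Nse23.exists_pres [Finite G] (h : Nse23 G) : ∃ (v : ℕ → G) (U : Subgroup G),
    Sat v M23.rels ∧ Gen 5 v = ⊤ ∧ Nat.card U = 16 ∧ ∀ t ∈ M23.subs, wval v t ∈ N U := by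
  obtain ⟨M, W, x, y, a, s, d⟩ := h.exists_dat
  obtain ⟨W, d, hb, ha, hn⟩ := d.adj h
  obtain ⟨w, hw, w1, hz, hu⟩ := d.ctx.exists_fix d.hW d.zinv d.z2 (d.zN h)
  exact ⟨_, _, d.sat h hb hw w1 hz ha hn hu, d.gen h hb hw w1 hz ha hn, d.card_U ha,
    d.subs_mem h hb hw ha⟩

theorem Nse23.equiv {G' : Type*} [Group G'] [Finite G] [Finite G'] (h : Nse23 G) (h' : Nse23 G') :
    Nonempty (G ≃* G') := by
  obtain ⟨v, U, h1, h2, h3, h4⟩ := h.exists_pres
  obtain ⟨v', U', h1', h2', h3', h4'⟩ := h'.exists_pres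
  refine equiv_of_index h1 h1' h2 h2' h4 h4' (by decide) M23.cM_c M23.cM_f
    (h.card.trans h'.card.symm) fun L hL h5 => ?_
  have h6 := Nat.le_of_dvd (Nat.pos_of_ne_zero index_ne_zero_of_finite) (cdvd
    (dvd_index_of_not (by norm_num) (by rw [h.card]; norm_num) (h.not_dvd_N (Or.inl rfl) h3))
    (dvd_index_of_not (by norm_num) (by rw [h.card]; norm_num) (h.not_dvd_N (Or.inr rfl) h3)))
  have h7 := relIndex_pos (N U') L
  change _ ≤ 253 at h5
  have h8 := card_dvd_of_le (relIndex_eq_one.1 (show (N U').relIndex L = 1 by nlinarith))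
  have h9 : ∀ p, p = 11 ∨ p = 23 → ¬ p ∣ Nat.card L ∧ Nat.card L ≡ 1 [MOD p] := fun p hp => by
    have h9 := fun e => h'.not_dvd_N hp h3' (Dvd.dvd.trans e h8)
    obtain ⟨e, -, he⟩ := exists_ord (p := p) (K := (⊤ : Subgroup G'))
      (by rcases hp with rfl | rfl <;> norm_num)
      (by rw [card_top, h'.card]; rcases hp with rfl | rfl <;> norm_num)
    exact ⟨h9, h'.card_mod hp he ((Nrm.of_normal ⊤ L).le_N trivial) h9⟩
  have h10 : Nat.card L ∣ 40320 := dvd_of_not_dvd (by norm_num) (dvd_of_not_dvd (by norm_num)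
    ((card_subgroup_dvd_card L).trans (dvd_of_eq h'.card) : _ ∣ 40320 * 11 * 23) (h9 23 (by simp)).1)
    (h9 11 (by simp)).1
  have h11 := (Nat.modEq_and_modEq_iff_modEq_mul (by norm_num)).1
    ⟨(h9 11 (by simp)).2, (h9 23 (by simp)).2⟩
  have h12 := Nat.le_of_dvd (by norm_num) h10
  rw [← Nat.div_add_mod (Nat.card L) (11 * 23), h11] at h10
  have := (by decide +kernel : ∀ q < 160, 11 * 23 * q + 1 % (11 * 23) ∣ 40320 → q = 0) _
    (by omega) h10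
  rw [Nat.ModEq] at h11
  exact card_eq_one_iff.1 (by omega)

end CfsgH8.Mat
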