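import Cfsg.Agent.H8.M22C
import Cfsg.Agent.H8.M23E
import Cfsg.Agent.H8.M22CertB

set_option autoImplicit false

/-! Recognition of `M22` from the order statistics: generators and relations. -/

namespace CfsgH8.Mat

open Subgroup CfsgH5 CfsgH6 CfsgFT CfsgH3.TC Equiv

variable {G : Type*} [Group G]

attribute [local irreducible] nord

set_option synthInstance.maxSize 1000 in
theorem s4_q8 : ∀ w : Perm (Fin 4), w * w = 1 → ∀ q : Perm (Fin 4), q * q = 1 →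
    (w * (q * w * q⁻¹)) ^ 2 = 1 → w * (q * w * q⁻¹) ≠ 1 → ∀ r : Perm (Fin 4), r * r = 1 →
    r * q * r⁻¹ = q⁻¹ → w * (r * w * r⁻¹) ≠ 1 → w * (q * r * w * (q * r)⁻¹) ≠ 1 →
    (r * w) ^ 3 = 1 ∧ (q * r * w) ^ 3 = 1 ∧ (q * r * w) ^ 2 ≠ 1 ∧
      (q * w * q⁻¹ * (r * w) ^ 2 * (q * w * q⁻¹)⁻¹ * (q * r * w) ^ 2 = 1 ∨
        q * w * q⁻¹ * (r * w) ^ 2 * (q * w * q⁻¹)⁻¹ * ((q * r * w) ^ 2)⁻¹ = 1) := by
  decide +kernel

set_option synthInstance.maxSize 1000 in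
theorem s4_c8 : ∀ w : Perm (Fin 4), w * w = 1 → ∀ a : Perm (Fin 4), a ^ 4 = 1 →
    (w * (a ^ 2 * w * (a ^ 2)⁻¹)) ^ 2 = 1 → w * (a * w * a⁻¹) ≠ 1 →
    w * (a ^ 2 * w * (a ^ 2)⁻¹) ≠ 1 → (a * w) ^ 3 = 1 := by
  decide +kernel

theorem Nse22.card_mod [Finite G] (h : Nse22 G) {p : ℕ} (hp : p = 7 ∨ p = 11) {e : G}
    (he : orderOf e = p) {K : Subgroup G} (hK : e ∈ N K) (h1 : ¬ p ∣ Nat.card K) :
    Nat.card K ≡ 1 [MOD p] := by
  have h2 : p.Prime := by rcases hp with rfl | rfl <;> norm_num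
  have h3 := card_modEq_C1 h2 (he ▸ pow_orderOf_eq_one e) hK
  rwa [show Nat.card ↥(K ⊓ C1 e) = 1 from by
    by_contra h4
    obtain ⟨q, hq, h5⟩ := Nat.exists_prime_and_dvd h4
    obtain ⟨u, hu, rfl⟩ := exists_ord hq h5
    have h6 : (orderOf u).Coprime p := (Nat.coprime_primes hq h2).2 fun e =>
      h1 (e ▸ K.orderOf_dvd_natCard hu.1)
    have h7 := h.ord (u * e)
    rw [orderOf_mul_C1 hu.2 (he ▸ h6), he] at h7
    exact hq.ne_one ((by decide : ∀ p ∈ [7, 11], ∀ n ∈ ({1, 2, 3, 4, 5, 6, 7, 8, 11} : Finset ℕ),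
      n * p ∈ ({1, 2, 3, 4, 5, 6, 7, 8, 11} : Finset ℕ) → n = 1) p (by simpa using hp) _
      (h.ord u) h7)] at h3

namespace Dat2

variable [Finite G] {M W P T : Subgroup G} {x y q r : G} (d : Dat2 M W P T x y q r)
  (h : Nse22 G) {w : G} (hw : w ∈ W) (w1 : w ≠ 1) (hz : w ∈ C1 (q * q))
include d

theorem mem_Cz {t : G} (ht : t ∈ T) : t ∈ C1 (q * q) := by
  obtain ⟨m, hm⟩ := d.ctx.bas.exists_acts fun v hv => conj_mem_of_mem_N (d.TN ht) hv
  have zT := mul_mem d.qT d.qT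
  exact mem_C1.2 (d.eq_acts (mul_mem ht zT) (mul_mem zT ht) (d.ctx.bas.mul hm d.actz)
    (M4.neg_comm m ▸ d.ctx.bas.mul d.actz hm))

theorem x_not : x ∉ C1 (q * q) := fun e => d.not_inv d.zx (mem_C1_comm.1 e)

include hw

theorem adj_sq : (w * (q * w * q⁻¹)) ^ 2 = 1 :=
  sq_mul_of_comm (d.ctx.sq_W d.hW hw) (d.ctx.sq_W (d.hW.cjj (d.TN d.qT)) (conj_mem_cj.2 hw))
    (d.adj (conj_mem_cj.2 hw) w hw)

include w1

theorem ww_ne : w * (q * w * q⁻¹) ∈ P ∧ w * (q * w * q⁻¹) ≠ 1 :=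
  ⟨mul_mem (d.WP hw) (conj_mem_of_mem_N d.qN (d.WP hw)), fun e => w1 (mem_bot.1 (d.inf_q ▸
    mem_inf.2 ⟨hw, eq_inv_of_mul_eq_one_left e ▸ inv_mem (conj_mem_cj.2 hw)⟩))⟩

include h hz

theorem actr' : Acts x y r (2, 1, 1, 1) := d.actr.resolve_right fun hr => by
  obtain ⟨E, φ, hφ, e1, e2, e3, e4, e5⟩ := d.exists_E h hw w1 hz
  obtain ⟨a, ha⟩ : ∃ a, a = r * (q * q) := ⟨_, rfl⟩
  have aT : a ∈ T := ha ▸ mul_mem d.rT (mul_mem d.qT d.qT)
  have acta : Acts x y a (1, 2, 1, 1) := ha ▸ d.ctx.bas.mul hr d.actz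
  have a4 : a ^ 4 = q * q :=
    d.eq_acts (pow_mem aT 4) (mul_mem d.qT d.qT) (d.ctx.bas.pow acta 4) d.actz
  have a2 : a ^ 2 * w * (a ^ 2)⁻¹ = q * w * q⁻¹ := by
    have a3 : a ^ 2 = q * (q * q) := d.eq_acts (pow_mem aT 2) (mul_mem d.qT (mul_mem d.qT d.qT))
      (show Acts x y (a ^ 2) (0, 1, 2, 0) from d.ctx.bas.pow acta 2) (d.ctx.bas.mul d.actq d.actz)
    rw [a3]
    conv_rhs => rw [← mem_C1_iff_conj'.1 hz]
    simp only [mul_inv_rev, mul_assoc]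
  have key := s4_c8 (φ ⟨w, hz⟩) (by rw [← map_mul, hφ]; change w * w ∈ E; rw [d.ctx.sq_W d.hW hw]; exact one_mem E)
    (φ ⟨a, d.mem_Cz aT⟩) (by rw [← map_pow, hφ]; change a ^ 4 ∈ E; rw [a4]; exact e3)
    (by
      simp only [← map_pow, ← map_mul, ← map_inv, hφ]
      change (w * (a ^ 2 * w * (a ^ 2)⁻¹)) ^ 2 ∈ E
      rw [a2, d.adj_sq hw]
      exact one_mem E)
    (by
      simp only [← map_pow, ← map_mul, ← map_inv, ne_eq, hφ]
      exact fun e => d.nonadj (d.TN aT) acta (k := 3) (by decide) (by decide) (by decide) hw w1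
        (e2 _ e))
    (by
      simp only [← map_pow, ← map_mul, ← map_inv, ne_eq, hφ]
      change ¬ w * (a ^ 2 * w * (a ^ 2)⁻¹) ∈ E
      rw [a2]
      exact fun e => (d.ww_ne hw w1).2 (e5 _ (d.ww_ne hw w1).1 e))
  rw [← map_mul, ← map_pow, hφ] at key
  suffices hs : Sat (vals x y a w 1) M22.rels8 from d.x_not (by
    simpa [sval, vals] using mem_of_tgt hs (H := C1 (q * q)) (by
      simpa [M22.subs8, sval, vals] using ⟨d.mem_Cz aT, hz⟩) M22.c8_c M22.c8_t)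
  refine ⟨rfl, ?_⟩
  have r1 := d.ctx.bas.x3
  have r2 := d.ctx.bas.y3
  have r3 := d.ctx.bas.xy.eq
  have r4 : a ^ 8 = 1 := pow_card_eq d.T8 aT
  have r5 : a * x * a⁻¹ = x * y ^ 2 := by simpa [el] using acta.1
  have r6 : a * y * a⁻¹ = x * y := by simpa [el] using acta.2
  have r7 := d.ctx.sq_W d.hW hw
  have r8 := mem_C1.1 (d.oW.le hw)
  have r9 := (d.ctx.four_cases d.hW hw d.ctx.bas.yV (d.ctx.not_mem_y d.hW d.oW.le hw w1)).1
  have r10 := mem_C1.1 hz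
  have r11 := d.adj_sq hw
  have r12 : (a * w) ^ 3 * (a * w) ^ 3 = 1 := e2 _ key
  rw [← a4] at r10
  rw [← a2] at r11
  rw [← mul_inv_eq_one] at r3 r5 r6 r8 r10
  clear ha a2 a4 key
  simp only [M22.rels8, List.mem_cons, List.not_mem_nil, or_false, forall_eq_or_imp, forall_eq,
    wval_cons, wval_nil, mul_one, sval, vals]
  simp only [pow_succ, pow_zero, one_mul, mul_assoc, mul_inv_rev, inv_inv] at *
  exact ⟨r1, r2, r3, r4, r5, r6, r7, r8, r9, r10, r11, r12⟩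

theorem subs_mem : ∀ t ∈ M22.subs, wval (vals x y q r w) t ∈ C1 (q * q) := by
  simpa [M22.subs, sval, vals] using ⟨d.mem_Cz d.qT, d.mem_Cz d.rT, hz⟩

theorem sat : Sat (vals x y q r w) (M22.rels ++ [M22.exM]) := by
  obtain ⟨E, φ, hφ, e1, e2, e3, e4, e5⟩ := d.exists_E h hw w1 hz
  have hr := d.actr' h hw w1 hz
  have r12 : r * r = q * q :=
    d.eq_acts (mul_mem d.rT d.rT) (mul_mem d.qT d.qT) (d.ctx.bas.mul hr hr) d.actz
  have r13 : r * q * r⁻¹ = q⁻¹ := by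
    rw [mul_inv_eq_iff_eq_mul, eq_inv_mul_iff_mul_eq]
    exact d.eq_acts (mul_mem d.qT (mul_mem d.rT d.qT)) d.rT
      (d.ctx.bas.mul d.actq (d.ctx.bas.mul hr d.actq)) hr
  have qz := d.mem_Cz d.qT
  have rz := d.mem_Cz d.rT
  obtain ⟨k1, k2, k3, k4⟩ := s4_q8 (φ ⟨w, hz⟩)
    (by rw [← map_mul, hφ]; change w * w ∈ E; rw [d.ctx.sq_W d.hW hw]; exact one_mem E) (φ ⟨q, qz⟩)
    (by rw [← map_mul, hφ]; exact e3)
    (by
      simp only [← map_pow, ← map_mul, ← map_inv, hφ]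
      change (w * (q * w * q⁻¹)) ^ 2 ∈ E
      rw [d.adj_sq hw]
      exact one_mem E)
    (by
      simp only [← map_pow, ← map_mul, ← map_inv, ne_eq, hφ]
      exact fun e => (d.ww_ne hw w1).2 (e5 _ (d.ww_ne hw w1).1 e))
    (φ ⟨r, rz⟩) (by rw [← map_mul, hφ]; change r * r ∈ E; rw [r12]; exact e3)
    (by
      simp only [← map_mul, ← map_inv]
      exact congrArg φ (Subtype.ext r13))
    (by
      simp only [← map_pow, ← map_mul, ← map_inv, ne_eq, hφ]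
      exact fun e => d.nonadj (d.TN d.rT) hr (k := 3) (by decide) (by decide) (by decide) hw w1
        (e2 _ e))
    (by
      simp only [← map_pow, ← map_mul, ← map_inv, ne_eq, hφ]
      exact fun e => d.nonadj (d.TN (mul_mem d.qT d.rT)) (d.ctx.bas.mul d.actq hr) (k := 2)
        (by decide) (by decide) (by decide) hw w1 (e2 _ e))
  simp only [← map_pow, ← map_mul, ← map_inv, ne_eq, hφ] at k1 k2 k3 k4
  replace k1 : (r * w) ^ 3 ∈ E := k1
  replace k2 : (q * r * w) ^ 3 ∈ E := k2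
  replace k3 : (q * r * w) ^ 2 ∉ E := k3
  have hs : Sat (vals x y q r w) M22.rels := by
    refine ⟨rfl, ?_⟩
    have r1 := d.ctx.bas.x3
    have r2 := d.ctx.bas.y3
    have r3 := d.ctx.bas.xy.eq
    have r4 : q * x * q⁻¹ = y⁻¹ := d.actq.1.trans d.ctx.bas.el_zero_two
    have r5 : q * y * q⁻¹ = x := d.actq.2.trans (el_one_zero x y)
    have r6 := d.z2
    have r7 := d.ctx.sq_W d.hW hw
    have r8 := mem_C1.1 (d.oW.le hw)
    have r9 := (d.ctx.four_cases d.hW hw d.ctx.bas.yV (d.ctx.not_mem_y d.hW d.oW.le hw w1)).1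
    have r10 := mem_C1.1 hz
    have r11 := d.adj_sq hw
    have r14 : r * x * r⁻¹ = x ^ 2 * y := by simpa [el] using hr.1
    have r15 : r * y * r⁻¹ = x * y := by simpa [el] using hr.2
    have r16 := e2 _ k1
    have r17 := e2 _ k2
    rw [← mul_inv_eq_one] at r3 r4 r5 r8 r10 r12 r13 r14 r15
    clear k1 k2 k3 k4
    simp only [M22.rels, List.mem_cons, List.not_mem_nil, or_false, forall_eq_or_imp, forall_eq,
      wval_cons, wval_nil, mul_one, sval, vals]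
    simp only [pow_succ, pow_zero, one_mul, mul_assoc, mul_inv_rev, inv_inv] at *
    exact ⟨r1, r2, r3, r4, r5, r6, r7, r8, r9, r10, r11, r12, r13, r14, r15, r16, r17⟩
  have ex : ∀ t, wval (vals x y q r w) t = 1 → Sat (vals x y q r w) (M22.rels ++ [t]) :=
    fun t e => ⟨rfl, fun u hu => (List.mem_append.1 hu).elim (hs.2 u)
      fun e2 => List.mem_singleton.1 e2 ▸ e⟩
  have no : ∀ {t C p}, CfsgH9.allLt C.nfacts (checkFact ((M22.rels ++ [t]) ++ trivRels 5) M22.subs C)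
      = true → checkTgt C p [2] = true → wval (vals x y q r w) t ≠ 1 := fun h1 h2 e =>
    d.x_not (by simpa [sval, vals] using mem_of_tgt (ex _ e) (d.subs_mem h hw w1 hz) h1 h2)
  have n1 : (r * w) ^ 3 ≠ 1 := by
    simpa [M22.ex1, sval, vals, pow_succ, mul_assoc] using no M22.c1_c M22.c1_t
  have n2 : (r * w) ^ 3 * (q * q) ≠ 1 := by
    simpa [M22.ex2, sval, vals, pow_succ, mul_assoc] using no M22.c2_c M22.c2_t
  have n3 : (q * r * w) ^ 3 ≠ 1 := by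
    simpa [M22.ex3, sval, vals, pow_succ, mul_assoc] using no M22.c3_c M22.c3_t
  have n4 : (q * r * w) ^ 3 * (q * q) ≠ 1 := by
    simpa [M22.ex4, sval, vals, pow_succ, mul_assoc] using no M22.c4_c M22.c4_t
  have n5 : q * w * q⁻¹ * (r * w) ^ 3 * (q * w * q⁻¹) * (q * r * w) ^ 3 ≠ 1 := by
    simpa [M22.ex5, sval, vals, pow_succ, mul_assoc] using no M22.c5_c M22.c5_t
  suffices e : q * w * q⁻¹ * (r * w) ^ 3 * (q * w * q⁻¹) * (q * r * w) ^ 3 * (q * q) = 1 from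
    ex _ (by simpa [M22.exM, sval, vals, pow_succ, mul_assoc] using e)
  have vz : q * w * q⁻¹ ∈ C1 (q * q) := Nrm.self _ q qz w hz
  have v2 : (q * w * q⁻¹)⁻¹ = q * w * q⁻¹ :=
    inv_eq_of_mul_eq_one_right (d.ctx.sq_W (d.hW.cjj (d.TN d.qT)) (conj_mem_cj.2 hw))
  have gz : q * r * w ∈ C1 (q * q) := mul_mem (mul_mem qz rz) hz
  have f1 : q * w * q⁻¹ * (r * w) ^ 3 * (q * w * q⁻¹)⁻¹ ∈ E := by
    have := (hφ (⟨_, vz⟩ * (⟨r, rz⟩ * ⟨w, hz⟩) ^ 3 * (⟨_, vz⟩ : C1 (q * q))⁻¹)).1 (by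
      rw [map_mul, map_mul, (hφ ((⟨r, rz⟩ * ⟨w, hz⟩) ^ 3)).2 k1]; simp)
    exact this
  replace k4 : q * w * q⁻¹ * (r * w) ^ 2 * (q * w * q⁻¹)⁻¹ * (q * r * w) ^ 2 ∈ E ∨
    q * w * q⁻¹ * (r * w) ^ 2 * (q * w * q⁻¹)⁻¹ * ((q * r * w) ^ 2)⁻¹ ∈ E := k4
  generalize q * w * q⁻¹ = v at *
  generalize q * r * w = g at *
  generalize r * w = u at *
  have z1 := d.z1
  have z2 := d.z2
  generalize q * q = z at *
  have f2 : v * u ^ 2 * v⁻¹ ∈ C1 (v * u ^ 3 * v⁻¹) := mem_C1.2 (by group)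
  have f3 : v * u ^ 3 * v⁻¹ ∈ E ⊓ C1 (g ^ 2) := ⟨f1, mem_C1_comm.1 (k4.elim
    (fun e => by
      simpa [mul_assoc] using (C1 _).mul_mem ((C1 _).inv_mem f2) (mem_C1.2 (e1.comm e f1)))
    fun e => by
      simpa [mul_assoc] using (C1 _).mul_mem ((C1 _).inv_mem (mem_C1.2 (e1.comm e f1))) f2)⟩
  have zi := inv_eq_of_mul_eq_one_right z2
  rcases eq_of_four_mem (h.card_two_le (orderOf_three (by rw [← pow_mul, ← e2 _ k2, ← pow_add])
    fun e => k3 (by rw [e]; exact one_mem E)) _ inf_le_right e4.to_inf_left) (a := g ^ 3) (b := z)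
    ⟨k2, mem_C1.2 (by group)⟩ ⟨e3, mem_C1_comm.1 (pow_mem gz 2)⟩ n3 z1
    (fun e => n4 (by rw [e, z2])) n4 f3 with e | e | e | e
  · exact absurd (conj_eq_one_iff.1 e) n1
  · rw [v2] at e
    exact absurd (by rw [e, e2 _ k2]) n5
  · refine absurd ?_ n2
    rw [← mem_C1_iff_conj.1 vz, mul_left_inj, mul_right_inj] at e
    rw [e, z2]
  · rw [v2] at e
    rw [e, mul_assoc, mul_assoc, mem_C1.1 (pow_mem gz 3), ← mul_assoc z, z2, one_mul, e2 _ k2]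

theorem gen : Gen 5 (vals x y q r w) = ⊤ := by
  obtain ⟨K, hK⟩ : ∃ K, K = Gen 5 (vals x y q r w) := ⟨_, rfl⟩
  have m : ∀ i, 1 ≤ i → i ≤ 5 → vals x y q r w i ∈ K := fun i => hK ▸ mem_Gen _
  have mx : x ∈ K := m 1 (by norm_num) (by norm_num)
  have my : y ∈ K := m 2 (by norm_num) (by norm_num)
  have mq : q ∈ K := m 3 (by norm_num) (by norm_num)
  have mr : r ∈ K := m 4 (by norm_num) (by norm_num)
  have mw : w ∈ K := m 5 (by norm_num) (by norm_num)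
  have mM : M ≤ K := d.ctx.bas.le mx my
  have mW : W ≤ K := inf_eq_left.1 (d.ctx.eq_of_le d.hW (d.hW.nrm.inf (Nrm.of_le mM)) inf_le_left
    fun e => w1 (mem_bot.1 (e ▸ mem_inf.2 ⟨hw, mw⟩)))
  have hr := d.actr' h hw w1 hz
  have M9 := d.ctx.bas.card
  have q4 : Nat.card (zpowers q) = 4 := by
    haveI := Fact.mk Nat.prime_two
    rw [Nat.card_zpowers, orderOf_eq_prime_pow (p := 2) (n := 1) (by rw [pow_one, pow_two]; exact d.z1)
      (by rw [← d.z2]; simp [pow_succ, mul_assoc])]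
    rfl
  have c1 : N M ≤ K := by
    have h1 := card_lt_of_lt (show zpowers q < T ⊓ K from SetLike.lt_iff_le_and_exists.2
      ⟨zpowers_le.2 ⟨d.qT, mq⟩, r, mem_inf.2 ⟨d.rT, mr⟩, fun e => absurd (d.ctx.bas.unique
        (d.ctx.bas.mul hr d.actq) (mem_C1.1 (C1_le_C1_of_mem_zpowers e (self_mem_C1 q)) ▸
          d.ctx.bas.mul d.actq hr)) (by decide)⟩)
    have h2 := d.T8 ▸ card_dvd_of_le (inf_le_left : T ⊓ K ≤ T)
    exact inf_eq_left.1 (eq_of_le_of_card_dvd inf_le_left (by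
      rw [h.card_NM M9]
      exact cdvd (((by decide : ∀ n ∈ Nat.divisors 8, 4 < n → 8 ∣ n) _
        (Nat.mem_divisors.2 ⟨h2, by norm_num⟩) (q4 ▸ h1)).trans
        (card_dvd_of_le (inf_le_inf_right K d.TN))) (M9 ▸ card_dvd_of_le (le_inf (le_N M) mM))))
  have c2 : 64 ∣ Nat.card K := by
    have h1 := card_dvd_of_le (sup_le (d.P_eq ▸ sup_le mW (cj_le_of_le mW mq)) (zpowers_le.2 mq))
    rwa [card_sup_of_inf_eq_bot (Or.inr (nrm_zpowers_iff.2 d.qN)) (eq_bot_iff.2 fun u hu => by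
      by_contra u1
      exact d.ctx.not_cent d.hW (h.inv_of_two d.ctx.bas d.TN d.T8 (zpowers_le.2 d.qT hu.2)
        (d.sqP hu.1) u1) (d.hP.le hu.1)), d.c16, q4] at h1
  have c3 : ∀ p n t, p.Prime → n ∈ N M → wval (vals x y q r w) t = (w * (r * w * r⁻¹) * n) ^ p →
      (∃ a, checkTgt M22.cM a ([] ++ t ++ []) = true) →
      (∃ a, checkTgt M22.cM a ([3] ++ t ++ [2]) = true) →
      (∃ a, checkTgt M22.cM a ([5] ++ t ++ [4]) = true) → p ∣ Nat.card K := by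
    rintro p n t hp hn e ⟨_, a1⟩ ⟨_, a2⟩ ⟨_, a3⟩
    haveI := Fact.mk hp
    have b1 := mem_of_tgt (d.sat h hw w1 hz) (d.subs_mem h hw w1 hz) M22.cM_c a1
    have b2 := mem_of_tgt (d.sat h hw w1 hz) (d.subs_mem h hw w1 hz) M22.cM_c a2
    have b3 := mem_of_tgt (d.sat h hw w1 hz) (d.subs_mem h hw w1 hz) M22.cM_c a3
    simp only [wval_append, e, wval_cons, wval_nil, mul_one, one_mul, sval, vals] at b1 b2 b3
    rw [← orderOf_eq_prime (d.ctx.eq_one_of_fix d.zinv b1 b2 b3) fun e1 => w1 ?_]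
    · exact K.orderOf_dvd_natCard (mul_mem (mul_mem mw (Nrm.self K r mr w mw)) (c1 hn))
    · have h1 := ln_mem d.ctx.bas 3
      have h2 : w * (r * w * r⁻¹) ∈ N M := eq_inv_of_mul_eq_one_left e1 ▸ inv_mem hn
      have h3 := M.mul_mem h1 (conj_mem_of_mem_N h2 (M.inv_mem h1))
      have h4 := mem_C1_iff_conj.1 ((C1_inv _).ge (d.le_ln hr (k := 3) (by decide) (conj_mem_cj.2 hw)))
      refine d.ctx.eq_one_of_ln d.hW (k := 0) (l := 3) (by decide) d.W0 hw (mem_C1_iff_conj'.2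
        (mul_inv_eq_one.1 (mem_bot.1 (inf_two_eq_bot d.ctx.bas d.hW.pg ▸ mem_inf.2
          ⟨W.mul_mem (d.hW.nrm _ h1 w hw) (W.inv_mem hw), ?_⟩))))
      convert h3 using 1
      generalize r * w * r⁻¹ = v at *
      calc _ = ln x y 3 * w * (v * (ln x y 3)⁻¹ * v⁻¹) * w⁻¹ := by rw [h4]
        _ = _ := by group
  have xN := le_N M d.ctx.bas.xV
  have c5 := c3 5 y M22.g5 (by norm_num) (le_N M d.ctx.bas.yV)
    (by simp [M22.g5, sval, vals, pow_succ, mul_assoc]) ⟨_, M22.t5_0⟩ ⟨_, M22.t5_1⟩ ⟨_, M22.t5_2⟩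
  have c7 := c3 7 (x * q⁻¹) M22.g7 (by norm_num) (mul_mem xN (inv_mem (d.TN d.qT)))
    (by simp [M22.g7, sval, vals, pow_succ, mul_assoc]) ⟨_, M22.t7_0⟩ ⟨_, M22.t7_1⟩ ⟨_, M22.t7_2⟩
  have c11 := c3 11 (x * q) M22.g11 (by norm_num) (mul_mem xN (d.TN d.qT))
    (by simp [M22.g11, sval, vals, pow_succ, mul_assoc]) ⟨_, M22.t11_0⟩ ⟨_, M22.t11_1⟩
    ⟨_, M22.t11_2⟩
  obtain ⟨k, hk⟩ := cdvd (cdvd (cdvd (cdvd c2 (M9 ▸ card_dvd_of_le mM)) c5) c7) c11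
  have c4 := h.card ▸ card_subgroup_dvd_card K
  have c6 := sylIn_modEq Nat.prime_three ((h.syl3 M9).of_le mM le_top)
  rw [relIndex_eq_of_mul (n := 3080 * k) c1 (by rw [h.card_NM M9, hk]; ring)] at c6
  rw [hk] at c4
  rcases (Nat.dvd_prime Nat.prime_two).1 (Nat.dvd_of_mul_dvd_mul_left (by norm_num)
    (show 64 * 9 * 5 * 7 * 11 * k ∣ 64 * 9 * 5 * 7 * 11 * 2 from c4)) with rfl | rfl
  · exact absurd c6 (by decide)
  · exact hK ▸ eq_top_of_card_eq K (by rw [hk, h.card])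

end Dat2

theorem Nse22.exists_pres [Finite G] (h : Nse22 G) : ∃ (v : ℕ → G) (z : G),
    Sat v (M22.rels ++ [M22.exM]) ∧ Gen 5 v = ⊤ ∧ Nat.card (C1 z) = 384 ∧
      ∀ t ∈ M22.subs, wval v t ∈ C1 z := by
  obtain ⟨M, W, P, T, x, y, q, r, d⟩ := h.exists_dat
  obtain ⟨w, hw, w1, hz, -⟩ := d.ctx.exists_fix d.hW d.zinv d.z2 d.zN
  exact ⟨_, _, d.sat h hw w1 hz, d.gen h hw w1 hz, h.card_C2 (orderOf_two d.z2 d.z1),
    d.subs_mem h hw w1 hz⟩

theorem Nse22.equiv {G' : Type*} [Group G'] [Finite G] [Finite G'] (h : Nse22 G) (h' : Nse22 G') :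
    Nonempty (G ≃* G') := by
  obtain ⟨v, z, h1, h2, h3, h4⟩ := h.exists_pres
  obtain ⟨v', z', h1', h2', h3', h4'⟩ := h'.exists_pres
  refine equiv_of_index h1 h1' h2 h2' h4 h4' (by decide) M22.cM_c M22.cM_f
    (h.card.trans h'.card.symm) fun L hL h5 => ?_
  have h6 := (C1 z).card_mul_index
  rw [h3, h.card] at h6
  rw [show (C1 z).index = 1155 by omega] at h5
  change _ ≤ 2310 at h5
  have h7 := relIndex_pos (C1 z') L
  have h8 : Nat.card L ∣ 384 * 2 := by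
    rw [← card_inf_mul_relIndex (C1 z') L]
    refine Nat.mul_dvd_mul (h3' ▸ card_dvd_of_le inf_le_left) ?_
    have : (C1 z').relIndex L = 1 ∨ (C1 z').relIndex L = 2 := by omega
    rcases this with e | e <;> simp [e]
  have h9 : ∀ p, p = 7 ∨ p = 11 → Nat.card L ≡ 1 [MOD p] := fun p hp => by
    obtain ⟨e, -, he⟩ := exists_ord (p := p) (K := (⊤ : Subgroup G'))
      (by rcases hp with rfl | rfl <;> norm_num)
      (by rw [card_top, h'.card]; rcases hp with rfl | rfl <;> norm_num)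
    exact h'.card_mod hp he ((Nrm.of_normal ⊤ L).le_N trivial) fun e =>
      absurd (e.trans h8) (by rcases hp with rfl | rfl <;> norm_num)
  exact card_eq_one_iff.1 ((by decide +kernel : ∀ n ∈ Nat.divisors (384 * 2), n ≡ 1 [MOD 7] →
    n ≡ 1 [MOD 11] → n = 1) _ (Nat.mem_divisors.2 ⟨h8, by norm_num⟩) (h9 7 (by simp))
    (h9 11 (by simp)))

end CfsgH8.Mat
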