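import Cfsg.Agent.H8.MatLocB

set_option autoImplicit false

/-! Recognition of `M23` from the order statistics: centralizers of elements of prime order. -/

namespace CfsgH8.Mat

open Subgroup Finset CfsgH5 CfsgH6 CfsgFT

variable {G : Type*} [Group G]

theorem card_filter_ord [Fintype G] (n : ℕ) :
    #(univ.filter fun x : G => orderOf x = n) = nord G n := by
  rw [nord, Nat.card_eq_fintype_card, Fintype.card_subtype]

attribute [local irreducible] nord

theorem cdvd {a b n : ℕ} (ha : a ∣ n) (hb : b ∣ n) (h : a.Coprime b := by norm_num) : a * b ∣ n :=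
  h.mul_dvd_of_dvd_of_dvd ha hb

theorem class_le_sum [Fintype G] (F : G → ℕ) (hF : ∀ x g, F (g * x * g⁻¹) = F x) (z : G) :
    (C1 z).index * F z ≤ ∑ x ∈ univ.filter (fun x : G => orderOf x = orderOf z), F x := by
  classical
  rw [← sum_class F hF]
  refine sum_le_sum_of_subset fun x hx => mem_filter.2 ⟨mem_univ _, ?_⟩
  obtain ⟨g, rfl⟩ := isConj_iff.1 (mem_filter.1 hx).2
  exact orderOf_conj' _ _

theorem sum_inv [Fintype G] : ∑ x ∈ univ.filter (fun x : G => orderOf x = 3),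
    (1 + nord (C1 x) 2) = nord G 3 + nord G 6 := by
  rw [sum_add_distrib, ← nord_mul_coprime (by norm_num), ← card_eq_sum_ones, card_filter_ord]

theorem dvd_index_inv [Finite G] (h1 : 2 ^ 7 ∣ Nat.card G) (h2 : ¬ 2 ^ 8 ∣ Nat.card G)
    {H : Subgroup G} (h : ∀ u ∈ H, ∀ k, u ^ 2 ^ k = 1 → u * u = 1) :
    128 ∣ H.index * (1 + nord H 2) := by
  have h1 := dvd_index_mul (p := 2) (a := 7) Nat.prime_two h1 h2 H
  have h2 : ∀ j, nord H (2 ^ (j + 1 + 1)) = 0 := fun j => nord_eq_zero_iff.2 fun u hu => by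
    have h3 := h u u.2 (j + 1 + 1) (by rw [← hu, ← orderOf_coe, pow_orderOf_eq_one])
    have h4 : orderOf u.1 ∣ 2 ^ 1 := orderOf_dvd_of_pow_eq_one (by rw [pow_one, pow_two, h3])
    rw [orderOf_coe, hu, Nat.pow_dvd_pow_iff_le_right (by norm_num)] at h4
    omega
  rwa [sum_range_succ', sum_range_succ', sum_eq_zero fun j _ => h2 j, zero_add, zero_add, pow_one,
    pow_zero, nord_one, add_comm] at h1

theorem dvd_index_of_not [Finite G] {p : ℕ} (hp : p.Prime) (h1 : p ∣ Nat.card G) {H : Subgroup G}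
    (h : ¬ p ∣ Nat.card H) : p ∣ H.index :=
  ((Nat.Prime.dvd_mul hp).1 (H.card_mul_index ▸ h1)).resolve_left h

theorem nord_six [Fintype G] {x : G} (hx : orderOf x = 3)
    (h : ∀ t : G, orderOf t = 3 → ∃ g, g * x * g⁻¹ = t) :
    nord G 3 = (C1 x).index ∧ nord G 6 = nord G 3 * nord (C1 x) 2 := by
  refine ⟨hx ▸ nord_eq_index fun t ht => isConj_iff.2 (h t (ht.trans hx)), ?_⟩
  rw [show 6 = 3 * 2 from rfl, nord_mul_coprime (by norm_num), sum_const_nat (m := nord (C1 x) 2)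
    fun t ht => ?_, card_filter_ord]
  obtain ⟨g, rfl⟩ := h t (mem_filter.1 ht).2
  exact nord_cent_conj x g 2

theorem syl_nine [Finite G] {M : Subgroup G} (h1 : Nat.card M = 9) (h2 : ∀ g : G, orderOf g ≠ 9) :
    (∀ v ∈ M, v ^ 3 = 1) ∧ ∀ a ∈ M, ∀ b ∈ M, a * b = b * a := by
  haveI := Fact.mk Nat.prime_three
  refine ⟨fun v hv => ?_, fun a ha b hb => ?_⟩
  · have h3 := M.orderOf_dvd_natCard hv
    rw [h1, show 9 = 3 ^ 2 from rfl, Nat.dvd_prime_pow Nat.prime_three] at h3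
    obtain ⟨k, hk, e⟩ := h3
    rw [← orderOf_dvd_iff_pow_eq_one]
    interval_cases k
    · simp [e]
    · simp [e]
    · exact absurd e (h2 v)
  · letI := IsPGroup.commGroupOfCardEqPrimeSq (p := 3) (G := M) h1
    exact congrArg Subtype.val (mul_comm (⟨a, ha⟩ : M) ⟨b, hb⟩)

theorem relIndex_eight [Finite G] {M : Subgroup G} (hM : SylIn 3 M ⊤) (h1 : Nat.card M = 9)
    (h2 : ∀ g : G, orderOf g ≠ 9) {x : G} (hx : x ∈ M) (hx1 : x ≠ 1)
    (h : ∀ t : G, orderOf t = 3 → ∃ g, g * x * g⁻¹ = t) : (C1 x).relIndex (N M) = 8 ∧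
      ∀ m ∈ M, m ≠ 1 → ∃ g ∈ N M, g * x * g⁻¹ = m := by
  obtain ⟨h3, h4⟩ := syl_nine h1 h2
  have h5 : ∀ m ∈ M, m ≠ 1 → ∃ g ∈ N M, g * x * g⁻¹ = m := fun m hm hm1 => by
    obtain ⟨g, rfl⟩ := h m (orderOf_three (h3 m hm) hm1)
    obtain ⟨n, hn, e⟩ := hM.fusion_C Nat.prime_three (ab_iff.2 h4 hx) (mem_top g) (ab_iff.2 h4 hm)
    exact ⟨n, hn.2, e.symm⟩
  refine ⟨?_, h5⟩
  have h6 := card_ne_one M
  rw [← relIndex_C1_eq_of (H := N M) (a := x) fun b => ⟨fun hb => h5 b hb.1 hb.2, by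
    rintro ⟨g, hg, rfl⟩
    exact ⟨conj_mem_of_mem_N hg hx, by simpa using hx1⟩⟩] at h6
  omega

namespace Nse23

variable [Finite G] (h : Nse23 G)
include h

theorem ne_ord (n : ℕ) (hn : n ∉ ({1, 2, 3, 4, 5, 6, 7, 8, 11, 14, 15, 23} : Finset ℕ)) (g : G) :
    orderOf g ≠ n := fun e => hn (e ▸ h.ord g)

theorem not_dvd {v : G} {n : ℕ} (hv : orderOf v = n) (p : ℕ) {K : Subgroup G} (hK : K ≤ C1 v)
    (hp : p.Prime := by norm_num) (h2 : p.Coprime n := by norm_num)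
    (h3 : p * n ∉ ({1, 2, 3, 4, 5, 6, 7, 8, 11, 14, 15, 23} : Finset ℕ) := by decide) :
    ¬ p ∣ Nat.card K := by
  subst hv
  exact not_dvd_card_C1 hp hK h2 (h.ne_ord _ h3)

theorem dvd_idx {v : G} {n : ℕ} (hv : orderOf v = n) (p : ℕ) (hp : p.Prime := by norm_num)
    (h1 : p ∣ 10200960 := by norm_num) (h2 : p.Coprime n := by norm_num)
    (h3 : p * n ∉ ({1, 2, 3, 4, 5, 6, 7, 8, 11, 14, 15, 23} : Finset ℕ) := by decide) :
    p ∣ (C1 v).index := dvd_index_of_not hp (by rwa [h.card]) (h.not_dvd hv p le_rfl hp h2 h3)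

theorem pow30 {x g : G} (hx : orderOf x = 3) (hg : g ∈ C1 x) : g ^ 30 = 1 := by
  have h1 : (orderOf g).Coprime 3 → orderOf g * 3 ∈ _ := fun e => by
    have := h.ord (g * x)
    rwa [orderOf_mul_C1 hg (hx ▸ e), hx] at this
  have h2 := h.ord g
  rw [← orderOf_dvd_iff_pow_eq_one]
  exact (by decide : ∀ n ∈ ({1, 2, 3, 4, 5, 6, 7, 8, 11, 14, 15, 23} : Finset ℕ), (n.Coprime 3 →
    n * 3 ∈ ({1, 2, 3, 4, 5, 6, 7, 8, 11, 14, 15, 23} : Finset ℕ)) → n ∣ 30) _ h2 h1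

theorem sq3 {x : G} (hx : orderOf x = 3) (u : G) (hu : u ∈ C1 x) (k : ℕ) (e : u ^ 2 ^ k = 1) :
    u * u = 1 := by
  rw [← pow_two, ← orderOf_dvd_iff_pow_eq_one]
  exact Nat.Coprime.dvd_of_dvd_mul_right (n := 15) (Nat.Coprime.coprime_dvd_left
    (orderOf_dvd_of_pow_eq_one e) (Nat.Coprime.pow_left k (by norm_num)))
    (orderOf_dvd_of_pow_eq_one (h.pow30 hx hu))

theorem card_N5 {f : G} (hf : orderOf f = 5) : Nat.card (N (zpowers f)) = 60 := by
  have := card_N_zpowers Nat.prime_five (by rw [h.card]; norm_num) hf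
  rw [h.n5, h.card] at this
  omega

theorem card_C5 {f : G} (hf : orderOf f = 5) :
    Nat.card (C1 f) = 15 ∧ ∃ g ∈ N (zpowers f), g * f * g⁻¹ = f ^ 2 := by
  have h0 : Nat.card (zpowers f) = 5 := by rw [Nat.card_zpowers, hf]
  have h1 := relIndex_C_dvd_of_prime_card Nat.prime_five h0 (nrm_N _)
  have h2 := card_mul_relIndex (C_le_N (zpowers f))
  have h3 := h.not_dvd hf 2 le_rfl
  rw [C_zpowers] at h1 h2
  rw [h.card_N5 hf] at h2
  have h4 := Nat.le_of_dvd (by norm_num) h1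
  have h5 := card_ne_one (zpowers f)
  have h6 : (C1 f).relIndex (N (zpowers f)) = 4 := by
    generalize (C1 f).relIndex (N (zpowers f)) = r at *
    interval_cases r <;> omega
  rw [h6] at h2
  refine ⟨by omega, conj_of_le_relIndex (p := fun b => b ∈ zpowers f ∧ b ≠ 1) (fun g hg =>
    ⟨conj_mem_of_mem_N hg (mem_zpowers f), by simpa using ne_one_of_ord hf⟩) (by omega)
    ⟨pow_mem (mem_zpowers f) 2, pow_ne_one_of_lt_orderOf (by norm_num) (by omega)⟩⟩

theorem five_dvd {x : G} (hx : orderOf x = 3) : 5 ∣ Nat.card (C1 x) := by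
  by_contra h5
  have := Fintype.ofFinite G
  have h1 := class_le_sum (fun x : G => 1 + nord (C1 x) 2) (fun x g => by rw [nord_cent_conj]) x
  rw [hx, sum_inv, h.n3, h.n6] at h1
  have h2 := dvd_index_inv (by rw [h.card]; norm_num) (by rw [h.card]; norm_num) (h.sq3 hx)
  have h3 := (h.dvd_idx hx 7).mul_right (1 + nord (C1 x) 2)
  have h4 := (h.dvd_idx hx 11).mul_right (1 + nord (C1 x) 2)
  have h6 := (h.dvd_idx hx 23).mul_right (1 + nord (C1 x) 2)
  have h7 := (dvd_index_of_not Nat.prime_five (by rw [h.card]; norm_num) h5).mul_right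
    (1 + nord (C1 x) 2)
  have h8 : 0 < (C1 x).index * (1 + nord (C1 x) 2) :=
    Nat.mul_pos (Nat.pos_of_ne_zero index_ne_zero_of_finite) (Nat.add_pos_left one_pos _)
  exact absurd ((Nat.le_of_dvd h8 (cdvd (cdvd (cdvd (cdvd h2 h3) h4) h6) h7)).trans h1)
    (by norm_num)

theorem syl5 {f : G} (hf : orderOf f = 5) (H : Subgroup G) (hH : f ∈ H) :
    SylIn 5 (zpowers f) H :=
  (sylIn_of_card (k := 1) (m := 2040192) Nat.prime_five le_top (by rw [Nat.card_zpowers, hf]; rfl)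
    (by rw [card_top, h.card]; norm_num) (by norm_num)).of_le (zpowers_le.2 hH) le_top

theorem syl3_C5 {f x : G} (hf : orderOf f = 5) (hx : orderOf x = 3) (e : x ∈ C1 f) :
    SylIn 3 (zpowers x) (C1 f) :=
  sylIn_of_card (k := 1) (m := 5) Nat.prime_three (zpowers_le.2 e)
    (by rw [Nat.card_zpowers, hx]; rfl) (by rw [(h.card_C5 hf).1]; norm_num) (by norm_num)

theorem real3 {x : G} (hx : orderOf x = 3) : ∃ g, g * x * g⁻¹ = x⁻¹ := by
  haveI := Fact.mk Nat.prime_three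
  obtain ⟨f, hf, f5⟩ := exists_ord Nat.prime_five (h.five_dvd hx)
  obtain ⟨g, hg, e⟩ := (h.card_C5 f5).2
  obtain ⟨k, hk, e2⟩ := (h.syl3_C5 f5 hx (mem_C1_comm.1 hf)).frattini (g := g) (by
    rw [← C_zpowers, cj_C, mem_N.1 hg])
  have h1 : k * g * f * (k * g)⁻¹ = f ^ 2 := by
    rw [← mem_C1_iff_conj.1 (C1_le_C1_pow f 2 hk), ← e]
    group
  rcases mem_zpowers_three (hx ▸ pow_orderOf_eq_one x)
    (conj_mem_of_mem_N (mem_N.2 e2) (mem_zpowers x)) with e3 | e3 | e3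
  · exact absurd (conj_eq_one_iff.1 e3) (ne_one_of_ord hx)
  · generalize k * g = u at *
    have h2 : ∀ n, u ^ n * f * (u ^ n)⁻¹ = f ^ 2 ^ n := fun n => by
      induction n with
      | zero => simp
      | succ n ih =>
        rw [pow_succ' 2, pow_mul, ← h1, conj_pow, ← ih]
        group
    have h3 := h2 30
    rw [h.pow30 hx (mem_C1_iff_conj.2 e3), one_mul, inv_one, mul_one, ← pow_one f, ← pow_mul,
      pow_eq_pow_iff_modEq, f5] at h3
    exact absurd h3 (by decide)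
  · exact ⟨_, e3⟩

theorem conj3 {x : G} (hx : orderOf x = 3) (t : G) (ht : orderOf t = 3) :
    ∃ g, g * x * g⁻¹ = t := by
  haveI := Fact.mk Nat.prime_three
  haveI := Fact.mk Nat.prime_five
  obtain ⟨f, hf, f5⟩ := exists_ord Nat.prime_five (h.five_dvd hx)
  obtain ⟨f', hf', f5'⟩ := exists_ord Nat.prime_five (h.five_dvd ht)
  obtain ⟨g, -, e⟩ := (h.syl5 f5 ⊤ trivial).conj (h.syl5 f5' ⊤ trivial)
  obtain ⟨k, -, e2⟩ := (h.syl3_C5 f5' ((orderOf_conj' g x).trans hx) (by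
    rw [← C_zpowers, ← e, ← cj_C, conj_mem_cj, C_zpowers]
    exact mem_C1_comm.1 hf)).conj (h.syl3_C5 f5' ht (mem_C1_comm.1 hf'))
  have h1 : k * (g * x * g⁻¹) * k⁻¹ ∈ zpowers t := e2 ▸ conj_mem_cj.2 (mem_zpowers _)
  rcases mem_zpowers_three (ht ▸ pow_orderOf_eq_one t) h1 with e3 | e3 | e3
  · exact absurd (by simpa using e3) (ne_one_of_ord hx)
  · exact ⟨k * g, by rw [← e3]; group⟩
  · obtain ⟨r, e4⟩ := h.real3 hx
    exact ⟨k * g * r, by rw [← inv_inv t, ← e3, mul_assoc, mul_assoc, mul_inv_rev (k * g),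
      ← mul_assoc x, ← mul_assoc r, ← mul_assoc r, e4]; group⟩

theorem card_C3 {x : G} (hx : orderOf x = 3) : Nat.card (C1 x) = 180 ∧ nord (C1 x) 2 = 15 := by
  have := Fintype.ofFinite G
  obtain ⟨h1, h2⟩ := nord_six hx (h.conj3 hx)
  have h3 := (C1 x).card_mul_index
  rw [← h1, h.n3, h.card] at h3
  rw [h.n3, h.n6] at h2
  omega

theorem card_syl3 {M : Subgroup G} (hM : SylIn 3 M ⊤) : Nat.card M = 9 :=
  card_of_sylIn (k := 2) (m := 1133440) Nat.prime_three hM (by rw [card_top, h.card]; norm_num)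
    (by norm_num)

theorem syl3 {M : Subgroup G} (hM : Nat.card M = 9) : SylIn 3 M ⊤ :=
  sylIn_of_card (k := 2) (m := 1133440) Nat.prime_three le_top hM
    (by rw [card_top, h.card]; norm_num) (by norm_num)

theorem card_NM {M : Subgroup G} (hM : Nat.card M = 9) {x : G} (hx : x ∈ M) (hx1 : x ≠ 1) :
    Nat.card ↥(N M ⊓ C1 x) = 18 ∧ Nat.card (N M) = 144 := by
  obtain ⟨h1, h2⟩ := syl_nine hM (h.ne_ord _ (by decide))
  have x3 := orderOf_three (h1 x hx) hx1
  have h3 : M ≤ C1 x := fun m hm => mem_C1.2 (h2 m hm x hx)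
  have h4 := sylIn_modEq Nat.prime_three ((h.syl3 hM).of_le h3 le_top)
  have h5 := card_inf_mul_relIndex (N M) (C1 x)
  have h6 := card_dvd_of_le (le_inf (le_N M) h3)
  have h7 : ¬ 5 ∣ Nat.card ↥(N M ⊓ C1 x) := fun e => by
    obtain ⟨f, hf, f5⟩ := exists_ord Nat.prime_five e
    have h8 := card_modEq_C1 Nat.prime_five (f5 ▸ pow_orderOf_eq_one f) hf.1
    have h9 := Nat.dvd_gcd (card_dvd_of_le (inf_le_left : M ⊓ C1 f ≤ M))
      (card_dvd_of_le (inf_le_right : M ⊓ C1 f ≤ C1 f))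
    rw [hM, (h.card_C5 f5).1, show Nat.gcd 9 15 = 3 from rfl] at h9
    have h10 := Nat.le_of_dvd (by norm_num) h9
    rw [hM, Nat.ModEq] at h8
    omega
  have h8 := card_inf_mul_relIndex (C1 x) (N M)
  rw [(relIndex_eight (h.syl3 hM) hM (h.ne_ord _ (by decide)) hx hx1 (h.conj3 x3)).1,
    inf_comm] at h8
  rw [(h.card_C3 x3).1] at h5
  rw [hM] at h6
  rw [Nat.ModEq] at h4
  obtain ⟨k, hk⟩ := h6
  rw [← h8, hk]
  rw [hk] at h5 h7
  have h9 : k ≤ 20 := Nat.le_of_dvd (by norm_num) (Nat.dvd_of_mul_dvd_mul_left (by norm_num)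
    (show 9 * k ∣ 9 * 20 from Dvd.intro _ h5))
  interval_cases k <;> omega

theorem cent3 {M : Subgroup G} (hM : Nat.card M = 9) : C M ≤ M := by
  by_contra hc
  obtain ⟨h1, h2⟩ := syl_nine hM (h.ne_ord _ (by decide))
  obtain ⟨x, hx, x3⟩ := exists_ord Nat.prime_three (K := M) (by rw [hM]; norm_num)
  have h3 : M ≤ C1 x := fun m hm => mem_C1.2 (h2 m hm x hx)
  have h4 : C M ≤ N M ⊓ C1 x := le_inf (C_le_N M) (C_le_C1 hx)
  have h5 := card_dvd_of_le h4
  have h6 := card_dvd_of_le (ab_iff.2 h2)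
  have h7 := card_lt_of_lt (lt_of_le_not_ge (ab_iff.2 h2) hc)
  have h8 := (h.card_NM hM hx (ne_one_of_ord x3)).1
  rw [h8] at h5
  rw [hM] at h6 h7
  have h9 := Nat.le_of_dvd (by norm_num) h5
  have h10 := ((h.syl3 hM).of_le h3 le_top).sdp_of_le_C Nat.prime_three
    (by rw [inf_comm]; exact (eq_of_le_of_card_le h4 (by omega)).ge)
  have h11 := h10.card
  rw [hM, (h.card_C3 x3).1] at h11
  obtain ⟨f, hf, f5⟩ := exists_ord Nat.prime_five (K := Opc 3 (C1 x)) (by omega)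
  have h12 := sylIn_modEq Nat.prime_five (h.syl5 f5 _ hf)
  have h13 := card_inf_mul_relIndex (N (zpowers f)) (Opc 3 (C1 x))
  have h14 := card_dvd_of_le (le_inf (le_N _) (zpowers_le.2 hf))
  rw [Nat.card_zpowers, f5] at h14
  have h15 : Opc 3 (C1 x) ≤ N (zpowers f) := by
    rw [← relIndex_eq_one]
    obtain ⟨k, hk⟩ := h14
    rw [hk, show Nat.card (Opc 3 (C1 x)) = 5 * 4 by omega, mul_assoc] at h13
    have h16 := Nat.le_of_dvd (by norm_num) (Dvd.intro_left _ (Nat.eq_of_mul_eq_mul_left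
      (by norm_num) h13))
    rw [Nat.ModEq] at h12
    omega
  have h16 := card_le_of_le ((frattini_arg Nat.prime_five (h.syl5 f5 _ hf) h10.normalIn).ge.trans
    (sup_le h15 inf_le_right))
  rw [(h.card_C3 x3).1, h.card_N5 f5] at h16
  omega

theorem not_nine {t : G} (ht : orderOf t = 2) {K : Subgroup G} (hK : K ≤ C1 t) :
    ¬ 9 ∣ Nat.card K := fun e => by
  haveI := Fact.mk Nat.prime_three
  obtain ⟨M, hM⟩ := Sylow.exists_subgroup_card_pow_prime (G := K) 3 (n := 2) e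
  have h1 : Nat.card (M.map K.subtype) = 9 := (card_map_of_injective K.subtype_injective).trans hM
  exact ne_one_of_ord ht (eq_one_of_sq_of_nine h1
    (h.cent3 h1 (le_C1_iff.1 ((map_subtype_le M).trans hK))) (ht ▸ pow_orderOf_eq_one t))

theorem card_C2 {t : G} (ht : orderOf t = 2) : Nat.card (C1 t) = 2688 := by
  have h1 := index_le_nord t
  rw [ht, h.n2] at h1
  have h3 := h.dvd_idx ht 5
  have h4 := h.dvd_idx ht 11
  have h5 := h.dvd_idx ht 23
  have h6 := (C1 t).card_mul_index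
  rw [h.card] at h6
  have h7 : 3 ∣ (C1 t).index := by
    by_contra e
    exact h.not_nine ht le_rfl ((((Nat.Prime.coprime_iff_not_dvd Nat.prime_three).2 e).pow_left
      2).dvd_of_dvd_mul_right (h6 ▸ by norm_num))
  have h8 := Nat.le_of_dvd (Nat.pos_of_ne_zero index_ne_zero_of_finite)
    (cdvd (cdvd (cdvd h3 h4) h5) h7)
  rw [le_antisymm h1 h8] at h6
  exact Nat.eq_of_mul_eq_mul_right (by norm_num) (h6.trans (by norm_num))

theorem card_C7 {e : G} (he : orderOf e = 7) : Nat.card (C1 e) ∣ 14 := by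
  have h1 := card_N_zpowers (p := 7) (by norm_num) (by rw [h.card]; norm_num) he
  rw [h.n7, h.card] at h1
  have h2 := card_dvd_of_le (C_le_N (zpowers e))
  rw [C_zpowers, show Nat.card (N (zpowers e)) = 14 * 3 by omega] at h2
  exact dvd_of_not_dvd Nat.prime_three h2 (h.not_dvd he 3 le_rfl)

end Nse23

end CfsgH8.Mat
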