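import Cfsg.Agent.H8.M23A

set_option autoImplicit false

/-! Recognition of `M23` from the order statistics: the `3`-local configuration. -/

namespace CfsgH8.Mat

open Subgroup CfsgH5 CfsgH6 CfsgFT

variable {G : Type*} [Group G]

attribute [local irreducible] nord

theorem eq_of_acts [Finite G] {M T : Subgroup G} {x y : G} (h : Bas M x y) (hC : C M ≤ M)
    (hT : IsPGroup 2 T) {t u : G} (ht : t ∈ T) (hu : u ∈ T) {m : M4} (h1 : Acts x y t m)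
    (h2 : Acts x y u m) : t = u := by
  refine inv_mul_eq_one.1 (mem_bot.1 (inf_two_eq_bot h hT ▸ mem_inf.2
    ⟨mul_mem (inv_mem ht) hu, hC fun v hv => ?_⟩))
  calc v * (t⁻¹ * u) = t⁻¹ * (t * v * t⁻¹) * u := by group
    _ = _ := by rw [h.conj_eq h1 h2 hv]; group

theorem trans_T [Finite G] {M T : Subgroup G} {x : G} (hc : ∀ a ∈ M, ∀ b ∈ M, a * b = b * a)
    (hx : x ∈ M) (hT : T ≤ N M) (hi : T ⊓ M = ⊥) (h : Nat.card (N M) ≤ Nat.card T * Nat.card M)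
    {g : G} (hg : g ∈ N M) : ∃ t ∈ T, t * x * t⁻¹ = g * x * g⁻¹ := by
  have h1 : T ⊔ M = N M := eq_of_le_of_card_le (sup_le hT (le_N M))
    (by rwa [card_sup_of_inf_eq_bot (Or.inl (nrm_of_le_N hT)) hi])
  obtain ⟨t, ht, m, hm, rfl⟩ := (mem_sup_nrm (nrm_of_le_N hT)).1 (h1 ▸ hg)
  exact ⟨t, ht, by rw [mul_assoc t m, hc m hm x hx]; group⟩

theorem pow_card_eq {T : Subgroup G} {n : ℕ} (h : Nat.card T = n) {t : G} (ht : t ∈ T) :
    t ^ n = 1 := orderOf_dvd_iff_pow_eq_one.1 (h ▸ T.orderOf_dvd_natCard ht)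

set_option synthInstance.maxSize 1000 in
theorem mat_sd : ∀ m : M4, m.1 = 1 → m.2.1 = 2 → m.pow 16 = M4.one →
    (m.mul (1, 0, 0, 2)).pow 16 = M4.one →
    m = (1, 2, 1, 1) ∨ m.mul (1, 0, 0, 2) = (1, 2, 1, 1) := by decide +kernel

/-- the `3`-local configuration in `M23` -/
structure Dat (M W : Subgroup G) (x y a s : G) : Prop where
  ctx : Ctx M x y
  hW : IsW M W
  Wx : W ≤ C1 x
  NW : C1 x ⊓ N W ≤ M ⊔ W
  aN : a ∈ N M
  sN : s ∈ N M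
  a8 : a ^ 8 = 1
  s2 : s * s = 1
  sas : s * a * s = a ^ 3
  acta : Acts x y a (1, 2, 1, 1)
  acts : Acts x y s (1, 0, 0, 2)
  two : ∀ A, IsW M A → A ≤ C1 x → A = W ∨ A = cj s W
  ne : s ∉ N W

namespace Nse23

variable [Finite G] (h : Nse23 G)
include h

theorem card_two_le {x : G} (hx : orderOf x = 3) (A : Subgroup G) (hA : A ≤ C1 x)
    (h2 : IsPGroup 2 A) : Nat.card A ≤ 4 := by
  obtain ⟨k, hk⟩ := two_pow_of_pg h2
  have h1 := card_dvd_of_le hA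
  rw [(h.card_C3 hx).1, hk] at h1
  exact hk ▸ Nat.le_of_dvd (by norm_num) (Nat.Coprime.dvd_of_dvd_mul_right (n := 45)
    (Nat.Coprime.pow_left k (by norm_num)) h1)

theorem syl2_C3 {x : G} (hx : orderOf x = 3) {V : Subgroup G} (hV : SylIn 2 V (C1 x)) :
    Nat.card V = 4 ∧ Ab V := by
  have h1 := card_of_sylIn (k := 2) (m := 45) Nat.prime_two hV (h.card_C3 hx).1 (by norm_num)
  exact ⟨h1, ab_of_card_dvd_sq Nat.prime_two (dvd_of_eq h1)⟩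

theorem card_C6 {x t : G} (hx : orderOf x = 3) (ht : orderOf t = 2) (e : t ∈ C1 x) :
    Nat.card ↥(C1 t ⊓ C1 x) = 12 := by
  obtain ⟨V, h1, hV⟩ := exists_sylIn_ge (zpowers_le.2 e) (pg2 (mul_self_of_ord ht))
  obtain ⟨h2, h3⟩ := h.syl2_C3 hx hV
  have h4 := card_dvd_of_le (le_inf (le_C1_iff.2 (h3 (h1 (mem_zpowers t)))) hV.le)
  have h5 := card_dvd_of_le (zpowers_le.2 (mem_inf.2 ⟨mem_C1_comm.1 e, self_mem_C1 x⟩))
  have h6 := card_dvd_of_le (inf_le_right : C1 t ⊓ C1 x ≤ _)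
  have h7 := h.not_dvd ht 5 (inf_le_left : C1 t ⊓ C1 x ≤ _)
  have h8 := h.not_nine ht (inf_le_left : C1 t ⊓ C1 x ≤ _)
  rw [Nat.card_zpowers, hx] at h5
  rw [h2] at h4
  rw [(h.card_C3 hx).1] at h6
  exact (by decide +kernel : ∀ n ∈ Nat.divisors 180, 4 ∣ n → 3 ∣ n → ¬ 5 ∣ n → ¬ 9 ∣ n → n = 12) _
    (Nat.mem_divisors.2 ⟨h6, by norm_num⟩) h4 h5 h7 h8

theorem C6_eq {x t : G} (hx : orderOf x = 3) {V : Subgroup G} (hV : SylIn 2 V (C1 x)) (ht : t ∈ V)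
    (h1 : t ≠ 1) : V ⊔ zpowers x = C1 t ⊓ C1 x := by
  obtain ⟨h2, h3⟩ := h.syl2_C3 hx hV
  have h4 : Nat.card (zpowers x) = 3 := by rw [Nat.card_zpowers, hx]
  refine eq_of_le_of_card_eq (sup_le (le_inf (le_C1_iff.2 (h3 ht)) hV.le)
    (zpowers_le.2 (mem_inf.2 ⟨mem_C1_comm.1 (hV.le ht), self_mem_C1 x⟩))) ?_
  rw [h.card_C6 hx (orderOf_two (h.sq3 hx t (hV.le ht) 2 (pow_card_eq h2 ht)) h1) (hV.le ht),
    card_sup_of_inf_eq_bot (Or.inr (nrm_of_le_C (zpowers_le.2 (le_C1_iff.1 hV.le))))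
    (inf_eq_bot_of_coprime' (by rw [h2, h4]; norm_num)), h2, h4]

theorem card_NV {x : G} (hx : orderOf x = 3) {V : Subgroup G} (hV : SylIn 2 V (C1 x)) :
    Nat.card ↥(C1 x ⊓ N V) = 36 := by
  obtain ⟨h2, h3⟩ := h.syl2_C3 hx hV
  obtain ⟨t, ht, t2⟩ := exists_ord Nat.prime_two (K := V) (by rw [h2]; norm_num)
  have h4 := card_inf_mul_relIndex (C1 t) (C1 x)
  rw [h.card_C6 hx t2 (hV.le ht), (h.card_C3 hx).1] at h4
  have h5 := card_ne_one V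
  rw [← relIndex_C1_eq_of (H := C1 x ⊓ N V) (a := t) fun b => ⟨fun hb => by
    obtain ⟨g, hg, rfl⟩ := conj_of_le_relIndex (H := C1 x) (a := t)
      (p := fun b => b ∈ C1 x ∧ orderOf b = 2) (fun g hg => ⟨Nrm.self _ g hg t (hV.le ht),
        (orderOf_conj' _ _).trans t2⟩) (by rw [← nord_sub, (h.card_C3 hx).2]; omega)
      ⟨hV.le hb.1, orderOf_two (h.sq3 hx b (hV.le hb.1) 2 (pow_card_eq h2 hb.1)) hb.2⟩
    obtain ⟨n, hn, e⟩ := hV.fusion_C Nat.prime_two (h3 ht) hg (h3 hb.1)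
    exact ⟨n, hn, e.symm⟩, by
    rintro ⟨g, hg, rfl⟩
    exact ⟨conj_mem_of_mem_N hg.2 ht, by simpa using ne_one_of_ord t2⟩⟩] at h5
  have h6 := card_inf_mul_relIndex (C1 t) (C1 x ⊓ N V)
  rw [← inf_assoc, inf_eq_left.2 (show C1 t ⊓ C1 x ≤ N V by
    rw [← h.C6_eq hx hV ht (ne_one_of_ord t2)]
    exact sup_le (le_N V) (zpowers_le.2 (C_le_N V (le_C1_iff.1 hV.le)))),
    h.card_C6 hx t2 (hV.le ht)] at h6
  omega

theorem syl2_of {x : G} (hx : orderOf x = 3) {V : Subgroup G} (h1 : V ≤ C1 x)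
    (h2 : Nat.card V = 4) : SylIn 2 V (C1 x) :=
  sylIn_of_card (k := 2) (m := 45) Nat.prime_two h1 h2 (dvd_of_eq (h.card_C3 hx).1) (by norm_num)

theorem exists_dat : ∃ (M W : Subgroup G) (x y a s : G), Dat M W x y a s := by
  haveI := Fact.mk Nat.prime_two
  haveI := Fact.mk Nat.prime_three
  obtain ⟨x, -, hx⟩ := exists_ord Nat.prime_three (K := (⊤ : Subgroup G))
    (by rw [card_top, h.card]; norm_num)
  have x1 := ne_one_of_ord hx
  obtain ⟨W, hW⟩ := exists_sylIn 2 (C1 x)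
  obtain ⟨M, hM⟩ := exists_sylIn 3 (C1 x ⊓ N W)
  have M9 : Nat.card M = 9 :=
    card_of_sylIn (k := 2) (m := 4) Nat.prime_three hM (h.card_NV hx hW) (by norm_num)
  have MX : M ≤ C1 x := hM.le.trans inf_le_left
  have xM : x ∈ M := zpowers_le.1 (((h.syl3 M9).of_le MX le_top).le_of_nrm
    (zpowers_le.2 (self_mem_C1 x)) (IsPGroup.of_card (n := 1) (by rw [Nat.card_zpowers, hx]; rfl))
    (nrm_of_le_C (by rwa [C_zpowers])))
  obtain ⟨M3, Mc⟩ := syl_nine M9 (h.ne_ord _ (by decide))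
  have MW : Nrm M W := nrm_of_le_N (hM.le.trans inf_le_right)
  obtain ⟨W4, -⟩ := h.syl2_C3 hx hW
  have hNW : M ⊔ W = C1 x ⊓ N W := eq_of_le_of_card_eq (sup_le hM.le (le_inf hW.le (le_N W))) (by
    rw [card_sup_of_inf_eq_bot (Or.inl MW) (inf_eq_bot_of_coprime' (by rw [M9, W4]; norm_num)),
      M9, W4, h.card_NV hx hW])
  obtain ⟨c18, c144⟩ := h.card_NM M9 xM x1
  obtain ⟨s, hs, s2⟩ := exists_ord Nat.prime_two (K := N M ⊓ C1 x) (by rw [c18]; norm_num)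
  have ss := mul_self_of_ord s2
  have sM : s ∉ M := fun e => ne_one_of_ord s2 (eq_one_of_sq_of_nine M9 e (by rw [pow_two, ss]))
  have si : s⁻¹ = s := inv_eq_of_mul_eq_one_right ss
  obtain ⟨y, yM, y1, sy⟩ : ∃ y ∈ M, y ≠ 1 ∧ s * y * s⁻¹ = y⁻¹ := by
    obtain ⟨m, hm, e⟩ : ∃ m ∈ M, ¬ m * s = s * m := by
      by_contra hc
      push Not at hc
      exact sM (h.cent3 M9 hc)
    have h1 := conj_mem_of_mem_N hs.1 hm
    refine ⟨m * (s * m * s⁻¹)⁻¹, mul_mem hm (inv_mem h1), fun e2 => e ?_, ?_⟩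
    · rw [mul_inv_eq_one] at e2
      exact (mul_inv_eq_iff_eq_mul.1 e2.symm).symm
    · calc _ = s * m * s⁻¹ * ((s * s) * m⁻¹ * (s * s)⁻¹) := by group
        _ = _ := by rw [ss]; group
  have sx := mem_C1_iff_conj.1 hs.2
  have hb : Bas M x y := ⟨M9, M3, Mc, xM, yM, x1, fun e => y1 (eq_one_of_sq_of_nine M9 yM (by
    rw [pow_two, ← eq_inv_iff_mul_eq_one, ← sy]
    exact (mem_C1_iff_conj.1 (C1_le_C1_of_mem_zpowers e hs.2)).symm))⟩
  have hc : Ctx M x y := ⟨hb, h.cent3 M9,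
    fun m hm m1 => h.card_two_le (orderOf_three (M3 m hm) m1),
    fun m hm m1 => h.sq3 (orderOf_three (M3 m hm) m1)⟩
  have acts : Acts x y s (1, 0, 0, 2) := ⟨by rw [el_one_zero, sx], by rw [hb.el_zero_two, sy]⟩
  obtain ⟨T, sT, hT⟩ := exists_sylIn_ge (zpowers_le.2 hs.1) (pg2 ss)
  replace sT := zpowers_le.1 sT
  have T16 : Nat.card T = 16 := card_of_sylIn (k := 4) (m := 9) Nat.prime_two hT c144 (by norm_num)
  obtain ⟨a, aT, acta⟩ : ∃ a ∈ T, Acts x y a (1, 2, 1, 1) := by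
    obtain ⟨g, hg, e⟩ := (relIndex_eight (h.syl3 M9) M9 (h.ne_ord _ (by decide)) xM x1
      (h.conj3 hx)).2 _ (ln_mem hb 3) (ln_ne hb 3)
    obtain ⟨t, ht, e2⟩ := trans_T Mc xM hT.le (inf_two_eq_bot hb hT.isPGroup)
      (by rw [c144, T16, M9]) hg
    obtain ⟨m, hm⟩ := hb.exists_acts fun v hv => conj_mem_of_mem_N (hT.le ht) hv
    have h1 := hb.inj (hm.1.symm.trans (e2.trans e))
    have h2 := hb.pow hm 16
    have h3 := hb.pow (hb.mul hm acts) 16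
    rw [pow_card_eq T16 ht] at h2
    rw [pow_card_eq T16 (mul_mem ht sT)] at h3
    rcases mat_sd m h1.1 h1.2 (hb.unique h2 Bas.one) (hb.unique h3 Bas.one) with e3 | e3
    exacts [⟨t, ht, e3 ▸ hm⟩, ⟨t * s, mul_mem ht sT, e3 ▸ hb.mul hm acts⟩]
  have hNM : M ⊔ zpowers s = N M ⊓ C1 x := eq_of_le_of_card_eq
    (sup_le (le_inf (le_N M) MX) (zpowers_le.2 hs)) (by rw [card_sup_inv ss sM hs.1, M9, c18])
  have iW : IsW M W := ⟨MW, W4, x, xM, x1, hW.le⟩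
  refine ⟨M, W, x, y, a, s, hc, iW, hW.le, hNW.ge, hT.le aT, hs.1,
    eq_of_acts hb hc.cent hT.isPGroup (pow_mem aT 8) (one_mem T) (hb.pow acta 8) Bas.one, ss,
    eq_of_acts hb hc.cent hT.isPGroup (mul_mem (mul_mem sT aT) sT) (pow_mem aT 3)
      (hb.mul (hb.mul acts acta) acts) (hb.pow acta 3), acta, acts, fun A hA AX => ?_, fun e => ?_⟩
  · obtain ⟨g, hg, e⟩ := hW.conj (h.syl2_of hx AX hA.card)
    obtain ⟨k, hk, e2⟩ := ((h.syl3 ((card_cj g M).trans M9)).of_le (K := C1 x ⊓ N A)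
      (le_inf (cj_le_of_le MX hg) (by rw [← e, ← cj_N]; exact cj_mono MW.le_N)) le_top).conj
      ((h.syl3 M9).of_le (le_inf MX hA.nrm.le_N) le_top)
    rw [cj_cj] at e2
    have h1 : cj (k * g) W = A := by rw [← cj_cj, e, mem_N.1 hk.2]
    rcases mem_sup_inv ss hs.1 (hNM ▸ mem_inf.2 ⟨mem_N.2 e2, mul_mem hk.1 hg⟩) with e3 | e3
    · exact Or.inl (h1.symm.trans (MW.cj_eq e3))
    · refine Or.inr ?_
      rw [← h1, ← (iW.cjj hs.1).nrm.cj_eq e3, cj_cj, mul_assoc, ss, mul_one]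
  · have h1 : s ∈ W := zpowers_le.1 ((hW.of_le (le_inf hW.le (le_N W)) inf_le_left).le_of_nrm'
      Nat.prime_two (zpowers_le.2 ⟨hs.2, e⟩) (pg2 ss) (nrm_zpowers_iff.2 e))
    have h2 : s * (y * s⁻¹ * y⁻¹) ∈ W ⊓ M :=
      ⟨mul_mem h1 (MW y yM _ (inv_mem h1)), by
        rw [← mul_assoc, ← mul_assoc, sy]; exact M.mul_mem (M.inv_mem yM) (M.inv_mem yM)⟩
    rw [inf_two_eq_bot hb iW.pg, mem_bot, ← mul_assoc, ← mul_assoc, sy, ← mul_inv_rev,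
      inv_eq_one] at h2
    exact y1 (eq_one_of_sq_of_nine M9 yM (by rwa [pow_two]))

end Nse23

end CfsgH8.Mat
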