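import Cfsg.Agent.H8.MatLocC

set_option autoImplicit false

/-! Recognition of `M23` from the order statistics: the centralizer of the four-group. -/

namespace CfsgH8.Mat

open Subgroup CfsgH5 CfsgH6 CfsgFT

variable {G : Type*} [Group G]

attribute [local irreducible] nord

namespace Dat

variable {M W : Subgroup G} {x y a s : G} (d : Dat M W x y a s)
include d

theorem z2 : a ^ 4 * a ^ 4 = 1 := by rw [← pow_add, d.a8]

theorem zinv : ∀ m ∈ M, a ^ 4 * m * (a ^ 4)⁻¹ = m⁻¹ :=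
  d.ctx.bas.acts_neg.1 (d.ctx.bas.pow d.acta 4)

theorem zx : a ^ 4 * x * (a ^ 4)⁻¹ = x⁻¹ := d.zinv x d.ctx.bas.xV

theorem si : s⁻¹ = s := inv_eq_of_mul_eq_one_right d.s2

theorem sa_pow (n : ℕ) : s * a ^ n * s = a ^ (3 * n) := by
  have := conj_pow (i := n) (a := s) (b := a)
  rw [d.si, d.sas] at this
  rw [pow_mul, this]

theorem sz : s * a ^ 4 = a ^ 4 * s := by
  rw [← mul_inv_eq_iff_eq_mul, d.si, d.sa_pow, show 3 * 4 = 8 + 4 from rfl, pow_add, d.a8, one_mul]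

theorem x3 : orderOf x = 3 := orderOf_three d.ctx.bas.x3 d.ctx.bas.x1

theorem sx : s ∈ C1 x := mem_C1_iff_conj.2 (d.acts.1.trans (el_one_zero x y))

theorem sy : s * y * s⁻¹ = y⁻¹ := d.acts.2.trans d.ctx.bas.el_zero_two

theorem not_inv {g : G} (h : g * x * g⁻¹ = x⁻¹) : g ∉ C1 x := fun e =>
  d.ctx.bas.x1 (eq_one_of_sq_of_nine d.ctx.bas.card d.ctx.bas.xV (by
    rw [pow_two, ← eq_inv_iff_mul_eq_one, ← h, mem_C1_iff_conj.1 e]))

theorem z1 : a ^ 4 ≠ 1 := fun e => d.not_inv d.zx (e ▸ one_mem _)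

theorem zN_C1 : a ^ 4 ∈ N (C1 x) := mem_N.2 (by rw [cj_C1, d.zx, C1_inv])

theorem MX : M ≤ C1 x := fun m hm => mem_C1.2 (d.ctx.bas.comm m hm x d.ctx.bas.xV)

variable [Finite G] (h : Nse23 G)
include h

theorem syl : SylIn 2 W (C1 x) := h.syl2_of d.x3 d.Wx d.hW.card

theorem C6_le {t : G} (ht : t ∈ W) (h1 : t ≠ 1) : C1 t ⊓ C1 x ≤ N W := by
  rw [← h.C6_eq d.x3 (d.syl h) ht h1]
  exact sup_le (le_N W) (zpowers_le.2 (C_le_N W (le_C1_iff.1 d.Wx)))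

theorem le_W {t : G} (ht : t ∈ W) (h1 : t ≠ 1) {A : Subgroup G} (hA : A ≤ C1 t ⊓ C1 x)
    (h2 : IsPGroup 2 A) : A ≤ W :=
  (d.syl h).le_of_nrm' Nat.prime_two (hA.trans inf_le_right) h2
    (nrm_of_le_N (hA.trans (d.C6_le h ht h1)))

theorem zN : a ^ 4 ∈ N W := by
  refine (d.two _ (d.hW.cjj (pow_mem d.aN 4)) ((cj_mono d.Wx).trans (mem_N.1 d.zN_C1).le)).elim
    mem_N.2 fun e => (d.ne ?_).elim
  have h1 : s * a ^ 4 ∈ N W := mem_N.2 (by rw [← cj_cj, e, cj_cj, d.s2, cj_one])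
  have h2 : s * a ^ 4 * (s * a ^ 4) = 1 := by
    rw [mul_assoc, ← mul_assoc (a ^ 4), ← d.sz, mul_assoc, d.z2, mul_one, d.s2]
  have h3 : y ∈ C1 (s * a ^ 4) := mem_C1_iff_conj'.2 (by
    calc _ = s * (a ^ 4 * y * (a ^ 4)⁻¹) * s⁻¹ := by group
      _ = _ := by rw [d.zinv y d.ctx.bas.yV, ← conj_inv, d.sy, inv_inv])
  have h4 : s * a ^ 4 ≠ 1 := fun e => d.not_inv d.zx (by
    rw [eq_inv_of_mul_eq_one_right e]; exact inv_mem d.sx)
  have h5 : W ≤ C1 (s * a ^ 4) := inf_eq_left.1 (d.ctx.eq_of_le d.hW (nrm_of_le_N (d.ctx.bas.le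
    (C_le_N _ (C_anti inf_le_left (le_C1_iff.1 d.Wx)))
    (nrm_zpowers_iff.1 ((d.hW.nrm.mono (zpowers_le.2 d.ctx.bas.yV)).inf
      (Nrm.of_le (zpowers_le.2 h3)))))) inf_le_left fun e => by
        have := card_modEq_C1 Nat.prime_two (by rw [pow_two, h2]) h1
        rw [e, card_bot, d.hW.card] at this
        exact absurd this (by decide))
  have h6 := Nat.dvd_gcd (card_dvd_of_le (inf_le_left : C1 (s * a ^ 4) ⊓ C1 x ≤ _))
    (card_dvd_of_le (inf_le_right : C1 (s * a ^ 4) ⊓ C1 x ≤ _))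
  rw [h.card_C2 (orderOf_two h2 h4), (h.card_C3 d.x3).1] at h6
  have h7 := card_dvd_of_le (le_inf (le_inf h5 d.Wx) (le_N W))
  have h8 := card_dvd_of_le (zpowers_le.2 (mem_inf.2 ⟨mem_inf.2 ⟨h3, d.MX d.ctx.bas.yV⟩,
    d.hW.nrm.le_N d.ctx.bas.yV⟩))
  rw [d.hW.card] at h7
  rw [Nat.card_zpowers, orderOf_three d.ctx.bas.y3 fun e => d.ctx.bas.yx (e ▸ one_mem _)] at h8
  exact inf_eq_left.1 (eq_of_le_of_card_dvd inf_le_left (h6.trans (cdvd h7 h8)))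
    ⟨mem_C1.2 (by rw [mul_assoc, ← d.sz]), d.sx⟩

theorem ws {w : G} (hw : w ∈ W) (h1 : w ≠ 1) (hz : w ∈ C1 (a ^ 4)) : (w * s) ^ 3 = 1 := by
  have w2 := d.ctx.sq_W d.hW hw
  have h2 : w * s ∈ C1 x := mul_mem (d.Wx hw) d.sx
  have h3 := orderOf_dvd_of_pow_eq_one (h.pow30 d.x3 h2)
  have h4 := h.not_dvd (orderOf_two d.z2 d.z1) 5 (zpowers_le.2 (mul_mem hz (mem_C1.2 d.sz)))
  rw [Nat.card_zpowers] at h4
  have h5 : (w * s) ^ 3 * (w * s) ^ 3 = 1 := by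
    rw [← pow_add]
    exact orderOf_dvd_iff_pow_eq_one.1 (dvd_of_not_dvd Nat.prime_five h3 h4)
  have h6 : (w * s)⁻¹ = s * w := by rw [mul_inv_rev, d.si, inv_eq_of_mul_eq_one_right w2]
  have h7 : ∀ u, u * (w * s) * u⁻¹ = s * w → u ∈ C1 ((w * s) ^ 3) := fun u e =>
    mem_C1_iff_conj.2 (by rw [← conj_pow, e, ← h6, inv_pow, inv_eq_of_mul_eq_one_right h5])
  by_contra h8
  refine d.ne (d.C6_le h (zpowers_le.1 (d.le_W h hw h1 (zpowers_le.2 ⟨mem_C1_comm.1 (h7 w ?_),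
    pow_mem h2 3⟩) (pg2 h5))) h8 ⟨h7 s (by group), d.sx⟩)
  rw [← mul_assoc, w2, one_mul, inv_eq_of_mul_eq_one_right w2]

theorem card_CW : Nat.card (C W) ∣ 384 := by
  obtain ⟨w, hw, w2⟩ := exists_ord Nat.prime_two (K := W) (by rw [d.hW.card]; norm_num)
  have h1 := card_dvd_of_le (C_le_C1 hw)
  rw [h.card_C2 w2] at h1
  refine dvd_of_not_dvd (p := 7) (by norm_num) h1 fun e => ?_
  obtain ⟨g, hg, g7⟩ := exists_ord (by norm_num) e
  exact absurd (d.hW.card ▸ (card_dvd_of_le (le_C1_iff.2 hg)).trans (h.card_C7 g7)) (by norm_num)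

theorem exists_P : ∃ P, PD W P ∧ Nat.card (C W) = 3 * Nat.card P :=
  d.ctx.exists_PD d.hW d.Wx d.zinv (d.zN h) d.NW
    (fun e => absurd (e.trans (d.card_CW h)) (by norm_num)) fun g hg e =>
      ⟨7, orderOf_dvd_iff_pow_eq_one.1 (e.dvd_of_dvd_mul_right
        (((C W).orderOf_dvd_natCard hg).trans (d.card_CW h)))⟩

theorem index_seven {w : G} (hw : w ∈ W) (h1 : w ≠ 1) (hz : w ∈ C1 (a ^ 4)) {L : Subgroup G}
    (hL : L ≤ C1 w) (h2 : w ∈ L) (h3 : Nat.card L = 384) : Nat.card (C W) ≠ 48 := fun h48 => by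
  have w2 := orderOf_two (d.ctx.sq_W d.hW hw) h1
  have c1 := h.card_C2 w2
  obtain ⟨K, hK⟩ : ∃ K, K = core (C1 w) L := ⟨_, rfl⟩
  have k1 : K ≤ C1 w := hK ▸ core_le_left _ _
  have k2 : Nrm (C1 w) K := hK ▸ nrm_core _ _
  have k3 : w ∈ K := hK ▸ zpowers_le.1 (le_core (zpowers_le.2 (self_mem_C1 w)) (zpowers_le.2 h2)
    (nrm_of_le_C (C_zpowers w).ge))
  have k4 : Nat.card K ∣ 384 := h3 ▸ card_dvd_of_le (hK ▸ core_le_right _ _)
  have k5 := relIndex_core_dvd_factorial (C1 w) L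
  rw [← hK, relIndex_eq_of_mul (n := 7) hL (by rw [h3, c1]), relIndex_eq_div k1, c1] at k5
  obtain ⟨e, he, e7⟩ := exists_ord (p := 7) (by norm_num) (K := C1 w) (by rw [c1]; norm_num)
  have k6 := card_modEq_C1 (by norm_num) (e7 ▸ pow_orderOf_eq_one e) (k2.le_N he)
  rw [show Nat.card ↥(K ⊓ C1 e) = 2 from Nat.dvd_antisymm
    (Nat.dvd_gcd ((card_dvd_of_le inf_le_left).trans k4)
      ((card_dvd_of_le inf_le_right).trans (h.card_C7 e7)))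
    (w2 ▸ (K ⊓ C1 e).orderOf_dvd_natCard ⟨k3, mem_C1_comm.1 he⟩)] at k6
  have xw : x ∈ C1 w := mem_C1_comm.1 (d.Wx hw)
  rcases (by decide +kernel : ∀ n ∈ Nat.divisors 384, n ≡ 2 [MOD 7] → 2688 / n ∣ (7 : ℕ).factorial →
    n = 16 ∨ n = 128) _ (Nat.mem_divisors.2 ⟨k4, by norm_num⟩) k6 k5 with k7 | k7
  · have k8 := card_modEq_C1 Nat.prime_three d.ctx.bas.x3 (k2.le_N xw)
    have k9 := d.le_W h hw h1 (inf_le_inf_right (C1 x) k1)
      (IsPGroup.of_card (n := 4) k7).to_inf_left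
    have k10 := card_dvd_of_le k9
    have k11 := w2 ▸ (K ⊓ C1 x).orderOf_dvd_natCard ⟨k3, d.Wx hw⟩
    rw [d.hW.card] at k10
    rw [k7, Nat.ModEq] at k8
    have k12 := Nat.le_of_dvd (by norm_num) k10
    have k13 := relIndex_C1_le k2 (((eq_of_le_of_card_le k9 (by rw [d.hW.card]; omega)).ge
      (d.hW.nrm y d.ctx.bas.yV w hw)).1)
    have k14 := card_inf_mul_relIndex (C1 (y * w * y⁻¹)) (C1 w)
    rw [d.ctx.C_eq d.hW d.Wx hw h1, h48, c1] at k14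
    omega
  · have k8 : a ^ 4 ∈ K := zpowers_le.1 ((sylIn_of_card (k := 7) (m := 21) Nat.prime_two k1 k7
      (dvd_of_eq c1) (by norm_num)).le_of_nrm' Nat.prime_two (zpowers_le.2 (mem_C1_comm.1 hz))
      (pg2 d.z2) (k2.mono (zpowers_le.2 (mem_C1_comm.1 hz))))
    have k9 := K.orderOf_dvd_natCard (K.mul_mem k8 (k2 x xw _ (K.inv_mem k8)))
    rw [← mul_assoc, ← mul_assoc, d.zx, ← mul_inv_rev, orderOf_inv, ← pow_two,
      orderOf_three (by rw [← pow_mul, mul_comm, pow_mul, d.ctx.bas.x3, one_pow])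
        (pow_ne_one_of_lt_orderOf (by norm_num) (by rw [d.x3]; norm_num)), k7] at k9
    exact absurd k9 (by norm_num)

theorem card_P {P : Subgroup G} (hP : PD W P) (hc : Nat.card (C W) = 3 * Nat.card P) :
    Nat.card P = 64 := by
  haveI := Fact.mk Nat.prime_two
  obtain ⟨w, hw, h1, hz, -⟩ := d.ctx.exists_fix d.hW d.zinv d.z2 (d.zN h)
  have w2 := orderOf_two (d.ctx.sq_W d.hW hw) h1
  have c1 := h.card_C2 w2
  have h2 := Nat.le_of_dvd (by norm_num) (d.card_CW h)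
  refine ((d.ctx.card_cases d.hW hP d.Wx (by omega)).resolve_left (d.ctx.card_ne_four d.hW hP d.Wx
    hw h1 (m := 21) c1 (by norm_num) (h.ne_ord _ (by decide)))).resolve_left fun h16 => ?_
  obtain ⟨hab, ⟨m, hm, h3⟩, -⟩ := d.ctx.sixteen d.hW hP d.Wx h16
  have zP := hP.nrm.le_N (d.zN h)
  have zP' : a ^ 4 ∉ P := fun e => d.ctx.not_cent d.hW d.zinv (hP.le e)
  have zw := mem_C1_comm.1 hz
  obtain ⟨S, h4, hS⟩ := exists_sylIn_ge (sup_le (hP.le.trans (C_le_C1 hw)) (zpowers_le.2 zw))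
    (IsPGroup.of_card (p := 2) (n := 5) (by rw [card_sup_inv d.z2 zP' zP, h16]; rfl))
  have h5 : Nat.card S = 128 := card_of_sylIn (k := 7) (m := 21) Nat.prime_two hS c1 (by norm_num)
  obtain ⟨g, g1, g2, g3⟩ := exists_nrm_of_lt hS.isPGroup (lt_of_le_of_ne h4 fun e => by
    rw [← e, card_sup_inv d.z2 zP' zP, h16] at h5; omega)
  have h6 := card_lt_of_lt (show P ⊔ zpowers (a ^ 4) < S ⊓ N P from SetLike.lt_iff_le_and_exists.2
    ⟨le_inf h4 (sup_le (le_N P) (zpowers_le.2 zP)), g, mem_inf.2 ⟨g1, mem_N_of_fix hab h16 d.z2 zP zP'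
      (card_fix_le hab h16 ((d.ctx.nrm_P d.hW hP).le_N hm) (d.ctx.bas.cube m hm) (d.zinv m hm) h3)
      g3⟩, g2⟩)
  obtain ⟨L, hL⟩ : ∃ L, L = C1 w ⊓ N P := ⟨_, rfl⟩
  have l1 : L ≤ C1 w := hL ▸ inf_le_left
  have l2 : C W ≤ L := hL ▸ le_inf (C_le_C1 hw) ((C_le_N W).trans hP.nrm.le_N)
  have l3 : 64 ∣ Nat.card L := by
    refine Dvd.dvd.trans ?_ (hL ▸ card_dvd_of_le (inf_le_inf_right (N P) hS.le))
    rw [card_sup_inv d.z2 zP' zP, h16] at h6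
    exact (by decide +kernel : ∀ n ∈ Nat.divisors 128, 16 * 2 < n → 64 ∣ n) _
      (Nat.mem_divisors.2 ⟨h5 ▸ card_dvd_of_le inf_le_left, by norm_num⟩) h6
  have l4 := relIndex_C1_le (nrm_of_le_N (hL ▸ inf_le_right : L ≤ N P))
    (d.ctx.le_P d.hW hP (d.hW.nrm y d.ctx.bas.yV w hw))
  have l5 := card_inf_mul_relIndex (C1 (y * w * y⁻¹)) L
  rw [show C1 (y * w * y⁻¹) ⊓ L = C W from le_antisymm (d.ctx.C_eq d.hW d.Wx hw h1 ▸
    inf_le_inf_left _ l1) (le_inf (C_le_C1 (d.hW.nrm y d.ctx.bas.yV w hw)) l2), hc, h16] at l5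
  have l6 := c1 ▸ card_dvd_of_le l1
  have xW := le_C1_iff.1 d.Wx
  have l7 := sylIn_modEq Nat.prime_three (sylIn_of_card (k := 1) (m := 896) Nat.prime_three
    (zpowers_le.2 (l2 xW)) (by rw [Nat.card_zpowers, d.x3]; rfl) l6 (by norm_num))
  have l8 := card_inf_mul_relIndex (N (zpowers x)) L
  have zN : a ^ 4 ∈ N (C1 w ⊓ C1 x) := nrm_zpowers_iff.1 ((Nrm.of_le (zpowers_le.2 zw)).inf
    (nrm_zpowers_iff.2 d.zN_C1))
  rw [show N (zpowers x) ⊓ L = C1 w ⊓ C1 x ⊔ zpowers (a ^ 4) from le_antisymm (fun g hg => by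
      rcases mem_zpowers_three d.ctx.bas.x3 (conj_mem_of_mem_N hg.1 (mem_zpowers x)) with e | e | e
      · exact absurd (conj_eq_one_iff.1 e) d.ctx.bas.x1
      · exact mem_sup_left ⟨l1 hg.2, mem_C1_iff_conj.2 e⟩
      · rw [← mul_inv_cancel_left (a ^ 4) g]
        refine mul_mem (mem_sup_right (mem_zpowers _)) (mem_sup_left
          ⟨(C1 w).mul_mem ((C1 w).inv_mem zw) (l1 hg.2), mem_C1_iff_conj.2 ?_⟩)
        calc _ = (a ^ 4)⁻¹ * (g * x * g⁻¹) * a ^ 4 := by group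
          _ = x := by rw [e, ← d.zx]; group)
    (sup_le (le_inf (inf_le_right.trans ((C_zpowers x).ge.trans (C_le_N _))) (by
      rw [← h.C6_eq d.x3 (d.syl h) hw h1]
      exact (sup_le (d.ctx.ab_W d.hW) (zpowers_le.2 xW)).trans l2))
      (zpowers_le.2 ⟨mem_N.2 (by rw [cj_zpowers, d.zx, zpowers_inv]), hL ▸ ⟨zw, zP⟩⟩)),
    card_sup_inv d.z2 (fun e => d.not_inv d.zx (mem_inf.1 e).2) zN, h.card_C6 d.x3 w2 (d.Wx hw)] at l8
  refine d.index_seven h hw h1 hz l1 (l2 (d.ctx.ab_W d.hW hw)) ?_ (by omega)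
  rw [Nat.ModEq] at l7
  exact (by decide +kernel : ∀ n ∈ Nat.divisors 2688, 64 ∣ n → n ≤ 768 → 24 ∣ n → n / 24 % 3 = 1 →
    n = 384) _ (Nat.mem_divisors.2 ⟨l6, by norm_num⟩) l3 (by omega) (Dvd.intro _ l8)
    (by rw [← l8, Nat.mul_div_cancel_left _ (by norm_num)]; exact l7)

end Dat

end CfsgH8.Mat
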