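import Cfsg.Agent.H8.M23C

set_option autoImplicit false

/-! Recognition of `M23` from the order statistics: the commuting graph of the four-groups. -/

namespace CfsgH8.Mat

open Subgroup CfsgH5 CfsgH6 CfsgFT
open scoped commutatorElement

variable {G : Type*} [Group G]

theorem le_of_ln {M H : Subgroup G} {x y : G} (h : Bas M x y) {k l : Fin 4} (hkl : k ≠ l)
    (hk : ln x y k ∈ H) (hl : ln x y l ∈ H) : M ≤ H := fun m hm => by
  obtain ⟨i, j, rfl⟩ := h.surj hm
  obtain ⟨c, d, rfl, rfl⟩ := (by decide : ∀ k l : Fin 4, k ≠ l → ∀ i j : Fin 3, ∃ c d : Fin 3,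
    i = c * (lp k).1 + d * (lp l).1 ∧ j = c * (lp k).2 + d * (lp l).2) k l hkl i j
  rw [el_add h.x3 h.y3 h.xy, ← el_pow3 h.x3 h.y3 h.xy, ← el_pow3 h.x3 h.y3 h.xy]
  exact mul_mem (pow_mem hk _) (pow_mem hl _)

theorem Ctx.le_C1 [Finite G] {M B : Subgroup G} {x y : G} (h : Ctx M x y) (hB : IsW M B)
    {k l : Fin 4} (hkl : k ≠ l) (hl : B ≤ C1 (ln x y l)) {u v : G} (hu : u ∈ C1 (ln x y k))
    (hv : v ∈ B) (v1 : v ≠ 1) (e : v ∈ C1 u) : B ≤ C1 u :=
  inf_eq_left.1 (h.eq_of_le hB (nrm_of_le_N (le_of_ln h.bas hkl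
    (nrm_zpowers_iff.1 ((hB.nrm.mono (zpowers_le.2 (ln_mem h.bas k))).inf
      (Nrm.of_le (zpowers_le.2 (mem_C1_comm.1 hu)))))
    (C_le_N _ (C_anti inf_le_left (le_C1_iff.1 hl))))) inf_le_left
    fun e2 => v1 (mem_bot.1 (e2 ▸ mem_inf.2 ⟨hv, e⟩)))

theorem Ctx.le_C_of_comm [Finite G] {M A B : Subgroup G} {x y : G} (h : Ctx M x y) (hA : IsW M A)
    (hB : IsW M B) {k l : Fin 4} (hkl : k ≠ l) (hk : A ≤ C1 (ln x y k)) (hl : B ≤ C1 (ln x y l))
    {u v : G} (hu : u ∈ A) (u1 : u ≠ 1) (hv : v ∈ B) (v1 : v ≠ 1) (e : v ∈ C1 u) : B ≤ C A :=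
  fun b hb => le_C1_iff.1 (h.le_C1 hA hkl.symm hk (hl hb) hu u1
    (mem_C1_comm.1 (h.le_C1 hB hkl hl (hk hu) hv v1 e hb)))

theorem Ctx.eq_one_of_fix {M : Subgroup G} {x y z : G} (h : Ctx M x y)
    (hz : ∀ m ∈ M, z * m * z⁻¹ = m⁻¹) {g : G} (h1 : g ∈ C1 z) (h2 : x⁻¹ * g * x ∈ C1 z)
    (h3 : y⁻¹ * g * y ∈ C1 z) : g = 1 := by
  have key : ∀ m ∈ M, m⁻¹ * g * m ∈ C1 z → m ∈ C1 g := fun m hm e => by
    have h4 : m * z * m⁻¹ ∈ C1 g := mem_C1_comm.1 (by rw [← cj_C1, mem_cj]; exact e)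
    have h5 := (C1 g).mul_mem h4 ((C1 g).inv_mem (mem_C1_comm.1 h1))
    have h6 : m * z * m⁻¹ * z⁻¹ = m ^ 3 * m⁻¹ := by
      calc _ = m * (z * m * z⁻¹)⁻¹ := by group
        _ = _ := by rw [hz m hm]; simp [pow_succ, mul_assoc]
    rwa [h6, h.bas.cube m hm, one_mul, inv_mem_iff] at h5
  have h4 := h.cent (le_C1_iff.1 (h.bas.le (key x h.bas.xV h2) (key y h.bas.yV h3)))
  refine eq_one_of_sq_of_nine h.bas.card h4 ?_
  rw [pow_two, ← eq_inv_iff_mul_eq_one, ← hz g h4, mem_C1_iff_conj'.1 h1]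

/-- the dihedral group of order eight: `(i, b)` stands for `s ^ b * a ^ i` -/
abbrev D8 := Fin 4 × Bool

/-- product -/
def dmul (d e : D8) : D8 := ((bif e.2 then -d.1 else d.1) + e.1, xor d.2 e.2)

/-- inverse -/
def dinv (d : D8) : D8 := (bif d.2 then d.1 else -d.1, d.2)

/-- the line of an element -/
def lam (d : D8) : Fin 4 := ![0, 3, 1, 2] (bif d.2 then -d.1 else d.1)

/-- the matrix of an element -/
def mu (d : D8) : M4 :=
  bif d.2 then M4.mul (1, 0, 0, 2) (M4.pow (1, 2, 1, 1) d.1) else M4.pow (1, 2, 1, 1) d.1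

set_option synthInstance.maxSize 1000 in
theorem comb : ∀ f : D8 → Bool, (∀ d, f d → f (dinv d)) →
    (∀ d e, f d → f e → lam d = lam e → d = e) → f (0, false) →
    (∀ g h k, f g → f h → f (dmul (dinv k) g) → f (dmul (dinv k) h) → k ≠ (0, false) →
      f (dmul (dinv g) h)) → (∏ k : Fin 4, if ∃ d, lam d = k ∧ f d then 4 else 1) = 64 →
    f (2, true) ∧ (f (1, true) ∨ f (3, true)) ∧ ¬ f (1, false) ∧ ¬ f (3, false) := by
  decide +kernel

/-- the element of the group -/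
def tau (a s : G) (d : D8) : G := bif d.2 then s * a ^ d.1.val else a ^ d.1.val

namespace Dat

variable {M W : Subgroup G} {x y a s : G} (d : Dat M W x y a s)
include d

theorem tau_mem (e : D8) : tau a s e ∈ N M := by
  obtain ⟨i, _ | _⟩ := e
  exacts [pow_mem d.aN _, mul_mem d.sN (pow_mem d.aN _)]

theorem acts_tau (e : D8) : Acts x y (tau a s e) (mu e) := by
  obtain ⟨i, _ | _⟩ := e
  exacts [d.ctx.bas.pow d.acta _, d.ctx.bas.mul d.acts (d.ctx.bas.pow d.acta _)]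

theorem cj_tau_C1 (e : D8) : cj (tau a s e) (C1 x) = C1 (ln x y (lam e)) := by
  rw [cj_C1]
  refine C1_eq_of_mem d.ctx.bas (ln_mem d.ctx.bas _) (by simpa using d.ctx.bas.x1) ?_
  rw [(d.acts_tau e).1, mem_ln d.ctx.bas]
  revert e
  decide

theorem swap : Dat M (cj s W) x y a s :=
  have h1 : cj s (C1 x) = C1 x := cj_self d.sx
  have h2 : cj s (cj s W) = W := by rw [cj_cj, d.s2, cj_one]
  { d with
    hW := d.hW.cjj d.sN
    Wx := h1 ▸ cj_mono d.Wx
    NW := by rw [← h1, ← cj_N, ← cj_inf, ← mem_N.1 d.sN, ← cj_sup]; exact cj_mono d.NW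
    two := fun A hA h => by rw [h2]; exact (d.two A hA h).symm
    ne := fun e => d.ne (mem_N.2 ((mem_N.1 e).symm.trans h2)) }

variable [Finite G] (h : Nse23 G)
include h

theorem cj_mod (g : G) (n : ℕ) : cj (g * a ^ n) W = cj (g * a ^ (n % 4)) W := by
  conv_lhs => rw [← Nat.mod_add_div n 4, pow_add, pow_mul, ← mul_assoc, ← cj_cj,
    mem_N.1 (pow_mem (d.zN h) _)]

theorem cj_tau (e f : D8) :
    cj (tau a s e) (cj (tau a s f) W) = cj (tau a s (dmul e f)) W := by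
  have h1 : ∀ n, a ^ n * s = s * a ^ (3 * n) := fun n => by
    rw [← d.sa_pow, ← mul_assoc, ← mul_assoc, d.s2, one_mul]
  have h2 : ∀ i j : Fin 4, (3 * i.val + j.val) % 4 = (-i + j).val := by decide
  have h3 : ∀ i j : Fin 4, (i.val + j.val) % 4 = (i + j).val := by decide
  have h4 := d.cj_mod h 1
  simp only [one_mul] at h4
  obtain ⟨i, _ | _⟩ := e <;> obtain ⟨j, _ | _⟩ := f <;>
    simp only [tau, dmul, cond_true, cond_false, Bool.xor_false, Bool.xor_true, Bool.not_true,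
      Bool.not_false, cj_cj]
  · rw [← pow_add, h4, h3]
  · rw [← mul_assoc, h1, mul_assoc, ← pow_add, d.cj_mod h, h2]
  · rw [mul_assoc, ← pow_add, d.cj_mod h, h3]
  · rw [← mul_assoc, d.sa_pow, ← pow_add, h4, h2]

theorem adj : ∃ W', Dat M W' x y a s ∧ cj (s * a ^ 2) W' ≤ C W' ∧ cj (s * a) W' ≤ C W' ∧
    ¬ cj (s * a ^ 2) W' ≤ C (cj (s * a) W') := by
  classical
  obtain ⟨P, hP, hc⟩ := d.exists_P h
  have h64 := d.card_P h hP hc
  obtain ⟨V, hV⟩ : ∃ V : D8 → Subgroup G, V = fun e => cj (tau a s e) W := ⟨_, rfl⟩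
  have v0 : V (0, false) = W := by simp [hV, tau, cj_one]
  have v1 : ∀ e f, cj (tau a s e) (V f) = V (dmul e f) := by rw [hV]; exact d.cj_tau h
  have v2 : ∀ e, IsW M (V e) := fun e => hV ▸ d.hW.cjj (d.tau_mem e)
  have v3 : ∀ e, V e ≤ C1 (ln x y (lam e)) := fun e => hV ▸ d.cj_tau_C1 e ▸ cj_mono d.Wx
  have v4 : ∀ e f, V f ≤ C (V e) ↔ V (dmul (dinv e) f) ≤ C W := fun e f => by
    rw [← cj_le_cj (g := tau a s (dinv e)), cj_C, v1, v1,
      (by decide : ∀ e, dmul (dinv e) e = (0, false)), v0]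
  have v5 : ∀ e, V e = W → e = (0, false) := fun e he => by
    by_cases h1 : lam e = 0
    · refine ((by decide : ∀ e, lam e = 0 → e = (0, false) ∨ e = (0, true)) e h1).resolve_right ?_
      rintro rfl
      exact d.ne (mem_N.2 (by simpa [hV, tau] using he))
    · exact absurd (eq_bot_iff.2 fun u hu => d.ctx.eq_one_of_ln d.hW h1 (he ▸ v3 e) hu
        (by rw [ln_zero]; exact d.Wx hu)) d.hW.ne_bot
  have v6 : ∀ e, V e ≤ C W → V e = P ⊓ C1 (ln x y (lam e)) := fun e he =>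
    d.ctx.eq_of_ge (v2 e) hP.pg.to_inf_left (le_inf (hP.le_of he (v2 e).pg) (v3 e))
      (ln_mem d.ctx.bas _) (ln_ne d.ctx.bas _) inf_le_right
  have v7 := fun e f => d.ctx.comm_le d.hW hP (by omega) (v2 e) (v2 f)
  have key := comb (fun e => decide (V e ≤ C W)) (fun e he => by
      have := v0.le.trans (le_C_symm (of_decide_eq_true he))
      rw [v4, (by decide : ∀ e, dmul e (0, false) = e)] at this
      exact decide_eq_true this)
    (fun e f he hf e1 => by
      have h1 := (v6 e (of_decide_eq_true he)).trans (e1 ▸ (v6 f (of_decide_eq_true hf)).symm)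
      refine (by decide : ∀ e f, dmul (dinv e) f = (0, false) → e = f) e f (v5 _ ?_)
      rw [← v1, ← h1, v1, (by decide : ∀ e, dmul (dinv e) e = (0, false)), v0])
    (decide_eq_true (v0.le.trans (d.ctx.ab_W d.hW)))
    (fun e f k he hf he' hf' hk => by
      have h1 := cj_mono (g := tau a s k) (v7 _ _ (of_decide_eq_true he') (of_decide_eq_true hf'))
      rw [cj_commutator, v1, v1, (by decide : ∀ k e, dmul k (dmul (dinv k) e) = e),
        (by decide : ∀ k e, dmul k (dmul (dinv k) e) = e)] at h1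
      have h2 := le_inf (v7 _ _ (of_decide_eq_true he) (of_decide_eq_true hf)) h1
      rw [d.ctx.inf_eq_bot d.hW (d.hW.cjj (d.tau_mem k)) fun e => hk (v5 k (hV ▸ e.symm)),
        le_bot_iff, comm_eq_bot_iff', v4] at h2
      exact decide_eq_true h2)
    (by
      rw [← h64, wielandt4 d.ctx.bas d.ctx.cent hP.pg (d.ctx.nrm_P d.hW hP)]
      refine Finset.prod_congr rfl fun k _ => ?_
      rw [d.ctx.card_inf_ln hP.pg (d.ctx.nrm_P d.hW hP), ← ite_not]
      refine if_congr ⟨fun h1 => ?_, fun h1 h2 => ?_⟩ rfl rfl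
      · by_contra h2
        obtain ⟨e, rfl⟩ := (by decide : ∀ k, ∃ e, lam e = k) k
        have h3 := (d.ctx.isW_inf hP.pg (d.ctx.nrm_P d.hW hP) (ln_mem d.ctx.bas _)
          (ln_ne d.ctx.bas _) h2)
        have h4 : ∀ f, cj (tau a s e)⁻¹ (P ⊓ C1 (ln x y (lam e))) = V f →
            lam (dmul e f) = lam e → False := fun f e1 e2 =>
          h1 ⟨_, e2, decide_eq_true (by
            rw [← v1, ← e1, cj_cj_inv]
            exact inf_le_left.trans hP.le)⟩
        rcases d.two _ (h3.cjj (inv_mem (d.tau_mem e))) (by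
          rw [← le_cj_iff, d.cj_tau_C1]
          exact inf_le_right) with e1 | e1
        · exact h4 (0, false) (e1.trans v0.symm) ((by decide : ∀ e, lam (dmul e (0, false)) = lam e) e)
        · exact h4 (0, true) (by simpa [hV, tau] using e1)
            ((by decide : ∀ e, lam (dmul e (0, true)) = lam e) e)
      · obtain ⟨e, rfl, he⟩ := h2
        exact (v2 e).ne_bot ((v6 e (of_decide_eq_true he)).trans h1))
  simp only [decide_eq_true_eq] at key
  obtain ⟨k1, k2 | k2, k3, k4⟩ := key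
  · refine ⟨W, d, by simpa [hV, tau] using k1, by simpa [hV, tau] using k2, fun e => k3 ?_⟩
    exact (v4 (1, true) (2, true)).1 (by simpa [hV, tau] using e)
  · have e0 : cj s W = V (0, true) := by simp [hV, tau]
    have e1 : cj (s * a) (cj s W) = V (3, false) := by
      rw [e0, ← pow_one a]; exact v1 (1, true) (0, true)
    have e2 : cj (s * a ^ 2) (cj s W) = V (2, false) := by rw [e0]; exact v1 (2, true) (0, true)
    refine ⟨_, d.swap, ?_, ?_, fun e => k4 ?_⟩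
    · rw [e2, e0, v4]; exact k1
    · rw [e1, e0, v4]; exact k2
    · rwa [e1, e2, v4] at e

end Dat

end CfsgH8.Mat
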