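import Mathlib

set_option autoImplicit false
set_option maxRecDepth 100000
set_option synthInstance.maxSize 2000

/-! Facts on `Alt(6)` used in the recognition of `M24`. -/

namespace CfsgH8.A6f

open Equiv Equiv.Perm

def d1 : Perm (Fin 6) := swap 0 2 * swap 0 1

def d2 : Perm (Fin 6) := swap 0 2 * swap 0 1 * (swap 3 5 * swap 3 4)

def t0 : Perm (Fin 6) := swap 1 2 * swap 4 5

def v1 : Perm (Fin 6) := swap 0 3 * swap 1 2

def v2 : Perm (Fin 6) := swap 1 4 * swap 2 5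

/-- the configuration of `d, t, a, e` in `Alt(6)` -/
def Good (d t a e : Perm (Fin 6)) : Prop :=
  sign a = 1 ∧ sign e = 1 ∧ a * a = 1 ∧ e * e = 1 ∧ a * t = t * a ∧ e * t = t * e ∧
    (a * e) ^ 2 * t = 1 ∧ (a * d) ^ 3 = 1 ∧ (e * d) ^ 5 = 1 ∧ (e * t * d) ^ 5 = 1 ∧
    (e * a * d) ^ 4 = 1 ∧ (e * t * a * d) ^ 4 = 1 ∧ (a * t * d) ^ 3 ≠ 1 ∧ (e * d) ^ 3 ≠ 1 ∧
    (e * t * d) ^ 3 ≠ 1 ∧ ∀ g, g * t = t * g → sign g = 1 →
      g = 1 ∨ g = t ∨ g = a ∨ g = a * t ∨ g = e ∨ g = e * t ∨ g = a * e ∨ g = a * e * t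

theorem good1 : Good d1 t0 v1 v2 := by unfold Good; decide +kernel

theorem good2 : Good d2 t0 v2 v1 := by unfold Good; decide +kernel

theorem nrm1 : ∀ t : Perm (Fin 6), t * t = 1 → t * d1 * t⁻¹ = d1⁻¹ → sign t = 1 →
    ∃ s : Perm (Fin 6), s * d1 * s⁻¹ = d1 ∧ s * t * s⁻¹ = t0 := by decide +kernel

theorem nrm2 : ∀ t : Perm (Fin 6), t * t = 1 → t * d2 * t⁻¹ = d2⁻¹ → sign t = 1 →
    ∃ s : Perm (Fin 6), s * d2 * s⁻¹ = d2 ∧ s * t * s⁻¹ = t0 := by decide +kernel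

theorem nrm0 {d : Perm (Fin 6)} (h : orderOf d = 3) : IsConj d d1 ∨ IsConj d d2 := by
  obtain ⟨n, hn⟩ := cycleType_prime_order (h ▸ Nat.prime_three)
  have h1 := d.sum_cycleType.trans_le d.support.card_le_univ
  rw [hn, h, Multiset.sum_replicate, Fintype.card_fin, smul_eq_mul] at h1
  rw [isConj_iff_cycleType_eq, isConj_iff_cycleType_eq, hn, h]
  obtain rfl | rfl : n = 0 ∨ n = 1 := by omega
  · exact Or.inl (by decide +kernel)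
  · exact Or.inr (by decide +kernel)

theorem exists_good {d t : Perm (Fin 6)} (h : orderOf d = 3) (h1 : t * t = 1)
    (h2 : t * d * t⁻¹ = d⁻¹) (h3 : sign t = 1) :
    ∃ s a e : Perm (Fin 6), Good (s * d * s⁻¹) (s * t * s⁻¹) a e := by
  have k : ∀ s : Perm (Fin 6), s * t * s⁻¹ * (s * t * s⁻¹) = 1 ∧ s * t * s⁻¹ * (s * d * s⁻¹) *
      (s * t * s⁻¹)⁻¹ = (s * d * s⁻¹)⁻¹ ∧ sign (s * t * s⁻¹) = 1 := fun s =>
    ⟨by rw [conj_mul, h1]; simp, by rw [conj_inv, conj_mul, conj_mul, h2, conj_inv], by simp [h3]⟩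
  have k2 : ∀ r s x : Perm (Fin 6), r * s * x * (r * s)⁻¹ = r * (s * x * s⁻¹) * r⁻¹ :=
    fun r s x => by group
  rcases nrm0 h with e | e <;> obtain ⟨s, hs⟩ := isConj_iff.1 e
  · obtain ⟨r, e1, e2⟩ := nrm1 _ (k s).1 (hs ▸ (k s).2.1) (k s).2.2
    exact ⟨r * s, v1, v2, by rw [k2, k2, hs, e1, e2]; exact good1⟩
  · obtain ⟨r, e1, e2⟩ := nrm2 _ (k s).1 (hs ▸ (k s).2.1) (k s).2.2
    exact ⟨r * s, v2, v1, by rw [k2, k2, hs, e1, e2]; exact good2⟩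

end CfsgH8.A6f
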