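import Cfsg.Agent.H8.M22A

set_option autoImplicit false

/-! Recognition of `M24` from the order statistics: the element orders. -/

namespace CfsgH8.Mat

open Subgroup Finset CfsgH5 CfsgH6 CfsgFT

variable {G : Type*} [Group G]

attribute [local irreducible] nord

/-- the element orders of `M24` -/
def O24 : Finset ℕ := {1, 2, 3, 4, 5, 6, 7, 8, 10, 11, 12, 14, 15, 21, 23}

/-- the order statistics of `M24` -/
structure Nse24 (G : Type*) [Group G] : Prop where
  card : Nat.card G = 244823040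
  n2 : nord G 2 = 43263
  n3 : nord G 3 = 712448
  n5 : nord G 5 = 4080384
  n7 : nord G 7 = 11658240
  n10 : nord G 10 = 12241152
  n14 : nord G 14 = 34974720
  n15 : nord G 15 = 32643072
  n21 : nord G 21 = 23316480
  n612 : nord G 6 + nord G 12 = 61205760
  ord : ∀ g : G, orderOf g ∈ O24

def T24 : Finset ℕ := {0, 5100480, 15301440, 20401920, 40803840}

set_option synthInstance.maxSize 1000 in
theorem five24 : ∀ a ∈ T24, ∀ b ∈ T24, ∀ c ∈ T24, ∀ d ∈ T24, ∀ e ∈ T24, 0 < a → 0 < b → 0 < c →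
    0 < d → 0 < e → a ≠ b → a ≠ c → a ≠ d → a ≠ e → b ≠ c → b ≠ d → b ≠ e → c ≠ d → c ≠ e →
    d = e := by decide +kernel

theorem chain24 {s : ℕ → ℕ} (hv : ∀ j, s j ∈ T24) (hi : ∀ i j, 0 < s i → s i = s j → i = j)
    (hp : ∀ j, 0 < s (j + 1) → 0 < s j) (j : ℕ) : s (j + 4) = 0 := by
  induction j with
  | zero =>
    by_contra e
    have p4 : 0 < s 4 := Nat.pos_of_ne_zero e
    have p3 := hp 3 p4
    have p2 := hp 2 p3
    have p1 := hp 1 p2
    have p0 := hp 0 p1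
    have k : ∀ i j, 0 < s i → i ≠ j → s i ≠ s j := fun i j a b c => b (hi i j a c)
    exact k 3 4 p3 (by decide) (five24 _ (hv 0) _ (hv 1) _ (hv 2) _ (hv 3) _ (hv 4) p0 p1 p2 p3 p4
      (k _ _ p0 (by decide)) (k _ _ p0 (by decide)) (k _ _ p0 (by decide)) (k _ _ p0 (by decide))
      (k _ _ p1 (by decide)) (k _ _ p1 (by decide)) (k _ _ p1 (by decide)) (k _ _ p2 (by decide))
      (k _ _ p2 (by decide)))
  | succ n ih => exact Nat.eq_zero_of_not_pos fun e => by have := hp (n + 4) e; omega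

set_option synthInstance.maxSize 1000 in
theorem four24 : ∀ a ∈ T24, ∀ b ∈ T24, ∀ c ∈ T24, ∀ d ∈ T24, (0 < b → 0 < a ∧ a ≠ b) →
    (0 < c → 0 < b ∧ a ≠ c ∧ b ≠ c) → (0 < d → 0 < c ∧ a ≠ d ∧ b ≠ d ∧ c ≠ d) →
    (1024 ∣ 43264 + (a + b + c + d) → a = 20401920 ∧ b = 0 ∨ 0 < b) ∧
    (1024 ∣ 712448 + (a + b + c + d) → 0 < b ∧
      (a + b = 61205760 ∧ (a = 20401920 ∨ b = 20401920) ∨ 0 < c)) := by decide +kernel

theorem chain24' {s : ℕ → ℕ} (hv : ∀ j, s j ∈ T24) (hi : ∀ i j, 0 < s i → s i = s j → i = j)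
    (hp : ∀ j, 0 < s (j + 1) → 0 < s j) :
    (1024 ∣ 43264 + (s 0 + s 1 + s 2 + s 3) → s 0 = 20401920 ∧ s 1 = 0 ∨ 0 < s 1) ∧
    (1024 ∣ 712448 + (s 0 + s 1 + s 2 + s 3) → 0 < s 1 ∧
      (s 0 + s 1 = 61205760 ∧ (s 0 = 20401920 ∨ s 1 = 20401920) ∨ 0 < s 2)) := by
  have k : ∀ i j, 0 < s j → i ≠ j → s i ≠ s j := fun i j a b c => b (hi j i a c.symm).symm
  exact four24 _ (hv 0) _ (hv 1) _ (hv 2) _ (hv 3) (fun e => ⟨hp 0 e, k _ _ e (by decide)⟩)
    (fun e => ⟨hp 1 e, k _ _ e (by decide), k _ _ e (by decide)⟩)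
    fun e => ⟨hp 2 e, k _ _ e (by decide), k _ _ e (by decide), k _ _ e (by decide)⟩

def S24 : Finset ℕ := {1, 43263, 712448, 5100480, 4080384, 20401920, 11658240, 15301440, 12241152,
  22256640, 40803840, 34974720, 32643072, 23316480, 21288960}

theorem nse24_of_eq [Finite G] (hc : Nat.card G = 244823040)
    (h : {c : ℕ | 0 < c ∧ ∃ n : ℕ, c = Nat.card {g : G // orderOf g = n}} =
      {1, 43263, 712448, 5100480, 4080384, 20401920, 11658240, 15301440, 12241152, 22256640,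
        40803840, 34974720, 32643072, 23316480, 21288960}) : Nse24 G := by
  obtain ⟨h0, h2, h3⟩ := nse_basic (G := G) S24 (by rw [h]; simp [S24]) (by rw [hc]; rfl)
  have h1 : ∀ n, nord G n ∈ insert 0 S24 := fun n => mem_insert.2 (h0 n)
  have n1 : nord G 1 = 1 := nord_one
  have n2 : nord G 2 = 43263 := (h2 43263 (by decide)).elim fun n hn =>
    nord_two_of_odd hn (by norm_num) (by norm_num)
  have f : ∀ p, p.Prime → p ∣ 244823040 → ¬ p ^ 2 ∣ 244823040 → ∀ m, ¬ p ∣ m →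
      p ∣ nord G m + nord G (m * p) := fun p hp e1 e2 => dvd_add_nord hp (hc ▸ e1) (hc ▸ e2)
  have f5 := f 5 (by norm_num) (by norm_num) (by norm_num)
  have f7 := f 7 (by norm_num) (by norm_num) (by norm_num)
  have f3 := frobenius_pow (G := G) Nat.prime_three (k := 1) (by rw [hc]; norm_num)
  rw [Nat.sum_divisors_prime_pow (by norm_num)] at f3
  simp only [sum_range_succ, sum_range_zero, pow_zero, pow_one, zero_add, n1] at f3
  have n3 : nord G 3 = 712448 :=
    (by decide : ∀ c ∈ insert 0 S24, 3 ∣ 1 + c → c = 712448) _ (h1 3) f3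
  have n5 : nord G 5 = 4080384 := (by decide : ∀ c ∈ insert 0 S24, 5 ∣ 1 + c → c = 4080384) _
    (h1 5) (n1 ▸ f5 1 (by norm_num))
  have n7 : nord G 7 = 11658240 := (by decide : ∀ c ∈ insert 0 S24, 7 ∣ 1 + c → c = 11658240) _
    (h1 7) (n1 ▸ f7 1 (by norm_num))
  have n11 : nord G 11 = 22256640 :=
    (by decide : ∀ c ∈ insert 0 S24, 11 ∣ 1 + c → c = 22256640) _ (h1 11)
      (n1 ▸ f 11 (by norm_num) (by norm_num) (by norm_num) 1 (by norm_num))
  have n23 : nord G 23 = 21288960 :=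
    (by decide : ∀ c ∈ insert 0 S24, 23 ∣ 1 + c → c = 21288960) _ (h1 23)
      (n1 ▸ f 23 (by norm_num) (by norm_num) (by norm_num) 1 (by norm_num))
  have n14 : nord G 14 = 34974720 :=
    (by decide : ∀ c ∈ insert 0 S24, 7 ∣ 43263 + c → c = 34974720) _ (h1 14)
      (n2 ▸ f7 2 (by norm_num))
  have n21 : nord G 21 = 23316480 :=
    (by decide : ∀ c ∈ insert 0 S24, 7 ∣ 712448 + c → c = 23316480) _ (h1 21)
      (n3 ▸ f7 3 (by norm_num))
  have n15 : nord G 15 = 32643072 :=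
    (by decide : ∀ c ∈ insert 0 S24, 5 ∣ 712448 + c → 4080384 * 2 ∣ c → c = 32643072) _ (h1 15)
      (n3 ▸ f5 3 (by norm_num)) (by
        simpa [n5, Nat.totient_prime Nat.prime_three] using nord_mul_totient_dvd (G := G) (p := 5)
          (k := 3) (by norm_num) (by rw [hc]; norm_num) (by norm_num))
  have n10 : nord G 10 = 12241152 :=
    (by decide : ∀ c ∈ insert 0 S24, 5 ∣ 43263 + c → c ≠ 32643072 → c = 12241152) _ (h1 10)
      (n2 ▸ f5 2 (by norm_num)) fun e =>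
        absurd (h3 15 10 (by rw [n15]; norm_num) (n15.trans e.symm)) (by norm_num)
  have hv : ∀ d, d ∉ ({1, 2, 3, 5, 7, 10, 11, 14, 15, 21, 23} : Finset ℕ) → nord G d ∈ T24 := by
    intro d hd
    simp only [mem_insert, mem_singleton, not_or] at hd
    have k : ∀ n v, nord G n = v → 0 < v → d ≠ n → nord G d ≠ v := fun n v e1 e2 e3 e4 =>
      e3 (h3 n d (e1 ▸ e2) (e1.trans e4.symm)).symm
    obtain ⟨a1, a2, a3, a4, a5, a6, a7, a8, a9, a10, a11⟩ := hd
    exact (by decide : ∀ c ∈ insert 0 S24, c ≠ 1 → c ≠ 43263 → c ≠ 712448 → c ≠ 4080384 →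
      c ≠ 11658240 → c ≠ 12241152 → c ≠ 22256640 → c ≠ 34974720 → c ≠ 32643072 → c ≠ 23316480 →
      c ≠ 21288960 → c ∈ T24) _ (h1 d) (k _ _ n1 (by norm_num) a1) (k _ _ n2 (by norm_num) a2)
      (k _ _ n3 (by norm_num) a3) (k _ _ n5 (by norm_num) a4) (k _ _ n7 (by norm_num) a5)
      (k _ _ n10 (by norm_num) a6) (k _ _ n11 (by norm_num) a7) (k _ _ n14 (by norm_num) a8)
      (k _ _ n15 (by norm_num) a9) (k _ _ n21 (by norm_num) a10) (k _ _ n23 (by norm_num) a11)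
  have ch : ∀ m, m = 4 ∨ m = 6 → (∀ j, nord G (m * 2 ^ j) ∈ T24) ∧
      (∀ i j, 0 < nord G (m * 2 ^ i) → nord G (m * 2 ^ i) = nord G (m * 2 ^ j) → i = j) ∧
      ∀ j, 0 < nord G (m * 2 ^ (j + 1)) → 0 < nord G (m * 2 ^ j) := fun m hm =>
    ⟨fun j => hv _ fun e => by
      have : m ∣ m * 2 ^ j := dvd_mul_right _ _
      simp only [mem_insert, mem_singleton] at e
      generalize m * 2 ^ j = n at *
      rcases hm with rfl | rfl <;> omega, fun i j e1 e2 => Nat.pow_right_injective le_rfl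
        (Nat.eq_of_mul_eq_mul_left (by omega) (h3 _ _ e1 e2)),
      fun j e => nord_pos_of_dvd e (Nat.mul_dvd_mul_left m (pow_dvd_pow 2 j.le_succ))⟩
  obtain ⟨a1, a2, a3⟩ := ch 4 (by simp)
  obtain ⟨b1, b2, b3⟩ := ch 6 (by simp)
  have a4 := chain24 a1 a2 a3
  have b4 := chain24 b1 b2 b3
  have g := fun m => dvd_sum_nord_mul (G := G) (p := 2) (a := 10) (m := m) Nat.prime_two
    (by rw [hc]; norm_num) (by rw [hc]; norm_num)
  have g1 := g 1 (by norm_num)
  have g3 := g 3 (by norm_num)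
  have a5 := (chain24' a1 a2 a3).1
  have b5 := (chain24' b1 b2 b3).2
  have c0 := a4 0; have c1 := a4 1; have c2 := a4 2; have c3 := a4 3; have c4 := a4 4
  have d0 := b4 0; have d1 := b4 1; have d2 := b4 2; have d3 := b4 3; have d4 := b4 4
  have d5 := b4 5
  simp only [sum_range_succ, sum_range_zero] at g1 g3
  simp only [Nat.reducePow, Nat.reduceMul, Nat.reduceAdd] at g1 g3 a5 b5 c0 c1 c2 c3 c4 d0 d1 d2 d3 d4 d5
  replace a5 := a5 (by convert g1 using 1; omega)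
  replace b5 := b5 (by convert g3 using 1; omega)
  have k : ∀ i j, 0 < nord G i → i ≠ j → nord G i ≠ nord G j := fun i j a b c => b (h3 i j a c)
  have p6 : 0 < nord G 6 := nord_pos_of_dvd b5.1 (by norm_num)
  have p8 : 0 < nord G 8 := a5.elim (fun e => b5.2.elim (fun e' => by
    have := k 6 4 p6 (by norm_num)
    have := k 12 4 b5.1 (by norm_num)
    omega) fun e' => nord_pos_of_dvd e' (by norm_num)) id
  have p4 : 0 < nord G 4 := nord_pos_of_dvd p8 (by norm_num)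
  have l : ∀ d, 0 < nord G d → d ∈ O24 := fun d hd => by
    by_contra e
    simp only [O24, mem_insert, mem_singleton, not_or] at e
    exact k 12 d b5.1 (by omega) (five24 _ (hv 4 (by decide)) _ (hv 8 (by decide)) _
      (hv 6 (by decide)) _ (hv 12 (by decide)) _ (hv d (by simp; omega)) p4 p8 p6 b5.1 hd
      (k _ _ p4 (by decide)) (k _ _ p4 (by decide)) (k _ _ p4 (by decide)) (k _ _ p4 (by omega))
      (k _ _ p8 (by decide)) (k _ _ p8 (by decide)) (k _ _ p8 (by omega)) (k _ _ p6 (by decide))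
      (k _ _ p6 (by omega)))
  exact ⟨hc, n2, n3, n5, n7, n10, n14, n15, n21,
    b5.2.elim And.left fun e => absurd (l _ e) (by decide), fun g => l _ (nord_pos_iff.2 ⟨g, rfl⟩)⟩

end CfsgH8.Mat
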