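import Cfsg.Agent.H8.M24RecA
import Cfsg.Agent.H8.ClSum
import Cfsg.Agent.H8.Hs27

set_option autoImplicit false

/-! Recognition of `M24` from the order statistics: elements of order 5 and 7. -/

namespace CfsgH8.Mat

open Subgroup Finset CfsgH5 CfsgH6 CfsgFT

variable {G : Type*} [Group G]

attribute [local irreducible] nord

theorem card_le_nord [Finite G] {A K : Subgroup G} (h : A ≤ K) {n : ℕ}
    (h2 : ∀ a ∈ A, a ≠ 1 → orderOf a = n) : Nat.card A ≤ nord K n + 1 := by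
  rw [← card_ne_one A, nord_sub]
  exact Nat.succ_le_succ (Nat.card_le_card_of_injective
    (fun b => (⟨b.1, h b.2.1, h2 _ b.2.1 b.2.2⟩ : {b // b ∈ K ∧ orderOf b = n}))
    fun b c e => Subtype.ext (Subtype.mk.inj e))

theorem mem_of_nord_lt [Finite G] {A K : Subgroup G} (h : A ≤ K) {n : ℕ}
    (h2 : ∀ a ∈ A, a ≠ 1 → orderOf a = n) (h3 : nord K n < Nat.card A) {g : G} (hg : g ∈ K)
    (h4 : orderOf g = n) : g ∈ A := by
  have h5 := card_ne_one A
  obtain ⟨c, e⟩ := (Function.Injective.bijective_of_nat_card_le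
    (f := fun b : {b : G // b ∈ A ∧ b ≠ 1} => (⟨b.1, h b.2.1, h2 _ b.2.1 b.2.2⟩ :
      {b // b ∈ K ∧ orderOf b = n})) (fun b c e => Subtype.ext (Subtype.mk.inj e))
    (by rw [← nord_sub]; omega)).2 ⟨g, hg, h4⟩
  exact (show c.1 = g from congrArg Subtype.val e) ▸ c.2.1

theorem dvd_of_nord_pos [Finite G] {K : Subgroup G} {n : ℕ} (h : 0 < nord K n) :
    n ∣ Nat.card K := by
  obtain ⟨g, rfl⟩ := nord_pos_iff.1 h
  exact orderOf_dvd_natCard g

theorem ord_zp {p : ℕ} (hp : p.Prime) {f a : G} (hf : orderOf f = p) (ha : a ∈ zpowers f)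
    (h1 : a ≠ 1) : orderOf a = p :=
  ((Nat.dvd_prime hp).1 (hf ▸ orderOf_dvd_of_mem_zpowers ha)).resolve_left
    fun e => h1 (orderOf_eq_one_iff.1 e)

theorem zp_eq [Finite G] {p : ℕ} (hp : p.Prime) {f a : G} (hf : orderOf f = p) (ha : a ∈ zpowers f)
    (h1 : a ≠ 1) : zpowers a = zpowers f :=
  eq_of_le_of_card_eq (zpowers_le.2 ha) (by rw [Nat.card_zpowers, Nat.card_zpowers, hf,
    ord_zp hp hf ha h1])

theorem cube_of {b : G} (hb : orderOf b = 3) : b ^ 3 = 1 := hb ▸ pow_orderOf_eq_one b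

theorem card_zp {b : G} {n : ℕ} (hb : orderOf b = n) : Nat.card (zpowers b) = n := by
  rw [Nat.card_zpowers, hb]

theorem bas_sup [Finite G] {b e : G} (hb : orderOf b = 3) (he : e ^ 3 = 1) (h1 : e ∉ zpowers b)
    (h2 : e ∈ C1 b) : Bas (zpowers b ⊔ zpowers e) b e := by
  have e3 : orderOf e = 3 := orderOf_three he fun h => h1 (h ▸ one_mem _)
  have h3 : zpowers b ≤ C (zpowers e) := by rw [C_zpowers]; exact zpowers_le.2 (mem_C1_comm.1 h2)
  have h4 := ab_iff.1 ((ab_zpowers b).sup (ab_zpowers e) h3)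
  refine ⟨?_, fun v hv => ?_, h4, mem_sup_left (mem_zpowers b), mem_sup_right (mem_zpowers e),
    ne_one_of_ord hb, h1⟩
  · rw [card_sup_of_inf_eq_bot (Or.inl (nrm_of_le_C h3)) (eq_bot_iff.2 fun v hv => ?_),
      card_zp hb, card_zp e3]
    by_contra v1
    exact h1 ((zp_eq Nat.prime_three e3 hv.2 v1).ge.trans (zpowers_le.2 hv.1) (mem_zpowers e))
  · obtain ⟨x, hx, y, hy, rfl⟩ := Nrm.exists_mul_of_mem_sup (nrm_of_le_C h3) hv
    rw [(show Commute x y from le_C_iff.1 h3 x hx y hy).mul_pow,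
      orderOf_dvd_iff_pow_eq_one.1 (hb ▸ orderOf_dvd_of_mem_zpowers hx),
      orderOf_dvd_iff_pow_eq_one.1 (e3 ▸ orderOf_dvd_of_mem_zpowers hy), one_mul]

theorem dvd_of_mul_closed [Finite G] {p : ℕ} (hp : p.Prime) {d : G} (hd : orderOf d = p)
    (P : G → Prop) (h : ∀ a, P (a * d) ↔ P a) : p ∣ Nat.card {a // P a} := by
  classical
  haveI := Fact.mk hp
  have := Fintype.ofFinite G
  by_contra e
  rw [Nat.card_eq_fintype_card] at e
  obtain ⟨a, ha⟩ := Equiv.Perm.exists_fixed_point_of_prime (n := 1) e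
    (σ := (Equiv.mulRight d : Equiv.Perm G).subtypePerm (p := P) fun a => h a) (by
      have h1 : ∀ a, P ((Equiv.mulRight d : Equiv.Perm G) a) ↔ P a := h
      change (Equiv.Perm.subtypePerm _ h1) ^ p ^ 1 = 1
      rw [Equiv.Perm.subtypePerm_pow, pow_one]
      ext a
      simp [← hd])
  have : (a : G) * d = a := congrArg Subtype.val ha
  rw [mul_eq_left.1 this, orderOf_one] at hd
  exact hp.ne_one hd.symm

/-- the first generators -/
structure D1 (u d t y : G) : Prop where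
  u7 : orderOf u = 7
  d3 : orderOf d = 3
  t2 : orderOf t = 2
  y3 : orderOf y = 3
  du : d ∈ C1 u
  tu : t ∈ C1 u
  ty : t ∈ C1 y
  dy : d ∈ C1 y
  td : t * d * t⁻¹ = d⁻¹
  yu : y * u * y⁻¹ = u ^ 2

theorem inv_ne_self {b : G} (hb : orderOf b = 3) : b⁻¹ ≠ b := fun e => by
  have := orderOf_dvd_of_pow_eq_one (show b ^ 2 = 1 by rw [pow_two]; nth_rw 1 [← e]; simp)
  rw [hb] at this
  exact absurd this (by norm_num)

namespace Nse24

variable [Finite G] (h : Nse24 G)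
include h

theorem ne_ord (n : ℕ) (hn : n ∉ O24) (g : G) : orderOf g ≠ n := fun e => hn (e ▸ h.ord g)

theorem nz (n : ℕ) (hn : n ∉ O24 := by decide) : nord G n = 0 :=
  nord_eq_zero_iff.2 (h.ne_ord n hn)

theorem not_dvd {v : G} {n : ℕ} (hv : orderOf v = n) (p : ℕ) {K : Subgroup G} (hK : K ≤ C1 v)
    (hp : p.Prime := by norm_num) (h2 : p.Coprime n := by norm_num)
    (h3 : p * n ∉ O24 := by decide) : ¬ p ∣ Nat.card K := by
  subst hv
  exact not_dvd_card_C1 hp hK h2 (h.ne_ord _ h3)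

theorem pow_C {v g : G} {n m : ℕ} (hv : orderOf v = n) (hg : g ∈ C1 v)
    (hm : ∀ k ∈ O24, (k.Coprime n → k * n ∈ O24) → k ∣ m := by decide) : g ^ m = 1 :=
  orderOf_dvd_iff_pow_eq_one.1 (hm _ (h.ord g) fun e => by
    have := h.ord (g * v)
    rwa [orderOf_mul_C1 hg (hv ▸ e), hv] at this)

theorem cube {P : Subgroup G} (hP : IsPGroup 3 P) {g : G} (hg : g ∈ P) : g ^ 3 = 1 := by
  obtain ⟨k, hk⟩ := hP ⟨g, hg⟩
  have h1 : orderOf g ∣ 3 ^ k := orderOf_dvd_of_pow_eq_one (congrArg Subtype.val hk)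
  exact orderOf_dvd_iff_pow_eq_one.1 ((by decide : ∀ n ∈ O24, n.Coprime (2 * 5 * 7 * 11 * 23) →
    n ∣ 3) _ (h.ord g) ((Nat.Coprime.pow_left k (by norm_num)).coprime_dvd_left h1))

theorem dvd_G (K : Subgroup G) : Nat.card K ∣ 244823040 := h.card ▸ K.card_subgroup_dvd_card

theorem sylp {p : ℕ} (hp : p = 5 ∨ p = 7) {f : G} (hf : orderOf f = p) (H : Subgroup G)
    (hH : f ∈ H) : SylIn p (zpowers f) H := by
  rcases hp with rfl | rfl
  · exact sylIn_of_card (k := 1) (m := 48964608) (by norm_num) (zpowers_le.2 hH) (card_zp hf)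
      (h.dvd_G H) (by norm_num)
  · exact sylIn_of_card (k := 1) (m := 34974720) (by norm_num) (zpowers_le.2 hH) (card_zp hf)
      (h.dvd_G H) (by norm_num)

theorem C1_conj {p : ℕ} (hp : p = 5 ∨ p = 7) {f f' : G} (hf : orderOf f = p)
    (hf' : orderOf f' = p) : ∃ g, C1 f' = C1 (g * f * g⁻¹) := by
  haveI : Fact p.Prime := ⟨by rcases hp with rfl | rfl <;> norm_num⟩
  obtain ⟨g, -, e⟩ := (h.sylp hp hf ⊤ trivial).conj (h.sylp hp hf' ⊤ trivial)
  exact ⟨g, by rw [← C_zpowers, ← e, cj_zpowers, C_zpowers]⟩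

theorem nord_C {p : ℕ} (hp : p = 5 ∨ p = 7) {f : G} (hf : orderOf f = p) {k : ℕ}
    (hk : p.Coprime k) : nord G (p * k) = nord G p * nord (C1 f) k := by
  classical
  have := Fintype.ofFinite G
  rw [nord_mul_coprime hk, sum_congr rfl fun x hx => ?_, sum_const, card_filter_ord, smul_eq_mul]
  obtain ⟨g, e⟩ := h.C1_conj hp hf (mem_filter.1 hx).2
  exact (congrArg (fun K : Subgroup G => nord K k) e).trans (nord_cent_conj f g k)

theorem conj_into {p : ℕ} (hp : p = 5 ∨ p = 7) {f b : G} (hf : orderOf f = p)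
    (hb : p ∣ Nat.card (C1 b)) : ∃ b' ∈ C1 f, Cj ⊤ b b' := by
  obtain ⟨f', h1, h2⟩ := exists_ord (by rcases hp with rfl | rfl <;> norm_num) hb
  obtain ⟨g, e⟩ := h.C1_conj hp h2 hf
  exact ⟨_, by rw [e, ← cj_C1, conj_mem_cj]; exact mem_C1_comm.1 h1, g, trivial, rfl⟩

theorem card_N7 {u : G} (hu : orderOf u = 7) : Nat.card (N (zpowers u)) = 126 := by
  have := card_N_zpowers (p := 7) (by norm_num) (by rw [h.card]; norm_num) hu
  rw [h.n7, h.card] at this
  omega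

theorem card_N5 {x : G} (hx : orderOf x = 5) : Nat.card (N (zpowers x)) = 240 := by
  have := card_N_zpowers (p := 5) (by norm_num) (by rw [h.card]; norm_num) hx
  rw [h.n5, h.card] at this
  omega

theorem nord_C7 {u : G} (hu : orderOf u = 7) : nord (C1 u) 2 = 3 ∧ nord (C1 u) 3 = 2 := by
  have h1 := h.nord_C (Or.inr rfl) hu (k := 2) (by norm_num)
  have h2 := h.nord_C (Or.inr rfl) hu (k := 3) (by norm_num)
  rw [h.n7] at h1 h2
  rw [h.n14] at h1
  rw [h.n21] at h2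
  omega

theorem nord_C5 {x : G} (hx : orderOf x = 5) : nord (C1 x) 2 = 3 ∧ nord (C1 x) 3 = 8 := by
  have h1 := h.nord_C (Or.inl rfl) hx (k := 2) (by norm_num)
  have h2 := h.nord_C (Or.inl rfl) hx (k := 3) (by norm_num)
  rw [h.n5] at h1 h2
  rw [h.n10] at h1
  rw [h.n15] at h2
  omega

theorem card_C7 {u : G} (hu : orderOf u = 7) : Nat.card (C1 u) = 42 := by
  have h1 := relIndex_C_dvd_of_prime_card (p := 7) (by norm_num) (card_zp hu) (nrm_N _)
  have h2 := card_mul_relIndex (C_le_N (zpowers u))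
  rw [C_zpowers] at h1 h2
  rw [h.card_N7 hu] at h2
  have h3 := dvd_of_nord_pos (K := C1 u) (n := 2) (by rw [(h.nord_C7 hu).1]; norm_num)
  obtain ⟨S, hS⟩ := exists_sylIn 3 (C1 u)
  have h4 := card_le_nord hS.le fun a ha => orderOf_three (h.cube hS.isPGroup ha)
  have h5 : Nat.card (C1 u) ≠ 3 ^ 2 * 14 := fun e => by
    rw [card_of_sylIn Nat.prime_three hS e (by norm_num), (h.nord_C7 hu).2] at h4
    omega
  have h6 := Nat.le_of_dvd (by norm_num) h1
  generalize (C1 u).relIndex (N (zpowers u)) = r at *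
  interval_cases r <;> omega

theorem sq5 {x g : G} (hx : orderOf x = 5) {T : Subgroup G} (hT : IsPGroup 2 T) (hg : g ∈ T)
    (h1 : g ∈ C1 x) : g * g = 1 := by
  obtain ⟨k, hk⟩ := hT ⟨g, hg⟩
  rw [← pow_two, ← orderOf_dvd_iff_pow_eq_one]
  exact Nat.Coprime.dvd_of_dvd_mul_right (n := 15) ((Nat.Coprime.pow_left k
    (by norm_num)).coprime_dvd_left (orderOf_dvd_of_pow_eq_one (congrArg Subtype.val hk)))
    (orderOf_dvd_of_pow_eq_one (h.pow_C (m := 30) hx h1))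

theorem card_C5 {x : G} (hx : orderOf x = 5) : Nat.card (C1 x) = 60 := by
  have h1 := relIndex_C_dvd_of_prime_card (p := 5) (by norm_num) (card_zp hx) (nrm_N _)
  have h2 := card_mul_relIndex (C_le_N (zpowers x))
  rw [C_zpowers] at h1 h2
  rw [h.card_N5 hx] at h2
  obtain ⟨S, hS⟩ := exists_sylIn 2 (C1 x)
  have h4 := card_le_nord hS.le fun a ha => orderOf_two (h.sq5 hx hS.isPGroup ha (hS.le ha))
  rw [(h.nord_C5 hx).1] at h4
  have h5 : Nat.card (C1 x) ≠ 2 ^ 3 * 15 := fun e => by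
    rw [card_of_sylIn Nat.prime_two hS e (by norm_num)] at h4
    omega
  have h6 : Nat.card (C1 x) ≠ 2 ^ 4 * 15 := fun e => by
    rw [card_of_sylIn Nat.prime_two hS e (by norm_num)] at h4
    omega
  have h6 := Nat.le_of_dvd (by norm_num) h1
  generalize (C1 x).relIndex (N (zpowers x)) = r at *
  interval_cases r <;> omega

theorem mem_C7 {u d b : G} (hu : orderOf u = 7) (hd : orderOf d = 3) (du : d ∈ C1 u)
    (hb : orderOf b = 3) (bu : b ∈ C1 u) : b = d ∨ b = d⁻¹ :=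
  (mem_zpowers_three (cube_of hd) (mem_of_nord_lt (zpowers_le.2 du)
    (fun _ => ord_zp Nat.prime_three hd) (by rw [(h.nord_C7 hu).2, card_zp hd]; norm_num) bu
    hb)).resolve_left (ne_one_of_ord hb)

theorem conj_C7 {u d g : G} (hu : orderOf u = 7) (hd : orderOf d = 3) (du : d ∈ C1 u)
    (hg : g ∈ N (zpowers u)) : g * d * g⁻¹ = d ∨ g * d * g⁻¹ = d⁻¹ :=
  h.mem_C7 hu hd du ((orderOf_conj' g d).trans hd)
    (C_zpowers u ▸ nrm_N_C (zpowers u) g hg d (C_zpowers u ▸ du))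

theorem card_NC {u d t : G} (hu : orderOf u = 7) (hd : orderOf d = 3) (ht : orderOf t = 2)
    (du : d ∈ C1 u) (tu : t ∈ C1 u) (td : t * d * t⁻¹ = d⁻¹) :
    Nat.card ↥(N (zpowers u) ⊓ C1 t) = 42 ∧ Nat.card ↥(C1 u ⊓ C1 t) = 14 ∧
      Nat.card ↥(N (zpowers u) ⊓ C1 d) = 63 := by
  have hN : C1 u ≤ N (zpowers u) := C_zpowers u ▸ C_le_N _
  have h1 := relIndex_C1_le_of (H := N (zpowers u)) (a := t)
    (p := fun b => b ∈ C1 u ∧ orderOf b = 2) fun g hg =>
      ⟨C_zpowers u ▸ nrm_N_C (zpowers u) g hg t (C_zpowers u ▸ tu), (orderOf_conj' g t).trans ht⟩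
  have h2 := relIndex_C1_le_of (H := N (zpowers u)) (a := d)
    (p := fun b => b ∈ C1 u ∧ orderOf b = 3) fun g hg =>
      ⟨C_zpowers u ▸ nrm_N_C (zpowers u) g hg d (C_zpowers u ▸ du), (orderOf_conj' g d).trans hd⟩
  rw [← nord_sub] at h1 h2
  rw [(h.nord_C7 hu).1] at h1
  rw [(h.nord_C7 hu).2] at h2
  have h3 := relIndex_le_of_le_right hN (relIndex_ne_zero' (C1 t) _)
  have h4 := relIndex_mul_inf (N (zpowers u)) t
  have h5 := relIndex_mul_inf (C1 u) t
  have h6 := relIndex_mul_inf (N (zpowers u)) d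
  have h7 := h.not_dvd (n := 14) (v := t * u) (by rw [orderOf_mul_C1 tu (by rw [ht, hu]; norm_num), ht, hu])
    3 (K := C1 u ⊓ C1 t) fun g hg => mem_C1.2 (by
      rw [← mul_assoc, mem_C1.1 hg.2, mul_assoc, mem_C1.1 hg.1, mul_assoc])
  have h8 : (C1 d).relIndex (N (zpowers u)) ≠ 1 := fun e =>
    inv_ne_self hd (td.symm.trans (mem_C1_iff_conj.1 (relIndex_eq_one.1 e (hN tu))))
  have h9 := relIndex_pos (C1 d) (N (zpowers u))
  rw [h.card_N7 hu] at h4 h6
  rw [h.card_C7 hu] at h5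
  have h10 : (C1 t).relIndex (C1 u) = 3 := by
    have := h3.trans h1
    generalize (C1 t).relIndex (C1 u) = r at *
    interval_cases r <;> omega
  rw [h10] at h3 h5
  rw [le_antisymm h1 h3] at h4
  rw [show (C1 d).relIndex (N (zpowers u)) = 2 by omega] at h6
  omega

theorem exists_D1 : ∃ u d t y : G, D1 u d t y := by
  classical
  obtain ⟨u, -, hu⟩ := exists_ord (p := 7) (K := (⊤ : Subgroup G)) (by norm_num)
    (by rw [card_top, h.card]; norm_num)
  obtain ⟨d, du, hd⟩ := exists_ord Nat.prime_three (K := C1 u) (by rw [h.card_C7 hu]; norm_num)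
  obtain ⟨t, tu, ht⟩ := exists_ord Nat.prime_two (K := C1 u) (by rw [h.card_C7 hu]; norm_num)
  have hN : C1 u ≤ N (zpowers u) := C_zpowers u ▸ C_le_N _
  have dt : d ∉ C1 t := fun e => absurd (card_zp hd).symm.dvd (h.not_dvd (n := 14) (v := t * u)
    (by rw [orderOf_mul_C1 tu (by rw [ht, hu]; norm_num), ht, hu]) 3 (K := zpowers d)
    (zpowers_le.2 (mem_C1.2 (by
      rw [← mul_assoc, mem_C1.1 e, mul_assoc, mem_C1.1 du, mul_assoc]))))
  have td := (h.conj_C7 hu hd du (hN tu)).resolve_left fun e => dt (mem_C1_iff_conj'.2 e)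
  have key : ∀ y, y ∈ N (zpowers u) ⊓ C1 t → orderOf y = 3 → y * u * y⁻¹ = u ^ 2 → D1 u d t y :=
    fun y hy y3 yu => ⟨hu, hd, ht, y3, du, tu, mem_C1_comm.1 hy.2, mem_C1_iff_conj'.2
      ((h.conj_C7 hu hd du hy.1).resolve_right fun e => inv_ne_self hd (by
        have h1 : y ^ 3 * d * (y ^ 3)⁻¹ = d⁻¹ := by
          calc _ = y * (y * (y * d * y⁻¹) * y⁻¹) * y⁻¹ := by simp [pow_succ, mul_assoc]
            _ = _ := by rw [e, ← conj_inv, e, inv_inv, e]
        rwa [cube_of y3, one_mul, inv_one, mul_one, eq_comm] at h1)), td, yu⟩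
  obtain ⟨y, hy, y3⟩ := exists_ord Nat.prime_three (K := N (zpowers u) ⊓ C1 t)
    (by rw [(h.card_NC hu hd ht du tu td).1]; norm_num)
  have yu : y ∉ C1 u := fun e => (h.mem_C7 hu hd du y3 e).elim (fun e => dt (e ▸ hy.2))
    fun e => dt (inv_mem_iff.1 (e ▸ hy.2))
  obtain ⟨k, hk, e⟩ := mem_image.1 (mem_zpowers_iff_mem_range_orderOf.1
    (conj_mem_of_mem_N hy.1 (mem_zpowers u)))
  have h1 : u ^ (k * k * k) = u ^ 1 := by
    calc _ = y * (y * (y * u * y⁻¹) * y⁻¹) * y⁻¹ := by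
            simp only [← e, ← conj_pow, pow_mul]
      _ = y ^ 3 * u * (y ^ 3)⁻¹ := by simp [pow_succ, mul_assoc]
      _ = _ := by simp [cube_of y3]
  rw [pow_eq_pow_iff_modEq, hu] at h1
  rw [hu] at hk
  rcases (by decide : ∀ k ∈ range 7, k * k * k ≡ 1 [MOD 7] → k = 1 ∨ k = 2 ∨ k = 4) k hk h1 with
    rfl | rfl | rfl
  · exact absurd (mem_C1_iff_conj.2 (e.symm.trans (pow_one u))) yu
  · exact ⟨u, d, t, y, key y hy y3 e.symm⟩
  · refine ⟨u, d, t, y⁻¹, key _ (inv_mem hy) (by rwa [orderOf_inv]) ?_⟩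
    rw [mul_inv_eq_iff_eq_mul, inv_mul_eq_iff_eq_mul, ← mul_assoc, ← conj_pow, ← e, ← pow_mul,
      show 4 * 2 = 7 + 1 from rfl, pow_succ, ← hu, pow_orderOf_eq_one, one_mul]

end Nse24

end CfsgH8.Mat
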