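import Cfsg.Agent.H8.M24RecB

set_option autoImplicit false

/-! Recognition of `M24` from the order statistics: the element `d` is not 3-central. -/

namespace CfsgH8.Mat

open Subgroup Finset CfsgH5 CfsgH6 CfsgFT

variable {G : Type*} [Group G]

attribute [local irreducible] nord

open Classical in
/-- elements of order three in `C(b)` outside `⟨b⟩` -/
noncomputable def UU [Fintype G] (b : G) : Finset G :=
  univ.filter fun e => e ∈ C1 b ∧ e ^ 3 = 1 ∧ e ∉ zpowers b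

theorem mem_UU [Fintype G] {b e : G} : e ∈ UU b ↔ e ∈ C1 b ∧ e ^ 3 = 1 ∧ e ∉ zpowers b := by
  simp [UU]

theorem UU_ord [Fintype G] {b e : G} (h : e ∈ UU b) : orderOf e = 3 :=
  orderOf_three (mem_UU.1 h).2.1 fun e1 => (mem_UU.1 h).2.2 (e1 ▸ one_mem _)

theorem conj_zp {b g v : G} (hg : g ∈ C1 b) (hv : v ∈ zpowers b) : g * v * g⁻¹ = v :=
  mem_C1_iff_conj.1 (C1_le_C1_of_mem_zpowers hv hg)

theorem clo_UU [Fintype G] (b : G) : Clo (C1 b) (UU b) := by
  rintro a ha _ ⟨g, hg, rfl⟩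
  obtain ⟨h1, h2, h3⟩ := mem_UU.1 ha
  refine mem_UU.2 ⟨Nrm.self _ g hg a h1, by rw [conj_pow, h2]; simp, fun e => h3 ?_⟩
  have := conj_zp (inv_mem hg) e
  rw [show g⁻¹ * (g * a * g⁻¹) * g⁻¹⁻¹ = a by group] at this
  exact this ▸ e

theorem card_filter_sub [Fintype G] (p : G → Prop) [DecidablePred p] :
    #(univ.filter p) = Nat.card {a // p a} := by
  rw [Nat.card_eq_fintype_card, Fintype.card_subtype]

theorem Cj.relIndex [Finite G] {K : Subgroup G} {a b : G} (h : Cj K a b) :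
    (C1 b).relIndex K = (C1 a).relIndex K :=
  Nat.eq_of_mul_eq_mul_right (card_pos (K ⊓ C1 a))
    (by rw [relIndex_mul_inf, ← h.card_inf, relIndex_mul_inf])

theorem D1.cj_inv {u d t y : G} (D : D1 u d t y) : Cj ⊤ d d⁻¹ := ⟨t, trivial, D.td⟩

theorem nord_cls [Finite G] {d : G} (hd : orderOf d = 3) {p : ℕ} (hp : Nat.Coprime 3 p)
    (hc : ∀ b : G, orderOf b = 3 → p ∣ Nat.card (C1 b) → Cj ⊤ d b) :
    nord G (3 * p) = (C1 d).index * nord (C1 d) p := by
  classical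
  have := Fintype.ofFinite G
  rw [nord_mul_coprime hp, ← relIndex_top_right, ← sum_cl (K := ⊤) (fun b => nord (C1 b) p)
    (by rintro a _ ⟨g, -, rfl⟩; exact nord_cent_conj a g p)]
  refine (sum_subset (fun b hb => mem_filter.2 ⟨mem_univ _, (mem_filter.1 hb).2.ord.trans hd⟩)
    fun b h1 h2 => Nat.eq_zero_of_not_pos fun e => h2 (mem_filter.2 ⟨mem_univ _,
      hc b (mem_filter.1 h1).2 (dvd_of_nord_pos e)⟩)).symm

namespace Nse24

variable [Finite G] (h : Nse24 G)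
include h

theorem card_split [Fintype G] {b : G} (hb : orderOf b = 3) :
    Nat.card (C1 b) = 3 * ph (C1 b) + ∑ e ∈ UU b, ph (C1 b ⊓ C1 e) := by
  classical
  rw [card_eq_sum_ph fun g hg => h.pow_C hb hg, ← sum_filter_add_sum_filter_not _ (· ∈ zpowers b),
    filter_filter, filter_filter, sum_congr rfl fun e he => congrArg ph
      (inf_eq_left.2 (C1_le_C1_of_mem_zpowers (mem_filter.1 he).2.2)), sum_const, smul_eq_mul,
    card_filter_sub]
  congr 2
  · exact Eq.trans (b := Nat.card (zpowers b)) (Nat.card_congr (Equiv.subtypeEquivRight fun e => ⟨And.right, fun e1 =>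
      ⟨⟨zpowers_le.2 (self_mem_C1 b) e1, orderOf_dvd_iff_pow_eq_one.1
        (hb ▸ orderOf_dvd_of_mem_zpowers e1)⟩, e1⟩⟩)) (card_zp hb)
  · ext e
    simp [mem_UU, and_assoc]

theorem not9 {f : G} {p : ℕ} (hp : p = 5 ∨ p = 7 ∨ p = 11 ∨ p = 23) (hf : orderOf f = p) :
    ¬ 9 ∣ Nat.card (C1 f) := by
  rcases hp with rfl | rfl | rfl | rfl
  · rw [h.card_C5 hf]; norm_num
  · rw [h.card_C7 hf]; norm_num
  · exact fun e => h.not_dvd hf 3 le_rfl (by norm_num) (by norm_num) (by decide)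
      (Dvd.dvd.trans (by norm_num) e)
  · exact fun e => h.not_dvd hf 3 le_rfl (by norm_num) (by norm_num) (by decide)
      (Dvd.dvd.trans (by norm_num) e)

theorem dvd_of_four {K : Subgroup G}
    (hK : ∀ f ∈ K, orderOf f = 5 ∨ orderOf f = 7 ∨ orderOf f = 11 ∨ orderOf f = 23 → False) :
    Nat.card K ∣ 27 * 1024 := by
  have k : ∀ p, p.Prime → p = 5 ∨ p = 7 ∨ p = 11 ∨ p = 23 → ¬ p ∣ Nat.card K := fun p hp e1 e2 => by
    obtain ⟨f, hf, rfl⟩ := exists_ord hp e2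
    exact hK f hf e1
  exact dvd_of_not_dvd (p := 5) (by norm_num) (dvd_of_not_dvd (p := 7) (by norm_num)
    (dvd_of_not_dvd (p := 11) (by norm_num) (dvd_of_not_dvd (p := 23) (by norm_num) (h.dvd_G K)
    (k _ (by norm_num) (by simp))) (k _ (by norm_num) (by simp))) (k _ (by norm_num) (by simp)))
    (k _ (by norm_num) (by simp))

theorem card_NP {P : Subgroup G} (hP : Nat.card P = 27) : Nat.card (N P) ∣ 27 * 1024 :=
  h.dvd_of_four fun f hf e => by
    have h1 := card_modEq_C1 (p := orderOf f) (by rcases e with e | e | e | e <;> norm_num [e])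
      (pow_orderOf_eq_one f) hf
    have h2 := card_dvd_of_le (inf_le_left : P ⊓ C1 f ≤ P)
    have h3 := fun e1 => h.not9 e rfl (Dvd.dvd.trans e1 (card_dvd_of_le (inf_le_right : P ⊓ C1 f ≤ _)))
    rw [hP] at h1 h2
    exact (by decide : ∀ n ∈ Nat.divisors 27, ¬ 9 ∣ n → ∀ p ∈ [5, 7, 11, 23], ¬ 27 ≡ n [MOD p]) _
      (Nat.mem_divisors.2 ⟨h2, by norm_num⟩) h3 _ (by simpa using e) h1

theorem card_CC {b e : G} (hb : orderOf b = 3) (h1 : e ∈ C1 b) (h2 : e ^ 3 = 1)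
    (h3 : e ∉ zpowers b) : Nat.card ↥(C1 b ⊓ C1 e) ∣ 27 * 1024 :=
  h.dvd_of_four fun f hf e => h.not9 e rfl ((bas_sup hb h2 h3 h1).card ▸ card_dvd_of_le
    ((bas_sup hb h2 h3 h1).le (mem_C1_comm.1 hf.1) (mem_C1_comm.1 hf.2)))

theorem le_ph {b : G} (hb : orderOf b = 3) {L : Subgroup G} (h1 : L ≤ C1 b)
    (h2 : Nat.card L ∣ 27 * 1024) : Nat.card L ≤ 27 * ph L := by
  haveI := Fact.mk Nat.prime_two
  obtain ⟨T, hT⟩ := exists_sylIn 2 L
  rw [← card_mul_relIndex hT.le, mul_comm]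
  refine Nat.mul_le_mul (Nat.le_of_dvd (by norm_num) (Nat.Coprime.dvd_of_dvd_mul_right
    (Nat.Coprime.pow_right 10 ((Nat.Prime.coprime_iff_not_dvd Nat.prime_two).2
      hT.not_dvd_relIndex).symm) ((relIndex_dvd_card' T L).trans h2)))
    (Nat.card_le_card_of_injective (fun g => (⟨g.1, hT.le g.2, ?_⟩ : {g // g ∈ L ∧ g ^ 140 = 1}))
      fun a b e => Subtype.ext (Subtype.mk.inj e))
  obtain ⟨k, hk⟩ := hT.isPGroup g
  exact orderOf_dvd_iff_pow_eq_one.1 (Nat.Coprime.dvd_of_dvd_mul_left (m := 3)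
    ((Nat.Coprime.pow_left k (by norm_num)).coprime_dvd_left (orderOf_dvd_of_pow_eq_one
      (congrArg Subtype.val hk))) (orderOf_dvd_of_pow_eq_one (h.pow_C (m := 420) hb
      (h1 (hT.le g.2)))))

theorem syl27 {P : Subgroup G} (hP : Nat.card P = 27) (H : Subgroup G) (h1 : P ≤ H) :
    SylIn 3 P H :=
  sylIn_of_card (k := 3) (m := 9067520) Nat.prime_three h1 hP (h.dvd_G H) (by norm_num)

variable {u d t y : G} (D : D1 u d t y)
include D

theorem cj7 {b : G} (hb : orderOf b = 3) (h7 : 7 ∣ Nat.card (C1 b)) : Cj ⊤ d b := by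
  obtain ⟨c, h1, h2⟩ := h.conj_into (Or.inr rfl) D.u7 h7
  rcases h.mem_C7 D.u7 D.d3 D.du (h2.ord.trans hb) h1 with rfl | rfl
  · exact h2.symm
  · exact D.cj_inv.trans h2.symm

theorem card_Cd : ∃ m ∈ ({8, 64, 512, 15, 120, 960, 7680} : Finset ℕ),
    Nat.card (C1 d) = 63 * m := by
  have h1 := sylIn_modEq (by norm_num) (h.sylp (Or.inr rfl) D.u7 _ (mem_C1_comm.1 D.du))
  have h2 := card_inf_mul_relIndex (N (zpowers u)) (C1 d)
  rw [(h.card_NC D.u7 D.d3 D.t2 D.du D.tu D.td).2.2] at h2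
  have h3 : Nat.card (C1 d) ∣ 63 * 15360 := dvd_of_not_dvd (p := 11) (by norm_num)
    (dvd_of_not_dvd (p := 23) (by norm_num) (h.dvd_G _) (h.not_dvd D.d3 23 le_rfl))
    (h.not_dvd D.d3 11 le_rfl)
  have h4 := index_le_nord d
  have h5 := (C1 d).card_mul_index
  rw [D.d3, h.n3] at h4
  rw [h.card, ← h2] at h5
  rw [← h2] at h3
  exact ⟨_, (by decide +kernel : ∀ m ∈ Nat.divisors 15360, m ≡ 1 [MOD 7] →
    244823040 ≤ 63 * m * 712448 → m ∈ ({8, 64, 512, 15, 120, 960, 7680} : Finset ℕ)) _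
    (Nat.mem_divisors.2 ⟨Nat.dvd_of_mul_dvd_mul_left (by norm_num) h3, by norm_num⟩) h1
    (h5 ▸ Nat.mul_le_mul_left _ h4), h2.symm⟩

theorem big_Cd (h27 : 27 ∣ Nat.card (C1 d)) : Nat.card (C1 d) = 60480 ∧ 13825 ≤ ph (C1 d) := by
  haveI := Fact.mk Nat.prime_three
  obtain ⟨m, hm, e⟩ := h.card_Cd D
  have h5 : 5 ∣ Nat.card (C1 d) := by
    simp only [mem_insert, mem_singleton] at hm
    omega
  obtain ⟨x, hx, x5⟩ := exists_ord Nat.prime_five h5
  have k : ∀ b ∈ C1 x, orderOf b = 3 → SylIn 3 (zpowers b) (C1 x) := fun b hb b3 =>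
    sylIn_of_card (k := 1) (m := 20) Nat.prime_three (zpowers_le.2 hb) (card_zp b3)
      (by rw [h.card_C5 x5]; norm_num) (by norm_num)
  have h1 := nord_cls D.d3 (p := 5) (by norm_num) fun b hb e => by
    obtain ⟨c, h1, h2⟩ := h.conj_into (Or.inl rfl) x5 e
    obtain ⟨g, -, h3⟩ := (k c h1 (h2.ord.trans hb)).conj (k d (mem_C1_comm.1 hx) D.d3)
    have h4 : Cj ⊤ b (g * c * g⁻¹) := h2.trans ⟨g, trivial, rfl⟩
    rcases mem_zpowers_three (cube_of D.d3) (h3 ▸ conj_mem_cj.2 (mem_zpowers c)) with e | e | e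
    · exact absurd e (ne_one_of_ord (h4.ord.trans hb))
    · exact e ▸ h4.symm
    · exact D.cj_inv.trans (e ▸ h4.symm)
  have h2 := nord_cls D.d3 (p := 7) (by norm_num) fun b => h.cj7 D
  have h3 := (C1 d).card_mul_index
  have h4 := dvd_add_nord (G := C1 d) Nat.prime_five h5
    (fun e => absurd (e.trans (h.dvd_G _)) (by norm_num)) 1 (by norm_num)
  rw [h.n15] at h1
  rw [h.n21] at h2
  rw [h.card, e] at h3
  rw [nord_one, one_mul] at h4
  obtain ⟨rfl, h6⟩ : m = 960 ∧ (C1 d).index = 4048 := by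
    simp only [mem_insert, mem_singleton] at hm
    rcases hm with rfl | rfl | rfl | rfl | rfl | rfl | rfl
    · omega
    · omega
    · omega
    · rw [show (C1 d).index = 259072 by omega] at h1; omega
    · rw [show (C1 d).index = 32384 by omega] at h1; omega
    · omega
    · rw [show (C1 d).index = 506 by omega] at h1; omega
  refine ⟨e, ?_⟩
  rw [h6] at h1 h2
  have h7 := sum_le_sum_of_subset (f := nord (C1 d))
    (by decide : ({1, 5, 7} : Finset ℕ) ⊆ Nat.divisors 140)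
  rw [← ph_eq, sum_insert (by decide), sum_pair (by decide), nord_one] at h7
  omega

theorem not27 : ¬ 27 ∣ Nat.card (C1 d) := fun h27 => by
  classical
  haveI := Fact.mk Nat.prime_three
  have := Fintype.ofFinite G
  obtain ⟨hc, hph⟩ := h.big_Cd D h27
  obtain ⟨P, dP, hP⟩ := exists_sylIn_ge (zpowers_le.2 (self_mem_C1 d))
    (isPGroup_zpowers' (p := 3) (k := 1) (cube_of D.d3))
  replace dP := zpowers_le.1 dP
  have P27 : Nat.card P = 27 :=
    card_of_sylIn (k := 3) (m := 2240) Nat.prime_three hP hc (by norm_num)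
  have hP' := h.syl27 P27 ⊤ le_top
  have P3 := fun a => h.cube hP.isPGroup (g := a)
  have dC := le_C1_iff.1 hP.le
  have r4 : 4 ≤ (C1 d).relIndex (N P) := by
    have h1 := sylIn_modEq Nat.prime_three hP
    have h2 := sylIn_modEq Nat.prime_three hP'
    have h3 := card_inf_mul_relIndex (N P) (C1 d)
    have h4 := relIndex_mul_inf (N P) d
    have h5 := (N P).card_mul_index
    rw [relIndex_top_right] at h2
    rw [← h4, h.card, show 244823040 = 60480 * 4048 from rfl, ← hc, ← h3, mul_comm _ (Nat.card _),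
      mul_assoc, mul_assoc] at h5
    have h6 := (Nat.ModEq.refl ((C1 d).relIndex (N P))).mul h2.symm
    rw [Nat.eq_of_mul_eq_mul_left (card_pos _) h5] at h6
    have h7 := h6.trans (h1.mul_right 4048)
    have h8 : (C1 d).relIndex (N P) ≠ 1 := fun e => by
      obtain ⟨n, hn, e2⟩ := hP'.fusion_C Nat.prime_three dC (mem_top t) (D.td ▸ inv_mem dC)
      exact inv_ne_self D.d3 (D.td.symm.trans (e2.trans
        (mem_C1_iff_conj.1 (relIndex_eq_one.1 e hn.2))))
    rw [Nat.ModEq] at h7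
    omega
  have hab : ∀ a ∈ P, ∀ b ∈ P, a * b = b * a := by
    by_contra e
    obtain ⟨z, hz⟩ := exists_hs P27 P3 e
    have h1 := relIndex_C1_le_of (H := N P) (a := d) (p := fun b => b ∈ zpowers z ∧ b ≠ 1)
      fun g hg => ⟨hz.cen _ (conj_mem_of_mem_N hg dP) (nrm_N_C P g hg d dC),
        by simpa using ne_one_of_ord D.d3⟩
    have h2 := card_ne_one (zpowers z)
    rw [hz.card_z] at h2
    omega
  have PC := ab_iff.2 hab
  have o2 : ∀ B, P ≤ B → B ≤ N P → ∀ a ∈ P, (C1 a).relIndex B ∣ 1024 := fun B h1 h2 a ha => by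
    obtain ⟨k, hk⟩ := P27 ▸ card_dvd_of_le (le_inf h1 (PC.trans (C_le_C1 ha)))
    have h3 := (card_dvd_of_le h2).trans (h.card_NP P27)
    rw [← relIndex_mul_inf B a, hk, mul_left_comm] at h3
    exact (Dvd.intro _ rfl).trans (Nat.dvd_of_mul_dvd_mul_left (by norm_num) h3)
  obtain ⟨w, wP, w1, w2⟩ : ∃ w ∈ P, w ≠ 1 ∧ (C1 w).relIndex (N P) ≤ 2 := by
    by_contra! e
    have h1 := dvd_sum_cl (K := N P) (U := univ.filter fun a => a ∈ P ∧ a ≠ 1) (n := 4) (fun _ => 1)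
      (fun _ _ _ => rfl) (by
        rintro a ha _ ⟨g, hg, rfl⟩
        exact mem_filter.2 ⟨mem_univ _, conj_mem_of_mem_N hg (mem_filter.1 ha).2.1,
          by simpa using (mem_filter.1 ha).2.2⟩) fun a ha => by
        obtain ⟨-, h1, h2⟩ := mem_filter.1 ha
        rw [mul_one]
        exact (by decide +kernel : ∀ n ∈ Nat.divisors 1024, 2 < n → 4 ∣ n) _
          (Nat.mem_divisors.2 ⟨o2 _ (le_N P) le_rfl a h1, by norm_num⟩) (e a h1 h2)
    have h2 := card_ne_one P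
    rw [sum_const, card_filter_sub, smul_eq_mul] at h1
    omega
  have wd : w ∉ zpowers d := fun e => by
    rw [← C_zpowers, zp_eq Nat.prime_three D.d3 e w1, C_zpowers] at w2
    omega
  obtain ⟨B, hB⟩ : ∃ B, B = C1 d ⊓ N P := ⟨_, rfl⟩
  have B1 : B ≤ C1 d := hB ▸ inf_le_left
  have B2 : B ≤ N P := hB ▸ inf_le_right
  have PB : P ≤ B := hB ▸ le_inf hP.le (le_N P)
  obtain ⟨V, hV⟩ : ∃ V : ℕ → Finset G, ∀ n a,
      a ∈ V n ↔ a ∈ P ∧ a ∉ zpowers d ∧ n ∣ (C1 a).relIndex B :=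
    ⟨fun n => univ.filter fun a => a ∈ P ∧ a ∉ zpowers d ∧ n ∣ (C1 a).relIndex B, by simp⟩
  have VU : V 1 ⊆ UU d := fun a ha =>
    mem_UU.2 ⟨hP.le ((hV _ _).1 ha).1, P3 a ((hV _ _).1 ha).1, ((hV _ _).1 ha).2.1⟩
  have clo : ∀ n, Clo B (V n) := fun n a ha b e => by
    obtain ⟨h1, h2, h3⟩ := (hV _ _).1 ha
    refine (hV _ _).2 ⟨?_, (mem_UU.1 (clo_UU d a (VU ((hV _ _).2 ⟨h1, h2, one_dvd _⟩)) b
      (e.mono B1))).2.2, e.relIndex ▸ h3⟩
    obtain ⟨g, hg, rfl⟩ := e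
    exact conj_mem_of_mem_N (B2 hg) h1
  have V24 : #(V 1) = 24 := by
    have h1 := card_filter_add_card_filter_not (s := univ.filter (· ∈ P)) (· ∈ zpowers d)
    rw [filter_filter, filter_filter, card_filter_sub, card_filter_sub (· ∈ P),
      Nat.card_congr (Equiv.subtypeEquivRight (q := (· ∈ zpowers d)) fun a =>
        ⟨And.right, fun e => ⟨zpowers_le.2 dP e, e⟩⟩)] at h1
    rw [show V 1 = univ.filter fun a => a ∈ P ∧ a ∉ zpowers d by ext a; simp [hV]]
    change Nat.card (zpowers d) + _ = Nat.card P at h1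
    rw [card_zp D.d3] at h1
    omega
  have hn : ∀ n, 2 < n → n ∣ #(V n) ∧ 3 ∣ #(V n) ∧ #(V n) < 24 := fun n hn => by
    refine ⟨by simpa using dvd_sum_cl (fun _ => 1) (fun _ _ _ => rfl) (clo n) fun a ha =>
      (((hV _ _).1 ha).2.2).mul_right 1, ?_, V24 ▸ card_lt_card ⟨fun a ha => (hV _ _).2
        ⟨((hV _ _).1 ha).1, ((hV _ _).1 ha).2.1, one_dvd _⟩, fun e => ?_⟩⟩
    · have := dvd_of_mul_closed Nat.prime_three D.d3 (· ∈ V n) fun a => by
        rw [hV, hV, P.mul_mem_cancel_right dP, (zpowers d).mul_mem_cancel_right (mem_zpowers d),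
          ← inf_relIndex_right (C1 a), ← inf_relIndex_right (C1 (a * d))]
        rw [show C1 (a * d) ⊓ B = C1 a ⊓ B from Subgroup.ext fun g => and_congr_left fun hg => by
          change g ∈ C1 _ ↔ g ∈ C1 _
          rw [mem_C1, mem_C1, mul_assoc a, ← mem_C1.1 (B1 hg), ← mul_assoc, ← mul_assoc,
            mul_left_inj]]
      rwa [Nat.card_eq_fintype_card, Fintype.card_coe] at this
    · have h1 := Nat.le_of_dvd (relIndex_pos _ _) ((hV _ _).1 (e ((hV _ _).2 ⟨wP, wd, one_dvd _⟩))).2.2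
      have h2 := relIndex_le_of_le_right B2 (relIndex_ne_zero' (C1 w) _)
      omega
  have V8 : V 8 = ∅ := card_eq_zero.1 (by have := hn 8 (by norm_num); omega)
  have V4 : #(V 4) ≤ 12 := by have := hn 4 (by norm_num); omega
  obtain ⟨R, r1, r2, r3⟩ := exists_reps (clo 1)
  have h1 := sum_le_reps (fun a => if 4 ∣ (C1 a).relIndex B then 1 else 2)
    (fun a b e => by rw [e.relIndex]) r3
  have h2 := sum_le_card_nsmul R (fun a => (C1 a).relIndex B *
      if 4 ∣ (C1 a).relIndex B then 1 else 2) 4 fun a ha => by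
    obtain ⟨h1, h2, -⟩ := (hV _ _).1 (r1 ha)
    exact (by decide +kernel : ∀ n ∈ Nat.divisors 1024, ¬ 8 ∣ n → n * (if 4 ∣ n then 1 else 2) ≤ 4) _
      (Nat.mem_divisors.2 ⟨o2 _ PB B2 a h1, by norm_num⟩)
      fun e => notMem_empty a (V8 ▸ (hV _ _).2 ⟨h1, h2, e⟩)
  have h3 : ∑ a ∈ V 1, (if 4 ∣ (C1 a).relIndex B then 1 else 2) + #(V 4) = 48 := by
    rw [show V 4 = (V 1).filter fun a => 4 ∣ (C1 a).relIndex B by ext a; simp [hV, and_assoc],
      card_filter, ← sum_add_distrib, sum_congr rfl fun a _ => show _ = 2 by split_ifs <;> rfl,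
      sum_const, V24]
    rfl
  have h4 := reps_le_sum (fun e => ph (C1 d ⊓ C1 e)) (fun a b e => e.ph) (clo_UU d) (r1.trans VU)
    fun a ha b hb ⟨g, hg, e⟩ => by
      obtain ⟨n, hn, e2⟩ := hP.fusion_C Nat.prime_three (PC ((hV _ _).1 (r1 ha)).1) hg
        (e ▸ PC ((hV _ _).1 (r1 hb)).1)
      exact r2 a ha b hb ⟨n, hB ▸ hn, e2.symm.trans e⟩
  have h5 := card_nsmul_le_sum R (fun a => (C1 a).relIndex (C1 d) * ph (C1 d ⊓ C1 a)) 2240
    fun a ha => by
      obtain ⟨h1, h2, h3⟩ := mem_UU.1 (VU (r1 ha))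
      have h4 := Nat.mul_le_mul_left ((C1 a).relIndex (C1 d))
        (h.le_ph D.d3 inf_le_left (h.card_CC D.d3 h1 h2 h3))
      rw [relIndex_mul_inf, hc, mul_left_comm] at h4
      omega
  have h6 := h.card_split D.d3
  simp only [smul_eq_mul] at h2 h5
  omega

end Nse24

end CfsgH8.Mat
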