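import Cfsg.Agent.H8.M24RecC

set_option autoImplicit false

/-! Recognition of `M24` from the order statistics: the Sylow 3-subgroup. -/

namespace CfsgH8.Mat

open Subgroup Finset CfsgH5 CfsgH6 CfsgFT

variable {G : Type*} [Group G]

attribute [local irreducible] nord

theorem hs_cj {S : Subgroup G} {z a c : G} (h : Hs S z) (ha : a ∈ S) (ha' : a ∉ zpowers z)
    (hc : c ∈ zpowers z) : Cj S a (a * c) := by
  obtain ⟨b, hb, e⟩ := h.exists_not_comm ha ha'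
  have k : ∀ w ∈ zpowers z, b * a * b⁻¹ * a⁻¹ = w → Cj S a (a * w) ∧ Cj S a (a * w⁻¹) := by
    rintro w hw rfl
    refine ⟨⟨b, hb, by rw [h.comm_z hw ha]; group⟩, b⁻¹, inv_mem hb, ?_⟩
    calc _ = b⁻¹ * ((b * a * b⁻¹ * a⁻¹)⁻¹ * (b * a)) := by group
      _ = _ := by rw [← h.comm_z (inv_mem hw) (mul_mem hb ha)]; group
  rcases mem_zpowers_three h.z3 hc with rfl | rfl | rfl
  · simpa using Cj.refl a
  · exact (h.comm_cases hb ha e).elim (fun e => (k _ hc e).1)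
      fun e => by simpa using (k _ (inv_mem hc) e).2
  · exact (h.comm_cases hb ha e).elim (fun e => (k _ (mem_zpowers z) e).2) fun e => (k _ hc e).1

theorem D1.y_not {u d t y : G} (D : D1 u d t y) : y ∉ zpowers d := fun e => by
  have h1 := mem_C1_iff_conj.1 (zpowers_le.2 D.du e)
  rw [D.yu, pow_two, mul_eq_left] at h1
  exact ne_one_of_ord D.u7 h1

theorem D1.bas [Finite G] {u d t y : G} (D : D1 u d t y) : Bas (zpowers d ⊔ zpowers y) d y :=
  bas_sup D.d3 (cube_of D.y3) D.y_not (mem_C1_comm.1 D.dy)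

theorem syl9 [Finite G] {E K : Subgroup G} (h1 : ¬ 27 ∣ Nat.card K) (h2 : Nat.card E = 9)
    (h3 : E ≤ K) : SylIn 3 E K := by
  haveI := Fact.mk Nat.prime_three
  refine sylIn_of_not_dvd h3 (IsPGroup.of_card (n := 2) h2) fun e => h1 ?_
  rw [← card_mul_relIndex h3, h2]
  exact Nat.mul_dvd_mul_left 9 e

theorem mem_syl [Finite G] {S K : Subgroup G} (h : SylIn 3 S K) {b : G} (h1 : b ^ 3 = 1)
    (h2 : b ∈ K) (h3 : S ≤ C1 b) : b ∈ S :=
  zpowers_le.1 (h.le_of_nrm' Nat.prime_three (zpowers_le.2 h2)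
    (isPGroup_zpowers' (k := 1) h1) (nrm_of_le_C (zpowers_le.2 (le_C1_iff.1 h3))))

theorem cj_into [Finite G] {S K : Subgroup G} (h : SylIn 3 S K) {b : G} (h1 : b ^ 3 = 1)
    (h2 : b ∈ K) : ∃ c ∈ S, Cj K b c := by
  haveI := Fact.mk Nat.prime_three
  obtain ⟨g, hg, e⟩ := h.exists_le_cj (zpowers_le.2 h2) (isPGroup_zpowers' (k := 1) h1)
  exact ⟨_, mem_cj.1 (e (mem_zpowers b)), g⁻¹, inv_mem hg, by rw [inv_inv]⟩

theorem sep_one (K : Subgroup G) (a : G) : Sep K {a} := fun _ hb _ hc _ =>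
  (mem_singleton.1 hb).trans (mem_singleton.1 hc).symm

theorem Sep.cons {K : Subgroup G} {R : Finset G} (h : Sep K R) {a : G} (ha : ∀ b ∈ R, ¬ Cj K a b) :
    Sep K (R.cons a fun e => ha a e (Cj.refl a)) := fun b hb c hc e => by
  rcases mem_cons.1 hb with rfl | hb' <;> rcases mem_cons.1 hc with rfl | hc'
  exacts [rfl, absurd e (ha c hc'), absurd e.symm (ha b hb'), h b hb' c hc' e]

/-- the weight of a class of elements of order three -/
noncomputable def om (b : G) : ℕ := 27 * ph (C1 b) / Nat.card (C1 b)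

theorem Cj.ph' {a b : G} (h : Cj ⊤ a b) : Mat.ph (C1 b) = Mat.ph (C1 a) := by
  simpa using h.ph

theorem Cj.om {a b : G} (h : Cj ⊤ a b) : om b = om a := by
  rw [Mat.om, Mat.om, h.ph', h.card_C1]

namespace Nse24

variable [Finite G] (h : Nse24 G)
include h

theorem exists27 {L : Subgroup G} (h1 : 27 ∣ Nat.card L) : ∃ S ≤ L, Nat.card S = 27 := by
  obtain ⟨S, hS⟩ := exists_sylIn 3 L
  obtain ⟨m, hm⟩ := h1
  exact ⟨S, hS.le, card_of_sylIn (k := 3) Nat.prime_three hS hm fun e =>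
    absurd ((hm ▸ Nat.mul_dvd_mul_left 27 e : 27 * 3 ∣ _).trans (h.dvd_G L)) (by norm_num)⟩

theorem exists_P {u d t y : G} (D : D1 u d t y) : ∃ P, Hs P y ∧ d ∈ P := by
  haveI := Fact.mk Nat.prime_three
  have hE := D.bas
  have h27 := h.not27 D
  obtain ⟨P, EP, hP⟩ := exists_sylIn_ge le_top (IsPGroup.of_card (p := 3) (n := 2) hE.card)
  have P27 : Nat.card P = 27 := card_of_sylIn (k := 3) (m := 9067520) Nat.prime_three hP
    (by rw [card_top, h.card]; norm_num) (by norm_num)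
  have dP := EP hE.xV
  have k : ∀ b, Cj ⊤ d b → ¬ P ≤ C1 b := fun b e1 e2 =>
    h27 (e1.card_C1 ▸ P27 ▸ card_dvd_of_le e2)
  obtain ⟨z, hz⟩ := exists_hs P27 (fun s => h.cube hP.isPGroup) fun e =>
    k d (Cj.refl d) fun s hs => mem_C1.2 (e s hs d dP)
  have Pz : ∀ c ∈ zpowers z, P ≤ C1 c := fun c hc s hs => mem_C1.2 (hz.comm_z hc hs)
  have dz : d ∉ zpowers z := fun e => k d (Cj.refl d) (Pz d e)
  have EC : zpowers d ⊔ zpowers y ≤ C1 d := fun v hv => mem_C1.2 (hE.comm v hv d hE.xV)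
  have zE := mem_syl (syl9 h27 hE.card EC) hz.z3 (mem_C1_comm.1 (Pz z (mem_zpowers z) dP))
    (EP.trans (Pz z (mem_zpowers z)))
  have hB : Bas _ z d := ⟨hE.card, hE.cube, hE.comm, zE, hE.xV, hz.z1, dz⟩
  have yz : y ∈ zpowers z := by
    obtain ⟨i, j, e⟩ := hE.surj zE
    have e2 : t * z * t⁻¹ = el d⁻¹ y i j := by rw [e, el_conj, D.td, mem_C1_iff_conj.1 D.ty]
    have h1 : t * z * t⁻¹ ∈ zpowers z := by
      obtain ⟨a, b, e3⟩ := hB.surj (e2 ▸ el_mem (inv_mem hE.xV) hE.yV i j)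
      have h2 : ∀ c, Cj ⊤ d c → c ∈ P → c ∉ zpowers z → t * z * t⁻¹ ≠ z ^ a.val * c :=
        fun c c1 c2 c3 c4 => h27 (by
          have := (hs_cj hz c2 c3 (pow_mem (mem_zpowers z) a.val)).mono le_top
          rw [hz.comm_z (pow_mem (mem_zpowers z) _) c2, ← c4] at this
          rw [← (c1.trans this).card_C1, (show Cj ⊤ z _ from ⟨t, trivial, rfl⟩).card_C1, ← P27]
          exact card_dvd_of_le (Pz z (mem_zpowers z)))
      fin_cases b
      · rw [e3]; simpa [el] using pow_mem (mem_zpowers z) _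
      · exact absurd (by simpa [el] using e3) (h2 d (Cj.refl d) dP dz)
      · exact absurd (by rw [e3, el, ← eq_inv_of_mul_eq_one_left ((pow_succ d 2).symm.trans (cube_of D.d3))])
          (h2 (d⁻¹) D.cj_inv (inv_mem dP) (mt inv_mem_iff.1 dz))
    have h2 := mul_mem h1 (mem_zpowers z)
    rw [e2] at h2
    nth_rw 2 [e] at h2
    rw [el, el, mul_assoc, ← mul_assoc (y ^ j.val), ← (hE.xy.pow_pow _ _).eq, mul_assoc,
      ← mul_assoc, inv_pow, inv_mul_cancel, one_mul] at h2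
    replace h2 := hz.mem_of_sq (pow_mem (EP hE.yV) _) h2
    fin_cases j
    · exact absurd (zpowers_le.1 (zp_eq Nat.prime_three D.d3
        (by rw [e]; simpa [el] using pow_mem (mem_zpowers d) _) hz.z1).ge) dz
    · simpa using h2
    · exact hz.mem_of_sq (EP hE.yV) (by simpa [pow_two] using h2)
  rcases mem_zpowers_three hz.z3 yz with e | rfl | rfl
  exacts [absurd e (ne_one_of_ord D.y3), ⟨P, hz, dP⟩, ⟨P, hz.inv, dP⟩]

variable {P : Subgroup G} {y : G} (hP : Hs P y)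
include hP

theorem hs_of {L : Subgroup G} (h1 : 27 ∣ Nat.card L) :
    ∃ S z, SylIn 3 S L ∧ Hs S z ∧ Cj ⊤ y z := by
  haveI := Fact.mk Nat.prime_three
  obtain ⟨S, h2, h3⟩ := h.exists27 h1
  obtain ⟨g, -, rfl⟩ := (h.syl27 hP.card ⊤ le_top).conj (h.syl27 h3 ⊤ le_top)
  exact ⟨_, _, h.syl27 h3 L h2, hP.cjj g, g, trivial, rfl⟩

theorem cent27 {b : G} (hb : orderOf b = 3) (h1 : 27 ∣ Nat.card (C1 b)) :
    Cj ⊤ y b ∨ Cj ⊤ y⁻¹ b := by
  obtain ⟨S, z, h2, h3, h4⟩ := h.hs_of hP h1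
  rcases mem_zpowers_three h3.z3 (h3.cen b (mem_syl h2 (cube_of hb) (self_mem_C1 b) h2.le)
    fun s hs => mem_C1.1 (h2.le hs)) with e | rfl | rfl
  exacts [absurd e (ne_one_of_ord hb), Or.inl h4, Or.inr h4.inv]

variable [Fintype G]

theorem no27 {b e : G} (hb : orderOf b = 3) (he : e ∈ UU b) :
    ¬ 27 ∣ Nat.card ↥(C1 b ⊓ C1 e) := fun h1 => by
  obtain ⟨S, z, h2, h3, -⟩ := h.hs_of hP h1
  obtain ⟨e1, e2, e3⟩ := mem_UU.1 he
  have k : ∀ c, c ^ 3 = 1 → c ∈ C1 b ⊓ C1 e → S ≤ C1 c → c ∈ zpowers z := fun c c1 c2 c3 =>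
    h3.cen c (mem_syl h2 c1 c2 c3) fun s hs => mem_C1.1 (c3 hs)
  exact e3 ((zp_eq Nat.prime_three (orderOf_three h3.z3 h3.z1) (k b (cube_of hb)
    ⟨self_mem_C1 b, mem_C1_comm.1 e1⟩ (h2.le.trans inf_le_left)) (ne_one_of_ord hb)).ge
    (k e e2 ⟨e1, self_mem_C1 e⟩ (h2.le.trans inf_le_right)))

theorem nine_ph {b e : G} (hb : orderOf b = 3) (he : e ∈ UU b) :
    Nat.card ↥(C1 b ⊓ C1 e) = 9 * ph (C1 b ⊓ C1 e) := by
  classical
  obtain ⟨e1, e2, e3⟩ := mem_UU.1 he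
  have hE := bas_sup hb e2 e3 e1
  have h1 : ∀ g ∈ C1 b ⊓ C1 e, _ ≤ C1 g := fun g hg =>
    hE.le (mem_C1_comm.1 hg.1) (mem_C1_comm.1 hg.2)
  have h2 := hE.le (H := C1 b ⊓ C1 e) ⟨self_mem_C1 b, mem_C1_comm.1 e1⟩ ⟨e1, self_mem_C1 e⟩
  have h3 := fun v (hv : v ∈ C1 b ⊓ C1 e ∧ v ^ 3 = 1) =>
    mem_syl (syl9 (h.no27 hP hb he) hE.card h2) hv.2 hv.1 (h1 v hv.1)
  rw [card_eq_sum_ph fun g hg => h.pow_C hb (mem_inf.1 hg).1, sum_congr rfl fun v hv => congrArg ph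
    (inf_eq_left.2 fun g hg => mem_C1_comm.1 (h1 g hg (h3 v (mem_filter.1 hv).2))), sum_const,
    card_filter_sub, smul_eq_mul, ← hE.card]
  exact congrArg (· * _) (Nat.card_congr (Equiv.subtypeEquivRight fun v =>
    ⟨h3 v, fun hv => ⟨h2 hv, hE.cube v hv⟩⟩))

theorem W_eq {b : G} (hb : orderOf b = 3) :
    9 * Nat.card (C1 b) = 27 * ph (C1 b) + ∑ e ∈ UU b, Nat.card ↥(C1 b ⊓ C1 e) := by
  rw [sum_congr rfl fun e he => h.nine_ph hP hb he, ← mul_sum]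
  conv_lhs => rw [h.card_split hb]
  ring

theorem om_mul {b : G} (hb : orderOf b = 3) : om b * Nat.card (C1 b) = 27 * ph (C1 b) :=
  Nat.div_mul_cancel ((Nat.dvd_add_left (dvd_sum_cl (fun e => Nat.card ↥(C1 b ⊓ C1 e))
    (fun _ _ e => e.card_inf) (clo_UU b) fun a _ => (relIndex_mul_inf _ a).symm.dvd)).1
    (h.W_eq hP hb ▸ dvd_mul_left _ _))

theorem om_le {b : G} (hb : orderOf b = 3) {R : Finset G} (h1 : R ⊆ UU b) (h2 : Sep (C1 b) R) :
    om b + #R ≤ 9 := by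
  have h3 := reps_le_sum (fun e => Nat.card ↥(C1 b ⊓ C1 e)) (fun _ _ e => e.card_inf) (clo_UU b)
    h1 h2
  rw [sum_congr rfl fun a _ => relIndex_mul_inf _ a, sum_const, smul_eq_mul] at h3
  refine Nat.le_of_mul_le_mul_right ?_ (card_pos (C1 b))
  rw [h.W_eq hP hb, add_mul, h.om_mul hP hb]
  omega

theorem le_om {b : G} (hb : orderOf b = 3) {R : Finset G} (h1 : Cov (C1 b) R (UU b)) :
    9 ≤ om b + #R := by
  have h3 := sum_le_reps (fun e => Nat.card ↥(C1 b ⊓ C1 e)) (fun _ _ e => e.card_inf) h1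
  rw [sum_congr rfl fun a _ => relIndex_mul_inf _ a, sum_const, smul_eq_mul] at h3
  refine Nat.le_of_mul_le_mul_right ?_ (card_pos (C1 b))
  rw [h.W_eq hP hb, add_mul, h.om_mul hP hb]
  omega

theorem om_three {b : G} (hb : orderOf b = 3) (h1 : ¬ 27 ∣ Nat.card (C1 b)) :
    3 ∣ om b ∧ 3 ≤ om b := by
  have h2 := h.om_mul hP hb
  have h3 : 3 ∣ om b := by
    by_contra e
    exact h1 ((((Nat.Prime.coprime_iff_not_dvd Nat.prime_three).2 e).pow_left
      3).dvd_of_dvd_mul_left (h2 ▸ dvd_mul_right _ _))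
  refine ⟨h3, Nat.le_of_dvd (Nat.pos_of_ne_zero fun e => ?_) h3⟩
  have := ph_pos (C1 b)
  rw [e] at h2
  omega

theorem om_idx {b : G} (hb : orderOf b = 3) :
    (C1 b).relIndex ⊤ * ph (C1 b) = om b * 9067520 := by
  have h1 := (C1 b).card_mul_index
  refine Nat.eq_of_mul_eq_mul_left (show 0 < 27 by norm_num) ?_
  rw [relIndex_top_right, mul_left_comm, ← h.om_mul hP hb, mul_left_comm, mul_comm _ (Nat.card _),
    h1, h.card]
  ring

omit hP in
open Classical in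
theorem sum_T : ∑ b ∈ univ.filter (fun b : G => orderOf b = 3), ph (C1 b) = 13 * 9067520 := by
  rw [sum_ph, show Nat.divisors 140 = {1, 2, 4, 5, 7, 10, 14, 20, 28, 35, 70, 140} by decide]
  have := h.n612
  simp [h.n3, h.n15, h.n21, h.nz 30, h.nz 42, h.nz 60, h.nz 84, h.nz 105, h.nz 210, h.nz 420]
  omega

theorem sum_om_le {R : Finset G} (h1 : ∀ b ∈ R, orderOf b = 3) (h2 : Sep ⊤ R) :
    ∑ b ∈ R, om b ≤ 13 := by
  classical
  have h3 := reps_le_sum (U := univ.filter fun b : G => orderOf b = 3) (fun b => ph (C1 b))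
    (fun _ _ e => e.ph') (fun a ha b e => mem_filter.2 ⟨mem_univ _, e.ord.trans (mem_filter.1 ha).2⟩)
    (fun b hb => mem_filter.2 ⟨mem_univ _, h1 b hb⟩) h2
  rw [h.sum_T, sum_congr rfl fun b hb => h.om_idx hP (h1 b hb), ← sum_mul] at h3
  omega

theorem le_sum_om {R : Finset G} (h1 : ∀ b ∈ R, orderOf b = 3)
    (h2 : ∀ b : G, orderOf b = 3 → ∃ a ∈ R, Cj ⊤ a b) : 13 ≤ ∑ b ∈ R, om b := by
  classical
  have h3 := sum_le_reps (U := univ.filter fun b : G => orderOf b = 3) (fun b => ph (C1 b))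
    (fun _ _ e => e.ph') fun b hb => h2 b (mem_filter.1 hb).2
  rw [h.sum_T, sum_congr rfl fun b hb => h.om_idx hP (h1 b hb), ← sum_mul] at h3
  omega

end Nse24

end CfsgH8.Mat
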