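import Cfsg.Agent.H8.M24RecD
import Cfsg.Agent.H8.CC9

set_option autoImplicit false

/-! Recognition of `M24` from the order statistics: the classes of elements of order three. -/

namespace CfsgH8.Mat

open Subgroup Finset CfsgH5 CfsgH6 CfsgFT

variable {G : Type*} [Group G]

attribute [local irreducible] nord

instance nrmZ (y : G) : ((zpowers y).subgroupOf (C1 y)).Normal :=
  Nrm.normal_subgroupOf fun _ hg _ hv => (conj_zp hg hv).symm ▸ hv

abbrev XQ (y : G) := C1 y ⧸ (zpowers y).subgroupOf (C1 y)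

def pq (y : G) : C1 y →* XQ y := QuotientGroup.mk' _

theorem pq_eq {y : G} {a b : C1 y} : pq y a = pq y b ↔ (a : G)⁻¹ * b ∈ zpowers y :=
  QuotientGroup.eq

theorem pq_one {y : G} {a : C1 y} : pq y a = 1 ↔ (a : G) ∈ zpowers y := QuotientGroup.eq_one_iff _

theorem pq_surj (y : G) : Function.Surjective (pq y) := QuotientGroup.mk'_surjective _

def SQ (P : Subgroup G) (y : G) : Subgroup (XQ y) := (P.subgroupOf (C1 y)).map (pq y)

theorem mem_SQ {P : Subgroup G} {y : G} (hy : y ∈ P) {g : C1 y} : pq y g ∈ SQ P y ↔ (g : G) ∈ P :=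
  ⟨fun ⟨a, ha, e⟩ => by simpa using P.mul_mem ha (zpowers_le.2 hy (pq_eq.1 e)),
    fun hg => ⟨g, hg, rfl⟩⟩

theorem card_XQ (y : G) : Nat.card (XQ y) * orderOf y = Nat.card (C1 y) := by
  rw [card_eq_card_quotient_mul_card_subgroup ((zpowers y).subgroupOf (C1 y)),
    Nat.card_congr (subgroupOfEquivOfLe (zpowers_le.2 (self_mem_C1 y))).toEquiv, Nat.card_zpowers]

theorem hs_le {P : Subgroup G} {y : G} (hP : Hs P y) : P ≤ C1 y := fun s hs => mem_C1.2 (hP.zc s hs)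

theorem card_SQ [Finite G] {P : Subgroup G} {y : G} (hP : Hs P y) : Nat.card (SQ P y) = 9 := by
  have h1 := card_mul_relIndex hP.zle
  rw [hP.card_z, hP.card, ← relIndex_subgroupOf (hs_le hP),
    ← QuotientGroup.ker_mk' ((zpowers y).subgroupOf _), relIndex_ker] at h1
  change 3 * Nat.card (SQ P y) = 27 at h1
  omega

theorem bas_SQ [Finite G] {P : Subgroup G} {y : G} (hP : Hs P y) {a b : C1 y} (ha : (a : G) ∈ P)
    (hb : (b : G) ∈ P) (hab : (b : G) ∉ C1 (a : G)) : Bas (SQ P y) (pq y a) (pq y b) := by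
  refine ⟨card_SQ hP, ?_, ?_, ⟨a, ha, rfl⟩, ⟨b, hb, rfl⟩, fun e => hab (mem_C1.2
    (hP.comm_z (pq_one.1 e) hb)), fun e => hab ?_⟩
  · rintro _ ⟨s, hs, rfl⟩
    rw [← map_pow, show s ^ 3 = 1 from Subtype.ext (hP.cube s hs), map_one]
  · rintro _ ⟨s, hs, rfl⟩ _ ⟨r, hr, rfl⟩
    rw [← map_mul, ← map_mul, pq_eq]
    simpa [mul_assoc] using hP.comm _ (inv_mem hr) _ (inv_mem hs)
  · obtain ⟨k, hk⟩ := mem_zpowers_iff.1 e
    rw [← map_zpow, pq_eq] at hk
    simpa using (C1 (a : G)).mul_mem (zpow_mem (self_mem_C1 _) k) (mem_C1.2 (hP.comm_z hk ha).symm)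

theorem cj_of_pq {P : Subgroup G} {y : G} (hP : Hs P y) {a b : C1 y} (ha : (a : G) ∈ P)
    (h1 : (a : G) ∉ zpowers y) (e : pq y a = pq y b) : Cj (C1 y) (a : G) b := by
  simpa using (hs_cj hP ha h1 (pq_eq.1 e)).mono (hs_le hP)

theorem cube_inv {n x w : G} (h1 : n * x * n⁻¹ = x⁻¹ * w) (h2 : n * w * n⁻¹ = w⁻¹)
    (h3 : x * w = w * x) (h4 : w ^ 3 = 1) : n ^ 3 * x * (n ^ 3)⁻¹ = x⁻¹ := by
  have h5 : n * (x⁻¹ * w) * n⁻¹ = w⁻¹ * x * w⁻¹ := by
    rw [← conj_mul, ← conj_inv (b := n), h1, h2]; group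
  have h6 : n * (w⁻¹ * x * w⁻¹) * n⁻¹ = w * x⁻¹ * w * w := by
    rw [← conj_mul, ← conj_mul, ← conj_inv (b := n), h1, h2]; group
  calc _ = n * (n * (n * x * n⁻¹) * n⁻¹) * n⁻¹ := by simp [pow_succ, mul_assoc]
    _ = w * x⁻¹ * w * w := by rw [h1, h5, h6]
    _ = x⁻¹ * w ^ 3 := by
      rw [(show Commute w x from h3.symm).inv_right.eq]; simp [pow_succ, mul_assoc]
    _ = _ := by rw [h4, mul_one]

theorem hs_aux {P : Subgroup G} {y d s n : G} (hP : Hs P y) (dP : d ∈ P) (hs : s ∈ P)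
    (hn : n ∈ C1 y) (h8 : n * s * n⁻¹ ∈ P) (h6 : d * (n * d * n⁻¹) ∈ zpowers y) :
    s * (n * s * n⁻¹) ∈ C1 d := by
  have h7 := hP.comm d dP s hs
  have h9 := conj_zp hn h7
  have h10 := hP.comm_z h6 h8
  have h12 := hP.comm_z h7 dP
  have h13 := hP.comm_z h7 hs
  rw [show n * (d * s * d⁻¹ * s⁻¹) * n⁻¹ = d⁻¹ * (d * (n * d * n⁻¹) * (n * s * n⁻¹)) *
    (d * (n * d * n⁻¹))⁻¹ * d * (n * s * n⁻¹)⁻¹ by group, ← h10] at h9
  rw [mem_C1_iff_conj']
  generalize n * s * n⁻¹ = r at *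
  generalize d * (n * d * n⁻¹) = c at *
  have h14 : d * s * d⁻¹ = d * s * d⁻¹ * s⁻¹ * s := by group
  generalize d * s * d⁻¹ * s⁻¹ = w at *
  have h15 : r = d * (w * r) * d⁻¹ := by rw [← h9]; group
  calc _ = d * s * d⁻¹ * (d * r * d⁻¹) := by group
    _ = s * (d * (w * r) * d⁻¹) := by rw [h14, ← h13, ← mul_assoc d, h12]; group
    _ = _ := by rw [← h15]

namespace Nse24

variable [Finite G] (h : Nse24 G) {u d t y : G} (D : D1 u d t y) {P : Subgroup G} (hP : Hs P y)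
  (dP : d ∈ P)
include h D hP dP

omit h hP dP in
theorem d_not : d ∉ zpowers y := fun e =>
  inv_ne_self D.d3 (D.td.symm.trans (conj_zp D.ty e))

omit dP in
theorem syl_SQ : SylIn 3 (SQ P y) ⊤ :=
  sylIn_of_card (k := 2) (m := 9067520) Nat.prime_three le_top (card_SQ hP) (by
    have := h.dvd_G (C1 y)
    rw [← card_XQ, D.y3] at this
    rw [card_top]
    exact Nat.dvd_of_mul_dvd_mul_right (by norm_num) this) (by norm_num)

theorem real_P {s : G} (hs : s ∈ P) (hs' : s ∉ zpowers y) : Cj (C1 y) s s⁻¹ := by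
  obtain ⟨b, hb, e⟩ := hP.exists_not_comm dP (d_not D)
  have hB := bas_SQ hP (a := ⟨d, D.dy⟩) (b := ⟨b, hs_le hP hb⟩) dP hb (mt mem_C1.1 e)
  have h1 : pq y ⟨t, D.ty⟩ * pq y ⟨d, D.dy⟩ * (pq y ⟨t, D.ty⟩)⁻¹ = (pq y ⟨d, D.dy⟩)⁻¹ := by
    simp only [← map_mul, ← map_inv]
    exact congrArg _ (Subtype.ext D.td)
  have h2 := ab_iff.2 hB.comm hB.xV
  obtain ⟨m, hm, h3⟩ := (h.syl_SQ D hP).fusion_C Nat.prime_three h2 (mem_top _) (h1 ▸ inv_mem h2)
  obtain ⟨n, rfl⟩ := pq_surj y m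
  rw [h1] at h3
  have h4 : ∀ s : C1 y, (s : G) ∈ P → ((n * s * n⁻¹ : C1 y) : G) ∈ P := fun s hs => by
    rw [← mem_SQ hP.zS, map_mul, map_mul, map_inv]
    exact conj_mem_of_mem_N hm.2 ((mem_SQ hP.zS).2 hs)
  obtain ⟨s, rfl⟩ : ∃ r : C1 y, (r : G) = s := ⟨⟨s, hs_le hP hs⟩, rfl⟩
  have h5 : ((s * (n * s * n⁻¹) : C1 y) : G) ∈ P ⊓ centralizer {d} := by
    exact ⟨mul_mem hs (h4 s hs), hs_aux hP dP hs n.2 (h4 s hs)
      (by simpa [← map_mul, ← map_inv, pq_eq] using h3)⟩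
  obtain ⟨i, j, h6⟩ := (hP.bas dP (d_not D)).surj h5
  have h7 : pq y (s * (n * s * n⁻¹)) = pq y ⟨d, D.dy⟩ ^ j.val := by
    rw [← map_pow, eq_comm, pq_eq, h6, el, hP.comm_z (pow_mem (mem_zpowers y) _)
      (pow_mem dP _) |>.symm]
    simpa using pow_mem (mem_zpowers y) _
  have h8 := cube_inv (n := pq y n) (x := pq y s) (w := pq y ⟨d, D.dy⟩ ^ j.val)
    (by simp [← h7]) (by rw [← conj_pow, ← h3, inv_pow])
    (hB.comm _ ((mem_SQ hP.zS).2 hs) _ (pow_mem hB.xV _)) (hB.cube _ (pow_mem hB.xV _))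
  simp only [← map_pow, ← map_inv, ← map_mul] at h8
  exact Cj.trans ⟨_, (n ^ 3).2, rfl⟩ (cj_of_pq hP (inv_mem hs) (mt inv_mem_iff.1 hs') h8.symm).symm

variable [Fintype G]

omit D dP in
theorem into_P {e : G} (he : e ∈ UU y) : ∃ s ∈ P, s ∉ zpowers y ∧ Cj (C1 y) e s := by
  obtain ⟨s, hs, h1⟩ := cj_into (h.syl27 hP.card _ (hs_le hP)) (mem_UU.1 he).2.1 (mem_UU.1 he).1
  exact ⟨s, hs, (mem_UU.1 (clo_UU y e he s h1)).2.2, h1⟩

theorem om_y : 5 ≤ om y := by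
  classical
  obtain ⟨b, hb, e⟩ := hP.exists_not_comm dP (d_not D)
  have hB := bas_SQ hP (a := ⟨d, D.dy⟩) (b := ⟨b, hs_le hP hb⟩) dP hb (mt mem_C1.1 e)
  have h1 := h.le_om hP D.y3 (R := univ.image (ln d b)) fun v hv => by
    obtain ⟨s, h1, h2, h3⟩ := h.into_P hP hv
    obtain ⟨i, j, h4⟩ := hB.surj ((mem_SQ hP.zS (g := ⟨s, hs_le hP h1⟩)).2 h1)
    have h5 : ∀ k, pq y ⟨ln d b k, hs_le hP (el_mem dP hb _ _)⟩ =
        el (pq y ⟨d, D.dy⟩) (pq y ⟨b, hs_le hP hb⟩) (lp k).1 (lp k).2 := fun k => by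
      simp only [el, ← map_pow, ← map_mul]
      rfl
    rcases (by decide : ∀ i j : Fin 3, i = 0 ∧ j = 0 ∨ ∃ k, i = (lp k).1 ∧ j = (lp k).2 ∨
      -i = (lp k).1 ∧ -j = (lp k).2) i j with ⟨rfl, rfl⟩ | ⟨k, ⟨rfl, rfl⟩ | ⟨e1, e2⟩⟩
    · exact absurd (pq_one.1 (h4.trans (el_zero _ _))) h2
    · exact ⟨_, mem_image_of_mem _ (mem_univ k),
        (h3.trans (cj_of_pq hP h1 h2 (h4.trans (h5 k).symm))).symm⟩
    · refine ⟨_, mem_image_of_mem _ (mem_univ k), (h3.trans ((h.real_P D hP dP h1 h2).trans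
        (cj_of_pq hP (a := (⟨s, hs_le hP h1⟩ : C1 y)⁻¹) (inv_mem h1) (mt inv_mem_iff.1 h2)
          (Eq.trans ?_ (h5 k).symm)))).symm⟩
      rw [map_inv, h4, ← e1, ← e2, el_neg hB.x3 hB.y3 hB.xy]
  have h2 := card_image_le (s := univ) (f := ln d b)
  rw [card_univ, Fintype.card_fin] at h2
  omega

omit h hP dP in
theorem d_UU : d ∈ UU y := mem_UU.2 ⟨D.dy, cube_of D.d3, d_not D⟩

omit dP [Fintype G] in
theorem not_yd : ¬ Cj ⊤ y d := fun e =>
  h.not27 D (e.card_C1 ▸ hP.card ▸ card_dvd_of_le (hs_le hP))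

theorem real_y : Cj ⊤ y y⁻¹ := by
  by_contra hn
  have y3 := D.y3
  have y3' : orderOf y⁻¹ = 3 := by rwa [orderOf_inv]
  have o1 := h.om_y D hP dP
  have o2 : om y⁻¹ = om y := by rw [om, om, C1_inv]
  have o3 := (h.om_three hP D.d3 (h.not27 D)).2
  have n1 := h.not_yd D hP
  have n2 : ¬ Cj ⊤ y⁻¹ d := fun e => n1 ((inv_inv y ▸ e.inv).trans D.cj_inv.symm)
  have h1 : ∀ e ∈ UU y, Cj ⊤ d e := fun e he => by
    by_contra h1
    obtain ⟨s, h2, h3, h4⟩ := h.into_P hP he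
    have h5 : Cj ⊤ e e⁻¹ := (h4.trans ((h.real_P D hP dP h2 h3).trans h4.inv.symm)).mono le_top
    have h6 : ¬ Cj ⊤ y e := fun e => hn (e.trans (h5.trans e.inv.symm))
    have h7 : ¬ Cj ⊤ y⁻¹ e := fun e => h6 ((inv_inv y ▸ e.inv).trans h5.symm)
    have h8 := (h.om_three hP (UU_ord he) fun e => (h.cent27 hP (UU_ord he) e).elim h6 h7).2
    have h9 := h.sum_om_le hP (by simp [y3, D.d3, UU_ord he])
      ((((sep_one ⊤ e).cons (a := d) (by simpa)).cons (a := y⁻¹) (by simp [n2, h7])).cons (a := y)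
        (by simp [hn, n1, h6]))
    simp only [sum_cons, sum_singleton] at h9
    omega
  have h2 := h.le_om hP y3 (R := {d}) fun e he => by
    haveI := Fact.mk Nat.prime_three
    obtain ⟨g, -, rfl⟩ := h1 e he
    obtain ⟨e1, e2, e3⟩ := mem_UU.1 he
    have h27 : ¬ 27 ∣ Nat.card (C1 (g * d * g⁻¹)) := by rw [← cj_C1, card_cj]; exact h.not27 D
    have hB := bas_sup y3 e2 e3 e1
    obtain ⟨k, hk, e4⟩ := (syl9 h27 ((card_cj g _).trans D.bas.card) (cj_C1 g d ▸ cj_mono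
      fun v hv => mem_C1.2 (D.bas.comm v hv d D.bas.xV))).conj
      (syl9 h27 hB.card fun v hv => mem_C1.2 (hB.comm v hv _ hB.yV))
    have h3 : k * g * y * (k * g)⁻¹ ∈ _ := e4 ▸ cj_cj k g _ ▸ conj_mem_cj.2 D.bas.yV
    have h4 : Cj ⊤ y (k * g * y * (k * g)⁻¹) := ⟨_, trivial, rfl⟩
    have h5 : k * g * y * (k * g)⁻¹ ∈ zpowers y := by
      by_contra h5
      exact n1 (h4.trans (h1 _ (mem_UU.2 ⟨mem_C1.2 (hB.comm _ h3 _ hB.xV), hB.cube _ h3, h5⟩)).symm)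
    rcases mem_zpowers_three (cube_of y3) h5 with e | e | e
    · exact absurd e (ne_one_of_ord (h4.ord.trans y3))
    · exact ⟨d, mem_singleton_self d, _, mem_C1_iff_conj.2 e, by
        rw [← mem_C1_iff_conj.1 hk]; group⟩
    · exact absurd (e ▸ h4) hn
  have h3 := h.sum_om_le hP (by simp [y3]) ((sep_one ⊤ y⁻¹).cons (a := y) (by simpa))
  simp only [sum_cons, sum_singleton, card_singleton] at h2 h3
  omega

theorem om_y7 : om y = 7 := by
  classical
  obtain ⟨R, r1, r2, r3⟩ := exists_reps (K := ⊤) (U := univ.filter fun b : G => orderOf b = 3)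
    fun a ha b e => mem_filter.2 ⟨mem_univ _, e.ord.trans (mem_filter.1 ha).2⟩
  have r4 : ∀ b ∈ R, orderOf b = 3 := fun b hb => (mem_filter.1 (r1 hb)).2
  have h1 := le_antisymm (h.sum_om_le hP r4 r2)
    (h.le_sum_om hP r4 fun b hb => r3 b (mem_filter.2 ⟨mem_univ _, hb⟩))
  obtain ⟨a, ha, e⟩ := r3 y (mem_filter.2 ⟨mem_univ _, D.y3⟩)
  have h2 : 3 ∣ ∑ b ∈ R.erase a, om b := dvd_sum fun b hb => (h.om_three hP
    (r4 b (mem_of_mem_erase hb)) fun e2 => (mem_erase.1 hb).1 (r2 a ha b (mem_of_mem_erase hb)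
      (e.trans ((h.cent27 hP (r4 b (mem_of_mem_erase hb)) e2).elim id
        (h.real_y D hP dP).trans))).symm).1
  have h3 := h.om_y D hP dP
  have h4 := h.om_le hP D.y3 (empty_subset _) fun a ha => absurd ha (notMem_empty a)
  rw [← add_sum_erase R _ ha, ← e.om] at h1
  omega

omit h in
theorem cj_E {v : G} (hv : v ∈ zpowers d ⊔ zpowers y) (h1 : v ∉ zpowers y) : Cj ⊤ d v := by
  obtain ⟨i, j, rfl⟩ := D.bas.surj hv
  have k := fun c c1 c2 => (hs_cj hP (a := c) c1 c2 (pow_mem (mem_zpowers y) j.val)).mono le_top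
  fin_cases i
  · exact absurd (by simpa [el] using pow_mem (mem_zpowers y) _) h1
  · simpa [el] using k d dP (d_not D)
  · rw [el, show d ^ _ = d⁻¹ from eq_inv_of_mul_eq_one_left ((pow_succ d 2).symm.trans (cube_of D.d3))]
    exact D.cj_inv.trans (k _ (inv_mem dP) (mt inv_mem_iff.1 (d_not D)))

theorem classes : (∃ g ∈ C1 d, g * y * g⁻¹ = y⁻¹) ∧
    ∀ b : G, orderOf b = 3 → Cj ⊤ y b ∨ Cj ⊤ d b := by
  classical
  have o1 := h.om_y7 D hP dP
  have hE := D.bas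
  have EC : zpowers d ⊔ zpowers y ≤ C1 d := fun v hv => mem_C1.2 (hE.comm v hv d hE.xV)
  have sE := syl9 (h.not27 D) hE.card EC
  have n1 := h.not_yd D hP
  by_cases hg : ∃ g ∈ C1 d, g * y * g⁻¹ = y⁻¹
  · refine ⟨hg, fun b hb => ?_⟩
    obtain ⟨g, hg, e⟩ := hg
    have h1 := h.le_om hP D.d3 (R := univ.image fun i => el d y i 1) fun v hv => by
      obtain ⟨s, h1, h2⟩ := cj_into sE (mem_UU.1 hv).2.1 (mem_UU.1 hv).1
      obtain ⟨i, j, rfl⟩ := hE.surj h1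
      fin_cases j
      · exact absurd (by simpa [el] using pow_mem (mem_zpowers d) _)
          (mem_UU.1 (clo_UU d v hv _ h2)).2.2
      · exact ⟨_, mem_image_of_mem _ (mem_univ i), h2.symm⟩
      · refine ⟨_, mem_image_of_mem _ (mem_univ i), Cj.trans ⟨g, hg, ?_⟩ h2.symm⟩
        rw [el_conj, mem_C1_iff_conj.1 hg, e, el, el, ← eq_inv_of_mul_eq_one_left
          ((pow_succ y 2).symm.trans (cube_of D.y3))]
        simp
    have h2 := card_image_le (s := univ) (f := fun i => el d y i 1)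
    rw [card_univ, Fintype.card_fin] at h2
    by_contra! h3
    have h4 := (h.om_three hP hb fun e => (h.cent27 hP hb e).elim h3.1
      fun e => h3.1 ((h.real_y D hP dP).trans e)).2
    have h5 := h.sum_om_le hP (by simp [D.y3, D.d3, hb])
      (((sep_one ⊤ b).cons (a := d) (by simp [h3.2])).cons (a := y) (by simp [n1, h3.1]))
    simp only [sum_cons, sum_singleton] at h5
    omega
  exfalso
  have h1 := h.om_le hP D.d3 (R := univ.filter fun v => v ∈ zpowers d ⊔ zpowers y ∧ v ∉ zpowers d)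
    (fun v hv => mem_UU.2 ⟨EC (mem_filter.1 hv).2.1, hE.cube v (mem_filter.1 hv).2.1,
      (mem_filter.1 hv).2.2⟩) fun a ha b hb ⟨g, h1, h2⟩ => by
    have h3 := ab_iff.2 hE.comm
    obtain ⟨n, hn, h4⟩ := sE.fusion_C Nat.prime_three (h3 (mem_filter.1 ha).2.1) h1
      (h2 ▸ h3 (mem_filter.1 hb).2.1)
    have h5 : n * y * n⁻¹ ∈ zpowers y := by
      by_contra h5
      exact n1 (Cj.trans ⟨n, trivial, rfl⟩
        (cj_E D hP dP (conj_mem_of_mem_N hn.2 hE.yV) h5).symm)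
    rcases mem_zpowers_three (cube_of D.y3) h5 with e | e | e
    · exact absurd (by simpa using e) (ne_one_of_ord D.y3)
    · rw [← h2, h4, eq_comm, ← mem_C1_iff_conj']
      exact hE.le (mem_C1_comm.1 hn.1) (mem_C1_iff_conj'.2 e) (mem_filter.1 ha).2.1
    · exact absurd ⟨n, hn.1, e⟩ hg
  have h2 := card_filter_add_card_filter_not (s := univ.filter (· ∈ zpowers d ⊔ zpowers y))
    (· ∈ zpowers d)
  rw [filter_filter, filter_filter, card_filter_sub, card_filter_sub (· ∈ zpowers d ⊔ zpowers y),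
    Nat.card_congr (Equiv.subtypeEquivRight (q := (· ∈ zpowers d)) fun a =>
      ⟨And.right, fun e => ⟨mem_sup_left e, e⟩⟩)] at h2
  change Nat.card (zpowers d) + _ = Nat.card ↥(zpowers d ⊔ zpowers y) at h2
  rw [card_zp D.d3, hE.card] at h2
  obtain ⟨g, -, e⟩ := h.real_y D hP dP
  have h3 : ¬ Cj (C1 y) d (g * d * g⁻¹) := fun ⟨k, h3, h4⟩ => hg ⟨k⁻¹ * g, mem_C1_iff_conj.2 (by
    rw [mul_assoc, mul_assoc, mul_inv_rev, ← mul_assoc d, ← mul_assoc g, ← mul_assoc g, ← h4]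
    group), by
    rw [mul_assoc, mul_assoc, mul_inv_rev, ← mul_assoc y, ← mul_assoc g, ← mul_assoc g, e,
      ← mul_assoc]
    exact conj_zp (inv_mem h3) (inv_mem (mem_zpowers y))⟩
  have h4 : g * d * g⁻¹ ∈ UU y := mem_UU.2 ⟨by
    rw [← C1_inv, ← e, ← cj_C1, conj_mem_cj]; exact D.dy, by rw [conj_pow, cube_of D.d3]; simp,
    by rw [← zpowers_inv, ← e, ← cj_zpowers, conj_mem_cj]; exact d_not D⟩
  have h5 := h.le_sum_om hP (R := ({d} : Finset G).cons y (by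
    simpa using fun e : y = d => n1 (e ▸ Cj.refl y))) (by simp [D.y3, D.d3]) fun b hb => by
    obtain ⟨s, h5, h6⟩ := cj_into (h.syl27 hP.card ⊤ le_top) (cube_of hb) trivial
    simp only [mem_cons, mem_singleton, exists_eq_or_imp, exists_eq_left]
    by_cases h7 : s ∈ zpowers y
    · rcases mem_zpowers_three (cube_of D.y3) h7 with rfl | rfl | rfl
      exacts [absurd rfl (ne_one_of_ord (h6.ord.trans hb)), Or.inl h6.symm,
        Or.inl (Cj.trans ⟨g, trivial, e⟩ h6.symm)]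
    by_contra! h8
    have h9 := h.om_le hP D.y3 (by
      simp [insert_subset_iff, h4, d_UU D, mem_UU.2 ⟨hs_le hP h5, hP.cube s h5, h7⟩])
      (((sep_one (C1 y) (g * d * g⁻¹)).cons (a := d) (by simpa)).cons (a := s) (by
        simp only [mem_cons, mem_singleton, forall_eq_or_imp, forall_eq]
        exact ⟨fun e => h8.2 (h6.trans (e.mono le_top)).symm, fun e => h8.2
          (Cj.trans ⟨g, trivial, rfl⟩ (h6.trans (e.mono le_top)).symm)⟩))
    simp only [card_cons, card_singleton] at h9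
    omega
  simp only [sum_cons, sum_singleton] at h5
  omega

theorem card_C3 : Nat.card (C1 y) = 1080 ∧ Nat.card (C1 d) = 504 := by
  classical
  have h1 := sum_eq_reps (K := ⊤) (U := univ.filter fun b : G => orderOf b = 3) (fun _ => 1)
    (fun _ _ _ => rfl) (fun a ha b e => mem_filter.2 ⟨mem_univ _, e.ord.trans (mem_filter.1 ha).2⟩)
    (by simp [insert_subset_iff, D.y3, D.d3])
    ((sep_one ⊤ d).cons (a := y) (by simpa using h.not_yd D hP))
    fun b hb => by simpa using (h.classes D hP dP).2 b (mem_filter.1 hb).2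
  obtain ⟨m, hm, e⟩ := h.card_Cd D
  have h2 := (C1 d).card_mul_index
  have h3 := (C1 y).card_mul_index
  have h4 := h.not27 D
  have h5 := (C1 y).index_dvd_card
  simp only [sum_const, card_filter_ord, h.n3, sum_cons, sum_singleton, relIndex_top_right,
    smul_eq_mul, mul_one, mem_insert, mem_singleton] at h1 hm
  rw [h.card] at h2 h3 h5
  rw [e] at h2 h4 ⊢
  rcases hm with rfl | rfl | rfl | rfl | rfl | rfl | rfl
  · rw [show (C1 y).index = 226688 by omega] at h3; omega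
  · rw [show (C1 y).index = 651728 by omega] at h5; omega
  · rw [show (C1 y).index = 704858 by omega] at h5; omega
  all_goals omega

theorem card_UU {e : G} (he : e ∈ UU y) : Nat.card ↥(C1 y ⊓ C1 e) = 9 ∧
    ∃ a ∈ UU y, ∃ b ∈ UU y, ¬ Cj (C1 y) a b := by
  classical
  obtain ⟨R, r1, r2, r3⟩ := exists_reps (clo_UU y)
  have h1 := h.om_le hP D.y3 r1 r2
  have h2 := h.le_om hP D.y3 r3
  rw [h.om_y7 D hP dP] at h1 h2
  obtain ⟨a, b, ab, rfl⟩ := card_eq_two.1 (show #R = 2 by omega)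
  have ha := r1 (mem_insert_self a _)
  have hb := r1 (mem_insert_of_mem (mem_singleton_self b))
  have c := (h.card_C3 D hP dP).1
  have h3 := sum_eq_reps (fun _ => 1) (fun _ _ _ => rfl) (clo_UU y) r1 r2 r3
  have h4 : 27 ∣ 3 + #(UU y) := by
    have h4 := frobenius_pow (G := C1 y) Nat.prime_three (k := 3) (by rw [c]; norm_num)
    have h5 : ∀ n ∉ O24, nord (C1 y) n = 0 := fun n hn =>
      nord_eq_zero_iff.2 fun g e => h.ne_ord n hn g (by rw [← e, orderOf_coe])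
    rw [Nat.sum_divisors_prime_pow (by norm_num)] at h4
    simp only [sum_range_succ, sum_range_zero, Nat.reducePow, nord_one, h5 9 (by decide),
      h5 27 (by decide)] at h4
    rw [nord_sub] at h4
    have h6 := card_filter_add_card_filter_not (s := univ.filter fun v => v ∈ C1 y ∧ orderOf v = 3)
      (· ∈ zpowers y)
    have h7 := card_ne_one (zpowers y)
    rw [filter_filter, filter_filter, card_filter_sub, card_filter_sub fun v => v ∈ C1 y ∧ _,
      Nat.card_congr (Equiv.subtypeEquivRight (q := fun v => v ∈ zpowers y ∧ v ≠ 1) fun v =>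
        ⟨fun e => ⟨e.2, ne_one_of_ord e.1.2⟩, fun e => ⟨⟨zpowers_le.2 (self_mem_C1 y) e.1,
          ord_zp Nat.prime_three D.y3 e.1 e.2⟩, e.1⟩⟩),
      show (univ.filter fun v => (v ∈ C1 y ∧ orderOf v = 3) ∧ v ∉ zpowers y) = UU y from
        Finset.ext fun v => ⟨fun e => mem_UU.2 ⟨(mem_filter.1 e).2.1.1, cube_of (mem_filter.1 e).2.1.2,
          (mem_filter.1 e).2.2⟩, fun e => mem_filter.2 ⟨mem_univ _, ⟨(mem_UU.1 e).1, UU_ord e⟩,
          (mem_UU.1 e).2.2⟩⟩] at h6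
    rw [card_zp D.y3] at h7
    convert h4 using 1
    omega
  have k : ∀ a ∈ UU y, ∃ j ∈ Nat.divisors 8, Nat.card ↥(C1 y ⊓ C1 a) = 9 * j ∧
      (C1 a).relIndex (C1 y) = 120 / j := fun a ha => by
    obtain ⟨e1, e2, e3⟩ := mem_UU.1 ha
    have h5 := h.nine_ph hP D.y3 ha
    have h6 := relIndex_mul_inf (C1 y) a
    have h7 := Nat.dvd_gcd (h.card_CC D.y3 e1 e2 e3) (c ▸ card_dvd_of_le inf_le_left)
    have h8 := h.no27 hP D.y3 ha
    rw [h5] at h6 h7 h8
    refine ⟨_, Nat.mem_divisors.2 ⟨dvd_of_not_dvd Nat.prime_three (Nat.dvd_of_mul_dvd_mul_left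
      (show 0 < 9 by norm_num) h7) fun e => h8 (Nat.mul_dvd_mul_left 9 e), by norm_num⟩, h5, ?_⟩
    rw [c, mul_left_comm] at h6
    exact (Nat.div_eq_of_eq_mul_left (ph_pos _) (by omega)).symm
  obtain ⟨i, i1, i2, i3⟩ := k a ha
  obtain ⟨j, j1, j2, j3⟩ := k b hb
  rw [sum_const, smul_eq_mul, mul_one, sum_pair ab, i3, j3, mul_one, mul_one] at h3
  obtain ⟨rfl, rfl⟩ := (by decide : ∀ i ∈ Nat.divisors 8, ∀ j ∈ Nat.divisors 8,
    27 ∣ 3 + (120 / i + 120 / j) → i = 1 ∧ j = 1) i i1 j j1 (h3 ▸ h4)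
  refine ⟨?_, a, ha, b, hb, fun e => ab (r2 a (by simp) b (by simp) e)⟩
  obtain ⟨r, hr, e1⟩ := r3 e he
  rw [e1.card_inf]
  rcases mem_insert.1 hr with rfl | hr
  exacts [i2, mem_singleton.1 hr ▸ j2]

end Nse24

end CfsgH8.Mat
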