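import Cfsg.Agent.H8.M24RecE
import Cfsg.Agent.H8.M24A6
import Cfsg.Agent.H8.M23E

set_option autoImplicit false

/-! Recognition of `M24` from the order statistics: `C(d)`, `C(y)` and the order of `C(t)`. -/

namespace CfsgH8.Mat

open Subgroup Finset CfsgH5 CfsgH6 CfsgFT Equiv

variable {G : Type*} [Group G]

attribute [local irreducible] nord

theorem card_diff [Finite G] {B L : Subgroup G} (h : B ≤ L) :
    Nat.card B + Nat.card {g // g ∈ L ∧ g ∉ B} = Nat.card L := by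
  classical
  have := Fintype.ofFinite G
  have h2 := card_filter_add_card_filter_not (s := univ.filter (· ∈ L)) (· ∈ B)
  rwa [filter_filter, filter_filter, card_filter_sub, card_filter_sub, card_filter_sub (· ∈ L),
    Nat.card_congr (Equiv.subtypeEquivRight (q := (· ∈ B)) fun a =>
      ⟨And.right, fun e => ⟨h e, e⟩⟩)] at h2

theorem D1.of_mem {u d t y v : G} (D : D1 u d t y) (hv : v ∈ zpowers u) (h1 : v ≠ 1) :
    D1 v d t y :=
  ⟨ord_zp (by norm_num) D.u7 hv h1, D.d3, D.t2, D.y3, C1_le_C1_of_mem_zpowers hv D.du,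
    C1_le_C1_of_mem_zpowers hv D.tu, D.ty, D.dy, D.td, by
      obtain ⟨k, rfl⟩ := mem_zpowers_iff.1 hv
      rw [← conj_zpow, D.yu, ← zpow_natCast, ← zpow_natCast, ← zpow_mul, ← zpow_mul, mul_comm]⟩

theorem D1.tt {u d t y : G} (D : D1 u d t y) : t * t = 1 := mul_self_of_ord D.t2

theorem D1.yN [Finite G] {u d t y : G} (D : D1 u d t y) : y ∈ N (zpowers u) :=
  mem_N_of_cj_le (by rw [cj_zpowers, D.yu]; exact zpowers_le.2 (pow_mem (mem_zpowers u) 2))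

/-- the generators of `L3(2)` -/
structure D3 (u d t y s : G) : Prop extends D1 u d t y where
  s2 : s * s = 1
  sd : s ∈ C1 d
  st : s ∈ C1 t
  sy : s * y * s⁻¹ = y⁻¹
  su : (s * u) ^ 3 = 1

/-- the involutions in `C(y) ∩ C(t)` -/
structure D4 (u d t y s a e : G) : Prop extends D3 u d t y s where
  a2 : a * a = 1
  e2 : e * e = 1
  ay : a ∈ C1 y
  ey : e ∈ C1 y
  at' : a ∈ C1 t
  et : e ∈ C1 t
  ae : (a * e) ^ 2 * t = 1
  ad : (a * d) ^ 3 = 1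
  ed : (e * d) ^ 5 = 1
  ed' : (e * t * d) ^ 5 = 1
  lk : (e * a * d) ^ 4 ∈ zpowers y
  lk' : (e * t * a * d) ^ 4 ∈ zpowers y
  d8 : ∀ g ∈ C1 y, g ∈ C1 t → ∀ k, g ^ 2 ^ k = 1 →
    g = 1 ∨ g = t ∨ g = a ∨ g = a * t ∨ g = e ∨ g = e * t ∨ g = a * e ∨ g = a * e * t
  sa : s * a * s⁻¹ = a
  se : s * e * s⁻¹ = e * t

theorem eq_one_of_inv {y g n : G} (hy : orderOf y = 3) (hn : n ∈ C1 y) (h : n * g * n⁻¹ = g⁻¹)
    {k : ℕ} (hk : g ^ k ∈ zpowers y) : g ^ k = 1 := by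
  by_contra e
  exact inv_ne_self (ord_zp Nat.prime_three hy hk e) (by rw [← inv_pow, ← h, conj_pow, conj_zp hn hk])

namespace Nse24

variable [Finite G] (h : Nse24 G) {u d t y : G} (D : D1 u d t y)
include h D

theorem c3 : Nat.card (C1 y) = 1080 ∧ Nat.card (C1 d) = 504 := by
  have := Fintype.ofFinite G
  obtain ⟨P, hP, dP⟩ := h.exists_P D
  exact h.card_C3 D hP dP

theorem cent9 {b e : G} (hb : orderOf b = 3) (h1 : e ∈ C1 b) (h2 : e ^ 3 = 1)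
    (h3 : e ∉ zpowers b) : Nat.card ↥(C1 b ⊓ C1 e) = 9 := by
  have := Fintype.ofFinite G
  obtain ⟨P, hP, dP⟩ := h.exists_P D
  suffices k : ∀ a, (∀ e ∈ UU a, Nat.card ↥(C1 a ⊓ C1 e) = 9) → Cj ⊤ a b →
      Nat.card ↥(C1 b ⊓ C1 e) = 9 by
    refine ((h.classes D hP dP).2 b hb).elim (k y fun e he => (h.card_UU D hP dP he).1)
      (k d fun e he => ?_)
    have hE := D.bas
    obtain ⟨v, h4, h5⟩ := cj_into (syl9 (h.not27 D) hE.card
      fun v hv => mem_C1.2 (hE.comm v hv d hE.xV)) (mem_UU.1 he).2.1 (mem_UU.1 he).1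
    have hB : Bas _ d v := ⟨hE.card, hE.cube, hE.comm, hE.xV, h4, hE.x1,
      (mem_UU.1 (clo_UU d e he v h5)).2.2⟩
    rw [← h5.card_inf, ← (h.card_UU D hP dP (d_UU D)).1, inf_comm (C1 y)]
    exact congrArg (fun K : Subgroup G => Nat.card K) (le_antisymm (fun g hg => ⟨hg.1,
      mem_C1_comm.1 (hB.le (mem_C1_comm.1 hg.1) (mem_C1_comm.1 hg.2) hE.yV)⟩) fun g hg =>
      ⟨hg.1, mem_C1_comm.1 (hE.le (mem_C1_comm.1 hg.1) (mem_C1_comm.1 hg.2) h4)⟩)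
  rintro a ha ⟨g, -, rfl⟩
  obtain ⟨e, rfl⟩ : ∃ c, e = g * c * g⁻¹ := ⟨g⁻¹ * e * g, by group⟩
  rw [← cj_C1, conj_mem_cj] at h1
  rw [← cj_zpowers, conj_mem_cj] at h3
  rw [← cj_C1, ← cj_C1, ← cj_inf, card_cj]
  exact ha e (mem_UU.2 ⟨h1, by simpa [conj_pow] using h2, h3⟩)

theorem alt6 : Nonempty (XQ y ≃* alternatingGroup (Fin 6)) := by
  have := Fintype.ofFinite G
  obtain ⟨P, hP, dP⟩ := h.exists_P D
  obtain ⟨b, hb, e⟩ := hP.exists_not_comm dP (d_not D)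
  have hB := bas_SQ hP (a := ⟨d, D.dy⟩) (b := ⟨b, hs_le hP hb⟩) dP hb (mt mem_C1.1 e)
  have h1 : CC9 (SQ P y) := ⟨hB.card, hB.cube, fun v hv v1 => le_antisymm (fun w hw => by
    obtain ⟨s, hs, rfl⟩ := hv
    obtain ⟨g, rfl⟩ := pq_surj y w
    replace hs : (s : G) ∈ P := hs
    have s1 : (s : G) ∉ zpowers y := mt pq_one.2 v1
    obtain ⟨p, hp, e⟩ := hs_cj hP hs s1 (pq_eq.1 (show pq y s = pq y (g * s * g⁻¹) by
      rw [map_mul, map_mul, map_inv, mem_C1_iff_conj.1 hw]))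
    have h2 : p⁻¹ * g ∈ C1 y ⊓ C1 (s : G) := mem_inf.2 ⟨mul_mem (inv_mem (hs_le hP hp)) g.2,
      mem_C1_iff_conj.2 (by
        rw [mul_inv_cancel_left] at e
        change p * s * p⁻¹ = g * s * (g : G)⁻¹ at e
        calc _ = p⁻¹ * (g * s * (g : G)⁻¹) * p := by group
          _ = _ := by rw [← e]; group)⟩
    rw [← eq_of_le_of_card_eq (inf_le_inf_right _ (hs_le hP)) ((hP.bas hs s1).card.trans
      (h.cent9 D D.y3 s.2 (hP.cube s hs) s1).symm)] at h2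
    exact (mem_SQ hP.zS).2 (by simpa using P.mul_mem hp h2.1))
    fun w hw => mem_C1.2 (hB.comm w hw v hv)⟩
  obtain ⟨a, ha, c, hc, n⟩ := (h.card_UU D hP dP (d_UU D)).2
  obtain ⟨a', a1, a2, a3⟩ := h.into_P hP ha
  obtain ⟨c', c1, c2, c3⟩ := h.into_P hP hc
  refine (h1.normal_or_alt6 ((mem_SQ hP.zS (g := ⟨a', hs_le hP a1⟩)).2 a1)
    ((mem_SQ hP.zS (g := ⟨c', hs_le hP c1⟩)).2 c1) (mt pq_one.1 a2) (mt pq_one.1 c2)
    fun e => n ?_).resolve_left fun e => ?_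
  · obtain ⟨w, hw⟩ := isConj_iff.1 e
    obtain ⟨g, rfl⟩ := pq_surj y w
    rw [← map_inv, ← map_mul, ← map_mul] at hw
    exact a3.trans (Cj.trans ⟨g, g.2, rfl⟩ (c3.trans (cj_of_pq hP c1 c2 hw.symm)).symm)
  · have h2 : C1 y ≤ N P := fun g hg => mem_N_of_conj fun s hs => by
      have := e.conj_mem _ ((mem_SQ hP.zS (g := ⟨s, hs_le hP hs⟩)).2 hs) (pq y ⟨g, hg⟩)
      rw [← map_inv, ← map_mul, ← map_mul] at this
      exact (mem_SQ hP.zS).1 this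
    have h3 := (card_dvd_of_le h2).trans (h.card_NP hP.card)
    rw [(h.c3 D).1] at h3
    exact absurd h3 (by norm_num)

theorem not_nine {z : G} (hz : orderOf z = 2) {K : Subgroup G} (hK : K ≤ C1 z) :
    ¬ 9 ∣ Nat.card K := fun e => by
  haveI := Fact.mk Nat.prime_three
  obtain ⟨M, hM⟩ := Sylow.exists_subgroup_card_pow_prime (G := K) 3 (n := 2) e
  have h1 : Nat.card (M.map K.subtype) = 9 := (card_map_of_injective K.subtype_injective).trans hM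
  have h2 := (map_subtype_le M).trans hK
  generalize M.map K.subtype = M at *
  obtain ⟨h3, h4⟩ := syl_nine h1 (h.ne_ord _ (by decide))
  obtain ⟨b, hb, b3⟩ := exists_ord Nat.prime_three (K := M) (by rw [h1]; norm_num)
  obtain ⟨c, hc, hc'⟩ := SetLike.not_le_iff_exists.1 fun e : M ≤ zpowers b => by
    have := card_le_of_le e
    rw [h1, card_zp b3] at this
    omega
  exact ne_one_of_ord hz (eq_one_of_sq_of_nine (h.cent9 D b3 (mem_C1.2 (h4 c hc b hb)) (h3 c hc) hc')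
    ⟨mem_C1_comm.1 (h2 hb), mem_C1_comm.1 (h2 hc)⟩ (hz ▸ pow_orderOf_eq_one z))

theorem mem_E {g : G} (h1 : g ∈ C1 d) (h2 : g ∈ C1 y) : g ∈ zpowers d ⊔ zpowers y :=
  (eq_of_le_of_card_eq (D.bas.le (H := C1 d ⊓ C1 y) ⟨self_mem_C1 d, D.dy⟩
    ⟨mem_C1_comm.1 D.dy, self_mem_C1 y⟩) (D.bas.card.trans
    (h.cent9 D D.d3 (mem_C1_comm.1 D.dy) (cube_of D.y3) D.y_not).symm)).ge ⟨h1, h2⟩

theorem exists_s : ∃ s, s * s = 1 ∧ s ∈ C1 d ∧ s ∈ C1 t ∧ s * y * s⁻¹ = y⁻¹ := by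
  have := Fintype.ofFinite G
  obtain ⟨P, hP, dP⟩ := h.exists_P D
  obtain ⟨g, h1, h2⟩ := (h.classes D hP dP).1
  have hE := D.bas
  have k : ∀ a b : G, a * y * a⁻¹ = y⁻¹ → b * y * b⁻¹ = y⁻¹ → a * b ∈ C1 y := fun a b e1 e2 =>
    mem_C1_iff_conj.2 (by
      calc _ = a * (b * y * b⁻¹) * a⁻¹ := by group
        _ = _ := by rw [e2, ← conj_inv, e1, inv_inv])
  have h3 := hE.cube _ (h.mem_E D (mul_mem h1 h1) (k g g h2 h2))
  obtain ⟨s, hs⟩ : ∃ s, s = g * g * g := ⟨_, rfl⟩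
  have s2 : s * s = 1 := by rw [← h3, hs]; simp [pow_succ, mul_assoc]
  have sd : s ∈ C1 d := hs ▸ mul_mem (mul_mem h1 h1) h1
  have sy : s * y * s⁻¹ = y⁻¹ := by
    calc _ = g * g * (g * y * g⁻¹) * (g * g)⁻¹ := by rw [hs]; group
      _ = _ := by rw [h2, ← conj_inv, mem_C1_iff_conj.1 (k g g h2 h2)]
  refine ⟨s, s2, sd, ?_, sy⟩
  have h4 : t * s * t⁻¹ ∈ C1 d := by rw [← C1_inv, ← D.td, ← cj_C1, conj_mem_cj]; exact sd
  obtain ⟨i, j, e⟩ := hE.surj (h.mem_E D (mul_mem sd h4) (k s _ sy (by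
    rw [← mem_C1_iff_conj.1 D.ty, conj_mul, conj_inv, conj_mul, sy, conj_inv])))
  have a1 : Acts d y s (1, 0, 0, 2) :=
    ⟨(mem_C1_iff_conj.1 sd).trans (el_one_zero d y).symm, sy.trans hE.el_zero_two.symm⟩
  have a2 : Acts d y t (2, 0, 0, 1) :=
    ⟨D.td.trans hE.el_two_zero.symm, (mem_C1_iff_conj.1 D.ty).trans (el_zero_one d y).symm⟩
  have si := inv_eq_of_mul_eq_one_right s2
  have ti := inv_eq_of_mul_eq_one_right D.tt
  have e1 := hE.conj_el a1 i j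
  have e2 := hE.conj_el a2 i j
  have e3 := el_neg hE.x3 hE.y3 hE.xy i j
  rw [← e] at e1 e2 e3
  obtain ⟨rfl, rfl⟩ := (by decide : ∀ i j : Fin 3, -i = i * 1 + j * 0 → -j = i * 0 + j * 1 →
    i = 0 ∧ j = 0) i j (hE.inj (e3.trans (Eq.trans (by
      simp only [mul_inv_rev, si, ti, ← mul_assoc, s2, one_mul]) e1))).1
    (hE.inj (e3.trans (Eq.trans (by
      simp only [mul_inv_rev, si, ti, mul_assoc, D.tt, mul_one]) e2))).2
  rw [el_zero] at e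
  rw [mem_C1_iff_conj', eq_inv_of_mul_eq_one_right e, si]

theorem card_Ct : Nat.card (C1 t) = 21504 := by
  have h1 := sylIn_modEq (by norm_num) (h.sylp (Or.inr rfl) D.u7 _ (mem_C1_comm.1 D.tu))
  have h2 := card_inf_mul_relIndex (N (zpowers u)) (C1 t)
  rw [(h.card_NC D.u7 D.d3 D.t2 D.du D.tu D.td).1] at h2
  have h3 : Nat.card (C1 t) ∣ 42 * 23040 := dvd_of_not_dvd (p := 11) (by norm_num)
    (dvd_of_not_dvd (p := 23) (by norm_num) (h.dvd_G _) (h.not_dvd D.t2 23 le_rfl))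
    (h.not_dvd D.t2 11 le_rfl)
  have h4 := index_le_nord t
  have h5 := (C1 t).card_mul_index
  have h6 := h.not_nine D D.t2 le_rfl
  rw [D.t2, h.n2] at h4
  rw [h.card, ← h2] at h5
  rw [← h2] at h3 h6 ⊢
  rw [(by decide +kernel : ∀ m ∈ Nat.divisors 23040, m ≡ 1 [MOD 7] → ¬ 9 ∣ 42 * m →
    244823040 ≤ 42 * m * 43263 → m = 512) _
    (Nat.mem_divisors.2 ⟨Nat.dvd_of_mul_dvd_mul_left (by norm_num) h3, by norm_num⟩) h1 h6
    (h5 ▸ Nat.mul_le_mul_left _ h4)]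

theorem card_B : Nat.card ↥(N (zpowers u) ⊓ (C1 d ⊓ C1 t)) = 21 := by
  obtain ⟨h1, -, h2⟩ := h.card_NC D.u7 D.d3 D.t2 D.du D.tu D.td
  have h3 := card_dvd_of_le (inf_le_inf_left (N (zpowers u)) (inf_le_right : C1 d ⊓ C1 t ≤ _))
  have h4 := card_dvd_of_le (inf_le_inf_left (N (zpowers u)) (inf_le_left : C1 d ⊓ C1 t ≤ _))
  have h5 := (N (zpowers u) ⊓ (C1 d ⊓ C1 t)).orderOf_dvd_natCard
    (mem_inf.2 ⟨D.yN, mem_C1_comm.1 D.dy, mem_C1_comm.1 D.ty⟩)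
  have h6 := (N (zpowers u) ⊓ (C1 d ⊓ C1 t)).orderOf_dvd_natCard
    (mem_inf.2 ⟨le_N _ (mem_zpowers u), mem_C1_comm.1 D.du, mem_C1_comm.1 D.tu⟩)
  rw [h1] at h3
  rw [h2] at h4
  rw [D.y3] at h5
  rw [D.u7] at h6
  exact Nat.dvd_antisymm (Nat.dvd_gcd h3 h4) (cdvd h5 h6)

theorem card_L : Nat.card ↥(C1 d ⊓ C1 t) = 168 := by
  obtain ⟨s, s2, sd, st, sy⟩ := h.exists_s D
  have h1 := sylIn_modEq (by norm_num) (h.sylp (Or.inr rfl) D.u7 (C1 d ⊓ C1 t)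
    ⟨mem_C1_comm.1 D.du, mem_C1_comm.1 D.tu⟩)
  have h2 := card_inf_mul_relIndex (N (zpowers u)) (C1 d ⊓ C1 t)
  have h3 := (h.c3 D).2 ▸ card_dvd_of_le (inf_le_left : C1 d ⊓ C1 t ≤ _)
  have h4 := (C1 d ⊓ C1 t).orderOf_dvd_natCard ⟨sd, st⟩
  rw [orderOf_two s2 fun e => inv_ne_self D.y3 (by simpa [e] using sy.symm)] at h4
  rw [h.card_B D] at h2
  rw [← h2] at h3 h4 ⊢
  rw [(by decide : ∀ m ∈ Nat.divisors 24, m ≡ 1 [MOD 7] → 2 ∣ 21 * m → m = 8) _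
    (Nat.mem_divisors.2 ⟨Nat.dvd_of_mul_dvd_mul_left (by norm_num) h3, by norm_num⟩) h1 h4]

theorem exists_D3 : ∃ v s, D3 v d t y s := by
  obtain ⟨s, s2, sd, st, sy⟩ := h.exists_s D
  have so := orderOf_two s2 fun e => inv_ne_self D.y3 (by simpa [e] using sy.symm)
  obtain ⟨B, hB⟩ : ∃ B, B = N (zpowers u) ⊓ (C1 d ⊓ C1 t) := ⟨_, rfl⟩
  have B21 : Nat.card B = 21 := hB ▸ h.card_B D
  have BL : B ≤ C1 d ⊓ C1 t := hB ▸ inf_le_right
  have BN : B ≤ N (zpowers u) := hB ▸ inf_le_left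
  have UB : zpowers u ≤ B :=
    hB ▸ le_inf (le_N _) (zpowers_le.2 ⟨mem_C1_comm.1 D.du, mem_C1_comm.1 D.tu⟩)
  have yB : y ∈ B := hB ▸ ⟨D.yN, mem_C1_comm.1 D.dy, mem_C1_comm.1 D.ty⟩
  have sB : s ∉ B := fun e => absurd (B21 ▸ so ▸ B.orderOf_dvd_natCard e) (by norm_num)
  have key : ∀ w ∈ zpowers u, s * w * s⁻¹ ∈ B → w = 1 := fun w hw e => by
    by_contra w1
    have h1 := (orderOf_conj' s w).trans (ord_zp (by norm_num) D.u7 hw w1)
    have h2 := (h.sylp (Or.inr rfl) D.u7 B (UB (mem_zpowers u))).eq_of_nrm (by norm_num)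
      (h.sylp (Or.inr rfl) h1 B e) (nrm_zpowers_iff.2 (BN e))
    rw [← cj_zpowers, zp_eq (by norm_num) D.u7 hw w1] at h2
    exact sB (hB ▸ ⟨mem_N.2 h2, sd, st⟩)
  have h1 := card_diff BL
  rw [B21, h.card_L D] at h1
  have si := inv_eq_of_mul_eq_one_right s2
  obtain ⟨⟨v, b⟩, e⟩ := (Function.Injective.bijective_of_nat_card_le
    (f := fun p : zpowers u × B => (⟨p.1 * s * p.2, mul_mem (mul_mem (BL (UB p.1.2)) ⟨sd, st⟩)
      (BL p.2.2), fun e => sB (by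
        rwa [B.mul_mem_cancel_right p.2.2, B.mul_mem_cancel_left (UB p.1.2)] at e)⟩ :
      {g // g ∈ C1 d ⊓ C1 t ∧ g ∉ B})) (fun p q e => by
        replace e : p.1 * s * p.2 = q.1 * s * q.2 := Subtype.mk.inj e
        have h2 := key _ (mul_mem (inv_mem q.1.2) p.1.2) (by
          rw [show s * ((q.1 : G)⁻¹ * p.1) * s⁻¹ = s * (q.1 : G)⁻¹ * (p.1 * s⁻¹ * p.2) * (p.2 : G)⁻¹
            by group, si, e, show s * (q.1 : G)⁻¹ * (q.1 * s * q.2) = s * s * q.2 by group, s2,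
            one_mul]
          exact mul_mem q.2.2 (inv_mem p.2.2))
        rw [inv_mul_eq_one] at h2
        rw [h2, mul_right_inj] at e
        exact Prod.ext (Subtype.ext h2.symm) (Subtype.ext e))
    (by rw [Nat.card_prod, card_zp D.u7, B21]; omega)).2
    ⟨s * (u * y) * s⁻¹, Nrm.self _ s (mem_inf.2 ⟨sd, st⟩) _ (BL (mul_mem (UB (mem_zpowers u)) yB)), fun e => by
      rw [← conj_mul, sy, B.mul_mem_cancel_right (inv_mem yB)] at e
      exact ne_one_of_ord D.u7 (key u (mem_zpowers u) e)⟩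
  replace e : v * s * b = s * (u * y) * s⁻¹ := Subtype.mk.inj e
  have h2 := nrm_zpowers_iff.2 D.yN
  obtain ⟨c, hc, w, hw, e2⟩ := (mem_sup_nrm h2).1 ((eq_of_le_of_card_eq
    (sup_le (zpowers_le.2 yB) UB) (by
      rw [card_sup_of_inf_eq_bot (Or.inl h2) (inf_eq_bot_of_coprime' (by
        rw [card_zp D.u7, card_zp D.y3]; norm_num)), card_zp D.u7, card_zp D.y3, B21])).ge b.2)
  have h3 : (u * y) ^ 3 = 1 := by
    calc _ = u * (y * u * y⁻¹) * (y * (y * u * y⁻¹) * y⁻¹) * y ^ 3 := by simp [pow_succ, mul_assoc]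
      _ = u ^ 7 := by rw [D.yu, ← conj_pow, D.yu, cube_of D.y3]; group
      _ = 1 := D.u7 ▸ pow_orderOf_eq_one u
  have h4 : (s * c * (w * v)) ^ 3 = 1 := by
    rw [show s * c * (w * v) = (v : G)⁻¹ * (v * s * (c * w)) * (v : G)⁻¹⁻¹ by group, ← e2, e,
      conj_pow, conj_pow, h3]
    simp
  have h5 : s * c * s⁻¹ = c⁻¹ := by
    obtain ⟨k, rfl⟩ := mem_zpowers_iff.1 hc
    exact conj_zpow_of_inverts sy k
  have h6 : s * c * (s * c) = 1 := by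
    rw [← mul_assoc, ← inv_mul_cancel c, ← h5, si]
  have h7 : s * c * y * (s * c)⁻¹ = y⁻¹ := by
    calc _ = s * (c * y * c⁻¹) * s⁻¹ := by group
      _ = _ := by rw [mem_C1_iff_conj.1 (zpowers_le.2 (self_mem_C1 y) hc), sy]
  refine ⟨w * v, s * c, D.of_mem (mul_mem hw v.2) fun e => ?_, h6,
    mul_mem sd (zpowers_le.2 (mem_C1_comm.1 D.dy) hc),
    mul_mem st (zpowers_le.2 (mem_C1_comm.1 D.ty) hc), h7, h4⟩
  rw [e, mul_one, pow_succ, pow_two, h6, one_mul] at h4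
  exact inv_ne_self D.y3 (by simpa [h4] using h7.symm)

omit D in
theorem no_inv5 {x s : G} (hx : orderOf x = 5) (hy : orderOf y = 3) (s2 : s * s = 1)
    (h1 : s ∈ C1 x) (h2 : y ∈ C1 x) (sy : s * y * s⁻¹ = y⁻¹) : False := by
  obtain ⟨T, sT, hT⟩ := exists_sylIn_ge (zpowers_le.2 h1) (pg2 s2)
  have h3 : Nat.card T = 4 :=
    card_of_sylIn (k := 2) (m := 15) Nat.prime_two hT (h.card_C5 hx) (by norm_num)
  have h4 := mem_of_nord_lt hT.le (fun a ha => orderOf_two (h.sq5 hx hT.isPGroup ha (hT.le ha)))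
    (by rw [h3, (h.nord_C5 hx).1]; norm_num) (mul_mem h1 h2) (orderOf_two (by
      rw [← mul_assoc, ← inv_mul_cancel y, ← sy, inv_eq_of_mul_eq_one_right s2]) fun e =>
      inv_ne_self hy (by rw [← sy, eq_inv_of_mul_eq_one_left e]; group))
  rw [T.mul_mem_cancel_left (sT (mem_zpowers s))] at h4
  exact absurd (h3 ▸ hy ▸ T.orderOf_dvd_natCard h4) (by norm_num)

omit D in
theorem exists_D4 {s : G} (D : D3 u d t y s) : ∃ a e, D4 u d t y s a e := by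
  obtain ⟨ε⟩ := h.alt6 D.toD1
  obtain ⟨ψ, k0, s0, j0⟩ : ∃ ψ : C1 y →* Perm (Fin 6), (∀ g, ψ g = 1 ↔ (g : G) ∈ zpowers y) ∧
      (∀ g, Perm.sign (ψ g) = 1) ∧ ∀ σ, Perm.sign σ = 1 → ∃ g, ψ g = σ :=
    ⟨(alternatingGroup _).subtype.comp (ε.toMonoidHom.comp (pq y)), fun g => by simp [pq_one],
      fun g => (ε (pq y g)).2, fun σ hσ => by
        obtain ⟨g, hg⟩ := pq_surj y (ε.symm ⟨σ, hσ⟩)
        exact ⟨g, by simp [hg]⟩⟩
  obtain ⟨d, rfl⟩ : ∃ c : C1 y, (c : G) = d := ⟨⟨d, D.dy⟩, rfl⟩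
  obtain ⟨t, rfl⟩ : ∃ c : C1 y, (c : G) = t := ⟨⟨t, D.ty⟩, rfl⟩
  have tt : t * t = 1 := Subtype.ext D.tt
  obtain ⟨σ, α, β, hg⟩ := A6f.exists_good (d := ψ d) (t := ψ t) (orderOf_three
    (by rw [← map_pow, show d ^ 3 = 1 from Subtype.ext (cube_of D.d3), map_one])
    (mt (k0 d).1 (d_not D.toD1))) (by rw [← map_mul, tt, map_one])
    (by rw [← map_inv, ← map_inv, ← map_mul, ← map_mul]; exact congrArg ψ (Subtype.ext D.td)) (s0 t)
  obtain ⟨φ, k1, s1, j1, hg⟩ : ∃ φ : C1 y →* Perm (Fin 6), (∀ g, φ g = 1 ↔ (g : G) ∈ zpowers y) ∧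
      (∀ g, Perm.sign (φ g) = 1) ∧ (∀ σ, Perm.sign σ = 1 → ∃ g, φ g = σ) ∧
      A6f.Good (φ d) (φ t) α β :=
    ⟨(MulAut.conj σ).toMonoidHom.comp ψ, fun g => by simp [k0], fun g => by simp [s0],
      fun w hw => (j0 (σ⁻¹ * w * σ) (by simp [hw])).imp fun g e => by simp [e, mul_assoc], hg⟩
  have lift : ∀ w, Perm.sign w = 1 → w * w = 1 → w * φ t = φ t * w →
      ∃ a, φ a = w ∧ (a : G) * a = 1 ∧ (a : G) ∈ C1 (t : G) := fun w h1 h2 h3 => by
    obtain ⟨g, rfl⟩ := j1 w h1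
    have h4 : φ (g ^ 3) = φ g := by rw [map_pow, pow_succ, pow_two, h2, one_mul]
    have h5 : ((g ^ 3 : C1 y) : G) * (g ^ 3 : C1 y) = 1 := by
      have := orderOf_dvd_iff_pow_eq_one.1
        (D.y3 ▸ orderOf_dvd_of_mem_zpowers ((k1 (g * g)).1 (by rw [map_mul, h2])))
      simpa [pow_succ, mul_assoc] using this
    refine ⟨_, h4, h5, ?_⟩
    generalize g ^ 3 = a at *
    have h6 := eq_one_of_inv D.y3 a.2 (g := (a : G) * t) (k := 2) (by
      rw [mul_inv_rev, ← mul_assoc, h5, one_mul, inv_eq_of_mul_eq_one_right D.tt])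
      ((k1 ((a * t) ^ 2)).1 (by
        rw [map_pow, map_mul, h4, sq_mul_of_comm h2 (by rw [← map_mul, tt, map_one]) h3]))
    rw [pow_two] at h6
    rw [mem_C1, eq_inv_of_mul_eq_one_left h6, mul_inv_rev, inv_eq_of_mul_eq_one_right D.tt,
      inv_eq_of_mul_eq_one_right h5]
  obtain ⟨g1, g2, g3, g4, g5, g6, g7, g8, g9, g10, g11, g12, g13, g14, g15, g16⟩ := hg
  obtain ⟨a, rfl, a2, a3⟩ := lift α g1 g3 g5
  obtain ⟨e, rfl, e2, e3⟩ := lift β g2 g4 g6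
  simp only [← map_mul, ← map_pow, ne_eq, k1, Subgroup.coe_mul, SubmonoidClass.coe_pow]
    at g7 g8 g9 g10 g11 g12 g13 g14 g15
  have ti := inv_eq_of_mul_eq_one_right D.tt
  have ai := inv_eq_of_mul_eq_one_right a2
  have ei := inv_eq_of_mul_eq_one_right e2
  have wd : ∀ w : C1 y, (w : G) * w = 1 → (w : G) ∈ C1 (t : G) → ∀ k,
      ((w : G) * d) ^ k ∈ zpowers y → ((w : G) * d) ^ k = 1 := fun w h1 h2 k =>
    eq_one_of_inv D.y3 (w * t).2 (by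
      calc _ = w * (t * w * (t : G)⁻¹) * (t * d * (t : G)⁻¹) * (w : G)⁻¹ := by
              simp only [Subgroup.coe_mul]; group
        _ = _ := by rw [mem_C1_iff_conj'.1 h2, D.td, h1]; group)
  have wt : ∀ w : G, w * w = 1 → w ∈ C1 (t : G) → w * t * (w * t) = 1 := fun w h1 h2 =>
    pow_two (w * t) ▸ sq_mul_of_comm h1 D.tt (mem_C1.1 h2)
  have ae : ((a : G) * e) ^ 2 * t = 1 := by
    simpa using eq_one_of_inv D.y3 a.2 (g := ((a : G) * e) ^ 2 * t) (k := 1) (by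
      rw [mul_inv_rev, ti, ← inv_pow, mul_inv_rev, ei, ← mem_C1.1 (pow_mem (mul_mem e3
        (inv_mem a3)) 2), ← conj_mul, mem_C1_iff_conj.1 a3, ← conj_pow, ← mul_assoc, a2, one_mul])
      (by rw [pow_one]; exact g7)
  have ae' : ((a : G) * e) * (a * e) = t := by rw [← pow_two, eq_inv_of_mul_eq_one_left ae, ti]
  have ae'' : ((a : G) * e * t) * (a * e * t) = t := by
    rw [← pow_two, (show Commute ((a : G) * e) t from mem_C1.1 (mul_mem a3 e3)).mul_pow, pow_two,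
      pow_two, ae', D.tt, mul_one]
  have t1 := ne_one_of_ord D.t2
  have d8 : ∀ g ∈ C1 y, g ∈ C1 (t : G) → ∀ k, g ^ 2 ^ k = 1 → g = 1 ∨ g = t ∨ g = a ∨ g = a * t ∨
      g = e ∨ g = e * t ∨ g = a * e ∨ g = a * e * t := fun g h1 h2 k h3 => by
    have k2 : ∀ w : C1 y, φ ⟨g, h1⟩ = φ w → ((w : G) * w = 1 ∨ (w : G) * w = t) → g = w :=
      fun w h4 h5 => by
        have h6 : (w : G)⁻¹ * g ∈ zpowers y := (k1 (w⁻¹ * ⟨g, h1⟩)).1 (by simp [h4])
        have h7 : (w : G) ^ 4 = 1 := by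
          rw [show 4 = 2 * 2 from rfl, pow_mul, pow_two (w : G)]
          rcases h5 with e | e <;> simp [e, pow_two, D.tt]
        by_contra h8
        have h9 := ord_zp Nat.prime_three D.y3 h6 fun e => h8 (inv_mul_eq_one.1 e).symm
        have h10 : ((w : G)⁻¹ * g) ^ (4 * 2 ^ k) = 1 := by
          rw [Commute.mul_pow, pow_mul, inv_pow, h7, pow_mul', h3]
          · simp
          · simpa using ((Commute.refl (w : G)).mul_right (show Commute _ _ from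
              mem_C1.1 (C1_le_C1_of_mem_zpowers h6 w.2))).inv_left
        rw [← orderOf_dvd_iff_pow_eq_one, h9, show 4 * 2 ^ k = 2 ^ (2 + k) by ring] at h10
        exact absurd (Nat.prime_three.dvd_of_dvd_pow h10) (by norm_num)
    have h4 := g16 (φ ⟨g, h1⟩) (by
      rw [← map_mul, ← map_mul]; exact congrArg φ (Subtype.ext (mem_C1.1 h2))) (s1 _)
    rw [← map_one φ] at h4
    simp only [← map_mul] at h4
    exact h4.imp (k2 _ · (by simp)) (Or.imp (k2 _ · (Or.inl D.tt)) (Or.imp (k2 _ · (Or.inl a2))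
      (Or.imp (k2 _ · (Or.inl (wt _ a2 a3))) (Or.imp (k2 _ · (Or.inl e2))
      (Or.imp (k2 _ · (Or.inl (wt _ e2 e3))) (Or.imp (k2 _ · (Or.inr ae')) (k2 _ · (Or.inr ae''))))))))
  have ad := wd a a2 a3 3 g8
  have ed := wd e e2 e3 5 g9
  have cs : ∀ w : C1 y, (w : G) * w = 1 → (w : G) ∈ C1 (t : G) → s * w * s⁻¹ * (s * w * s⁻¹) = 1 ∧
      (s * w * s⁻¹ = 1 ∨ s * w * s⁻¹ = t ∨ s * w * s⁻¹ = a ∨ s * w * s⁻¹ = a * t ∨
      s * w * s⁻¹ = e ∨ s * w * s⁻¹ = e * t ∨ s * w * s⁻¹ = a * e ∨ s * w * s⁻¹ = a * e * t) :=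
    fun w h1 h2 => ⟨by rw [conj_mul, h1]; simp, d8 _ (by
      have := conj_mem_cj (g := s).2 w.2
      rwa [cj_C1, D.sy, C1_inv] at this) (Nrm.self _ s D.st _ h2) 1
      (by rw [pow_one, conj_pow, pow_two, h1]; simp)⟩
  have st := mem_C1_iff_conj.1 D.st
  have inj : ∀ v w : G, s * v * s⁻¹ = s * w * s⁻¹ → v = w := fun v w e => by simpa using e
  have sa : s * a * s⁻¹ = a := by
    have h1 : (s * a * s⁻¹ * d) ^ 3 = 1 := by
      rw [← mem_C1_iff_conj.1 D.sd, conj_mul, conj_pow, ad]; simp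
    obtain ⟨h2, r | r | r | r | r | r | r | r⟩ := cs a a2 a3
    · rw [conj_eq_one_iff.1 r, one_mul, e2] at ae'
      exact absurd ae'.symm t1
    · rw [inj _ _ (r.trans st.symm), ← mem_C1.1 e3, wt _ e2 e3] at ae'
      exact absurd ae'.symm t1
    · exact r
    · exact absurd (by rw [r] at h1; exact h1 ▸ one_mem _) g13
    · exact absurd (by rw [r] at h1; exact h1 ▸ one_mem _) g14
    · exact absurd (by rw [r] at h1; exact h1 ▸ one_mem _) g15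
    · exact absurd (ae'.symm.trans (r ▸ h2)) t1
    · exact absurd (ae''.symm.trans (r ▸ h2)) t1
  refine ⟨a, e, D, a2, e2, a.2, e.2, a3, e3, ae, ad, ed, wd (e * t) (wt _ e2 e3)
    (mul_mem e3 (self_mem_C1 _)) 5 g10, g11, g12, d8, sa, ?_⟩
  obtain ⟨h2, r | r | r | r | r | r | r | r⟩ := cs e e2 e3
  · rw [conj_eq_one_iff.1 r, mul_one, a2] at ae'
    exact absurd ae'.symm t1
  · rw [inj _ _ (r.trans st.symm), wt _ a2 a3] at ae'
    exact absurd ae'.symm t1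
  · rw [inj _ _ (r.trans sa.symm), a2, one_mul] at ae'
    exact absurd ae'.symm t1
  · rw [inj e (a * t) (by rw [r, ← conj_mul, sa, st]), ← mul_assoc (a : G) a, a2, one_mul, D.tt] at ae'
    exact absurd ae'.symm t1
  · haveI := Fact.mk Nat.prime_five
    exact (h.no_inv5 (orderOf_eq_prime ed fun r => inv_ne_self D.d3 (by
      rw [eq_inv_of_mul_eq_one_right r, inv_inv, ei])) D.y3 D.s2 (mem_C1_comm.1 (mul_mem
      (mem_C1_iff_conj'.2 r) (mem_C1_comm.1 D.sd))) (mem_C1_comm.1 (e * d).2) D.sy).elim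
  · exact r
  · exact absurd (ae'.symm.trans (r ▸ h2)) t1
  · exact absurd (ae''.symm.trans (r ▸ h2)) t1

end Nse24

end CfsgH8.Mat
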