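import Cfsg.Agent.H8.M24RecF
import Cfsg.Agent.H8.Char7
import Cfsg.Agent.H6.BaerSuzuki

set_option autoImplicit false

/-! Recognition of `M24` from the order statistics: the subgroup `Q = O₂(C(t))`. -/

namespace CfsgH8.Mat

open Subgroup Finset CfsgH5 CfsgH6 CfsgFT
open scoped commutatorElement

variable {G : Type*} [Group G]

attribute [local irreducible] nord

theorem card_dvd_of_closed [Finite G] (Z : Subgroup G) (P : G → Prop)
    (h : ∀ a, P a → ∀ z ∈ Z, P (a * z)) : Nat.card Z ∣ Nat.card {a // P a} := by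
  have h1 := QuotientGroup.card_preimage_mk Z (QuotientGroup.mk '' {a | P a})
  rw [show QuotientGroup.mk ⁻¹' (QuotientGroup.mk '' {a | P a} : Set (G ⧸ Z)) = {a | P a} from
    Set.ext fun a => ⟨fun ⟨b, hb, e⟩ => by simpa using h b hb _ (QuotientGroup.eq.1 e),
      fun ha => ⟨a, ha, rfl⟩⟩] at h1
  exact ⟨_, h1⟩

theorem pow_mem_of_N {Q : Subgroup G} {q v : G} (hq : q ∈ Q) (hv : v ∈ N Q) (n : ℕ) :
    (q * v) ^ n * (v ^ n)⁻¹ ∈ Q := by
  induction n with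
  | zero => simp
  | succ n ih =>
    have := Q.mul_mem ih (conj_mem_of_mem_N (pow_mem hv n) hq)
    convert this using 1
    simp only [pow_succ]
    group

theorem fix_of_odd {g v t : G} (tt : t * t = 1) (h1 : v ∈ C1 t) {n : ℕ} (hn : v ^ (2 * n + 1) = 1)
    (h2 : v * g * v⁻¹ * g⁻¹ ∈ zpowers t) : g ∈ C1 v := by
  rcases mem_zpowers_order_two tt h2 with e | e
  · exact mem_C1_iff_conj'.2 (mul_inv_eq_one.1 e)
  · have h3 : v ^ 2 ∈ C1 g := mem_C1_iff_conj.2 (by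
      rw [pow_two, show v * v * g * (v * v)⁻¹ = v * (v * g * v⁻¹) * v⁻¹ by group,
        mul_inv_eq_iff_eq_mul.1 e, show v * (t * g) * v⁻¹ = v * t * v⁻¹ * (v * g * v⁻¹) by group,
        mem_C1_iff_conj.1 h1, mul_inv_eq_iff_eq_mul.1 e, ← mul_assoc, tt, one_mul])
    have h4 := pow_mem h3 (n + 1)
    rw [← pow_mul, show 2 * (n + 1) = 2 * n + 1 + 1 by ring, pow_succ, hn, one_mul] at h4
    exact mem_C1_comm.1 h4

theorem D1.t1 {u d t y : G} (D : D1 u d t y) : t ≠ 1 := ne_one_of_ord D.t2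

theorem D1.ut {u d t y : G} (D : D1 u d t y) : u ∈ C1 t := mem_C1_comm.1 D.tu

theorem D1.yt {u d t y : G} (D : D1 u d t y) : y ∈ C1 t := mem_C1_comm.1 D.ty

theorem D1.not_td {u d t y : G} (D : D1 u d t y) : t ∉ C1 d := fun e =>
  inv_ne_self D.d3 (D.td.symm.trans (mem_C1_iff_conj.1 e))

theorem D4.ne_comm {u d t y s a e : G} (D : D4 u d t y s a e) : a * e ≠ e * a := fun h =>
  D.t1 (by rw [← D.ae, sq_mul_of_comm D.a2 D.e2 h, one_mul])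

namespace Nse24

variable [Finite G] (h : Nse24 G) {u d t y s a e : G}
include h

theorem NC_le (D : D1 u d t y) {K : Subgroup G} (hu : u ∈ K) (hy : y ∈ K) (ht : t ∈ K) :
    N (zpowers u) ⊓ C1 t ≤ K := by
  have h1 : ∀ g ∈ K, g ∈ N (zpowers u) → g ∈ C1 t →
      orderOf g ∣ Nat.card ↥(N (zpowers u) ⊓ C1 t ⊓ K) := fun g h1 h2 h3 =>
    Subgroup.orderOf_dvd_natCard _ (mem_inf.2 ⟨mem_inf.2 ⟨h2, h3⟩, h1⟩)
  refine inf_eq_left.1 (eq_of_le_of_card_dvd inf_le_left ?_)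
  rw [(h.card_NC D.u7 D.d3 D.t2 D.du D.tu D.td).1]
  exact cdvd (cdvd (D.u7 ▸ h1 u hu (le_N _ (mem_zpowers u)) D.ut) (D.y3 ▸ h1 y hy D.yN D.yt))
    (D.t2 ▸ h1 t ht (C_le_N _ ((C_zpowers u).ge D.tu)) (self_mem_C1 t))

variable (D : D4 u d t y s a e)
include D

theorem perf (f : C1 t →* ℂ) (g : C1 t) : f g = 1 := by
  obtain ⟨φ, hφ⟩ : ∃ φ, φ = f.toHomUnits := ⟨_, rfl⟩
  have h1 : ∀ a b : C1 t, φ (a * b * a⁻¹) = φ b := fun a b => by simp [mul_comm (φ a)]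
  have hu : φ ⟨u, D.ut⟩ = 1 := by
    have := h1 ⟨y, D.yt⟩ ⟨u, D.ut⟩
    rw [show (⟨y, D.yt⟩ * ⟨u, D.ut⟩ * (⟨y, D.yt⟩ : C1 t)⁻¹) = ⟨u, D.ut⟩ * ⟨u, D.ut⟩ from
      Subtype.ext (D.yu.trans (pow_two u)), map_mul] at this
    simpa using this
  have hy : φ ⟨y, D.yt⟩ = 1 := by
    have := h1 ⟨s, D.st⟩ ⟨y, D.yt⟩
    rw [show (⟨s, D.st⟩ * ⟨y, D.yt⟩ * (⟨s, D.st⟩ : C1 t)⁻¹) = ⟨y, D.yt⟩ * ⟨y, D.yt⟩ from
      Subtype.ext (D.sy.trans (inv_eq_of_mul_eq_one_right (by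
        rw [← cube_of D.y3]; simp [pow_succ, mul_assoc]))), map_mul] at this
    simpa using this
  have ht : φ ⟨t, self_mem_C1 t⟩ = 1 := by
    have := h1 ⟨s, D.st⟩ ⟨e, D.et⟩
    rw [show (⟨s, D.st⟩ * ⟨e, D.et⟩ * (⟨s, D.st⟩ : C1 t)⁻¹) = ⟨e, D.et⟩ * ⟨t, self_mem_C1 t⟩ from
      Subtype.ext D.se, map_mul] at this
    simpa using this
  have k : ∀ g : C1 t, φ g = 1 → g.1 ∈ φ.ker.map (C1 t).subtype := fun g hg => ⟨g, hg, rfl⟩
  have h2 := frattini_arg (by norm_num) (h.sylp (Or.inr rfl) D.u7 _ (k _ hu))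
    ⟨map_subtype_le _, Nrm.map_subtype _⟩
  obtain ⟨g', h3, h4⟩ := (h2.ge.trans (sup_le le_rfl ((inf_comm _ _).le.trans
    (h.NC_le D.toD1 (k _ hu) (k _ hy) (k _ ht))))) g.2
  obtain rfl : g' = g := Subtype.ext h4
  rw [hφ] at h3
  exact congrArg Units.val (show f.toHomUnits g' = 1 from h3)

theorem mem_Q {v : G} (v2 : v * v = 1) (vy : v ∈ C1 y) (vt : v ∈ C1 t) : v ∈ Op 2 (C1 t) := by
  by_contra h1
  obtain ⟨z, zt, h2, h3, h4⟩ := exists_inverted_of_not_mem_Op vt v2 h1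
  have h5 := h.card_Ct D.toD1
  have h6 := h5 ▸ (C1 t).orderOf_dvd_natCard zt
  rcases (Nat.Prime.dvd_mul h2).1 ((h3.coprime_two_right.pow_right 10).dvd_of_dvd_mul_left
    (show _ ∣ 2 ^ 10 * (3 * 7) from h6)) |>.imp (Nat.prime_dvd_prime_iff_eq h2 Nat.prime_three).1
      (Nat.prime_dvd_prime_iff_eq h2 (by norm_num)).1 with h7 | h7
  · have y3 : orderOf (⟨y, D.yt⟩ : C1 t) = 3 := by rw [← D.y3, ← Subgroup.orderOf_coe]
    refine not_inv_three h5 y3 ⟨by norm_num, sylIn_of_card (k := 1) (m := 7168) Nat.prime_three le_top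
      (card_zp y3) (by rw [card_top, h5]; norm_num) (by norm_num), ab_zpowers _, fun n hn => ?_,
      ⟨s, D.st⟩, fun x hx => ?_⟩ (h.perf D) (a := ⟨v, vt⟩) (Subtype.ext v2)
      (Subtype.ext (mem_C1.1 vy)) (z := ⟨z, zt⟩) (by rw [← h7, ← Subgroup.orderOf_coe])
      (Subtype.ext h4)
    · rcases mem_zpowers_three (cube_of y3) (conj_mem_of_mem_N hn (mem_zpowers _)) with e | e | e
      · exact absurd (conj_eq_one_iff.1 e) (ne_one_of_ord y3)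
      · exact Or.inl fun x hx => conj_zp (mem_C1_iff_conj.2 e) hx
      · refine Or.inr fun x hx => ?_
        obtain ⟨k, rfl⟩ := mem_zpowers_iff.1 hx
        rw [← conj_zpow, e, inv_zpow]
    · obtain ⟨k, rfl⟩ := mem_zpowers_iff.1 hx
      rw [← conj_zpow, ← inv_zpow]
      congr 1
      exact Subtype.ext D.sy
  · have h8 : v ∈ N (zpowers z) :=
      mem_N_of_cj_le (by rw [cj_zpowers, h4, zpowers_inv])
    have h9 := card_dvd_of_le (sup_le ((C_zpowers z).ge.trans (C_le_N _)) (zpowers_le.2 h8))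
    rw [card_sup_inv v2 (fun e => ?_) (C_zpowers z ▸ (nrm_N_C _).le_N h8), h.card_C7 h7,
      h.card_N7 h7] at h9
    · norm_num at h9
    · have := orderOf_dvd_of_pow_eq_one (x := z) (n := 2) (by
        rw [pow_two]; exact mul_eq_one_iff_eq_inv.2 ((mem_C1_iff_conj.1 e).symm.trans h4))
      rw [h7] at this
      norm_num at this

omit D in
theorem inf_u (D : D1 u d t y) {R : Subgroup G} (hR : IsPGroup 2 R) (h1 : R ≤ C1 t) (ht : t ∈ R) :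
    R ⊓ C1 u = zpowers t := by
  refine (eq_of_le_of_card_dvd (zpowers_le.2 (mem_inf.2 ⟨ht, D.tu⟩)) ?_).symm
  obtain ⟨k, hk⟩ := two_pow_of_pg (hR.to_inf_left (K := C1 u))
  have h2 := card_dvd_of_le (show R ⊓ C1 u ≤ C1 u ⊓ C1 t from
    le_inf inf_le_right (inf_le_left.trans h1))
  rw [(h.card_NC D.u7 D.d3 D.t2 D.du D.tu D.td).2.1, hk] at h2
  rw [card_zp D.t2, hk]
  exact (Nat.Coprime.pow_left k (by norm_num : Nat.Coprime 2 7)).dvd_of_dvd_mul_right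
    (show 2 ^ k ∣ 2 * 7 from h2)

omit D in
theorem card_R1 (D : D1 u d t y) {R : Subgroup G} (hR : IsPGroup 2 R) (h1 : R ≤ C1 t) (ht : t ∈ R)
    (hu : u ∈ N R) : Nat.card R ∈ ({2, 16, 128, 1024} : Finset ℕ) := by
  have h2 := card_modEq_C1 (by norm_num) (D.u7 ▸ pow_orderOf_eq_one u) hu
  rw [h.inf_u D hR h1 ht, card_zp D.t2] at h2
  obtain ⟨k, hk⟩ := two_pow_of_pg hR
  have h3 := card_dvd_of_le h1
  rw [h.card_Ct D, hk] at h3
  have h4 := (Nat.Coprime.pow_left k (by norm_num : Nat.Coprime 2 21)).dvd_of_dvd_mul_right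
    (show 2 ^ k ∣ 1024 * 21 from h3)
  exact (by decide +kernel : ∀ n ∈ Nat.divisors 1024, n ≡ 2 [MOD 7] →
    n ∈ ({2, 16, 128, 1024} : Finset ℕ)) _ (Nat.mem_divisors.2 ⟨hk ▸ h4, by norm_num⟩) h2

theorem card_R {R : Subgroup G} (hR : IsPGroup 2 R) (h1 : R ≤ C1 t) (ht : t ∈ R) (ha : a ∈ R)
    (he : e ∈ R) (hu : u ∈ N R) (hy : y ∈ N R) : Nat.card R = 128 := by
  classical
  have h2 := card_modEq_C1 Nat.prime_three (cube_of D.y3) hy
  obtain ⟨k, hk⟩ := two_pow_of_pg (hR.to_inf_left (K := C1 y))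
  have h3 : Nat.card ↥(R ⊓ C1 y) ≤ 8 := by
    refine le_trans ?_ (List.toFinset_card_le [1, t, a, a * t, e, e * t, a * e, a * e * t])
    rw [← Nat.card_eq_finsetCard]
    refine Nat.card_mono (Set.toFinite _) fun g hg => ?_
    obtain ⟨j, hj⟩ := hR ⟨g, hg.1⟩
    simpa using D.d8 g hg.2 (h1 hg.1) j (congrArg Subtype.val hj)
  have h4 : ¬ Nat.card ↥(R ⊓ C1 y) ∣ 2 ^ 2 := fun e => D.ne_comm
    ((ab_of_card_dvd_sq Nat.prime_two e).comm ⟨ha, D.ay⟩ ⟨he, D.ey⟩)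
  have h5 := card_le_of_le (inf_le_left : R ⊓ C1 y ≤ R)
  have h6 := h.card_R1 D.toD1 hR h1 ht hu
  rw [hk] at h2 h3 h4 h5
  obtain rfl : k = 3 := by
    have : k < 4 := (Nat.pow_lt_pow_iff_right (by norm_num : 1 < 2)).1 (by omega)
    interval_cases k <;> simp_all
  simp only [Finset.mem_insert, Finset.mem_singleton, Nat.ModEq] at h6 h2
  omega

theorem tQ : t ∈ Op 2 (C1 t) := h.mem_Q D D.tt D.ty (self_mem_C1 t)

theorem aQ : a ∈ Op 2 (C1 t) := h.mem_Q D D.a2 D.ay D.at'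

theorem eQ : e ∈ Op 2 (C1 t) := h.mem_Q D D.e2 D.ey D.et

theorem Q_le {R : Subgroup G} (ht : t ∈ R) (ha : a ∈ R) (he : e ∈ R) (hu : u ∈ N R) (hy : y ∈ N R) :
    Nat.card (Op 2 (C1 t)) = 128 ∧ Op 2 (C1 t) ≤ R := by
  have h1 := isPGroup_Op 2 (C1 t)
  have h2 := nrm_Op_self 2 (C1 t)
  have h3 := h.card_R D h1 (Op_le _ _) (h.tQ D) (h.aQ D) (h.eQ D) (h2.le_N D.ut) (h2.le_N D.yt)
  have h4 : ∀ g ∈ C1 t, g ∈ N R → g ∈ N (Op 2 (C1 t) ⊓ R) := fun g h5 h6 =>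
    mem_N_of_conj fun x hx => ⟨h2 g h5 x hx.1, conj_mem_of_mem_N h6 hx.2⟩
  exact ⟨h3, inf_eq_left.1 (eq_of_le_of_card_ge inf_le_left (h3.trans (h.card_R D h1.to_inf_left
    (inf_le_left.trans (Op_le _ _)) ⟨h.tQ D, ht⟩ ⟨h.aQ D, ha⟩ ⟨h.eQ D, he⟩ (h4 u D.ut hu)
    (h4 y D.yt hy)).symm).le)⟩

theorem sq_mem {g : G} (hg : g ∈ Op 2 (C1 t)) : g * g ∈ zpowers t := by
  classical
  have := Fintype.ofFinite G
  obtain ⟨Q, hQ⟩ : ∃ Q, Q = Op 2 (C1 t) := ⟨_, rfl⟩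
  have h1 : IsPGroup 2 Q := hQ ▸ isPGroup_Op 2 (C1 t)
  have h2 : Nrm (C1 t) Q := hQ ▸ nrm_Op_self 2 (C1 t)
  have h3 : Q ≤ C1 t := hQ ▸ Op_le _ _
  have h4 : Nrm (C1 t) (zpowers t) := nrm_of_le_C (C_zpowers t).ge
  have tQ : t ∈ Q := hQ ▸ h.tQ D
  have fx : ∀ g ∈ C1 t, ∀ v ∈ zpowers t, g * v * g⁻¹ = v := fun g hg v hv => conj_zp hg hv
  let Z : Subgroup G :=
    { carrier := {z | z ∈ Q ∧ ∀ g ∈ Q, g * z * g⁻¹ * z⁻¹ ∈ zpowers t}
      one_mem' := ⟨one_mem _, fun g _ => by simp⟩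
      mul_mem' := fun {a b} ha hb => ⟨mul_mem ha.1 hb.1, fun g hg => by
        convert mul_mem (ha.2 g hg) (h4 a (h3 ha.1) _ (hb.2 g hg)) using 1
        group⟩
      inv_mem' := fun {a} ha => ⟨inv_mem ha.1, fun g hg => by
        convert inv_mem (h4.conj' (h3 ha.1) (ha.2 g hg)) using 1
        group⟩ }
  have z1 : Z ≤ Q := fun _ h => h.1
  have z2 : Nrm (C1 t) Z := fun c hc z hz => ⟨h2 c hc z hz.1, fun g hg => by
    convert h4 c hc _ (hz.2 _ (h2.conj' hc hg)) using 1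
    group⟩
  let Y : Subgroup G :=
    { carrier := {z | z ∈ Z ∧ z * z ∈ zpowers t}
      one_mem' := ⟨one_mem _, by simp⟩
      mul_mem' := fun {a b} ha hb => ⟨mul_mem ha.1 hb.1, by
        convert mul_mem (mul_mem (h4 a (h3 ha.1.1) _ (ha.1.2 b hb.1.1)) ha.2) hb.2 using 1
        group⟩
      inv_mem' := fun {a} ha => ⟨inv_mem ha.1, by
        convert inv_mem ha.2 using 1
        group⟩ }
  have y1 : Y ≤ Q := fun _ h => h.1.1
  have y2 : Nrm (C1 t) Y := fun c hc z hz => ⟨z2 c hc z hz.1, by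
    convert h4 c hc _ hz.2 using 1
    group⟩
  have tY : t ∈ Y := ⟨⟨tQ, fun g hg => by rw [mem_C1_iff_conj.1 (h3 hg)]; simp⟩,
    mul_mem (mem_zpowers t) (mem_zpowers t)⟩
  have y3 := h.card_R1 D.toD1 (h1.to_le y1) (y1.trans h3) tY (y2.le_N D.ut)
  have q1 := (h.Q_le D (mem_top t) (mem_top a) (mem_top e) (N_top.ge trivial) (N_top.ge trivial)).1
  rw [← hQ] at q1 hg
  have y4 : 2 < Nat.card Y := by
    obtain ⟨z, k1, k2, k3, k4⟩ := B45.exists_central_mod h1 le_rfl (Nrm.self Q) (h4.mono h3)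
      fun e => by have := card_le_of_le e; rw [q1, card_zp D.t2] at this; omega
    rw [← card_zp D.t2]
    exact card_lt_of_lt (SetLike.lt_iff_le_and_exists.2
      ⟨zpowers_le.2 tY, z, (⟨⟨k1, k4⟩, pow_two z ▸ k3⟩ : z ∈ Z ∧ z * z ∈ zpowers t), k2⟩)
  by_cases y5 : a ∈ Y ∧ e ∈ Y
  · exact ((hQ ▸ (h.Q_le D tY y5.1 y5.2 (y2.le_N D.ut) (y2.le_N D.yt)).2 : Q ≤ Y) hg).2
  by_contra h5
  have k1 : Nat.card Y ∣ Nat.card {g // g ∈ Q ∧ g * g ∉ zpowers t} :=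
    card_dvd_of_closed Y _ fun g hg z hz => ⟨mul_mem hg.1 (y1 hz), fun e => hg.2 (by
      convert mul_mem (mul_mem e (inv_mem hz.2)) (inv_mem (hz.1.2 g⁻¹ (inv_mem hg.1))) using 1
      group)⟩
  have k2 : 7 ∣ Nat.card {g // g ∈ Q ∧ g * g ∉ zpowers t} := by
    rw [← card_filter_sub, card_eq_sum_ones]
    refine dvd_sum_cl (K := zpowers u) _ (fun _ _ _ => rfl) ?_ fun g hg => ?_
    · rintro g hg _ ⟨c, hc, rfl⟩
      have k3 : c ∈ C1 t := zpowers_le.2 D.ut hc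
      rw [mem_filter_univ] at hg ⊢
      exact ⟨h2 c k3 g hg.1, fun e => hg.2 (by convert h4.conj' k3 e using 1; group)⟩
    · rw [mem_filter_univ] at hg
      rcases (Nat.dvd_prime (by norm_num)).1 (card_zp D.u7 ▸ relIndex_dvd_card (C1 g) (zpowers u))
        with e | e
      · have k3 : g ∈ Q ⊓ C1 u :=
          ⟨hg.1, mem_C1_comm.1 (relIndex_eq_one.1 e (mem_zpowers u))⟩
        rw [h.inf_u D.toD1 h1 h3 tQ] at k3
        exact absurd (mul_mem k3 k3) hg.2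
      · rw [e]
  have k3 := card_filter_add_card_filter_not (s := univ.filter (· ∈ Q)) fun g => g * g ∈ zpowers t
  have k4 : #(univ.filter (· ∈ Y)) < #(univ.filter fun g => g ∈ Q ∧ g * g ∈ zpowers t) := by
    refine card_lt_card ⟨fun g hg => ?_, fun k => y5 ⟨?_, ?_⟩⟩
    · rw [mem_filter_univ] at hg ⊢
      exact ⟨y1 hg, hg.2⟩
    · exact (mem_filter_univ _).1 (k ((mem_filter_univ _).2 ⟨hQ ▸ h.aQ D, D.a2 ▸ one_mem _⟩))
    · exact (mem_filter_univ _).1 (k ((mem_filter_univ _).2 ⟨hQ ▸ h.eQ D, D.e2 ▸ one_mem _⟩))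
  rw [filter_filter, filter_filter, card_filter_sub (· ∈ Q), card_filter_sub fun g => _ ∧ ¬ _] at k3
  rw [card_filter_sub (· ∈ Y)] at k4
  have k5 : 0 < Nat.card {g // g ∈ Q ∧ g * g ∉ zpowers t} :=
    Nat.card_pos_iff.2 ⟨⟨⟨g, hg, h5⟩⟩, inferInstance⟩
  change Nat.card Y < _ at k4
  change _ = Nat.card Q at k3
  have k6 : 16 ∣ Nat.card Y := by
    simp only [Finset.mem_insert, Finset.mem_singleton] at y3
    omega
  have k7 := Nat.le_of_dvd k5 (cdvd (k6.trans k1) k2)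
  omega

theorem comm_mem {g k : G} (hg : g ∈ Op 2 (C1 t)) (hk : k ∈ Op 2 (C1 t)) :
    g * k * g⁻¹ * k⁻¹ ∈ zpowers t := by
  convert mul_mem (mul_mem (h.sq_mem D (mul_mem hg hk)) ((nrm_of_le_C (C_zpowers t).ge).conj'
    (Op_le _ _ hk) (inv_mem (h.sq_mem D hg)))) (inv_mem (h.sq_mem D hk)) using 1
  group

theorem norm_mem {q v : G} (hq : q ∈ Op 2 (C1 t)) (hv : v ∈ C1 t) {n : ℕ}
    (hn : v ^ (2 * n + 1) = 1) : (q * v) ^ (2 * n + 1) ∈ Op 2 (C1 t) ⊓ C1 v := by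
  have h1 := pow_mem_of_N hq ((nrm_Op_self 2 (C1 t)).le_N hv) (2 * n + 1)
  rw [hn, inv_one, mul_one] at h1
  refine ⟨h1, fix_of_odd D.tt hv hn ?_⟩
  convert h.comm_mem D (inv_mem hq) h1 using 2
  conv_rhs =>
    rw [← mem_C1_iff_conj.1 (mem_C1_comm.1 (pow_mem (self_mem_C1 (q * v)) (2 * n + 1)))]
  generalize (q * v) ^ (2 * n + 1) = w
  group

theorem s_not : s ∉ Op 2 (C1 t) := fun e => by
  have h1 := pow_mem_of_N e ((nrm_Op_self 2 (C1 t)).le_N D.ut) 3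
  rw [D.su, one_mul, inv_mem_iff] at h1
  have h2 := eq_one_of_coprime_of_mem (isPGroup_Op 2 _) h1
    (coprime_pow (by rw [D.u7]; norm_num) 3)
  rw [← orderOf_dvd_iff_pow_eq_one, D.u7] at h2
  norm_num at h2

end Nse24

end CfsgH8.Mat
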