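import Cfsg.Agent.H8.M24RecG
import Cfsg.Agent.H8.M24CertC
import Cfsg.Agent.H8.M24CertB

set_option autoImplicit false

/-! Recognition of `M24` from the order statistics: the defining relations. -/

namespace CfsgH8.Mat

open Subgroup CfsgH5 CfsgH6 CfsgFT CfsgH3.TC M24P

variable {G : Type*} [Group G]

attribute [local irreducible] nord

/-- the generators -/
def v7 (u y s t a e d : G) : ℕ → G
  | 1 => u
  | 2 => y
  | 3 => s
  | 4 => t
  | 5 => a
  | 6 => e
  | 7 => d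
  | _ => 1

theorem sat_app {v : ℕ → G} {r r' : List (List ℕ)} (h : Sat v r) (h' : ∀ w ∈ r', wval v w = 1) :
    Sat v (r ++ r') := ⟨h.1, fun w hw => (List.mem_append.1 hw).elim (h.2 w) (h' w)⟩

theorem cen_zp {t c w : G} (hc : c ∈ C1 t) (hw : w ∈ zpowers t) : c * w * c⁻¹ * w⁻¹ = 1 := by
  rw [conj_zp hc hw, mul_inv_cancel]

section

variable {u d t y s a e x : G}

theorem D1.sat4 (D : D1 u d t y) (x2 : x * x = 1) (xy : x ∈ C1 y) (xt : x ∈ C1 t) :
    Sat (v7 u y 1 t x 1 1) rels4 := by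
  refine ⟨rfl, ?_⟩
  have r1 := D.u7 ▸ pow_orderOf_eq_one u
  have r2 := cube_of D.y3
  have r3 := D.yu
  have r4 := D.tt
  have r5 := mem_C1.1 D.tu
  have r6 := mem_C1.1 D.ty
  have r8 := mem_C1.1 xy
  have r9 := mem_C1.1 xt
  rw [← mul_inv_eq_one] at r3 r5 r6 r8 r9
  simp only [rels4, List.mem_cons, List.not_mem_nil, or_false, forall_eq_or_imp, forall_eq,
    wval_cons, wval_nil, mul_one, sval, v7]
  simp only [pow_succ, pow_zero, one_mul, mul_assoc, mul_inv_rev, inv_inv] at *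
  exact ⟨r1, r2, r3, r4, r5, r6, x2, r8, r9⟩

theorem D4.sat (D : D4 u d t y s a e) : Sat (v7 u y s t a e d) rels := by
  refine ⟨rfl, ?_⟩
  have r1 := D.u7 ▸ pow_orderOf_eq_one u
  have r2 := cube_of D.y3
  have r3 := D.yu
  have r4 := D.s2
  have r5 := D.sy
  have r6 := D.su
  have r7 := cube_of D.d3
  have r8 := D.tt
  have r9 := D.td
  have r10 := mem_C1.1 D.du
  have r11 := mem_C1.1 D.dy
  have r12 := mem_C1.1 D.sd
  have r13 := mem_C1.1 D.tu
  have r14 := mem_C1.1 D.ty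
  have r15 := mem_C1.1 D.st
  have r16 := D.a2
  have r17 := D.e2
  have r18 := mem_C1.1 D.ay
  have r19 := mem_C1.1 D.ey
  have r20 := mem_C1.1 D.at'
  have r21 := mem_C1.1 D.et
  have r22 := D.ae
  have r23 := D.ad
  have r24 := D.sa
  have r25 := D.se
  rw [← mul_inv_eq_one] at r3 r5 r9 r10 r11 r12 r13 r14 r15 r18 r19 r20 r21 r24 r25
  simp only [rels, List.mem_cons, List.not_mem_nil, or_false, forall_eq_or_imp, forall_eq,
    wval_cons, wval_nil, mul_one, sval, v7]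
  simp only [pow_succ, pow_zero, one_mul, mul_assoc, mul_inv_rev, inv_inv] at *
  exact ⟨r1, r2, r3, r4, r5, r6, r7, r8, r9, r10, r11, r12, r13, r14, r15, r16, r17, r18, r19, r20,
    r21, r22, r23, r24, r25⟩

theorem D4.inv (D : D4 u d t y s a e) : D4 u⁻¹ d t y s a e :=
  { D with
    toD1 := D.toD1.of_mem (inv_mem (mem_zpowers u)) (inv_ne_one.2 (ne_one_of_ord D.u7))
    su := by
      rw [← inv_inj, ← inv_pow, mul_inv_rev, inv_inv, inv_eq_of_mul_eq_one_right D.s2,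
        show u * s = u * (s * u) * u⁻¹ by group, conj_pow, D.su]
      simp }

theorem D4.swap (D : D4 u d t y s a e) : D4 u d t y s a (e * t) :=
  have h : e * t * t = e := by rw [mul_assoc, D.tt, mul_one]
  { D with
    e2 := (pow_two _).symm.trans (sq_mul_of_comm D.e2 D.tt (mem_C1.1 D.et))
    ey := mul_mem D.ey D.ty
    et := mul_mem D.et (self_mem_C1 t)
    ae := by
      rw [← mul_assoc, (show Commute (a * e) t from mem_C1.1 (mul_mem D.at' D.et)).mul_pow,
        pow_two t, D.tt, mul_one, D.ae]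
    ed := D.ed'
    ed' := h.symm ▸ D.ed
    lk := D.lk'
    lk' := h.symm ▸ D.lk
    d8 := fun g h1 h2 k h3 => by
      have := D.d8 g h1 h2 k h3
      rw [mul_assoc a e t] at this
      rw [mul_assoc a, h]
      tauto
    se := by rw [← conj_mul, D.se, mem_C1_iff_conj.1 D.st] }

theorem D4.sD (D : D4 u d t y s a e) : ∀ w ∈ sD, wval (v7 u y s t a e d) w ∈ C1 d := by
  simpa [M24P.sD, sval, v7] using ⟨mem_C1_comm.1 D.du, mem_C1_comm.1 D.dy, D.sd⟩

theorem D4.sC (D : D4 u d t y s a e) : ∀ w ∈ sC, wval (v7 u y s t a e d) w ∈ C1 t := by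
  simpa [M24P.sC, sval, v7] using ⟨D.ut, D.yt, D.st, self_mem_C1 t, D.at', D.et⟩

theorem D4.noD (D : D4 u d t y s a e) {r : List (List ℕ)} {C : Cert} {p : List ℕ}
    (h1 : CfsgH9.allLt C.nfacts (checkFact ((rels ++ r) ++ trivRels 7) M24P.sD C) = true)
    (h2 : checkTgt C p [8] = true) : ¬ ∀ w ∈ r, wval (v7 u y s t a e d) w = 1 := fun h =>
  D.not_td (by simpa [sval, v7] using mem_of_tgt (sat_app D.sat h) D.sD h1 h2)

theorem D4.noC (D : D4 u d t y s a e) {r : List (List ℕ)} {C : Cert} {p : List ℕ}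
    (h1 : CfsgH9.allLt C.nfacts (checkFact ((rels ++ r) ++ trivRels 7) M24P.sC C) = true)
    (h2 : checkTgt C p [14] = true) : ¬ ∀ w ∈ r, wval (v7 u y s t a e d) w = 1 := fun h =>
  D.not_td (mem_C1_comm.1 (by simpa [sval, v7] using mem_of_tgt (sat_app D.sat h) D.sC h1 h2))

end

namespace Nse24

variable [Finite G] (h : Nse24 G) {u d t y s a e x : G} (D : D4 u d t y s a e)
include h D

theorem cQ {c q : G} (hc : c ∈ C1 t) (hq : q ∈ Op 2 (C1 t)) : c * q * c⁻¹ ∈ Op 2 (C1 t) :=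
  nrm_Op_self 2 _ c hc q hq

section

variable (x2 : x * x = 1) (xy : x ∈ C1 y) (xt : x ∈ C1 t)
include x2 xy xt

theorem norm7 : (x * u) ^ 7 ∈ zpowers t :=
  h.inf_u D.toD1 (isPGroup_Op 2 _) (Op_le _ _) (h.tQ D) ▸
    h.norm_mem D (h.mem_Q D x2 xy xt) D.ut (n := 3) (orderOf_dvd_iff_pow_eq_one.1 D.u7.dvd)

theorem comm1 : (x * (u * x * u⁻¹)) ^ 2 = 1 := by
  have xQ := h.mem_Q D x2 xy xt
  refine (mem_zpowers_order_two D.tt (pow_two (x * _) ▸ h.sq_mem D
    (mul_mem xQ (h.cQ D D.ut xQ)))).resolve_right fun e1 => D.not_td ?_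
  have e2 : ((x * u) ^ 7) ^ 2 = 1 := by
    rcases mem_zpowers_order_two D.tt (h.norm7 D x2 xy xt) with e | e <;> simp [e, pow_two, D.tt]
  have e3 : (x * (u * x * u⁻¹)) ^ 2 * t = 1 := by rw [e1, D.tt]
  simpa [sval, v7] using mem_of_tgt (sat_app (D.sat4 x2 xy xt) (by
    simpa [x1a, sval, v7, pow_succ, mul_assoc] using And.intro e3 e2)) (H := C1 d) (by
    simpa [sval, v7] using ⟨mem_C1_comm.1 D.du, mem_C1_comm.1 D.dy⟩) k1a_c k1a_t

theorem memC : u * x * u⁻¹ ∈ C1 x := by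
  have h1 := h.comm1 D x2 xy xt
  have h2 : u * x * u⁻¹ * (u * x * u⁻¹) = 1 := by rw [conj_mul, x2]; simp
  generalize u * x * u⁻¹ = w at *
  rw [mem_C1, ← inv_eq_of_mul_eq_one_right ((pow_two _).symm.trans h1), mul_inv_rev,
    inv_eq_of_mul_eq_one_right h2, inv_eq_of_mul_eq_one_right x2]

theorem memA : (u * x * u⁻¹ * y) ^ 3 ∈ (Op 2 (C1 t) ⊓ C1 y) ⊓ C1 x :=
  ⟨h.norm_mem D (h.cQ D D.ut (h.mem_Q D x2 xy xt)) D.yt (n := 1) (cube_of D.y3),
    pow_mem (mul_mem (h.memC D x2 xy xt) (mem_C1_comm.1 xy)) 3⟩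

theorem memB (h1 : (u * x * u⁻¹ * y) ^ 3 * x ∈ zpowers t) : (u⁻¹ * x * u * y) ^ 3 ∈ zpowers t := by
  have e1 := h.comm1 D x2 xy xt
  have e2 := cen_zp D.ut h1
  have h2 := h.norm7 D x2 xy xt
  have e3 := cen_zp xt h2
  have := mem_of_tgt (sat_app (D.sat4 x2 xy xt) (by
    simp only [x2a, List.mem_cons, List.not_mem_nil, or_false, forall_eq_or_imp, forall_eq,
      wval_cons, wval_nil, mul_one, sval, v7]
    simp only [pow_succ, pow_zero, one_mul, mul_assoc, mul_inv_rev, inv_inv] at e1 e2 e3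
    exact ⟨e1, e2, e3⟩)) (H := zpowers t) (by
    simp only [s2a, List.mem_cons, List.not_mem_nil, or_false, forall_eq_or_imp, forall_eq,
      wval_cons, wval_nil, mul_one, sval, v7]
    simp only [pow_succ, pow_zero, one_mul, mul_assoc, mul_inv_rev, inv_inv] at h1 h2
    exact ⟨mem_zpowers t, h1, h2⟩) k2a_c k2a_t
  simpa [t2a, sval, v7, pow_succ, mul_assoc] using this

end

theorem d8Q {g : G} (hg : g ∈ Op 2 (C1 t) ⊓ C1 y) : g = 1 ∨ g = t ∨ g = a ∨ g = a * t ∨ g = e ∨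
    g = e * t ∨ g = a * e ∨ g = a * e * t := by
  obtain ⟨k, hk⟩ := isPGroup_Op 2 _ ⟨g, hg.1⟩
  exact D.d8 g hg.2 (Op_le _ _ hg.1) k (congrArg Subtype.val hk)

theorem orA : (u * a * u⁻¹ * y) ^ 3 ∈ zpowers t ∨ (u⁻¹ * a * u * y) ^ 3 ∈ zpowers t := by
  obtain ⟨h1, h2⟩ := h.memA D D.a2 D.ay D.at'
  have h3 : e ∉ C1 a := fun e => D.ne_comm (mem_C1.1 e).symm
  have h4 := (C1 a).mul_mem_cancel_right (y := e) (mem_C1_comm.1 D.at')
  have h5 := (C1 a).mul_mem_cancel_left (self_mem_C1 a) (y := e)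
  have h6 := (C1 a).mul_mem_cancel_right (y := a * e) (mem_C1_comm.1 D.at')
  have h7 := h.memB D D.a2 D.ay D.at'
  rcases h.d8Q D h1 with k | k | k | k | k | k | k | k <;> rw [k] at h2 h7 ⊢
  · exact Or.inl (one_mem _)
  · exact Or.inl (mem_zpowers t)
  · exact Or.inr (h7 (D.a2 ▸ one_mem _))
  · exact Or.inr (h7 (by rw [mem_C1.1 D.at', mul_assoc, D.a2, mul_one]; exact mem_zpowers t))
  all_goals tauto

theorem orE : (u * e * u⁻¹ * y) ^ 3 ∈ zpowers t ∨ (u⁻¹ * e * u * y) ^ 3 ∈ zpowers t := by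
  obtain ⟨h1, h2⟩ := h.memA D D.e2 D.ey D.et
  have h3 : a ∉ C1 e := fun e => D.ne_comm (mem_C1.1 e)
  have h4 := (C1 e).mul_mem_cancel_right (y := a) (mem_C1_comm.1 D.et)
  have h5 := (C1 e).mul_mem_cancel_right (self_mem_C1 e) (y := a)
  have h6 := (C1 e).mul_mem_cancel_right (y := a * e) (mem_C1_comm.1 D.et)
  have h7 := h.memB D D.e2 D.ey D.et
  rcases h.d8Q D h1 with k | k | k | k | k | k | k | k <;> rw [k] at h2 h7 ⊢
  · exact Or.inl (one_mem _)
  · exact Or.inl (mem_zpowers t)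
  · tauto
  · tauto
  · exact Or.inr (h7 (D.e2 ▸ one_mem _))
  · exact Or.inr (h7 (by rw [mem_C1.1 D.et, mul_assoc, D.e2, mul_one]; exact mem_zpowers t))
  all_goals tauto

theorem exists_AB (h1 : (u * a * u⁻¹ * y) ^ 3 ∈ zpowers t) : ∃ e, D4 u d t y s a e ∧
    wval (v7 u y s t a e d) wA = 1 ∧ wval (v7 u y s t a e d) wB = 1 := by
  have k1 : ∀ e, wval (v7 u y s t a e d) wA = (u * a * u⁻¹ * y) ^ 3 := fun e => by
    simp [wA, sval, v7, pow_succ, mul_assoc]
  have k2 : ∀ e, wval (v7 u y s t a e d) wB = (u⁻¹ * e * u * y) ^ 3 := fun e => by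
    simp [wB, sval, v7, pow_succ, mul_assoc]
  have h2 := (mem_zpowers_order_two D.tt h1).resolve_right fun k => D.noC k3_c k3_t (by
    simpa [k1, k, sval, v7] using D.tt)
  have h3 := (h.orE D).resolve_left fun k => D.noD k4_c k4_t (by
    have e1 := cen_zp D.at' k
    have f1 := h.sq_mem D (mul_mem (h.aQ D) (h.cQ D D.ut (h.eQ D)))
    have f2 := h.sq_mem D (mul_mem (h.aQ D) (h.cQ D (pow_mem D.ut 3) (h.eQ D)))
    have e2 := cen_zp D.ut f1
    have e3 := cen_zp D.at' f1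
    have e4 := cen_zp D.ut f2
    have e5 := cen_zp D.et f2
    simp only [x4, List.mem_cons, List.not_mem_nil, or_false, forall_eq_or_imp, forall_eq,
      wval_cons, wval_nil, mul_one, sval, v7]
    simp only [pow_succ, pow_zero, one_mul, mul_assoc, mul_inv_rev, inv_inv] at h2 e1 e2 e3 e4 e5
    exact ⟨h2, e1, e2, e3, e4, e5⟩)
  rcases mem_zpowers_order_two D.tt h3 with k | k
  · exact ⟨e, D, (k1 e).trans h2, (k2 e).trans k⟩
  · refine ⟨e * t, D.swap, (k1 _).trans h2, (k2 _).trans ?_⟩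
    have h4 : u * y ∈ C1 t := mul_mem D.ut D.yt
    rw [show u⁻¹ * (e * t) * u * y = u⁻¹ * e * (t * (u * y)) by group, ← mem_C1.1 h4, ← mul_assoc,
      ← mul_assoc, (show Commute _ t from mem_C1.1 (mul_mem (mul_mem (mul_mem (inv_mem D.ut) D.et)
        D.ut) D.yt)).mul_pow, k, pow_succ, pow_two, D.tt, one_mul, D.tt]

theorem sat_all (hA : wval (v7 u y s t a e d) wA = 1) (hB : wval (v7 u y s t a e d) wB = 1) :
    ∀ w ∈ [wA, wB, wG ++ [9], wH, wL ++ [4]], wval (v7 u y s t a e d) w = 1 := by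
  have hs := sat_app D.sat (r' := [wA, wB]) (by simpa using ⟨hA, hB⟩)
  have g1 : wval (v7 u y s t a e d) wG ∈ Op 2 (C1 t) ⊓ C1 y := by
    have f1 := h.cQ D (mul_mem (mul_mem (inv_mem D.ut) D.st) D.ut) (h.eQ D)
    have f2 := h.cQ D (pow_mem D.ut 3) (h.eQ D)
    have f3 := h.comm_mem D (h.cQ D (inv_mem (pow_mem D.ut 2)) (h.eQ D)) f1
    refine ⟨by simpa [wG, sval, v7, pow_succ, mul_assoc] using mul_mem f1 f2,
      fix_of_odd D.tt D.yt (n := 1) (cube_of D.y3) ?_⟩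
    have := mem_of_tgt hs (H := zpowers t) (by
      simp only [s5, List.mem_cons, List.not_mem_nil, or_false, forall_eq_or_imp, forall_eq,
        wval_cons, wval_nil, mul_one, sval, v7]
      simp only [pow_succ, pow_zero, one_mul, mul_assoc, mul_inv_rev, inv_inv] at f3
      exact ⟨mem_zpowers t, f3⟩) k5_c k5_t
    simpa [t5, wG, sval, v7, mul_assoc] using this
  have g2 : wval (v7 u y s t a e d) wH ∈ Op 2 (C1 t) ⊓ C1 y := by
    have f1 := h.cQ D (mul_mem (mul_mem (pow_mem D.ut 2) D.st) D.ut) (h.aQ D)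
    have f2 := h.cQ D (pow_mem D.ut 4) (h.aQ D)
    have f3 := h.comm_mem D (h.cQ D (inv_mem (pow_mem D.ut 3)) (h.aQ D)) f1
    refine ⟨by simpa [wH, sval, v7, pow_succ, mul_assoc] using mul_mem f1 f2,
      fix_of_odd D.tt D.yt (n := 1) (cube_of D.y3) ?_⟩
    have := mem_of_tgt hs (H := zpowers t) (by
      simp only [s6, List.mem_cons, List.not_mem_nil, or_false, forall_eq_or_imp, forall_eq,
        wval_cons, wval_nil, mul_one, sval, v7]
      simp only [pow_succ, pow_zero, one_mul, mul_assoc, mul_inv_rev, inv_inv] at f3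
      exact ⟨mem_zpowers t, f3⟩) k6_c k6_t
    simpa [t6, wH, sval, v7, mul_assoc] using this
  have g3 : wval (v7 u y s t a e d) wG = t := by
    rcases h.d8Q D g1 with k | k | k | k | k | k | k | k
    · exact absurd (by simp [hA, hB, k]) (D.noD g0_c g0_t)
    · exact k
    · exact absurd (by simp [hA, hB, k, sval, v7]) (D.noD g2_c g2_t)
    · exact absurd (by simp [hA, hB, k, sval, v7]) (D.noD g3_c g3_t)
    · exact absurd (by simp [hA, hB, k, sval, v7]) (D.noD g4_c g4_t)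
    · exact absurd (by simp [hA, hB, k, sval, v7]) (D.noD g5_c g5_t)
    · exact absurd (by simp [hA, hB, k, sval, v7]) (D.noD g6_c g6_t)
    · exact absurd (by simp [hA, hB, k, sval, v7, mul_assoc]) (D.noD g7_c g7_t)
  have g4 : wval (v7 u y s t a e d) wH = 1 := by
    rcases h.d8Q D g2 with k | k | k | k | k | k | k | k
    · exact k
    · exact absurd (by simp [hA, hB, k, sval, v7]) (D.noD h1_c h1_t)
    · exact absurd (by simp [hA, hB, k, sval, v7]) (D.noD h2_c h2_t)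
    · exact absurd (by simp [hA, hB, k, sval, v7]) (D.noD h3_c h3_t)
    · exact absurd (by simp [hA, hB, k, sval, v7]) (D.noD h4_c h4_t)
    · exact absurd (by simp [hA, hB, k, sval, v7]) (D.noC h5_c h5_t)
    · exact absurd (by simp [hA, hB, k, sval, v7]) (D.noD h6_c h6_t)
    · exact absurd (by simp [hA, hB, k, sval, v7, mul_assoc]) (D.noD h7_c h7_t)
  have g5 : wval (v7 u y s t a e d) wL = (e * a * d) ^ 4 := by
    simp [wL, sval, v7, pow_succ, mul_assoc]
  rcases mem_zpowers_three (cube_of D.y3) D.lk with k | k | k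
  · exact absurd (by simp [hA, hB, g3, g4, g5, k, sval, v7]) (D.noC l0_c l0_t)
  · exact absurd (by simp [hA, hB, g3, g4, g5, k, sval, v7]) (D.noC l1_c l1_t)
  · simp [hA, hB, g3, g4, g5, k, sval, v7]

end Nse24

end CfsgH8.Mat
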