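import Cfsg.Agent.H8.M24RecH

set_option autoImplicit false

/-! Recognition of `M24` from the order statistics: the isomorphism. -/

namespace CfsgH8.Mat

open Subgroup CfsgH5 CfsgH6 CfsgFT CfsgH3.TC M24P

variable {G : Type*} [Group G]

attribute [local irreducible] nord

/-- the inverse word -/
def winv : List ℕ → List ℕ
  | [] => []
  | c :: w => winv w ++ [if c % 2 = 0 then c + 1 else c - 1]

theorem wval_winv (v : ℕ → G) (w : List ℕ) : wval v (winv w) = (wval v w)⁻¹ := by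
  induction w with
  | nil => simp [winv]
  | cons c w ih =>
    rw [winv, wval_append, ih, wval_cons, wval_cons, wval_nil, mul_one, mul_inv_rev]
    congr 1
    unfold sval
    by_cases h : c % 2 = 0
    · simp [h, show (c + 1) % 2 = 1 by omega, show (c + 1) / 2 = c / 2 by omega]
    · simp [h, show (c - 1) % 2 = 0 by omega, show (c - 1) / 2 = c / 2 by omega]

namespace Nse24

variable [Finite G] (h : Nse24 G) {u d t y s a e : G}
include h

theorem eq_bot_of_card {L : Subgroup G} (hL : L.Normal) (h1 : Nat.card L ≤ 322560) : L = ⊥ := by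
  have k : ∀ p, p = 11 ∨ p = 23 → ¬ p ∣ Nat.card L ∧ Nat.card L ≡ 1 [MOD p] := fun p hp => by
    have p1 : p.Prime := by rcases hp with rfl | rfl <;> norm_num
    have k1 : ∀ x : G, orderOf x = p → Nat.card (C1 x) ∣ p := fun x hx => by
      haveI := Fact.mk p1
      obtain ⟨k, hk⟩ := IsPGroup.iff_card.1 (show IsPGroup p (C1 x) from fun g => ⟨1, Subtype.ext
        (h.pow_C hx g.2 (by rcases hp with rfl | rfl <;> decide))⟩)
      have k2 := h.dvd_G (C1 x)
      rw [hk] at k2 ⊢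
      rcases k with _ | _ | k
      · simp
      · simp
      · exact absurd ((pow_dvd_pow p (by omega : 2 ≤ k + 1 + 1)).trans k2)
          (by rcases hp with rfl | rfl <;> norm_num)
    have k2 : ¬ p ∣ Nat.card L := fun e => by
      obtain ⟨x, hx, k3⟩ := exists_ord p1 e
      have k4 := relIndex_C1_le (Nrm.of_normal ⊤ L) hx
      have k5 := (C1 x).index_mul_card
      have k6 := Nat.le_of_dvd p1.pos (k1 x k3)
      rw [relIndex_top_right] at k4
      rw [h.card] at k5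
      have := Nat.mul_le_mul (k4.trans h1) (k6.trans (show p ≤ 23 by omega))
      omega
    obtain ⟨x, -, hx⟩ := exists_ord (K := (⊤ : Subgroup G)) p1
      (by rw [card_top, h.card]; rcases hp with rfl | rfl <;> norm_num)
    have k3 := card_modEq_C1 p1 (hx ▸ pow_orderOf_eq_one x) ((Nrm.of_normal ⊤ L).le_N trivial)
    rw [((Nat.dvd_prime p1).1 ((card_dvd_of_le inf_le_right).trans (k1 x hx))).resolve_right
      fun e => k2 (e ▸ card_dvd_of_le inf_le_left)] at k3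
    exact ⟨k2, k3⟩
  have k1 := dvd_of_not_dvd (by norm_num) (dvd_of_not_dvd (by norm_num)
    (show _ ∣ 967680 * 11 * 23 from h.dvd_G L) (k 23 (by simp)).1) (k 11 (by simp)).1
  have k2 := (Nat.modEq_and_modEq_iff_modEq_mul (by norm_num)).1
    ⟨(k 11 (by simp)).2, (k 23 (by simp)).2⟩
  have k3 : Nat.card L = 253 * (Nat.card L / 253) + 1 := by
    unfold Nat.ModEq at k2
    omega
  rw [k3] at k1
  rw [← card_eq_one_iff, k3, (by decide +kernel : ∀ n < 1276, 253 * n + 1 ∣ 967680 → n = 0) _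
    (by omega) k1]

variable (D : D4 u d t y s a e)
include D

theorem exists_N (hr : ∀ w ∈ [wA, wB, wG ++ [9], wH, wL ++ [4]], wval (v7 u y s t a e d) w = 1) :
    ∃ N : Subgroup G, Nat.card N ≤ 322560 ∧ ∀ w ∈ sH, wval (v7 u y s t a e d) w ∈ N := by
  obtain ⟨E, hE⟩ : ∃ E, E = closure {g | ∃ w ∈ sE, wval (v7 u y s t a e d) w = g} := ⟨_, rfl⟩
  have h1 : ∀ w ∈ sE, wval (v7 u y s t a e d) w ∈ E := fun w hw => hE ▸ subset_closure ⟨w, hw, rfl⟩
  have h2 : ∀ w ∈ sH, wval (v7 u y s t a e d) w ∈ N E := fun w hw => mem_N_of_cj_le (by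
    rw [hE, cj, MonoidHom.map_closure, closure_le, ← hE]
    rintro _ ⟨_, ⟨x, hx, rfl⟩, rfl⟩
    obtain ⟨p, hp, e1⟩ := (by decide +kernel : ∀ w ∈ sH, ∀ x ∈ sE, ∃ p ∈ cNT,
      p.2 = w ++ x ++ winv w) w hw x hx
    have := mem_of_tgt (sat_app D.sat (r' := [wA, wB, wG ++ [9], wH]) fun w hw => hr w (by
      simp only [List.mem_cons] at hw ⊢; tauto)) h1 cN_c (List.all_eq_true.1 cN_t p hp)
    rwa [e1, wval_append, wval_append, wval_winv] at this)
  have h3 : E ≤ Op 2 (C1 t) ⊓ C1 a := by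
    rw [hE, closure_le]
    have k1 := h.cQ D D.ut (h.aQ D)
    have k2 := h.memC D D.a2 D.ay D.at'
    have k3 := h.cQ D D.yt k1
    have k4 := Nrm.self _ y (mem_C1_comm.1 D.ay) _ k2
    rintro _ ⟨w, hw, rfl⟩
    revert w
    simp only [mul_assoc] at k1 k2 k3 k4
    simpa [sE, sval, v7] using ⟨⟨h.tQ D, mem_C1_comm.1 D.at'⟩, ⟨h.aQ D, self_mem_C1 a⟩, ⟨k1, k2⟩,
      k3, k4⟩
  have tE : t ∈ E := by simpa [sval, v7] using h1 [8] (by simp [sE])
  have h4 := h.card_R1 D.toD1 ((isPGroup_Op 2 _).to_le (h3.trans inf_le_left))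
    (h3.trans (inf_le_left.trans (Op_le _ _))) tE (by simpa [sval, v7] using h2 [2] (by simp [sH]))
  have h5 := card_lt_of_lt (SetLike.lt_iff_le_and_exists.2 ⟨h3.trans inf_le_left, e, h.eQ D,
    fun k => D.ne_comm (mem_C1.1 (h3 k).2).symm⟩)
  rw [(h.Q_le D (mem_top t) (mem_top a) (mem_top e) (N_top.ge trivial) (N_top.ge trivial)).1] at h5
  have h6 := relIndex_C1_le_of (H := N E) (a := t) (p := fun b => b ∈ E ∧ b ≠ 1) fun g hg =>
    ⟨conj_mem_of_mem_N hg tE, fun k => D.t1 (conj_eq_one_iff.1 k)⟩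
  have h7 := card_ne_one E
  have h8 := h.card_Ct D.toD1 ▸ card_le_of_le (inf_le_right : N E ⊓ C1 t ≤ C1 t)
  refine ⟨N E, ?_, h2⟩
  rw [← relIndex_mul_inf (N E) t]
  simp only [Finset.mem_insert, Finset.mem_singleton] at h4
  exact Nat.mul_le_mul (show _ ≤ 15 by omega) h8

theorem gen : Gen 7 (v7 u y s t a e d) = ⊤ := by
  obtain ⟨K, hK⟩ : ∃ K, K = Gen 7 (v7 u y s t a e d) := ⟨_, rfl⟩
  have m : ∀ i, 1 ≤ i → i ≤ 7 → v7 u y s t a e d i ∈ K := fun i => hK ▸ mem_Gen _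
  have mu : u ∈ K := m 1 (by norm_num) (by norm_num)
  have my : y ∈ K := m 2 (by norm_num) (by norm_num)
  have ms : s ∈ K := m 3 (by norm_num) (by norm_num)
  have mt : t ∈ K := m 4 (by norm_num) (by norm_num)
  have ma : a ∈ K := m 5 (by norm_num) (by norm_num)
  have me : e ∈ K := m 6 (by norm_num) (by norm_num)
  have md : d ∈ K := m 7 (by norm_num) (by norm_num)
  obtain ⟨q1, q2⟩ := h.Q_le D mt ma me (le_N K mu) (le_N K my)
  have n1 := h.NC_le D.toD1 mu my mt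
  have n2 := (h.card_NC D.u7 D.d3 D.t2 D.du D.tu D.td).1
  have ct := h.card_Ct D.toD1
  have c1 : C1 t ≤ K := by
    have k1 := sylIn_modEq (by norm_num) (h.sylp (Or.inr rfl) D.u7 (C1 t ⊓ K) ⟨D.ut, mu⟩)
    have k2 := card_inf_mul_relIndex (N (zpowers u)) (C1 t ⊓ K)
    rw [← inf_assoc, inf_eq_left.2 n1, n2] at k2
    have k3 := card_dvd_of_le (show Op 2 (C1 t) ⊔ zpowers s ≤ C1 t ⊓ K from
      sup_le (le_inf (Op_le _ _) q2) (zpowers_le.2 ⟨D.st, ms⟩))
    rw [card_sup_inv D.s2 (h.s_not D) ((nrm_Op_self 2 _).le_N D.st), q1, ← k2] at k3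
    have k4 := card_dvd_of_le (inf_le_left : C1 t ⊓ K ≤ C1 t)
    rw [← k2, ct] at k4
    refine inf_eq_left.1 (eq_of_le_of_card_ge inf_le_left ?_)
    rw [← k2, ct, (by decide +kernel : ∀ n ∈ Nat.divisors 512, n ≡ 1 [MOD 7] → 128 * 2 ∣ 42 * n →
      n = 512) _ (Nat.mem_divisors.2 ⟨Nat.dvd_of_mul_dvd_mul_left (by norm_num)
        (show 42 * _ ∣ 42 * 512 from k4), by norm_num⟩) k1 k3]
  have c2 : N (zpowers u) ≤ K := by
    have k1 := card_lt_of_lt (show N (zpowers u) ⊓ C1 t < N (zpowers u) ⊓ K from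
      SetLike.lt_iff_le_and_exists.2 ⟨inf_le_inf_left _ c1, d, mem_inf.2 ⟨C_le_N _
        ((C_zpowers u).ge D.du), md⟩, fun k => D.not_td (mem_C1_comm.1 k.2)⟩)
    have k2 := card_dvd_of_le (inf_le_left : N (zpowers u) ⊓ K ≤ _)
    have k3 := card_dvd_of_le (inf_le_inf_left (N (zpowers u)) c1)
    refine inf_eq_left.1 (eq_of_le_of_card_ge inf_le_left ?_)
    rw [h.card_N7 D.u7] at k2 ⊢
    rw [n2] at k1 k3
    exact (by decide : ∀ n ∈ Nat.divisors 126, 42 < n → 42 ∣ n → 126 ≤ n) _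
      (Nat.mem_divisors.2 ⟨k2, by norm_num⟩) k1 k3
  have c3 : 5 ∣ Nat.card K := by
    haveI := Fact.mk Nat.prime_five
    rw [← orderOf_eq_prime D.ed fun k => inv_ne_self D.d3 (by
      rw [← eq_inv_of_mul_eq_one_left k, eq_inv_of_mul_eq_one_right k,
        inv_eq_of_mul_eq_one_right D.e2])]
    exact K.orderOf_dvd_natCard (mul_mem me md)
  obtain ⟨k, hk⟩ := cdvd (cdvd ((show 1024 * 7 ∣ 21504 by norm_num).trans (ct ▸ card_dvd_of_le c1))
    ((show 9 ∣ 126 by norm_num).trans (h.card_N7 D.u7 ▸ card_dvd_of_le c2))) c3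
  have c4 := h.dvd_G K
  have c5 := sylIn_modEq (by norm_num) (h.sylp (Or.inr rfl) D.u7 K mu)
  rw [relIndex_eq_of_mul (n := 2560 * k) c2 (by rw [h.card_N7 D.u7, hk]; ring)] at c5
  rw [hk] at c4
  rcases (by decide +kernel : ∀ n ∈ Nat.divisors 759, 2560 * n ≡ 1 [MOD 7] → n = 3 ∨ n = 759) k
    (Nat.mem_divisors.2 ⟨Nat.dvd_of_mul_dvd_mul_left (by norm_num)
      (show 1024 * 7 * 9 * 5 * k ∣ 1024 * 7 * 9 * 5 * 759 from c4), by norm_num⟩) c5 with rfl | rfl
  · have k1 := relIndex_le_of_le_right (H := C1 (d * t * d⁻¹)) c1 (relIndex_pos _ _).ne'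
    rw [Cj.relIndex ⟨d, md, rfl⟩, relIndex_eq_of_mul (n := 45) c1 (by rw [ct, hk])] at k1
    have k2 := relIndex_mul_inf (C1 t) (d * t * d⁻¹)
    have k3 := h.card_L D.toD1 ▸ card_le_of_le (show C1 t ⊓ C1 (d * t * d⁻¹) ≤ C1 d ⊓ C1 t from
      fun g hg => ⟨mem_C1_comm.1 (by
        convert mul_mem (mem_C1_comm.1 hg.1) (mem_C1_comm.1 hg.2) using 1
        rw [← mul_assoc, ← mul_assoc, show t * d * t = d⁻¹ by
          rw [← D.td, inv_eq_of_mul_eq_one_right D.tt], eq_mul_inv_iff_mul_eq, eq_inv_iff_mul_eq_one, ← cube_of D.d3]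
        simp [pow_succ]), hg.1⟩)
    have := Nat.mul_le_mul k1 k3
    omega
  · exact hK ▸ eq_top_of_card_eq K (by rw [hk, h.card])

omit D in
theorem exists_pres : ∃ (v : ℕ → G) (N : Subgroup G),
    Sat v (rels ++ [wA, wB, wG ++ [9], wH, wL ++ [4]]) ∧ Gen 7 v = ⊤ ∧ Nat.card N ≤ 322560 ∧
      ∀ w ∈ sH, wval v w ∈ N := by
  obtain ⟨u, d, t, y, D⟩ := h.exists_D1
  obtain ⟨u, s, D⟩ := h.exists_D3 D
  obtain ⟨a, e, D⟩ := h.exists_D4 D
  obtain ⟨u, e, D, hA, hB⟩ : ∃ u e, D4 u d t y s a e ∧ wval (v7 u y s t a e d) wA = 1 ∧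
      wval (v7 u y s t a e d) wB = 1 := (h.orA D).elim (fun k => ⟨_, h.exists_AB D k⟩)
    fun k => ⟨_, h.exists_AB D.inv (by rwa [inv_inv])⟩
  obtain ⟨N, h1, h2⟩ := h.exists_N D (h.sat_all D hA hB)
  exact ⟨_, N, sat_app D.sat (h.sat_all D hA hB), h.gen D, h1, h2⟩

omit D in
theorem equiv {G' : Type*} [Group G'] [Finite G'] (h' : Nse24 G') : Nonempty (G ≃* G') := by
  obtain ⟨v, N, h1, h2, h3, h4⟩ := h.exists_pres
  obtain ⟨v', N', h1', h2', h3', h4'⟩ := h'.exists_pres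
  refine equiv_of_index h1 h1' h2 h2' h4 h4' (by decide) cM_c cM_f
    (h.card.trans h'.card.symm) fun L hL h5 => h'.eq_bot_of_card hL ?_
  have h6 := N.index_mul_card
  rw [h.card] at h6
  change _ ≤ 759 at h5
  have h7 := relIndex_pos N' L
  have h8 : 759 ≤ N.index := by
    by_contra k
    have := Nat.mul_le_mul (show N.index ≤ 758 by omega) h3
    omega
  have h9 : N'.relIndex L = 1 := by
    by_contra k
    have := Nat.mul_le_mul h8 (show 2 ≤ N'.relIndex L by omega)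
    omega
  exact (card_le_of_le (relIndex_eq_one.1 h9)).trans h3'

end Nse24

end CfsgH8.Mat
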