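import Cfsg.Agent.H4.MX2

set_option autoImplicit false
set_option linter.unusedSectionVars false

/-! S3717: the exit `E1`. -/

namespace CfsgM11

open Subgroup CfsgH5 CfsgH6 CfsgFT

variable {G : Type*} [Group G] [Finite G]

theorem SD.E1core {b r e : G} (D : SD b r) (e2 : e * e = 1) (e1 : e ≠ 1) (eb : e * b * e = b ^ 5)
    (er : e * r = r * e) (simp : ∀ N : Subgroup G, N.index ≠ 2)
    (hC : ∀ y, y * e = e * y → y * b ^ 4 = b ^ 4 * y → y ∈ D.S2 e2 eb er)
    (n1 : ∀ x, x * e * x⁻¹ ≠ b ^ 4) (n2 : ∀ x, x * e * x⁻¹ ≠ r) : False := by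
  set S := D.S2 e2 eb er with hSd
  have pg : IsPGroup 2 S := IsPGroup.of_card (n := 5) (D.card2 e2 eb er)
  have bS : b ∈ S := le_Ext D.aS
  have rS : r ∈ S := le_Ext D.tS
  have eS : e ∈ S := self_Ext
  have zS : b ^ 4 ∈ S := pow_mem bS 4
  have zz : b ^ 4 * b ^ 4 = 1 := by rw [← pow_add, D.a8]
  have beb : b * e * b⁻¹ = b ^ 4 * e := by
    have : b * e = e * b ^ 5 := by rw [← eb, ← mul_assoc, ← mul_assoc, e2, one_mul]
    rw [this, ← D.ez e2 eb er, pow_succ]; group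
  have hS : SylIn 2 S ⊤ := sylIn_of_norm pg fun P _ _ n _ nN => by
    have nS : ∀ y ∈ S, n⁻¹ * y * n ∈ S := fun y hy => (nrm_N S).conj' nN hy
    have zc : ∀ y ∈ S, n * b ^ 4 * n⁻¹ * y = y * (n * b ^ 4 * n⁻¹) := fun y hy => by
      calc _ = n * (b ^ 4 * (n⁻¹ * y * n)) * n⁻¹ := by group
        _ = _ := by rw [← mem_C1.1 (D.le2C e2 eb er (nS y hy))]; group
    have nz : n * b ^ 4 * n⁻¹ = b ^ 4 := by
      rcases D.U e2 eb er (nrm_N S n nN _ zS) (sq_conj zz n) (Or.inl (zc b bS)) (Or.inl (zc r rS))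
        with k | k | k | k
      · exact (D.a4 (cj1 (c := n⁻¹) (by simpa using k))).elim
      · exact k
      · exact (n1 n⁻¹ (by rw [← k]; group)).elim
      · refine (n1 (n⁻¹ * b) ?_).elim
        rw [show n⁻¹ * b * e * (n⁻¹ * b)⁻¹ = n⁻¹ * (b * e * b⁻¹) * n by group, beb, ← k]
        group
    have ec : ∀ y ∈ S, n * e * n⁻¹ * y = y * (n * e * n⁻¹) ∨
        n * e * n⁻¹ * y = b ^ 4 * y * (n * e * n⁻¹) := fun y hy => by
      refine (D.ecomm e2 eb er (nS y hy)).imp (fun k => ?_) fun k => ?_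
      · calc _ = n * (e * (n⁻¹ * y * n)) * n⁻¹ := by group
          _ = _ := by rw [k]; group
      · calc _ = n * (e * (n⁻¹ * y * n)) * n⁻¹ := by group
          _ = n * b ^ 4 * n⁻¹ * y * (n * e * n⁻¹) := by rw [k]; group
          _ = _ := by rw [nz]
    rcases D.U e2 eb er (nrm_N S n nN _ eS) (sq_conj e2 n) (ec b bS) (ec r rS) with k | k | k | k
    · exact (e1 (cj1 (c := n⁻¹) (by simpa using k))).elim
    · exact (n1 n k).elim
    · exact hC n (mul_inv_eq_iff_eq_mul.1 k) (mul_inv_eq_iff_eq_mul.1 nz)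
    · have := hC (b⁻¹ * n) (by
        calc _ = b⁻¹ * (n * e * n⁻¹) * n := by group
          _ = _ := by rw [k, ← beb]; group) (by
        calc _ = b⁻¹ * (n * b ^ 4 * n⁻¹) * n := by group
          _ = _ := by rw [nz]; group)
      simpa using mul_mem bS this
  obtain ⟨g, hg⟩ := thompson_transfer' hS (S₀ := D.S) le_Ext (Ext_idx (D.en e2 eb er)) simp e2
  rcases D.inv hg (sq_conj e2 g) with k | k | ⟨c, -, k⟩
  · exact e1 (cj1 (c := g⁻¹) (by simpa using k))
  · exact n1 g k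
  · exact n2 (c⁻¹ * g) (by
      calc _ = c⁻¹ * (g * e * g⁻¹) * c := by group
        _ = _ := by rw [k]; group)

theorem E1aux (simp : ∀ N : Subgroup G, N.index ≠ 2) {t z v1 v2 w c : G} (tt : t * t = 1)
    (t1 : t ≠ 1) (zz : z * z = 1) (z1 : z ≠ 1) (v11 : v1 * v1 = 1)
    (vz : v1 * v2 * v1 * v2 = z) (tv1 : t * v1 = v1 * t)
    (hT : ∀ y, y * t = t * y → y * z = z * y → ∀ B : Subgroup G, v1 ∈ B → v2 ∈ B → t ∈ B → y ∈ B)
    (ncl : ∀ x, x * t * x⁻¹ ≠ z) (hc : c * z * c⁻¹ = v1) (ww : w * w = 1)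
    (wtw : w * t * w = z * t) (wz : w * z = z * w) (tv2 : t * v2 = v2 * t) (zv2 : z * v2 = v2 * z)
    (wv : w * v1 * w = v2) : False := by
  have tz : t * z = z * t := by
    rw [← vz]; exact (((Commute.mul_right tv1 tv2).mul_right tv1).mul_right tv2).eq
  have tw : t * w = w * z * t := by
    rw [mul_assoc, ← wtw, ← mul_assoc, ← mul_assoc, ww, one_mul]
  have b2 : (v1 * w * t) ^ 2 = v1 * v2 * z := by
    calc _ = v1 * w * (t * v1) * w * t := by rw [pow_two]; group
      _ = v1 * (w * v1 * (t * w)) * t := by rw [tv1]; group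
      _ = v1 * (w * v1 * w) * z * (t * t) := by rw [tw]; group
      _ = _ := by rw [wv, tt, mul_one]
  have zv1 : z * v1 = v1 * z := by
    have v2e : v2 * z = w * (v1 * z) * w := by rw [← wv, mul_assoc _ w, wz]; group
    have v2e' : z * v2 = w * (z * v1) * w := by rw [← wv, ← mul_assoc w, wz]; group
    rw [v2e, v2e'] at zv2
    exact mul_left_cancel (mul_right_cancel zv2)
  have b4 : (v1 * w * t) ^ 4 = z := by
    rw [show 4 = 2 * 2 from rfl, pow_mul, b2, pow_two]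
    calc _ = v1 * v2 * (z * v1) * v2 * z := by group
      _ = v1 * v2 * v1 * (z * v2) * z := by rw [zv1]; group
      _ = v1 * v2 * v1 * v2 * (z * z) := by rw [zv2]; group
      _ = z := by rw [zz, mul_one, vz]
  have D : SD (v1 * w * t) v1 := ⟨by rw [show 8 = 4 + 4 from rfl, pow_add, b4, zz],
    by rw [b4]; exact z1, v11, by
      rw [pow_succ, b2]
      have k : v1 * v2 * z * v1 = v2⁻¹ := by
        rw [eq_inv_iff_mul_eq_one, mul_assoc _ z, zv1, ← zz]
        nth_rewrite 2 [← vz]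
        rw [mul_assoc, mul_assoc v1 z, zv2]; group
      have k2 : v2⁻¹ = w * v1 * w := by
        rw [← wv]; exact inv_of_sq (by
          rw [show w * v1 * w * (w * v1 * w) = w * v1 * (w * w) * v1 * w by group, ww, mul_one,
            mul_assoc w, v11, mul_one, ww])
      calc _ = v1 * v1 * w * (t * v1) := by group
        _ = w * v1 * (w * w) * t := by rw [v11, tv1, ww]; group
        _ = v1 * v2 * z * v1 * w * t := by rw [k, k2]; group
        _ = _ := by group⟩
  have eb : t * (v1 * w * t) * t = (v1 * w * t) ^ 5 := by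
    rw [pow_succ, b4]
    calc _ = t * v1 * w * (t * t) := by group
      _ = v1 * (t * w) := by rw [tt, tv1]; group
      _ = v1 * z * w * t := by rw [tw, wz]; group
      _ = _ := by rw [← zv1]; group
  refine D.E1core tt t1 eb tv1 simp (fun y h1 h2 => ?_) (b4 ▸ ncl) fun x k => ncl (c⁻¹ * x) ?_
  · rw [b4] at h2
    have bS : v1 * w * t ∈ D.S2 tt eb tv1 := le_Ext D.aS
    have rS : v1 ∈ D.S2 tt eb tv1 := le_Ext D.tS
    have eS : t ∈ D.S2 tt eb tv1 := self_Ext
    have wS : w ∈ D.S2 tt eb tv1 := by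
      have := mul_mem (mul_mem (inv_mem rS) bS) (inv_mem eS)
      rwa [show v1⁻¹ * (v1 * w * t) * t⁻¹ = w by group] at this
    exact hT y h1 h2 _ rS (wv ▸ mul_mem (mul_mem wS rS) wS) eS
  · calc _ = c⁻¹ * (x * t * x⁻¹) * c := by group
      _ = _ := by rw [k, ← hc]; group

theorem E1 (simp : ∀ N : Subgroup G, N.index ≠ 2) {t z v1 v2 w c : G} (tt : t * t = 1)
    (t1 : t ≠ 1) (zz : z * z = 1) (z1 : z ≠ 1) (v11 : v1 * v1 = 1) (v22 : v2 * v2 = 1)
    (vz : v1 * v2 * v1 * v2 = z) (tv1 : t * v1 = v1 * t) (tv2 : t * v2 = v2 * t)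
    (hT : ∀ y, y * t = t * y → y * z = z * y →
      ∃ d ∈ [1, z, v1, v1 * z, v2, v2 * z, v1 * v2, v2 * v1], y = d ∨ y = d * t)
    (ncl : ∀ x, x * t * x⁻¹ ≠ z) (hc : c * z * c⁻¹ = v1) (ww : w * w = 1)
    (wtw : w * t * w = z * t) (wz : w * z = z * w)
    (wv : w * v1 * w = v2 ∨ w * v1 * w = v2 * z) : False := by
  have zv2 : z * v2 = v2 * z := by
    have zi : z = v2 * v1 * v2 * v1 := by
      rw [← inv_of_sq zz, ← vz]; simp only [mul_inv_rev, inv_of_sq v11, inv_of_sq v22, mul_assoc]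
    nth_rewrite 1 [zi]
    rw [← vz]; group
  have tz : t * z = z * t := by
    rw [← vz]; exact (((Commute.mul_right tv1 tv2).mul_right tv1).mul_right tv2).eq
  have hB : ∀ y, y * t = t * y → y * z = z * y → ∀ B : Subgroup G, v1 ∈ B → v2 ∈ B → t ∈ B →
      y ∈ B := fun y h1 h2 B a1 a2 a3 => by
    have zB : z ∈ B := vz ▸ mul_mem (mul_mem (mul_mem a1 a2) a1) a2
    obtain ⟨d, hd, k⟩ := hT y h1 h2
    have dB : d ∈ B := by
      simp only [List.mem_cons, List.not_mem_nil, or_false] at hd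
      rcases hd with rfl | rfl | rfl | rfl | rfl | rfl | rfl | rfl
      exacts [one_mem _, zB, a1, mul_mem a1 zB, a2, mul_mem a2 zB, mul_mem a1 a2, mul_mem a2 a1]
    rcases k with rfl | rfl
    exacts [dB, mul_mem dB a3]
  rcases wv with wv | wv
  · exact E1aux simp tt t1 zz z1 v11 vz tv1 hB ncl hc ww wtw wz tv2 zv2 wv
  · have zv1 : z * v1 = v1 * z := by
      have zi : z = v2 * v1 * v2 * v1 := by
        rw [← inv_of_sq zz, ← vz]; simp only [mul_inv_rev, inv_of_sq v11, inv_of_sq v22, mul_assoc]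
      nth_rewrite 2 [zi]
      rw [← vz]; group
    have vz' : v1 * (v2 * z) * v1 * (v2 * z) = z := by
      calc _ = v1 * v2 * (z * v1) * v2 * z := by group
        _ = v1 * v2 * v1 * (z * v2) * z := by rw [zv1]; group
        _ = v1 * v2 * v1 * v2 * (z * z) := by rw [zv2]; group
        _ = z := by rw [zz, mul_one, vz]
    refine E1aux simp tt t1 zz z1 v11 vz' tv1 (fun y h1 h2 B a1 a2 a3 => hB y h1 h2 B a1 ?_ a3) ncl hc
      ww wtw wz (Commute.mul_right tv2 tz).eq (by rw [← mul_assoc, zv2]) wv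
    have zB : z ∈ B := vz' ▸ mul_mem (mul_mem (mul_mem a1 a2) a1) a2
    have := mul_mem a2 zB
    rwa [mul_assoc, zz, mul_one] at this

end CfsgM11
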