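import Cfsg.Agent.H8.MatLocA

set_option autoImplicit false

/-! Four-groups normalized by a self-centralizing elementary abelian group of order nine. -/

namespace CfsgH8.Mat

open Subgroup CfsgH5 CfsgH6 CfsgFT
open scoped commutatorElement

variable {G : Type*} [Group G]

/-- coordinates of the four lines -/
def lp : Fin 4 → Fin 3 × Fin 3 := ![(1, 0), (0, 1), (1, 1), (1, 2)]

/-- generators of the four lines -/
def ln (x y : G) (k : Fin 4) : G := el x y (lp k).1 (lp k).2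

theorem ln_zero (x y : G) : ln x y 0 = x := el_one_zero x y

section Lines

variable {M : Subgroup G} {x y : G} (h : Bas M x y)
include h

theorem ln_mem (k : Fin 4) : ln x y k ∈ M := el_mem h.xV h.yV _ _

theorem ln_ne (k : Fin 4) : ln x y k ≠ 1 := fun e => by
  exact (by decide : ∀ k : Fin 4, ¬ ((lp k).1 = 0 ∧ (lp k).2 = 0)) k
    (h.inj (e.trans (el_zero x y).symm))

theorem mem_ln (k : Fin 4) (i j : Fin 3) :
    el x y i j ∈ zpowers (ln x y k) ↔ ∃ c, i = c * (lp k).1 ∧ j = c * (lp k).2 := by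
  constructor
  · intro e
    rcases mem_zpowers_three (h.cube _ (ln_mem h k)) e with e | e | e
    · exact ⟨0, by simpa using h.inj (e.trans (el_zero x y).symm)⟩
    · exact ⟨1, by simpa using h.inj e⟩
    · rw [ln, ← el_neg h.x3 h.y3 h.xy] at e
      exact ⟨-1, by simpa using h.inj e⟩
  · rintro ⟨c, rfl, rfl⟩
    rw [← el_pow3 h.x3 h.y3 h.xy]
    exact pow_mem (mem_zpowers _) _

theorem C1_eq_of_mem {m m' : G} (hm : m ∈ M) (h1 : m' ≠ 1) (e : m' ∈ zpowers m) : C1 m' = C1 m := by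
  rcases mem_zpowers_three (h.cube _ hm) e with e | e | e
  · exact absurd e h1
  · rw [e]
  · rw [e, C1_inv]

theorem exists_ln {m : G} (hm : m ∈ M) (h1 : m ≠ 1) : ∃ k, C1 m = C1 (ln x y k) := by
  obtain ⟨i, j, rfl⟩ := h.surj hm
  obtain ⟨k, hk⟩ := (by decide : ∀ i j : Fin 3, ∃ k : Fin 4, ∃ c, i = c * (lp k).1 ∧ j = c * (lp k).2)
    i j
  exact ⟨k, C1_eq_of_mem h (ln_mem h k) h1 ((mem_ln h k i j).2 hk)⟩

theorem C1_inf_ln {k l : Fin 4} (hkl : k ≠ l) : C1 (ln x y k) ⊓ C1 (ln x y l) ≤ C M := by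
  intro g hg m hm
  obtain ⟨i, j, rfl⟩ := h.surj hm
  obtain ⟨c, d, rfl, rfl⟩ := (by decide : ∀ k l : Fin 4, k ≠ l → ∀ i j : Fin 3, ∃ c d : Fin 3,
    i = c * (lp k).1 + d * (lp l).1 ∧ j = c * (lp k).2 + d * (lp l).2) k l hkl i j
  rw [el_add h.x3 h.y3 h.xy, ← el_pow3 h.x3 h.y3 h.xy, ← el_pow3 h.x3 h.y3 h.xy]
  exact (((show Commute g _ from mem_C1.1 hg.1).pow_right _).mul_right
    ((show Commute g _ from mem_C1.1 hg.2).pow_right _)).symm

theorem inf_two_eq_bot [Finite G] {P : Subgroup G} (hP : IsPGroup 2 P) : P ⊓ M = ⊥ :=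
  haveI := Fact.mk Nat.prime_two
  haveI := Fact.mk Nat.prime_three
  (IsPGroup.disjoint_of_ne 2 3 (by norm_num) P M hP (IsPGroup.of_card (n := 2) h.card)).eq_bot

theorem wielandt4 [Finite G] (hC : C M ≤ M) {P : Subgroup G} (hP : IsPGroup 2 P) (hn : Nrm M P) :
    Nat.card P = ∏ k, Nat.card ↥(P ⊓ C1 (ln x y k)) := by
  obtain ⟨e, he⟩ := two_pow_of_pg hP
  have h1 := B23.wielandt (M := M) (V := P) (Finset.univ : Finset (Fin 4 ⊕ Bool))
    (Sum.elim (fun k => zpowers (ln x y k)) fun b => bif b then M else ⊥)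
    (Sum.elim (fun _ => 1) fun _ => 0) (Sum.elim (fun _ => 0) fun b => bif b then 1 else 3)
    (by
      rintro (k | _ | _) -
      exacts [zpowers_le.2 (ln_mem h k), bot_le, le_rfl]) hn
    (by rw [he, h.card]; exact Nat.Coprime.pow_left _ (by norm_num))
    (solvable_of_isPGroup Nat.prime_two hP) (fun a ha => by
      obtain ⟨i, j, rfl⟩ := h.surj ha
      have h2 : el x y i j = 1 ↔ i = 0 ∧ j = 0 :=
        ⟨fun e => h.inj (e.trans (el_zero x y).symm), by rintro ⟨rfl, rfl⟩; exact el_zero x y⟩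
      classical
      simp only [Fintype.sum_sum_type, Sum.elim_inl, Sum.elim_inr, Set.indicator_apply,
        SetLike.mem_coe, mem_ln h, Fintype.sum_bool, cond_true, cond_false, ha, mem_bot, h2]
      simp only [ite_self, Finset.sum_const_zero, if_true, add_zero, zero_add]
      convert (by decide : ∀ i j : Fin 3, (∑ k : Fin 4, if ∃ c, i = c * (lp k).1 ∧ j = c * (lp k).2
        then 1 else 0) = 1 + if i = 0 ∧ j = 0 then 3 else 0) i j)
  have h2 : P ⊓ C M = ⊥ := eq_bot_iff.2 ((inf_le_inf_left _ hC).trans (inf_two_eq_bot h hP).le)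
  have h3 : ∀ k, Nat.card (zpowers (ln x y k)) = 3 := fun k => by
    rw [Nat.card_zpowers, orderOf_three (h.cube _ (ln_mem h k)) (ln_ne h k)]
  simp only [Fintype.prod_sum_type, Sum.elim_inl, Sum.elim_inr, Fintype.prod_bool, cond_true,
    cond_false, h2, h3, C_bot, inf_top_eq, card_bot, C_zpowers, zero_mul, pow_zero, one_pow,
    Finset.prod_const_one, mul_one, one_mul, Finset.prod_pow] at h1
  exact (Nat.pow_left_injective (by norm_num) h1).symm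

end Lines

/-- the local hypotheses -/
structure Ctx (M : Subgroup G) (x y : G) : Prop where
  bas : Bas M x y
  cent : C M ≤ M
  four : ∀ m ∈ M, m ≠ 1 → ∀ A ≤ C1 m, IsPGroup 2 A → Nat.card A ≤ 4
  sq : ∀ m ∈ M, m ≠ 1 → ∀ u ∈ C1 m, ∀ k, u ^ 2 ^ k = 1 → u * u = 1

/-- an invariant four-group -/
structure IsW (M W : Subgroup G) : Prop where
  nrm : Nrm M W
  card : Nat.card W = 4
  ex : ∃ m ∈ M, m ≠ 1 ∧ W ≤ C1 m

theorem IsW.pg {M W : Subgroup G} (h : IsW M W) : IsPGroup 2 W := IsPGroup.of_card (n := 2) h.card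

theorem IsW.ne_bot {M W : Subgroup G} (h : IsW M W) : W ≠ ⊥ := fun e => by
  simpa [e] using h.card

theorem IsW.cjj {M W : Subgroup G} (h : IsW M W) {t : G} (ht : t ∈ N M) : IsW M (cj t W) := by
  obtain ⟨m, h1, h2, h3⟩ := h.ex
  exact ⟨mem_N.1 ht ▸ h.nrm.cjj t, (card_cj t W).trans h.card, t * m * t⁻¹, conj_mem_of_mem_N ht h1,
    by simpa using h2, cj_C1 t m ▸ cj_mono h3⟩

/-- the largest `2`-subgroup of the centralizer -/
structure PD (W P : Subgroup G) : Prop where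
  le : P ≤ C W
  pg : IsPGroup 2 P
  mem : ∀ g ∈ C W, ∀ k, g ^ 2 ^ k = 1 → g ∈ P

theorem PD.le_of {W P A : Subgroup G} (h : PD W P) (h1 : A ≤ C W) (h2 : IsPGroup 2 A) : A ≤ P :=
  fun a ha => by
    obtain ⟨k, hk⟩ := h2 ⟨a, ha⟩
    exact h.mem a (h1 ha) k (congrArg Subtype.val hk)

theorem PD.nrm {W P : Subgroup G} (h : PD W P) : Nrm (N W) P :=
  nrm_of_cj_le fun g hg => h.le_of ((nrm_N_C W).cj_eq hg ▸ cj_mono h.le) (isPGroup_cj h.pg g)

namespace Ctx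

variable [Finite G] {M : Subgroup G} {x y : G} (h : Ctx M x y)
include h

theorem eq_one {u : G} (hu : u * u = 1) (hc : u ∈ C M) : u = 1 :=
  eq_one_of_sq_of_nine h.bas.card (h.cent hc) (by rw [pow_two, hu])

theorem card_eq_four {A : Subgroup G} (hn : Nrm M A) (hA : IsPGroup 2 A) {m : G} (hm : m ∈ M)
    (h1 : m ≠ 1) (h2 : A ≤ C1 m) (h3 : A ≠ ⊥) : Nat.card A = 4 := by
  have h4 := h.four m hm h1 A h2 hA
  have h5 := one_lt_card.2 h3
  obtain ⟨k, hk⟩ := two_pow_of_pg hA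
  have h6 : Nat.card A ≠ 2 := fun e => by
    obtain ⟨u, hu, e2⟩ := exists_ord Nat.prime_two (dvd_of_eq e.symm)
    have h7 : zpowers u = A :=
      eq_of_le_of_card_eq (zpowers_le.2 hu) (by rw [e, Nat.card_zpowers, e2])
    refine ne_one_of_ord e2 (h.eq_one (mul_self_of_ord e2) fun g hg => ?_)
    rcases mem_zpowers_order_two (mul_self_of_ord e2) (h7 ▸ hn g hg u hu) with e3 | e3
    · exact absurd (by simpa using e3) (ne_one_of_ord e2)
    · exact mul_inv_eq_iff_eq_mul.1 e3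
  have h7 : Nat.card A ≠ 3 := fun e => by
    have := (Nat.prime_three.dvd_of_dvd_pow (dvd_of_eq (e.symm.trans hk)))
    omega
  omega

theorem isW_inf {P : Subgroup G} (hP : IsPGroup 2 P) (hn : Nrm M P) {m : G} (hm : m ∈ M)
    (h1 : m ≠ 1) (h3 : P ⊓ C1 m ≠ ⊥) : IsW M (P ⊓ C1 m) :=
  have h4 : Nrm M (P ⊓ C1 m) := hn.inf (Nrm.of_le fun a ha => mem_C1.2 (h.bas.comm a ha m hm))
  ⟨h4, h.card_eq_four h4 hP.to_inf_left hm h1 inf_le_right h3, m, hm, h1, inf_le_right⟩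

theorem eq_of_le {W A : Subgroup G} (hW : IsW M W) (hn : Nrm M A) (h1 : A ≤ W) (h3 : A ≠ ⊥) :
    A = W := by
  obtain ⟨m, hm, h4, h5⟩ := hW.ex
  exact eq_of_le_of_card_eq h1
    ((h.card_eq_four hn (hW.pg.to_le h1) hm h4 (h1.trans h5) h3).trans hW.card.symm)

theorem inf_eq_bot {W A : Subgroup G} (hW : IsW M W) (hA : IsW M A) (h1 : W ≠ A) : W ⊓ A = ⊥ := by
  by_contra h2
  exact h1 ((h.eq_of_le hW (hW.nrm.inf hA.nrm) inf_le_left h2).symm.trans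
    (h.eq_of_le hA (hW.nrm.inf hA.nrm) inf_le_right h2))

theorem eq_of_ge {W A : Subgroup G} (hW : IsW M W) (hA : IsPGroup 2 A) (h1 : W ≤ A) {m : G}
    (hm : m ∈ M) (h2 : m ≠ 1) (h3 : A ≤ C1 m) : W = A :=
  eq_of_le_of_card_le h1 (hW.card ▸ h.four m hm h2 A h3 hA)

theorem sq_W {W : Subgroup G} (hW : IsW M W) {w : G} (hw : w ∈ W) : w * w = 1 := by
  obtain ⟨m, hm, h4, h5⟩ := hW.ex
  obtain ⟨k, hk⟩ := hW.pg ⟨w, hw⟩
  exact h.sq m hm h4 w (h5 hw) k (congrArg Subtype.val hk)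

theorem ab_W {W : Subgroup G} (hW : IsW M W) : Ab W := ab_iff.2 fun a ha b hb => by
  rw [← inv_eq_of_mul_eq_one_right (h.sq_W hW (mul_mem ha hb)), mul_inv_rev,
    inv_eq_of_mul_eq_one_right (h.sq_W hW ha), inv_eq_of_mul_eq_one_right (h.sq_W hW hb)]

theorem eq_one_of_ln {W : Subgroup G} (hW : IsW M W) {k l : Fin 4} (hkl : k ≠ l)
    (hk : W ≤ C1 (ln x y k)) {w : G} (hw : w ∈ W) (hl : w ∈ C1 (ln x y l)) : w = 1 :=
  h.eq_one (h.sq_W hW hw) (C1_inf_ln h.bas hkl ⟨hk hw, hl⟩)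

theorem four_cases {W : Subgroup G} (hW : IsW M W) {w m : G} (hw : w ∈ W) (hm : m ∈ M)
    (h1 : w ∉ C1 m) : (w * m) ^ 3 = 1 ∧
      ∀ u ∈ W, u = 1 ∨ u = w ∨ u = m * w * m⁻¹ ∨ u = m * (m * w * m⁻¹) * m⁻¹ := by
  have h2 : w ≠ 1 := by rintro rfl; exact h1 (one_mem _)
  have h3 : w ≠ m * w * m⁻¹ := fun e => h1 (mem_C1_iff_conj'.2 e.symm)
  have h4 := hW.nrm m hm w hw
  have h5 : ∀ u ∈ W, _ := fun u hu => eq_of_four_mem hW.card.le hw h4 h2 (by simpa using h2) h3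
    (fun e => h3 (by rw [← h.sq_W hW hw] at e; exact (mul_left_cancel e).symm)) (x := u) hu
  have h6 := h.bas.cube m hm
  have h7 : m * (m * w * m⁻¹) * m⁻¹ = w * (m * w * m⁻¹) := by
    rcases h5 _ (hW.nrm m hm _ h4) with e | e | e | e
    · exact absurd (by simpa using e) h2
    · refine absurd ?_ h3
      calc w = m ^ 3 * w * (m ^ 3)⁻¹ := by simp [h6]
        _ = m * (m * (m * w * m⁻¹) * m⁻¹) * m⁻¹ := by simp [pow_succ, mul_assoc]
        _ = _ := by rw [e]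
    · exact absurd (by simpa using e) h3.symm
    · exact e
  refine ⟨?_, fun u hu => h7 ▸ h5 u hu⟩
  calc (w * m) ^ 3 = w * (m * w * m⁻¹) * (m * (m * w * m⁻¹) * m⁻¹) * m ^ 3 := by
        simp only [pow_succ]; group
    _ = 1 := by rw [h7, h6, h.sq_W hW (mul_mem hw h4), mul_one]

theorem not_cent {W : Subgroup G} (hW : IsW M W) {z : G} (hz : ∀ m ∈ M, z * m * z⁻¹ = m⁻¹) :
    z ∉ C W := fun hc => by
  have h1 : M ≤ C W := fun m hm => by
    have h2 := mul_mem (hW.nrm.C m hm z hc) (inv_mem hc)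
    have h3 : m * z * m⁻¹ * z⁻¹ = m⁻¹ := by
      calc m * z * m⁻¹ * z⁻¹ = m * (z * m * z⁻¹)⁻¹ := by group
        _ = m ^ 3 * m⁻¹ := by rw [hz m hm]; simp [pow_succ, mul_assoc]
        _ = _ := by rw [h.bas.cube m hm, one_mul]
    exact inv_mem_iff.1 (h3 ▸ h2)
  exact hW.ne_bot (eq_bot_iff.2 fun w hw => h.eq_one (h.sq_W hW hw) (le_C_symm h1 hw))

theorem exists_fix {W : Subgroup G} (hW : IsW M W) {z : G} (hz : ∀ m ∈ M, z * m * z⁻¹ = m⁻¹)
    (z2 : z * z = 1) (hN : z ∈ N W) :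
    ∃ w ∈ W, w ≠ 1 ∧ w ∈ C1 z ∧ ∀ u ∈ W, u ∈ C1 z → u = 1 ∨ u = w := by
  have h1 := card_modEq_C1 Nat.prime_two (by rw [pow_two, z2]) hN
  have h2 : Nat.card ↥(W ⊓ C1 z) < Nat.card W := card_lt_of_lt (lt_of_le_of_ne inf_le_left
    fun e => h.not_cent hW hz (le_C1_iff.1 (inf_eq_left.1 e)))
  have h3 := card_pos (W ⊓ C1 z)
  rw [hW.card, Nat.ModEq] at *
  have h4 : Nat.card ↥(W ⊓ C1 z) = 2 := by omega
  obtain ⟨w, hw, e⟩ := exists_ord Nat.prime_two (dvd_of_eq h4.symm)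
  have h7 : zpowers w = W ⊓ C1 z :=
    eq_of_le_of_card_eq (zpowers_le.2 hw) (by rw [h4, Nat.card_zpowers, e])
  exact ⟨w, hw.1, ne_one_of_ord e, hw.2, fun u hu hu' =>
    mem_zpowers_order_two (mul_self_of_ord e) (h7 ▸ mem_inf.2 ⟨hu, hu'⟩)⟩

theorem exists_PD {W : Subgroup G} (hW : IsW M W) (hx : W ≤ C1 x) {z : G}
    (hz : ∀ m ∈ M, z * m * z⁻¹ = m⁻¹) (hN : z ∈ N W) (h1 : C1 x ⊓ N W ≤ M ⊔ W)
    (h9 : ¬ 9 ∣ Nat.card (C W))
    (h2 : ∀ g ∈ C W, (orderOf g).Coprime 3 → ∃ k, g ^ 2 ^ k = 1) :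
    ∃ P, PD W P ∧ Nat.card (C W) = 3 * Nat.card P := by
  haveI := Fact.mk Nat.prime_three
  have h3 : zpowers x ≤ C W := zpowers_le.2 (le_C1_iff.1 hx)
  have h4 : Nat.card (zpowers x) = 3 := by rw [Nat.card_zpowers, orderOf_three h.bas.x3 h.bas.x1]
  have h5 : SylIn 3 (zpowers x) (C W) :=
    sylIn_of_not_dvd h3 (IsPGroup.of_card (n := 1) h4) fun e => h9 (by
      rw [← card_mul_relIndex h3, h4]
      exact Nat.mul_dvd_mul_left 3 e)
  have h6 := h5.pNil_of_le_C Nat.prime_three fun g hg => by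
    rw [C_zpowers]
    rcases mem_zpowers_three h.bas.x3 (conj_mem_of_mem_N hg.2 (mem_zpowers x)) with e | e | e
    · exact absurd (by simpa using e) h.bas.x1
    · exact mem_C1_iff_conj.2 e
    · obtain ⟨m, hm, w, hw, e2⟩ := (mem_sup_nrm hW.nrm).1 (h1 (x := z⁻¹ * g) ⟨mem_C1_iff_conj.2 (by
        calc z⁻¹ * g * x * (z⁻¹ * g)⁻¹ = z⁻¹ * (g * x * g⁻¹) * z := by group
          _ = x := by rw [e, ← hz x h.bas.xV]; group), (N W).mul_mem ((N W).inv_mem hN) (C_le_N W hg.1)⟩)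
      refine absurd ?_ (h.not_cent hW (z := z * m) fun a ha => ?_)
      · have := (C W).mul_mem hg.1 ((C W).inv_mem (h.ab_W hW hw))
        rwa [show g = z * (z⁻¹ * g) by group, e2, ← mul_assoc, mul_inv_cancel_right] at this
      · rw [← hz a ha, mul_assoc z m a, h.bas.comm m hm a ha]
        group
  refine ⟨h6.compl, ⟨h6.compl_le, fun g => ?_, fun g hg k e => ⟨hg, ?_⟩⟩, ?_⟩
  · obtain ⟨k, hk⟩ := h2 g g.2.1 g.2.2
    exact ⟨k, Subtype.ext hk⟩
  · exact Nat.Coprime.coprime_dvd_left (orderOf_dvd_of_pow_eq_one e)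
      (Nat.Coprime.pow_left k (by norm_num))
  · have h7 := card_sup_of_inf_eq_bot (Or.inl (h6.nrm_compl (Nrm.of_le h3)))
      (inf_eq_bot_of_coprime' (h4.symm ▸ (h6.coprime_card_compl Nat.prime_three).symm))
    rwa [h4, h5.sup_eq h6.compl_le (h6.nrm_compl (Nrm.self _))
      (h6.pow_mem_compl Nat.prime_three)] at h7

open Classical in
theorem card_inf_ln {P : Subgroup G} (hP : IsPGroup 2 P) (hn : Nrm M P) (k : Fin 4) :
    Nat.card ↥(P ⊓ C1 (ln x y k)) = if P ⊓ C1 (ln x y k) = ⊥ then 1 else 4 := by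
  split_ifs with e
  · rw [e, card_bot]
  · exact (h.isW_inf hP hn (ln_mem h.bas k) (ln_ne h.bas k) e).card

theorem exists_ln_eq {P A : Subgroup G} (hP : IsPGroup 2 P) (hA : IsW M A) (h1 : A ≤ P) :
    ∃ k, A = P ⊓ C1 (ln x y k) := by
  obtain ⟨m, hm, h2, h3⟩ := hA.ex
  obtain ⟨k, hk⟩ := exists_ln h.bas hm h2
  exact ⟨k, h.eq_of_ge hA hP.to_inf_left (le_inf h1 (hk ▸ h3)) (ln_mem h.bas k) (ln_ne h.bas k)
    inf_le_right⟩

theorem comm_le {W P A B : Subgroup G} (hW : IsW M W) (hP : PD W P) (h64 : Nat.card P ≤ 128)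
    (hA : IsW M A) (hB : IsW M B) (h1 : A ≤ C W) (h2 : B ≤ C W) : ⁅A, B⁆ ≤ W := by
  haveI := Fact.mk Nat.prime_two
  have hn : Nrm M P := hP.nrm.mono hW.nrm.le_N
  have hWP := hP.le_of (h.ab_W hW) hW.pg
  have hAP := hP.le_of h1 hA.pg
  have hBP := hP.le_of h2 hB.pg
  by_cases e1 : A = W
  · exact e1 ▸ (comm_eq_bot_iff'.2 (e1 ▸ h2)).le.trans bot_le
  by_cases e2 : B = W
  · exact e2 ▸ (comm_eq_bot_iff.2 (e2 ▸ h1)).le.trans bot_le
  by_cases e3 : A = B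
  · exact e3 ▸ (comm_eq_bot_iff.2 (h.ab_W hA)).le.trans bot_le
  have hPW : Nrm P W := nrm_of_le_C hP.le
  obtain ⟨a, ha, h3, -, h4⟩ := B45.exists_central_mod hP.pg le_rfl (Nrm.self P) hPW fun e =>
    e1 (h.eq_of_le hW hA.nrm (hAP.trans e) hA.ne_bot)
  have hZ : Nrm M (P ⊓ B45.CM P W) := hn.inf (B45.nrm_CM hn hW.nrm)
  obtain ⟨i, hi⟩ := h.exists_ln_eq hP.pg hW hWP
  obtain ⟨j, hj⟩ := h.exists_ln_eq hP.pg hA hAP
  obtain ⟨k, hk⟩ := h.exists_ln_eq hP.pg hB hBP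
  have h5 : W < P ⊓ B45.CM P W := SetLike.lt_iff_le_and_exists.2 ⟨le_inf hWP
    (B45.le_CM.2 ⟨Nrm.self W, hPW.comm_le_left⟩), a,
      mem_inf.2 ⟨ha, hPW.le_N ha, fun g hg => B45.comm_mem_symm (h4 g hg)⟩, h3⟩
  obtain ⟨l, hl, h6⟩ : ∃ l, l ≠ i ∧ P ⊓ B45.CM P W ⊓ C1 (ln x y l) ≠ ⊥ := by
    by_contra h6
    push Not at h6
    have h7 := card_lt_of_lt h5
    rw [wielandt4 h.bas h.cent hP.pg.to_inf_left hZ, Finset.prod_eq_single i
      (fun l _ hl => by rw [h6 l hl, card_bot]) (by simp), h.card_inf_ln hP.pg.to_inf_left hZ,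
      hW.card] at h7
    split_ifs at h7 <;> omega
  have h7 : P ⊓ C1 (ln x y l) ≤ B45.CM P W := by
    rw [← h.eq_of_ge (h.isW_inf hP.pg.to_inf_left hZ (ln_mem h.bas l) (ln_ne h.bas l) h6)
      hP.pg.to_inf_left (inf_le_inf_right _ inf_le_left) (ln_mem h.bas l) (ln_ne h.bas l)
      inf_le_right]
    exact inf_le_left.trans inf_le_right
  by_cases e4 : l = j
  · exact (commutator_mono le_rfl hBP).trans (B45.le_CM.1 (hj ▸ e4 ▸ h7)).2
  by_cases e5 : l = k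
  · rw [commutator_comm]
    exact (commutator_mono le_rfl hAP).trans (B45.le_CM.1 (hk ▸ e5 ▸ h7)).2
  have h8 : ∀ r, Nat.card ↥(P ⊓ C1 (ln x y r)) = 4 := fun r => by
    rcases (by decide : ∀ i j k l r : Fin 4, j ≠ i → k ≠ i → j ≠ k → l ≠ i → l ≠ j → l ≠ k →
      r = i ∨ r = j ∨ r = k ∨ r = l) i j k l r (fun e => e1 (by rw [hi, hj, e]))
      (fun e => e2 (by rw [hi, hk, e])) (fun e => e3 (by rw [hj, hk, e])) hl e4 e5 with
      rfl | rfl | rfl | rfl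
    exacts [hi ▸ hW.card, hj ▸ hA.card, hk ▸ hB.card, (h.isW_inf hP.pg hn (ln_mem h.bas r)
      (ln_ne h.bas r) fun e => h6 (eq_bot_iff.2 ((inf_le_inf_right _ inf_le_left).trans e.le))).card]
  rw [wielandt4 h.bas h.cent hP.pg hn] at h64
  simp only [h8] at h64
  simp at h64

end Ctx

end CfsgH8.Mat
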