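import Cfsg.Agent.H8.M23B

set_option autoImplicit false

/-! The `2`-part of the centralizer of an invariant four-group. -/

namespace CfsgH8.Mat

open Subgroup CfsgH5 CfsgH6 CfsgFT

variable {G : Type*} [Group G]

namespace Ctx

variable [Finite G] {M W P : Subgroup G} {x y : G} (h : Ctx M x y) (hW : IsW M W)
include h hW

theorem not_mem_y (hx : W ≤ C1 x) {w : G} (hw : w ∈ W) (h1 : w ≠ 1) : w ∉ C1 y := fun e =>
  h1 (h.eq_one_of_ln hW (k := 0) (l := 1) (by decide) (by rwa [ln_zero]) hw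
    (by rwa [show ln x y 1 = y from el_zero_one x y]))

theorem C_eq (hx : W ≤ C1 x) {w : G} (hw : w ∈ W) (h1 : w ≠ 1) :
    C1 (y * w * y⁻¹) ⊓ C1 w = C W := by
  have h2 := hW.nrm y h.bas.yV w hw
  refine le_antisymm (fun g hg => le_C1_iff.1 ?_) (le_inf (C_le_C1 h2) (C_le_C1 hw))
  refine inf_eq_left.1 (eq_of_le_of_card_le inf_le_left ?_)
  have h4 := card_dvd_of_le (inf_le_left : W ⊓ C1 g ≤ W)
  have h5 := card_lt_of_lt (show zpowers w < W ⊓ C1 g from SetLike.lt_iff_le_and_exists.2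
    ⟨zpowers_le.2 ⟨hw, mem_C1_comm.1 hg.2⟩, _, mem_inf.2 ⟨h2, mem_C1_comm.1 hg.1⟩, fun e => by
      rcases mem_zpowers_order_two (h.sq_W hW hw) e with e | e
      · exact h1 (conj_eq_one_iff.1 e)
      · exact h.not_mem_y hW hx hw h1 (mem_C1_iff_conj'.2 e)⟩)
  rw [card_zp2 (h.sq_W hW hw) h1] at h5
  rw [hW.card] at h4 ⊢
  exact Nat.le_of_dvd (by omega) ((by decide : ∀ n ∈ Nat.divisors 4, 2 < n → 4 ∣ n) _
    (Nat.mem_divisors.2 ⟨h4, by norm_num⟩) h5)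

variable (hP : PD W P)
include hP

theorem le_P : W ≤ P := hP.le_of (h.ab_W hW) hW.pg

theorem nrm_P : Nrm M P := hP.nrm.mono hW.nrm.le_N

theorem inf_x (hx : W ≤ C1 x) : P ⊓ C1 (ln x y 0) = W := by
  rw [ln_zero]
  exact (h.eq_of_ge hW hP.pg.to_inf_left (le_inf (h.le_P hW hP) hx) h.bas.xV h.bas.x1
    inf_le_right).symm

theorem card_ne_four (hx : W ≤ C1 x) {w : G} (hw : w ∈ W) (h1 : w ≠ 1) {m : ℕ}
    (h2 : Nat.card (C1 w) = 2 ^ 7 * m) (hm : ¬ 2 ∣ m) (h64 : ∀ g : G, orderOf g ≠ 64) :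
    Nat.card P ≠ 4 := fun e => by
  obtain ⟨S, h3, hS⟩ := exists_sylIn_ge (le_C1_iff.2 (h.ab_W hW hw)) hW.pg
  obtain ⟨g, hg⟩ := suzuki64 (card_of_sylIn Nat.prime_two hS h2 hm) (h3 (hW.nrm y h.bas.yV w hw))
    (by simpa using h1) hW.card (fun w => h.sq_W hW) (by
      rw [eq_of_le_of_card_eq (h.le_P hW hP) (hW.card.trans e.symm)]
      exact hP.le_of (h.C_eq hW hx hw h1 ▸ le_inf inf_le_right (inf_le_left.trans hS.le))
        hS.isPGroup.to_inf_left)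
  exact h64 g hg

theorem card_cases (hx : W ≤ C1 x) (h1 : Nat.card P ≤ 128) :
    Nat.card P = 4 ∨ Nat.card P = 16 ∨ Nat.card P = 64 := by
  have h2 := h.card_inf_ln hP.pg (h.nrm_P hW hP)
  have h3 := wielandt4 h.bas h.cent hP.pg (h.nrm_P hW hP)
  rw [Fin.prod_univ_four, h.inf_x hW hP hx, hW.card, h2 1, h2 2, h2 3] at h3
  split_ifs at h3 <;> omega

theorem sixteen (hx : W ≤ C1 x) (h1 : Nat.card P = 16) : Ab P ∧ (∃ m ∈ M, P ⊓ C1 m = ⊥) ∧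
    ∃ k, k ≠ 0 ∧ IsW M (P ⊓ C1 (ln x y k)) ∧ W ⊔ P ⊓ C1 (ln x y k) = P := by
  have h2 := h.card_inf_ln hP.pg (h.nrm_P hW hP)
  have h3 := wielandt4 h.bas h.cent hP.pg (h.nrm_P hW hP)
  rw [Fin.prod_univ_four, h.inf_x hW hP hx, hW.card, h2 1, h2 2, h2 3, h1] at h3
  obtain ⟨k, hk, h4⟩ : ∃ k, k ≠ 0 ∧ P ⊓ C1 (ln x y k) ≠ ⊥ := by
    by_contra hc
    push Not at hc
    simp [hc 1 (by decide), hc 2 (by decide), hc 3 (by decide)] at h3
  obtain ⟨l, h5⟩ : ∃ l, P ⊓ C1 (ln x y l) = ⊥ := by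
    by_contra hc
    push Not at hc
    simp [hc 1, hc 2, hc 3] at h3
  have h6 := h.isW_inf hP.pg (h.nrm_P hW hP) (ln_mem h.bas k) (ln_ne h.bas k) h4
  have h7 : P ⊓ C1 (ln x y k) ≤ C W := inf_le_left.trans hP.le
  have h8 : W ⊔ P ⊓ C1 (ln x y k) = P := eq_of_le_of_card_eq (sup_le (h.le_P hW hP) inf_le_left) (by
    rw [card_sup_of_inf_eq_bot (Or.inr (nrm_of_le_C h7)) (eq_bot_iff.2 fun u hu =>
      h.eq_one_of_ln hW hk.symm (by rwa [ln_zero]) hu.1 hu.2.2), hW.card, h6.card, h1])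
  exact ⟨h8 ▸ (h.ab_W hW).sup (h.ab_W h6) (le_C_symm h7), ⟨_, ln_mem h.bas l, h5⟩, k, hk, h6, h8⟩

end Ctx

theorem card_fix_le [Finite G] {P : Subgroup G} (hP : Ab P) (h1 : Nat.card P = 16) {m z : G}
    (hm : m ∈ N P) (m3 : m ^ 3 = 1) (hz : z * m * z⁻¹ = m⁻¹) (h2 : P ⊓ C1 m = ⊥) :
    Nat.card ↥(P ⊓ C1 z) ≤ 4 := by
  have h3 : cj m (P ⊓ C1 z) ≤ P := (cj_mono inf_le_left).trans (mem_N.1 hm).le
  have h4 := card_le_of_le (sup_le (inf_le_left : P ⊓ C1 z ≤ P) h3)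
  rw [card_sup_of_inf_eq_bot (Or.inl ((hP.nrm h3).mono inf_le_left)) (eq_bot_iff.2 fun u hu => by
    rw [← h2]
    refine ⟨hu.1.1, mem_C1_comm.1 ?_⟩
    rw [cj_inf, cj_C1] at hu
    have h5 := (C1 u).mul_mem ((C1 u).inv_mem (mem_C1_comm.1 hu.2.2)) (mem_C1_comm.1 hu.1.2)
    have h6 : (m * z * m⁻¹)⁻¹ * z = m ^ 3 * m⁻¹ := by
      calc _ = m * (z⁻¹ * m⁻¹ * z) := by group
        _ = m * m := by rw [← hz]; group
        _ = _ := by simp [pow_succ, mul_assoc]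
    rwa [h6, m3, one_mul, inv_mem_iff] at h5), card_cj, h1] at h4
  nlinarith

/-- a normalizing element of `P⟨z⟩` normalizes `P` -/
theorem mem_N_of_fix [Finite G] {P : Subgroup G} (hP : Ab P) (h1 : Nat.card P = 16) {z g : G}
    (z2 : z * z = 1) (hz : z ∈ N P) (hz' : z ∉ P) (h2 : Nat.card ↥(P ⊓ C1 z) ≤ 4)
    (hg : g ∈ N (P ⊔ zpowers z)) : g ∈ N P := by
  by_contra hc
  have h3 : cj g P ≤ P ⊔ zpowers z := (cj_mono le_sup_left).trans (mem_N.1 hg).le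
  obtain ⟨u, hu, hu'⟩ := SetLike.not_le_iff_exists.1 fun e => hc (mem_N_of_cj_le e)
  have h4 := (mem_sup_inv z2 hz (h3 hu)).resolve_left hu'
  have h5 := card_le_of_le (show P ⊓ cj g P ≤ P ⊓ C1 z from fun v hv => ⟨hv.1, mem_C1_comm.1 (by
    have := (C1 v).mul_mem ((C1 v).inv_mem (mem_C1.2 ((hP.cjj g).comm hu hv.2)))
      (mem_C1.2 (hP.comm h4 hv.1))
    rwa [inv_mul_cancel_left] at this)⟩)
  have h6 := card_inf_mul_relIndex P (cj g P)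
  have h7 := relIndex_le_of_le_right h3 (relIndex_ne_zero' P _)
  rw [relIndex_eq_of_mul le_sup_left (card_sup_inv z2 hz' hz).symm] at h7
  rw [card_cj, h1] at h6
  nlinarith

end CfsgH8.Mat
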