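import Cfsg.Agent.H8.Pres

set_option autoImplicit false

/-! Isomorphisms from an index bound; membership of target words. -/

namespace CfsgH8

open CfsgH3.TC CfsgH9 Subgroup

variable {G : Type*} [Group G]

/-- the path `p` spells `w` and is closed at the base coset -/
def checkTgt (C : Cert) (p w : List ℕ) : Bool :=
  match trace C.fact C.nfacts 0 p with
  | none => false
  | some (z, w') => Nat.beq z 0 && weq (strip w') w

theorem mem_of_tgt {val : ℕ → G} {rels subs : List (List ℕ)} {n : ℕ} {C : Cert}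
    (h : Sat val rels) {H : Subgroup G} (hs : ∀ w ∈ subs, wval val w ∈ H)
    (h1 : CfsgH9.allLt C.nfacts (checkFact (rels ++ trivRels n) subs C) = true) {p w : List ℕ}
    (h2 : checkTgt C p w = true) : wval val w ∈ H := by
  have hv := facts_valid (h.append_triv n).1 (h.append_triv n).2 hs (allLt_iff.1 h1)
  unfold checkTgt at h2
  rcases h3 : trace C.fact C.nfacts 0 p with _ | ⟨z, w'⟩
  · simp [h3] at h2
  rw [h3] at h2
  simp only [Bool.and_eq_true] at h2
  have h4 := trace_sound hv p 0 z w' h3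
  rw [Nat.eq_of_beq_eq_true h2.1, rep_zero] at h4
  rw [← eq_of_weq h2.2, wval_strip val h.1]
  simpa using h4

theorem wval_mem_Gen {val : ℕ → G} (h0 : val 0 = 1) {n : ℕ} {w : List ℕ}
    (hw : ∀ l ∈ w, l / 2 ≤ n) : wval val w ∈ Gen n val := by
  induction w with
  | nil => exact one_mem _
  | cons c w ih =>
    rw [wval_cons]
    refine mul_mem ?_ (ih fun l hl => hw l (List.mem_cons_of_mem _ hl))
    have : val (c / 2) ∈ Gen n val := by
      rcases Nat.eq_zero_or_pos (c / 2) with e | e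
      · rw [e, h0]; exact one_mem _
      · exact mem_Gen val e (hw c List.mem_cons_self)
    unfold sval
    split_ifs
    exacts [this, inv_mem this]

theorem card_prod_sub {G' : Type*} [Group G'] (K : Subgroup (G × G')) :
    Nat.card K = Nat.card (K.map (MonoidHom.fst G G')) * Nat.card (K.comap (MonoidHom.inr G G')) := by
  let f := (MonoidHom.fst G G').comp K.subtype
  rw [← f.ker.index_mul_card, index_ker, MonoidHom.range_comp, range_subtype]
  congr 1
  refine Nat.card_congr ⟨fun a => ⟨a.1.1.2, ?_⟩, fun b => ⟨⟨(1, b.1), b.2⟩, rfl⟩, fun a => ?_,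
    fun b => rfl⟩
  · have e : a.1.1.1 = 1 := a.2
    change ((1 : G), a.1.1.2) ∈ K
    rw [← e]
    exact a.1.2
  · exact Subtype.ext (Subtype.ext (Prod.ext (Eq.symm a.2) rfl))

theorem equiv_of_index {G' : Type*} [Group G'] [Finite G] [Finite G'] {rels subs : List (List ℕ)}
    {n : ℕ} {C : Cert} {v : ℕ → G} {v' : ℕ → G'} (hv : Sat v rels) (hv' : Sat v' rels)
    (g1 : Gen n v = ⊤) (g2 : Gen n v' = ⊤) {N : Subgroup G} {N' : Subgroup G'}
    (hs : ∀ w ∈ subs, wval v w ∈ N) (hs' : ∀ w ∈ subs, wval v' w ∈ N')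
    (hl : ∀ w ∈ subs, ∀ l ∈ w, l / 2 ≤ n)
    (h1 : CfsgH9.allLt C.nfacts (checkFact (rels ++ trivRels n) subs C) = true)
    (h2 : checkFinAll C n = true) (hc : Nat.card G = Nat.card G')
    (key : ∀ L : Subgroup G', L.Normal → N.index * N'.relIndex L ≤ C.nliv → L = ⊥) :
    Nonempty (G ≃* G') := by
  let u : ℕ → G × G' := fun a => (v a, v' a)
  have e1 : ∀ w, (wval u w).1 = wval v w := map_wval (MonoidHom.fst G G') u
  have e2 : ∀ w, (wval u w).2 = wval v' w := map_wval (MonoidHom.snd G G') u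
  have hu : Sat u rels := ⟨Prod.ext hv.1 hv'.1, fun w hw =>
    Prod.ext ((e1 w).trans (hv.2 w hw)) ((e2 w).trans (hv'.2 w hw))⟩
  obtain ⟨K, hK⟩ : ∃ K, K = Gen n u := ⟨_, rfl⟩
  have k1 : K.map (MonoidHom.fst G G') = ⊤ := by rw [hK, map_Gen]; exact g1
  have k2 : K.map (MonoidHom.snd G G') = ⊤ := by rw [hK, map_Gen]; exact g2
  have h3 := (card_Gen_le hu (H := K ⊓ N.prod N') (fun w hw => ⟨hK ▸ wval_mem_Gen hu.1 (hl w hw),
    (e1 w).symm ▸ hs w hw, (e2 w).symm ▸ hs' w hw⟩) h1 h2).2
  rw [← hK, card_prod_sub K, card_prod_sub (K ⊓ _), k1] at h3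
  have h4 : K.comap (MonoidHom.inr G G') = ⊥ := by
    refine key _ ⟨fun a ha g => ?_⟩ ?_
    · obtain ⟨k, hk, rfl⟩ : g ∈ K.map (MonoidHom.snd G G') := k2 ▸ mem_top g
      have := mul_mem (mul_mem hk ha) (inv_mem hk)
      rw [mem_comap]
      convert this using 1
      ext <;> simp
    · have h5 : Nat.card ((K ⊓ N.prod N').map (MonoidHom.fst G G')) ≤ Nat.card N :=
        card_le_of_le (by rintro _ ⟨a, ha, rfl⟩; exact ha.2.1)
      have h6 : (K ⊓ N.prod N').comap (MonoidHom.inr G G') = N' ⊓ K.comap (MonoidHom.inr G G') := by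
        ext a
        simp [mem_prod, and_comm]
      have h7 := (N'.subgroupOf (K.comap (MonoidHom.inr G G'))).index_mul_card
      rw [← inf_subgroupOf_right, Nat.card_congr (subgroupOfEquivOfLe inf_le_right).toEquiv,
        inf_subgroupOf_right] at h7
      rw [h6, card_top, ← N.index_mul_card, ← h7] at h3
      refine Nat.le_of_mul_le_mul_right ?_ (Nat.mul_pos (Nat.card_pos (α := N))
        (Nat.card_pos (α := ↥(N' ⊓ K.comap (MonoidHom.inr G G')))))
      calc _ = _ := by rw [relIndex]; ring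
        _ ≤ _ := h3
        _ ≤ _ := Nat.mul_le_mul_left _ (Nat.mul_le_mul_right _ h5)
  have h5 := card_prod_sub K
  rw [k1, h4, card_bot, card_top, mul_one] at h5
  have b1 : Function.Bijective ((MonoidHom.fst G G').comp K.subtype) :=
    (Nat.bijective_iff_surjective_and_card _).2 ⟨by
      rw [← MonoidHom.range_eq_top, MonoidHom.range_comp, range_subtype, k1], h5⟩
  have b2 : Function.Bijective ((MonoidHom.snd G G').comp K.subtype) :=
    (Nat.bijective_iff_surjective_and_card _).2 ⟨by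
      rw [← MonoidHom.range_eq_top, MonoidHom.range_comp, range_subtype, k2], h5.trans hc⟩
  exact ⟨(MulEquiv.ofBijective _ b1).symm.trans (MulEquiv.ofBijective _ b2)⟩

end CfsgH8
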