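import Cfsg.Agent.H8.PronA

set_option autoImplicit false
set_option linter.unusedSectionVars false

/-! Fixed points of pronormal subgroups: deficiency, blocks, the case of deficiency one. -/

namespace CfsgH8.Pron

open scoped Pointwise

variable {G Ω : Type} [Group G] [Finite G] [MulAction G Ω] [Finite Ω] {K A : Subgroup G}

/-- deficiency -/
noncomputable def df (K : Subgroup G) (S : Set Ω) : ℤ :=
  (S.ncard : ℤ) - 2 * ((Fk K Ω ∩ S).ncard : ℤ)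

theorem df_sdiff {S T : Set Ω} (h : T ⊆ S) : df K S = df K T + df K (S \ T) := by
  have e1 := Set.ncard_sdiff_add_ncard_of_subset h
  have e2 := Set.ncard_sdiff_add_ncard_of_subset (Set.inter_subset_inter_right (Fk K Ω) h)
  have e3 : (Fk K Ω ∩ S) \ (Fk K Ω ∩ T) = Fk K Ω ∩ (S \ T) := by
    ext; simp; tauto
  rw [e3] at e2
  simp only [df]
  omega

theorem df_sub {S : Set Ω} (h : S ⊆ Fk K Ω) : df K S = -S.ncard := by
  simp only [df, Set.inter_eq_right.2 h]; ring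

theorem df_single {x : Ω} (h : x ∈ Fk K Ω) : df K ({x} : Set Ω) = -1 := by
  rw [df_sub (by simpa)]; simp

theorem orb_df (hP : Pron K) (hT : TB (Nat.card Ω)) (hA : K ≤ A) {y : Ω} (h1 : orb A y ≠ Set.univ)
    (h2 : ¬ orb A y ⊆ Fk K Ω) : 1 ≤ df K (orb A y) := by
  have := hT G Ω K A y hP hA (by
    rw [← Set.ncard_univ]; exact Set.ncard_lt_ncard (Set.ssubset_univ_iff.2 h1)) h2
  simp only [df]; omega

theorem inv_df (hP : Pron K) (hT : TB (Nat.card Ω)) (hA : K ≤ A) (S : Set Ω)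
    (hS : ∀ a ∈ A, ∀ p ∈ S, a • p ∈ S) (h1 : S ≠ Set.univ) (h2 : ∀ y ∈ S, ¬ orb A y ⊆ Fk K Ω) :
    0 ≤ df K S ∧ (S.Nonempty → 1 ≤ df K S) := by
  induction hn : S.ncard using Nat.strong_induction_on generalizing S with
  | _ n ih =>
  rcases S.eq_empty_or_nonempty with rfl | ⟨p, hp⟩
  · simp [df]
  have a2 := orb_sub hS hp
  have e := Set.ncard_sdiff_add_ncard_of_subset a2
  have l : 0 < (orb A p).ncard := (Set.ncard_pos (Set.toFinite _)).2 ⟨p, mem_orb_self p⟩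
  have k := (ih _ (by omega) (S \ orb A p) (sdiff_orb hS p)
    (fun h => h1 (Set.univ_subset_iff.1 (h ▸ Set.diff_subset))) (fun y hy => h2 y hy.1) rfl).1
  have k2 := orb_df hP hT hA (fun h => h1 (Set.univ_subset_iff.1 (h ▸ a2))) (h2 p hp)
  rw [df_sdiff a2]
  omega

/-- the points lying on the same members -/
def cl (K A : Subgroup G) (x : Ω) : Set Ω :=
  {z | z ∈ orb A x ∧ ∀ a ∈ A, (a • x ∈ Fk K Ω ↔ a • z ∈ Fk K Ω)}

theorem mem_cl_self (x : Ω) : x ∈ cl K A x := ⟨mem_orb_self x, fun _ _ => Iff.rfl⟩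

theorem cl_eq {x z : Ω} (h : z ∈ cl K A x) : cl K A z = cl K A x := by
  ext y
  simp only [cl, Set.mem_setOf_eq, orb_eq h.1]
  exact and_congr_right fun _ => forall₂_congr fun a ha => by rw [h.2 a ha]

theorem smul_cl {x : Ω} {a : G} (ha : a ∈ A) : a • cl K A x = cl K A (a • x) := by
  ext y
  rw [Set.mem_smul_set_iff_inv_smul_mem]
  simp only [cl, Set.mem_setOf_eq, orb_eq (smul_mem_orb ha (mem_orb_self x))]
  constructor
  · rintro ⟨h1, h2⟩
    refine ⟨by simpa using smul_mem_orb ha h1, fun b hb => ?_⟩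
    have := h2 _ (A.mul_mem hb ha)
    rwa [mul_smul, mul_smul, smul_inv_smul] at this
  · rintro ⟨h1, h2⟩
    refine ⟨smul_mem_orb (A.inv_mem ha) h1, fun b hb => ?_⟩
    have := h2 _ (A.mul_mem hb (A.inv_mem ha))
    rwa [mul_smul, mul_smul, inv_smul_smul] at this

theorem mem_cl_of_imp {x z : Ω} (hz : z ∈ orb A x) (h : ∀ a ∈ A, a • x ∈ Fk K Ω → a • z ∈ Fk K Ω) :
    z ∈ cl K A x := by
  refine ⟨hz, ?_⟩
  obtain ⟨u, hu, rfl⟩ := hz
  have e : {a | a ∈ A ∧ a • x ∈ Fk K Ω} = {a | a ∈ A ∧ a • u • x ∈ Fk K Ω} := by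
    refine Set.eq_of_subset_of_ncard_le (fun a ha => ⟨ha.1, h a ha.1 ha.2⟩) ?_
    exact Set.ncard_le_ncard_of_injOn (· * u)
      (fun a ha => ⟨A.mul_mem ha.1 hu, by rw [mul_smul]; exact ha.2⟩)
      (fun a _ b _ e => mul_right_cancel e)
  intro a ha
  have := Set.ext_iff.1 e a
  simpa [ha] using this

theorem blk (hP : Pron K) (hT : TB (Nat.card Ω)) (hA : K ≤ A) {x : Ω} (hx : x ∈ Fk K Ω)
    (h2 : ¬ orb A x ⊆ Fk K Ω) (hb : 2 ≤ (cl K A x).ncard) :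
    ((cl K A x).ncard : ℤ) ≤ df K (orb A x) := by
  set b := (cl K A x).ncard with hbd
  have c1 : ∀ p ∈ orb A x, (cl K A p).ncard = b := by
    rintro _ ⟨a, ha, rfl⟩
    rw [← smul_cl ha, Set.ncard_smul_set]
  have c2 : ∀ p ∈ orb A x, cl K A p ⊆ orb A x := fun p hp q hq => orb_eq hp ▸ hq.1
  have c3 : ∀ p ∈ Fk K Ω, cl K A p ⊆ Fk K Ω := fun p hp q hq => by
    simpa [hp] using hq.2 1 A.one_mem
  have e1 := card_fib (cl K A) b (orb A x) (fun p hp => ⟨mem_cl_self p, c2 p hp, c1 p hp⟩)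
    (fun p _ q hq => cl_eq hq)
  have e2 := card_fib (cl K A) b (Fk K Ω ∩ orb A x) (fun p hp => ⟨mem_cl_self p,
    Set.subset_inter (c3 p hp.1) (c2 p hp.2), c1 p hp.2⟩) (fun p _ q hq => cl_eq hq)
  have e3 : cl K A '' orb A x = orb A (cl K A x) := by
    ext T
    constructor
    · rintro ⟨_, ⟨a, ha, rfl⟩, rfl⟩; exact ⟨a, ha, smul_cl ha⟩
    · rintro ⟨a, ha, rfl⟩; exact ⟨_, ⟨a, ha, rfl⟩, (smul_cl ha).symm⟩
  have e4 : cl K A '' (Fk K Ω ∩ orb A x) ⊆ Fk K (Set Ω) ∩ orb A (cl K A x) := by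
    rintro _ ⟨p, hp, rfl⟩
    refine ⟨fun k hk => ?_, e3 ▸ ⟨p, hp.2, rfl⟩⟩
    rw [smul_cl (hA hk), hp.1 k hk]
  have e5 := Set.ncard_le_ncard e4
  rw [e3] at e1
  have l1 : (orb A x).ncard ≤ Nat.card Ω := by
    rw [← Set.ncard_univ]; exact Set.ncard_le_ncard (Set.subset_univ _)
  have l2 : 0 < (orb A x).ncard := (Set.ncard_pos (Set.toFinite _)).2 ⟨x, mem_orb_self x⟩
  have k := hT G (Set Ω) K A (cl K A x) hP hA (by nlinarith) (fun hs => h2 ?_)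
  · have : 2 * (Fk K Ω ∩ orb A x).ncard + b ≤ (orb A x).ncard := by
      rw [e1, e2]; nlinarith
    simp only [df]; omega
  · rintro _ ⟨g, hg, rfl⟩
    let L : Subgroup G :=
      { carrier := {a | a ∈ A ∧ ∀ p ∈ orb A x, a • cl K A p = cl K A p}
        mul_mem' := fun {a b} ha hb => ⟨A.mul_mem ha.1 hb.1, fun x hx => by
          rw [mul_smul, hb.2 x hx, ha.2 x hx]⟩
        one_mem' := ⟨A.one_mem, fun x _ => one_smul _ _⟩
        inv_mem' := fun {a} ha => ⟨A.inv_mem ha.1, fun x hx => inv_smul_eq_iff.2 (ha.2 x hx).symm⟩ }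
    have hk : ∀ k ∈ K, ∀ p ∈ orb A x, k • cl K A p = cl K A p := fun k hk p hp =>
      hs (e3 ▸ ⟨p, hp, rfl⟩) k hk
    obtain ⟨w, hw, e⟩ := hP.pr Ω g L (fun k h => ⟨hA h, hk k h⟩) (fun k h =>
      ⟨A.mul_mem (A.mul_mem hg (hA h)) (A.inv_mem hg), fun p hp => by
        rw [mul_smul, mul_smul, smul_cl (A.inv_mem hg), hk k h _ (smul_mem_orb (A.inv_mem hg) hp),
          smul_cl hg, smul_inv_smul]⟩)
    have m1 : g • x ∈ w • Fk K Ω := e ▸ Set.smul_mem_smul_set hx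
    rw [Set.mem_smul_set_iff_inv_smul_mem] at m1
    have m2 := (L.inv_mem hw).2 _ ⟨g, hg, rfl⟩
    rw [smul_cl (A.inv_mem hw.1)] at m2
    exact c3 _ m1 (m2 ▸ mem_cl_self _)

/-- point stabiliser in `A` -/
abbrev sb (A : Subgroup G) (x : Ω) : Subgroup G := A ⊓ MulAction.stabilizer G x

theorem mem_sb {x : Ω} {a : G} : a ∈ sb A x ↔ a ∈ A ∧ a • x = x := Iff.rfl

theorem le_sb (hA : K ≤ A) {x : Ω} (hx : x ∈ Fk K Ω) : K ≤ sb A x := fun k hk => ⟨hA hk, hx k hk⟩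

theorem nb (hP : Pron K) (hA : K ≤ A) {x y : Ω} (hx : x ∈ Fk K Ω) (hy : y ∈ orb A x)
    (h : y ∉ cl K A x) : ¬ orb (sb A x) y ⊆ Fk K Ω := by
  intro hs
  refine h (mem_cl_of_imp hy fun a ha hax => ?_)
  obtain ⟨n, hn, e1, e2⟩ := hP.witt hA ha {x} (by simpa) (by simpa)
  have e3 := e2 x rfl
  have : (n⁻¹ * a) • y ∈ Fk K Ω := hs ⟨_, mem_sb.2 ⟨A.mul_mem (A.inv_mem hn) ha, by
    rw [mul_smul, ← e3, inv_smul_smul]⟩, rfl⟩
  rw [← e1, Set.mem_smul_set_iff_inv_smul_mem, ← mul_smul]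
  exact this

theorem inv_sdiff (x : Ω) : ∀ a ∈ sb A x, ∀ p ∈ orb A x \ {x}, a • p ∈ orb A x \ {x} :=
  fun a ha p hp => ⟨smul_mem_orb ha.1 hp.1, fun h => hp.2 (by
    have h2 : a • x = x := ha.2
    rw [Set.mem_singleton_iff] at h ⊢
    exact smul_left_cancel a (h.trans h2.symm))⟩

theorem cl_single {x : Ω} (h : ¬ 2 ≤ (cl K A x).ncard) {y : Ω} (hy : y ≠ x) : y ∉ cl K A x :=
  fun h' => h ((Set.one_lt_ncard (Set.toFinite _)).2 ⟨y, h', x, mem_cl_self x, hy⟩)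

/-- two distinct orbits of the stabiliser -/
theorem two_orb (hP : Pron K) (hT : TB (Nat.card Ω)) (hA : K ≤ A) {x y z : Ω} (hx : x ∈ Fk K Ω)
    (hb : ¬ 2 ≤ (cl K A x).ncard) (hy : y ∈ orb A x \ {x}) (hz : z ∈ orb A x \ {x})
    (hyz : z ∉ orb (sb A x) y) :
    1 ≤ df K (orb (sb A x) y) ∧ 1 ≤ df K (orb (sb A x) z) ∧
      0 ≤ df K (((orb A x \ {x}) \ orb (sb A x) y) \ orb (sb A x) z) ∧
      ((((orb A x \ {x}) \ orb (sb A x) y) \ orb (sb A x) z).Nonempty →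
        1 ≤ df K (((orb A x \ {x}) \ orb (sb A x) y) \ orb (sb A x) z)) ∧
      df K (orb A x) + 1 = df K (orb (sb A x) y) + df K (orb (sb A x) z) +
        df K (((orb A x \ {x}) \ orb (sb A x) y) \ orb (sb A x) z) := by
  have i1 := inv_sdiff (A := A) x
  have i2 := sdiff_orb i1 y
  have i3 := sdiff_orb i2 z
  have n1 : ∀ p ∈ orb A x \ {x}, ¬ orb (sb A x) p ⊆ Fk K Ω := fun p hp =>
    nb hP hA hx hp.1 (cl_single hb hp.2)
  have u1 : ∀ S ⊆ orb A x \ {x}, S ≠ Set.univ := fun S hS h => (hS (h ▸ Set.mem_univ x)).2 rfl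
  have k := inv_df hP hT (le_sb hA hx) _ i3 (u1 _ (Set.diff_subset.trans Set.diff_subset))
    (fun p hp => n1 p hp.1.1)
  refine ⟨orb_df hP hT (le_sb hA hx) (u1 _ (orb_sub i1 hy)) (n1 y hy),
    orb_df hP hT (le_sb hA hx) (u1 _ (orb_sub i1 hz)) (n1 z hz), k.1, k.2, ?_⟩
  rw [df_sdiff (Set.singleton_subset_iff.2 (mem_orb_self x)), df_single hx,
    df_sdiff (orb_sub i1 hy), df_sdiff (orb_sub i2 ⟨hz, hyz⟩)]
  ring

/-- orbitals -/
def R (A : Subgroup G) (x u p q : Ω) : Prop := ∃ a ∈ A, a • x = p ∧ a • u = q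

theorem R.smul {x u p q : Ω} (h : R A x u p q) {a : G} (ha : a ∈ A) : R A x u (a • p) (a • q) := by
  obtain ⟨b, hb, rfl, rfl⟩ := h
  exact ⟨a * b, A.mul_mem ha hb, mul_smul _ _ _, mul_smul _ _ _⟩

theorem R.symm {x u p q : Ω} (h : R A x u p q) : R A p q x u := by
  obtain ⟨b, hb, rfl, rfl⟩ := h
  exact ⟨b⁻¹, A.inv_mem hb, inv_smul_smul _ _, inv_smul_smul _ _⟩

theorem R.trans {x u p q r s : Ω} (h : R A x u p q) (h' : R A p q r s) : R A x u r s := by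
  obtain ⟨b, hb, rfl, rfl⟩ := h'
  exact h.smul hb

theorem R.swap {x u p q : Ω} (h : R A x u p q) : R A u x q p := by
  obtain ⟨b, hb, h1, h2⟩ := h
  exact ⟨b, hb, h2, h1⟩

theorem R.ne {x u p q : Ω} (h : R A x u p q) (hne : u ≠ x) : q ≠ p := by
  obtain ⟨b, hb, rfl, rfl⟩ := h
  exact fun e => hne (smul_left_cancel _ e)

theorem R_out {x u q : Ω} : R A x u x q ↔ q ∈ orb (sb A x) u :=
  ⟨fun ⟨a, ha, h1, h2⟩ => ⟨a, ⟨ha, h1⟩, h2⟩, fun ⟨a, ha, h2⟩ => ⟨a, ha.1, ha.2, h2⟩⟩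

theorem le_of_smul {U V : Set Ω} (n : G) (h : ∀ p ∈ U, n • p ∈ V) : U.ncard ≤ V.ncard :=
  Set.ncard_le_ncard_of_injOn (n • ·) h (fun _ _ _ _ e => smul_left_cancel _ e)

theorem R_card {x u p : Ω} (hp : p ∈ orb A x) : {q | R A x u p q}.ncard = (orb (sb A x) u).ncard := by
  obtain ⟨a, ha, rfl⟩ := hp
  apply le_antisymm
  · exact le_of_smul a⁻¹ fun q hq => R_out.1 (by simpa using R.smul hq (A.inv_mem ha))
  · exact le_of_smul a fun q hq => (R_out.2 hq).smul ha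

theorem odd_sym {x u : Ω} (hne : u ≠ x) (h1 : ¬ 2 ∣ (orb A x).ncard)
    (h2 : ¬ 2 ∣ (orb (sb A x) u).ncard) : ¬ R A x u u x := by
  intro h
  have e1 := even_of_fpf Prod.swap {e : Ω × Ω | R A x u e.1 e.2} (fun e he =>
    ⟨h.trans (R.swap he), fun h' => R.ne he hne (congrArg Prod.fst h'), rfl⟩)
  have e2 := dcount (orb A x) {e : Ω × Ω | R A x u e.1 e.2} (fun p e => e.1 = p)
    (orb (sb A x) u).ncard 1 (fun p hp => by
      rw [← R_card hp, ← Set.ncard_image_of_injective {q | R A x u p q} (Prod.mk_right_injective p)]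
      refine congrArg Set.ncard ?_
      ext ⟨a, b⟩
      constructor
      · rintro ⟨h, rfl⟩; exact ⟨b, h, rfl⟩
      · rintro ⟨c, h, e⟩
        obtain ⟨rfl, rfl⟩ := Prod.ext_iff.1 e
        exact ⟨h, rfl⟩) (fun e he => by
      rw [Set.ncard_eq_one]
      obtain ⟨a, ha, h1, -⟩ := he
      refine ⟨e.1, ?_⟩
      ext p
      exact ⟨fun h => h.2.symm, fun h => ⟨⟨a, ha, h1.trans h.symm⟩, h.symm⟩⟩)
  rw [mul_one] at e2
  rw [← e2] at e1
  exact (Nat.prime_two.dvd_mul.1 e1).elim h1 h2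

theorem exists_move {p : Ω} (h : p ∉ Fk K Ω) : ∃ k ∈ K, k • p ≠ p := by
  simpa [Fk] using h

theorem smul_Fk {k : G} (hk : k ∈ K) {p : Ω} (h : p ∉ Fk K Ω) : k • p ∉ Fk K Ω := fun h' =>
  h (by have := h' _ (K.inv_mem hk); rw [inv_smul_smul] at this; rwa [this])

theorem mem_of_norm {n : G} {F : Set Ω} (h : n • F = F) {p : Ω} : n • p ∈ F ↔ p ∈ F := by
  conv_lhs => rw [← h]
  exact Set.smul_mem_smul_set_iff

/-- deficiency one forces double transitivity -/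
theorem d1 (hP : Pron K) (hT : TB (Nat.card Ω)) (hA : K ≤ A) {x : Ω} (hx : x ∈ Fk K Ω)
    (hd : df K (orb A x) = 1) {y z : Ω} (hy : y ∈ orb A x \ {x}) (hz : z ∈ orb A x \ {x}) :
    z ∈ orb (sb A x) y := by
  have h2 : ¬ orb A x ⊆ Fk K Ω := fun h => by rw [df_sub h] at hd; omega
  have hb : ¬ 2 ≤ (cl K A x).ncard := fun h => by have := blk hP hT hA hx h2 h; omega
  by_contra hyz
  obtain ⟨a1, a2, a3, a4, a5⟩ := two_orb hP hT hA hx hb hy hz hyz
  have cov : ∀ p ∈ orb A x, p ≠ x → p ∈ orb (sb A x) y ∨ p ∈ orb (sb A x) z := fun p hp hpx => by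
    by_contra hc
    push Not at hc
    have := a4 ⟨p, ⟨⟨hp, hpx⟩, hc.1⟩, hc.2⟩
    omega
  have cov' : ∀ p ∈ orb A x, ∀ q ∈ orb A x, q ≠ p → R A x y p q ∨ R A x z p q := by
    rintro _ ⟨a, ha, rfl⟩ q hq hne
    rcases cov (a⁻¹ • q) (smul_mem_orb (A.inv_mem ha) hq) (fun h => hne (by rw [← h]; simp)) with h | h
    · left; simpa using (R_out.2 h).smul ha
    · right; simpa using (R_out.2 h).smul ha
  have o0 : ¬ 2 ∣ (orb A x).ncard := by simp only [df] at hd; omega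
  have o1 : ¬ 2 ∣ (orb (sb A x) y).ncard := by simp only [df] at *; omega
  have o2 : ¬ 2 ∣ (orb (sb A x) z).ncard := by simp only [df] at *; omega
  have s1 := odd_sym hy.2 o0 o1
  have s2 := odd_sym hz.2 o0 o2
  have mem : ∀ {u p q}, u ∈ orb A x → R A x u p q → p ∈ orb A x ∧ q ∈ orb A x := by
    rintro u _ _ hu ⟨a, ha, rfl, rfl⟩
    exact ⟨⟨a, ha, rfl⟩, smul_mem_orb ha hu⟩
  have t1 : ∀ p q, R A x y p q ↔ R A x z q p := fun p q =>
    ⟨fun h => (cov' q (mem hy.1 h).2 p (mem hy.1 h).1 (h.ne hy.2).symm).resolve_left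
      fun h' => s1 (h'.trans h.swap.symm),
    fun h => (cov' p (mem hz.1 h).2 q (mem hz.1 h).1 (h.ne hz.2).symm).resolve_right
      fun h' => s2 (h'.trans h.swap.symm)⟩
  have l2 : 0 < (orb A x).ncard := (Set.ncard_pos (Set.toFinite _)).2 ⟨x, mem_orb_self x⟩
  have k12 : (orb (sb A x) y).ncard = (orb (sb A x) z).ncard := by
    have := dcount (orb A x) (orb A x) (R A x y) (orb (sb A x) y).ncard (orb (sb A x) z).ncard
      (fun p hp => by
        rw [← R_card hp]; congr 1; ext q; exact ⟨fun h => h.2, fun h => ⟨(mem hy.1 h).2, h⟩⟩)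
      (fun p hp => by
        rw [← R_card hp]; congr 1; ext q
        exact ⟨fun h => (t1 _ _).1 h.2, fun h => ⟨(mem hz.1 h).2, (t1 _ _).2 h⟩⟩)
    exact Nat.eq_of_mul_eq_mul_left l2 this
  have c0 : (orb A x).ncard = 1 + (orb (sb A x) y).ncard + (orb (sb A x) z).ncard := by
    have e : orb A x = insert x (orb (sb A x) y ∪ orb (sb A x) z) := by
      ext p
      constructor
      · intro hp
        by_cases h : p = x
        · exact Or.inl h
        · exact Or.inr (cov p hp h)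
      · rintro (rfl | h | h)
        · exact mem_orb_self _
        · exact (orb_sub (inv_sdiff x) hy h).1
        · exact (orb_sub (inv_sdiff x) hz h).1
    rw [e, Set.ncard_insert_of_notMem, Set.ncard_union_eq]
    · ring
    · exact Set.disjoint_left.2 fun p h1 h2 => hyz (orb_eq h1 ▸ orb_symm h2)
    · rintro (h | h)
      · exact (orb_sub (inv_sdiff x) hy h).2 rfl
      · exact (orb_sub (inv_sdiff x) hz h).2 rfl
  obtain ⟨δ, hδ, hδF⟩ := Set.not_subset.1 (nb hP hA hx hy.1 (cl_single hb hy.2))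
  obtain ⟨k, hk, hkδ⟩ := exists_move hδF
  have k2 : 1 < (orb (sb A x) y).ncard := (Set.one_lt_ncard (Set.toFinite _)).2
    ⟨_, smul_mem_orb (le_sb hA hx hk) hδ, _, hδ, hkδ⟩
  have e3 := Set.ncard_inter_add_ncard_diff_eq_ncard (orb A x) (Fk K Ω)
  rw [Set.inter_comm] at e3
  have hle : ∀ η ∈ Fk K Ω ∩ orb A x, ∀ η' ∈ Fk K Ω ∩ orb A x, ∀ θ ∈ Fk K Ω ∩ orb A x,
      ∀ θ' ∈ Fk K Ω ∩ orb A x, R A η η' θ θ' →
      {p | p ∈ orb A x \ Fk K Ω ∧ R A x y η p ∧ R A x y η' p}.ncard ≤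
        {p | p ∈ orb A x \ Fk K Ω ∧ R A x y θ p ∧ R A x y θ' p}.ncard := by
    rintro η h1 η' h2 _ h3 _ h4 ⟨a, ha, rfl, rfl⟩
    obtain ⟨n, hn, e1, e2⟩ := hP.witt hA ha {η, η'} (by rintro _ (rfl | rfl); exacts [h1.1, h2.1])
      (by rintro _ (rfl | rfl); exacts [h3.1, h4.1])
    rw [← e2 η (by simp), ← e2 η' (by simp)]
    exact le_of_smul n fun p hp => ⟨⟨smul_mem_orb hn hp.1.1, fun h => hp.1.2 ((mem_of_norm e1).1 h)⟩,
      hp.2.1.smul hn, hp.2.2.smul hn⟩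
  have hc : ∀ η η', {p | p ∈ orb A x \ Fk K Ω ∧ R A x y η p ∧ R A x y η' p} =
      {p | p ∈ orb A x \ Fk K Ω ∧ R A x y η' p ∧ R A x y η p} := fun η η' => by
    ext p; simp only [Set.mem_setOf_eq]; tauto
  have fi := fisherK (K := K) (Fk K Ω ∩ orb A x) (orb A x \ Fk K Ω) (R A x y)
    (fun k hk p hp => ⟨smul_mem_orb (hA hk) hp.1, smul_Fk hk hp.2⟩) (fun p hp => hp.2)
    (fun η hη k hk p hp h => by have := h.smul (hA hk); rwa [hη.1 k hk] at this)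
    (fun η h1 θ h3 => by
      obtain ⟨a, ha, e⟩ := orb_tr h1.2 h3.2
      have u1 := hle η h1 η h1 θ h3 θ h3 ⟨a, ha, e, e⟩
      have u2 := hle θ h3 θ h3 η h1 η h1 (R.symm ⟨a, ha, e, e⟩)
      simp only [and_self] at u1 u2
      omega)
    (fun η h1 η' h2 θ h3 θ' h4 n1 n2 => by
      have key : ∀ η ∈ Fk K Ω ∩ orb A x, ∀ η' ∈ Fk K Ω ∩ orb A x, η ≠ η' →
          R A x y η η' ∨ R A x y η' η := fun η h1 η' h2 n =>
        (cov' η h1.2 η' h2.2 n.symm).imp_right fun h => (t1 _ _).2 h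
      rcases key η h1 η' h2 n1 with u | u <;> rcases key θ h3 θ' h4 n2 with v | v
      · exact le_antisymm (hle _ h1 _ h2 _ h3 _ h4 (u.symm.trans v))
          (hle _ h3 _ h4 _ h1 _ h2 (v.symm.trans u))
      · rw [hc θ]
        exact le_antisymm (hle _ h1 _ h2 _ h4 _ h3 (u.symm.trans v))
          (hle _ h4 _ h3 _ h1 _ h2 (v.symm.trans u))
      · rw [hc η]
        exact le_antisymm (hle _ h2 _ h1 _ h3 _ h4 (u.symm.trans v))
          (hle _ h3 _ h4 _ h2 _ h1 (v.symm.trans u))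
      · rw [hc η, hc θ]
        exact le_antisymm (hle _ h2 _ h1 _ h4 _ h3 (u.symm.trans v))
          (hle _ h4 _ h3 _ h2 _ h1 (v.symm.trans u)))
    (by simp only [df] at hd; omega)
  have hδO := (orb_sub (inv_sdiff x) hy hδ).1
  have fin : ∀ p ∈ orb A x \ Fk K Ω, R A x y x p → ∀ q, R A x y q p → q ∈ Fk K Ω := by
    intro p hp h q hq
    have e : Fk K Ω ∩ orb A x = {q | R A x z p q} := by
      refine Set.eq_of_subset_of_ncard_le
        (fun η hη => (t1 _ _).1 (fi x ⟨hx, mem_orb_self x⟩ η hη p hp h)) ?_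
      rw [R_card hp.1]
      simp only [df] at hd; omega
    exact (e.symm ▸ (t1 _ _).1 hq : q ∈ Fk K Ω ∩ orb A x).1
  have hkO := smul_mem_orb (hA hk) hδO
  rcases cov' δ hδO _ hkO hkδ with h | h
  · exact hδF (fin _ ⟨hkO, smul_Fk hk hδF⟩ (R_out.2 (smul_mem_orb (le_sb hA hx hk) hδ)) _ h)
  · exact smul_Fk hk hδF (fin _ ⟨hδO, hδF⟩ (R_out.2 hδ) _ ((t1 _ _).2 h))

end CfsgH8.Pron
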