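import Cfsg.Agent.H8.PronB

set_option autoImplicit false
set_option linter.unusedSectionVars false

/-! Fixed points of pronormal subgroups: the critical case, moments. -/

namespace CfsgH8.Pron

open scoped Pointwise

variable {G Ω : Type} [Group G] [Finite G] [MulAction G Ω] [Finite Ω] {K A : Subgroup G}

def T1 (G Ω : Type) [Group G] [MulAction G Ω] : Prop := ∀ a b : Ω, ∃ g : G, g • a = b

def T2 (G Ω : Type) [Group G] [MulAction G Ω] : Prop :=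
  ∀ a b a' b' : Ω, a ≠ b → a' ≠ b' → ∃ g : G, g • a = a' ∧ g • b = b'

def T3 (G Ω : Type) [Group G] [MulAction G Ω] : Prop :=
  ∀ a b c a' b' c' : Ω, a ≠ b → a ≠ c → b ≠ c → a' ≠ b' → a' ≠ c' → b' ≠ c' →
    ∃ g : G, g • a = a' ∧ g • b = b' ∧ g • c = c'

def T4 (G Ω : Type) [Group G] [MulAction G Ω] : Prop :=
  ∀ a b c d a' b' c' d' : Ω, a ≠ b → a ≠ c → a ≠ d → b ≠ c → b ≠ d → c ≠ d →
    a' ≠ b' → a' ≠ c' → a' ≠ d' → b' ≠ c' → b' ≠ d' → c' ≠ d' →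
    ∃ g : G, g • a = a' ∧ g • b = b' ∧ g • c = c' ∧ g • d = d'

def Hom (G Ω : Type) [Group G] [MulAction G Ω] (k : ℕ) : Prop :=
  ∀ X X' : Set Ω, X.ncard = k → X'.ncard = k → ∃ g : G, g • X = X'

theorem hom0 : Hom G Ω 0 := fun X X' h h' => by
  rw [Set.ncard_eq_zero] at h h'
  exact ⟨1, by simp [h, h']⟩

theorem T1.hom (h : T1 G Ω) : Hom G Ω 1 := fun X X' h1 h2 => by
  obtain ⟨a, rfl⟩ := Set.ncard_eq_one.1 h1
  obtain ⟨b, rfl⟩ := Set.ncard_eq_one.1 h2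
  obtain ⟨g, rfl⟩ := h a b
  exact ⟨g, by simp⟩

theorem T2.hom (h : T2 G Ω) : Hom G Ω 2 := fun X X' h1 h2 => by
  obtain ⟨a, b, n, rfl⟩ := Set.ncard_eq_two.1 h1
  obtain ⟨a', b', n', rfl⟩ := Set.ncard_eq_two.1 h2
  obtain ⟨g, rfl, rfl⟩ := h a b a' b' n n'
  exact ⟨g, by simp [Set.smul_set_insert]⟩

theorem T3.hom (h : T3 G Ω) : Hom G Ω 3 := fun X X' h1 h2 => by
  obtain ⟨a, b, c, n1, n2, n3, rfl⟩ := Set.ncard_eq_three.1 h1
  obtain ⟨a', b', c', m1, m2, m3, rfl⟩ := Set.ncard_eq_three.1 h2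
  obtain ⟨g, rfl, rfl, rfl⟩ := h a b c a' b' c' n1 n2 n3 m1 m2 m3
  exact ⟨g, by simp [Set.smul_set_insert]⟩

theorem T4.hom (h : T4 G Ω) : Hom G Ω 4 := fun X X' h1 h2 => by
  obtain ⟨a, b, c, d, n1, n2, n3, n4, n5, n6, rfl⟩ := Set.ncard_eq_four.1 h1
  obtain ⟨a', b', c', d', m1, m2, m3, m4, m5, m6, rfl⟩ := Set.ncard_eq_four.1 h2
  obtain ⟨g, rfl, rfl, rfl, rfl⟩ := h a b c d a' b' c' d' n1 n2 n3 n4 n5 n6 m1 m2 m3 m4 m5 m6
  exact ⟨g, by simp [Set.smul_set_insert]⟩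

theorem sne {g : G} {a b : Ω} (h : a ≠ b) : g • a ≠ g • b := fun e => h (smul_left_cancel _ e)

theorem T1.t2 (h : T1 G Ω) {x : Ω} (h' : ∀ y z : Ω, y ≠ x → z ≠ x → ∃ g : G, g • x = x ∧ g • y = z) :
    T2 G Ω := by
  intro a b a' b' n n'
  obtain ⟨g, rfl⟩ := h x a
  obtain ⟨g', rfl⟩ := h x a'
  obtain ⟨u, u1, u2⟩ := h' (g⁻¹ • b) (g'⁻¹ • b') (fun e => n (by rw [← e]; simp))
    (fun e => n' (by rw [← e]; simp))
  exact ⟨g' * u * g⁻¹, by simp [mul_smul, u1], by simp [mul_smul, u2]⟩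

theorem T2.t3 (h : T2 G Ω) {x x' : Ω} (hx : x ≠ x')
    (h' : ∀ y z : Ω, y ≠ x → y ≠ x' → z ≠ x → z ≠ x' → ∃ g : G, g • x = x ∧ g • x' = x' ∧ g • y = z) :
    T3 G Ω := by
  intro a b c a' b' c' n1 n2 n3 m1 m2 m3
  obtain ⟨g, rfl, rfl⟩ := h x x' a b hx n1
  obtain ⟨g', rfl, rfl⟩ := h x x' a' b' hx m1
  obtain ⟨u, u1, u2, u3⟩ := h' (g⁻¹ • c) (g'⁻¹ • c') (fun e => n2 (by rw [← e]; simp))
    (fun e => n3 (by rw [← e]; simp)) (fun e => m2 (by rw [← e]; simp))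
    (fun e => m3 (by rw [← e]; simp))
  exact ⟨g' * u * g⁻¹, by simp [mul_smul, u1], by simp [mul_smul, u2], by simp [mul_smul, u3]⟩

theorem T3.t4 (h : T3 G Ω) {x x' x'' : Ω} (h1 : x ≠ x') (h2 : x ≠ x'') (h3 : x' ≠ x'')
    (h' : ∀ y z : Ω, y ≠ x → y ≠ x' → y ≠ x'' → z ≠ x → z ≠ x' → z ≠ x'' →
      ∃ g : G, g • x = x ∧ g • x' = x' ∧ g • x'' = x'' ∧ g • y = z) : T4 G Ω := by
  intro a b c d a' b' c' d' n1 n2 n3 n4 n5 n6 m1 m2 m3 m4 m5 m6
  obtain ⟨g, rfl, rfl, rfl⟩ := h x x' x'' a b c h1 h2 h3 n1 n2 n4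
  obtain ⟨g', rfl, rfl, rfl⟩ := h x x' x'' a' b' c' h1 h2 h3 m1 m2 m4
  obtain ⟨u, u1, u2, u3, u4⟩ := h' (g⁻¹ • d) (g'⁻¹ • d') (fun e => n3 (by rw [← e]; simp))
    (fun e => n5 (by rw [← e]; simp)) (fun e => n6 (by rw [← e]; simp))
    (fun e => m3 (by rw [← e]; simp)) (fun e => m5 (by rw [← e]; simp))
    (fun e => m6 (by rw [← e]; simp))
  exact ⟨g' * u * g⁻¹, by simp [mul_smul, u1], by simp [mul_smul, u2], by simp [mul_smul, u3],
    by simp [mul_smul, u4]⟩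

/-- the critical case -/
structure Bad (K : Subgroup G) (Ω : Type) [MulAction G Ω] (m : ℕ) : Prop where
  pron : Pron K
  tb : TB (Nat.card Ω)
  cΩ : Nat.card Ω = 2 * m
  cF : (Fk K Ω).ncard = m
  pos : 0 < m
  t1 : T1 G Ω
  t2 : T2 G Ω

theorem orb_top (h : T1 G Ω) (x : Ω) : orb (⊤ : Subgroup G) x = Set.univ :=
  Set.eq_univ_of_forall fun y => let ⟨g, e⟩ := h x y; ⟨g, trivial, e⟩

theorem exists_bad (hP : Pron K) (hT : TB (Nat.card Ω)) (h1 : T1 G Ω) (hF : Fk K Ω ≠ Set.univ)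
    (h : ¬ 2 * (Fk K Ω).ncard + 1 ≤ Nat.card Ω) : ∃ m, Bad K Ω m := by
  obtain ⟨p, hp⟩ := (Set.ne_univ_iff_exists_notMem _).1 hF
  have := Nonempty.intro p
  have n0 : 0 < Nat.card Ω := Nat.card_pos
  obtain ⟨x, hx⟩ : (Fk K Ω).Nonempty := by
    rw [← Set.ncard_pos]; omega
  have d0 : df K (orb (⊤ : Subgroup G) x) = Nat.card Ω - 2 * (Fk K Ω).ncard := by
    simp [df, orb_top h1, Set.ncard_univ]
  have h2 : ¬ orb (⊤ : Subgroup G) x ⊆ Fk K Ω := fun hs => hp (hs (orb_top h1 x ▸ Set.mem_univ p))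
  have hb : ¬ 2 ≤ (cl K ⊤ x).ncard := fun hb => by have := blk hP hT le_top hx h2 hb; omega
  have tr : ∀ y z : Ω, y ≠ x → z ≠ x → z ∈ orb (sb ⊤ x) y := fun y z hy hz => by
    by_contra hc
    have := two_orb hP hT le_top hx hb ⟨orb_top h1 x ▸ Set.mem_univ y, hy⟩
      ⟨orb_top h1 x ▸ Set.mem_univ z, hz⟩ hc
    omega
  have hpx : p ≠ x := fun e => hp (e ▸ hx)
  have e : orb (sb ⊤ x) p = orb (⊤ : Subgroup G) x \ {x} :=
    (orb_sub (inv_sdiff x) ⟨orb_top h1 x ▸ Set.mem_univ p, hpx⟩).antisymm fun z hz => tr p z hpx hz.2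
  have d1 := orb_df hP hT (le_sb le_top hx) (y := p)
    (fun h => (e ▸ h ▸ Set.mem_univ x : x ∈ orb (⊤ : Subgroup G) x \ {x}).2 rfl)
    (fun hs => hp (hs (mem_orb_self p)))
  rw [df_sdiff (Set.singleton_subset_iff.2 (mem_orb_self x)), df_single hx, ← e] at d0
  refine ⟨_, hP, hT, by omega, rfl, by omega, h1, h1.t2 (x := x) fun y z hy hz => ?_⟩
  obtain ⟨g, hg, e⟩ := tr y z hy hz
  exact ⟨g, hg.2, e⟩

namespace Bad
variable {m : ℕ} (H : Bad K Ω m)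
include H

theorem cΔ : (Fk K Ω)ᶜ.ncard = m := by
  have := Set.ncard_add_ncard_compl (Fk K Ω)
  rw [H.cΩ, H.cF] at this; omega

theorem cM (g : G) : (g • Fk K Ω).ncard = m := by rw [Set.ncard_smul_set, H.cF]

theorem exΔ : ∃ p, p ∉ Fk K Ω := by
  have := H.pos
  obtain ⟨p, hp⟩ : (Fk K Ω)ᶜ.Nonempty := by rw [← Set.ncard_pos, H.cΔ]; omega
  exact ⟨p, hp⟩

theorem noΔ (g : G) : ¬ (Fk K Ω)ᶜ ⊆ g • Fk K Ω := by
  intro h
  have e : (Fk K Ω)ᶜ = g • Fk K Ω := Set.eq_of_subset_of_ncard_le h (by rw [H.cM, H.cΔ])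
  have := H.pron.noinv (Y := Ω) (g := g) (fun k hk => by
    rw [← e]
    ext p
    rw [Set.mem_smul_set_iff_inv_smul_mem]
    exact ⟨fun h => by simpa using smul_Fk hk h, smul_Fk (K.inv_mem hk)⟩)
  obtain ⟨p, hp⟩ := H.exΔ
  exact hp (this ▸ h hp)

theorem lt (k : ℕ) (h : ∀ i ≤ k, Hom G Ω i) : k < m := by
  by_contra hc
  obtain ⟨g, e⟩ := h m (by omega) _ _ H.cF H.cΔ
  exact H.noΔ g e.symm.subset

theorem df_univ : df K (Set.univ : Set Ω) = 0 := by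
  simp [df, Set.ncard_univ, H.cΩ, H.cF]

theorem orb1 {x y : Ω} (h : y ≠ x) : orb (sb (⊤ : Subgroup G) x) y = Set.univ \ {x} := by
  ext z
  constructor
  · rintro ⟨g, hg, rfl⟩
    exact ⟨trivial, fun e => h (smul_left_cancel g (e.trans hg.2.symm))⟩
  · intro hz
    obtain ⟨g, g1, g2⟩ := H.t2 x y x z h.symm (Ne.symm hz.2)
    exact ⟨g, ⟨trivial, g1⟩, g2⟩

theorem homs2 : ∀ i ≤ 2, Hom G Ω i := fun i hi => by
  interval_cases i
  exacts [hom0, H.t1.hom, H.t2.hom]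

theorem t3 : T3 G Ω := by
  obtain ⟨x, hx, y, hy, n⟩ := (Set.one_lt_ncard (Set.toFinite _)).1
    (show 1 < (Fk K Ω).ncard by have := H.lt 2 H.homs2; rw [H.cF]; omega)
  refine H.t2.t3 n fun p q p1 p2 q1 q2 => ?_
  have e := H.orb1 n.symm
  obtain ⟨g, hg, e'⟩ := d1 H.pron H.tb (le_sb le_top hx) hy (by
    have := df_sdiff (K := K) (Set.subset_univ {x})
    rw [H.df_univ, df_single hx] at this
    rw [e]; omega) (y := p) (z := q) (e ▸ ⟨⟨trivial, p1⟩, p2⟩) (e ▸ ⟨⟨trivial, q1⟩, q2⟩)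
  exact ⟨g, hg.1.2, hg.2, e'⟩

theorem homs3 : ∀ i ≤ 3, Hom G Ω i := fun i hi => by
  interval_cases i
  exacts [hom0, H.t1.hom, H.t2.hom, H.t3.hom]

end Bad

section mom
variable [Fintype G]

open Classical in
/-- number of members through a `k`-set -/
noncomputable def lam (G : Type) [Group G] [MulAction G Ω] (F : Set Ω) (k : ℕ) : ℕ :=
  if h : ∃ X : Set Ω, X.ncard = k then {g : G | h.choose ⊆ g • F}.ncard else 0

theorem lam_eq (F X : Set Ω) (h : Hom G Ω X.ncard) : {g : G | X ⊆ g • F}.ncard = lam G F X.ncard := by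
  have h0 : ∃ Y : Set Ω, Y.ncard = X.ncard := ⟨X, rfl⟩
  rw [lam, dif_pos h0]
  obtain ⟨u, e⟩ := h X _ rfl h0.choose_spec
  rw [← e, ← Set.ncard_image_of_injective _ (mul_right_injective u)]
  congr 1
  ext g
  constructor
  · rintro ⟨g, hg, rfl⟩
    simp only [Set.mem_setOf_eq, mul_smul]
    exact Set.smul_set_mono hg
  · intro hg
    refine ⟨u⁻¹ * g, ?_, by simp⟩
    have := Set.smul_set_mono (a := u⁻¹) hg
    simpa [mul_smul] using this

open Classical in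
theorem mom (F D : Set Ω) (t : ℕ) (h : ∀ i ≤ t, Hom G Ω i) (i : ℕ) (X : Set Ω) (hX : X ⊆ D)
    (hi : X.ncard + i ≤ t) :
    ∑ g : G, (if X ⊆ g • F then ((D ∩ g • F).ncard - X.ncard).descFactorial i else 0) =
      (D.ncard - X.ncard).descFactorial i * lam G F (X.ncard + i) := by
  induction i generalizing X with
  | zero =>
    rw [add_zero, ← lam_eq F X (h _ (by omega)), ncard_eq_sum {g : G | X ⊆ g • F}]
    simp
  | succ i ih =>
    have := Fintype.ofFinite Ω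
    have e1 : ∀ g : G, (if X ⊆ g • F then ((D ∩ g • F).ncard - X.ncard).descFactorial (i + 1) else 0) =
        ∑ p, if p ∈ D \ X then (if insert p X ⊆ g • F then
          ((D ∩ g • F).ncard - (X.ncard + 1)).descFactorial i else 0) else 0 := by
      intro g
      split_ifs with hg
      · rw [sum_const_on ((D ∩ g • F) \ X) _ (((D ∩ g • F).ncard - (X.ncard + 1)).descFactorial i),
          Set.ncard_diff (Set.subset_inter hX hg)]
        · rcases Nat.eq_zero_or_pos ((D ∩ g • F).ncard - X.ncard) with e | e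
          · simp [e]
          · obtain ⟨j, hj⟩ : ∃ j, (D ∩ g • F).ncard - X.ncard = j + 1 := ⟨_, (Nat.succ_pred_eq_of_pos e).symm⟩
            rw [← Nat.sub_sub, hj, Nat.succ_descFactorial_succ]; simp
        · intro p hp
          rw [if_pos ⟨hp.1.1, hp.2⟩, if_pos (Set.insert_subset hp.1.2 hg)]
        · intro p hp
          split_ifs with u1 u2
          · exact absurd ⟨⟨u1.1, u2 (Or.inl rfl)⟩, u1.2⟩ hp
          · rfl
          · rfl
      · symm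
        refine Finset.sum_eq_zero fun p _ => ?_
        rw [if_neg (fun h' => hg ((Set.subset_insert _ _).trans h'))]
        simp
    rw [Finset.sum_congr rfl fun g _ => e1 g, Finset.sum_comm,
      sum_const_on (D \ X) _ ((D.ncard - (X.ncard + 1)).descFactorial i * lam G F (X.ncard + (i + 1))),
      Set.ncard_diff hX]
    · rcases Nat.eq_zero_or_pos (D.ncard - X.ncard) with e | e
      · simp [e]
      · obtain ⟨j, hj⟩ : ∃ j, D.ncard - X.ncard = j + 1 := ⟨_, (Nat.succ_pred_eq_of_pos e).symm⟩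
        rw [← Nat.sub_sub, hj, Nat.succ_descFactorial_succ]; simp [mul_assoc]
    · intro p hp
      have e := Set.ncard_insert_of_notMem hp.2
      have := ih (insert p X) (Set.insert_subset hp.1 hX) (by omega)
      rw [e] at this
      simp only [if_pos hp]
      rw [this, add_assoc, add_comm 1 i]
    · intro p hp
      simp [hp]

open Classical in
theorem mom0 (F D : Set Ω) (t : ℕ) (h : ∀ i ≤ t, Hom G Ω i) (i : ℕ) (hi : i ≤ t) :
    ∑ g : G, (D ∩ g • F).ncard.descFactorial i = D.ncard.descFactorial i * lam G F i := by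
  simpa using mom F D t h i ∅ (Set.empty_subset _) (by simpa)

theorem lam_mul (F : Set Ω) (t : ℕ) (h : ∀ i ≤ t, Hom G Ω i) (i : ℕ) (hi : i ≤ t) :
    (Nat.card Ω).descFactorial i * lam G F i = Fintype.card G * F.ncard.descFactorial i := by
  have := mom0 F Set.univ t h i hi
  simpa [Set.ncard_smul_set, Set.ncard_univ] using this.symm

end mom

end CfsgH8.Pron
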