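import Cfsg.Agent.H8.PronC

set_option autoImplicit false
set_option linter.unusedSectionVars false

/-! Fixed points of pronormal subgroups: cliques and Steiner quadruple systems. -/

namespace CfsgH8.Pron

open scoped Pointwise

variable {G Ω : Type} [Group G] [Finite G] [MulAction G Ω] [Finite Ω] {K A : Subgroup G}

theorem R.mono {B : Subgroup G} (hB : A ≤ B) {x u p q : Ω} (h : R A x u p q) : R B x u p q :=
  let ⟨a, ha, e⟩ := h; ⟨a, hB ha, e⟩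

theorem d1two (hP : Pron K) (hT : TB (Nat.card Ω)) (hA : K ≤ A) {u : Ω}
    (hd : df K (orb A u) = 1) (h2 : ¬ orb A u ⊆ Fk K Ω) :
    3 ≤ (orb A u).ncard ∧ ∀ p ∈ orb A u, ∀ q ∈ orb A u, ∀ p' ∈ orb A u, ∀ q' ∈ orb A u,
      p ≠ q → p' ≠ q' → R A p q p' q' := by
  obtain ⟨δ, hδ, hδF⟩ := Set.not_subset.1 h2
  obtain ⟨k, hk, hkδ⟩ := exists_move hδF
  have k2 : 1 < (orb A u).ncard := (Set.one_lt_ncard (Set.toFinite _)).2
    ⟨_, smul_mem_orb (hA hk) hδ, _, hδ, hkδ⟩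
  have hd' := hd
  simp only [df] at hd'
  refine ⟨by omega, fun p hp q hq p' hp' q' hq' n n' => ?_⟩
  obtain ⟨x, hx, hxo⟩ : (Fk K Ω ∩ orb A u).Nonempty := by rw [← Set.ncard_pos]; omega
  rw [← orb_eq hxo] at hd hp hq hp' hq'
  obtain ⟨a, ha, e⟩ := orb_symm hp
  obtain ⟨a', ha', e'⟩ := orb_symm hp'
  have := d1 hP hT hA hx hd (y := a • q) (z := a' • q') ⟨smul_mem_orb ha hq, e ▸ sne n.symm⟩
    ⟨smul_mem_orb ha' hq', e' ▸ sne n'.symm⟩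
  exact (R.trans ⟨a, ha, e, rfl⟩ (R_out.2 this)).trans (R.symm ⟨a', ha', e', rfl⟩)

theorem R_cardF (hP : Pron K) (hA : K ≤ A) {γ u c : Ω} (hγ : γ ∈ Fk K Ω) (hc : c ∈ Fk K Ω)
    (ho : c ∈ orb A γ) :
    (Fk K Ω ∩ {d | R A γ u c d}).ncard = (Fk K Ω ∩ orb (sb A γ) u).ncard := by
  obtain ⟨a, ha, e⟩ := ho
  obtain ⟨n, hn, e1, e2⟩ := hP.witt hA ha {γ} (by simpa) (by simpa [e])
  have e3 := (e2 γ rfl).trans e
  apply le_antisymm
  · refine le_of_smul n⁻¹ fun q hq => ⟨(mem_of_norm e1).1 (by simpa using hq.1), R_out.1 ?_⟩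
    simpa [← e3] using R.smul hq.2 (A.inv_mem hn)
  · exact le_of_smul n fun q hq => ⟨(mem_of_norm e1).2 hq.1, e3 ▸ (R_out.2 hq.2).smul hn⟩

theorem clique (hP : Pron K) (hT : TB (Nat.card Ω)) (hA : K ≤ A) {γ u : Ω} (hγ : γ ∈ Fk K Ω)
    (hd : df K (orb A γ) = 2) (hu : u ∈ orb A γ \ {γ}) (h1 : df K (orb (sb A γ) u) = 1)
    (h2 : ¬ orb (sb A γ) u ⊆ Fk K Ω) {p q : Ω} (hp : p ∈ orb (sb A γ) u) (hq : q ∈ orb (sb A γ) u)
    (hne : p ≠ q) (h : R A γ u p q) : False := by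
  obtain ⟨k3, tw⟩ := d1two hP hT (le_sb hA hγ) h1 h2
  have sy : R A γ u u γ := (h.trans ((tw p hp q hq q hq p hp hne hne.symm).mono inf_le_left)).trans
    h.swap.symm
  let D : Ω → Set Ω := fun c => insert c {d | R A γ u c d}
  have mo : ∀ {c d}, R A γ u c d → c ∈ orb A γ ∧ d ∈ orb A γ := by
    rintro _ _ ⟨a, ha, rfl, rfl⟩
    exact ⟨⟨a, ha, rfl⟩, smul_mem_orb ha hu.1⟩
  have c1 : ∀ c ∈ orb A γ, (D c).ncard = (orb (sb A γ) u).ncard + 1 := fun c hc => by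
    rw [← R_card hc]
    exact Set.ncard_insert_of_notMem (s := {d | R A γ u c d}) (fun h' => R.ne h' hu.2 rfl)
  have c2 : ∀ c, ∀ d ∈ D c, D d = D c := by
    rintro c d (rfl | hd)
    · rfl
    refine (Set.eq_of_subset_of_ncard_le ?_ (by rw [c1 _ (mo hd).1, c1 _ (mo hd).2])).symm
    rintro e (rfl | he)
    · exact Or.inr (sy.trans hd.swap)
    by_cases hed : e = d
    · exact Or.inl hed
    obtain ⟨a, ha, rfl, rfl⟩ := hd
    have := h.trans ((tw p hp q hq u (mem_orb_self u) (a⁻¹ • e)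
      (R_out.1 (by simpa using R.smul he (A.inv_mem ha))) hne
      (fun h' => hed (by rw [h']; simp))).mono inf_le_left)
    exact Or.inr (by simpa using this.smul ha)
  have c3 : ∀ c ∈ orb A γ, D c ⊆ orb A γ := by
    rintro c hc d (rfl | hd)
    exacts [hc, (mo hd).2]
  have e1 := card_fib D _ (orb A γ) (fun c hc => ⟨Or.inl rfl, c3 c hc, c1 c hc⟩) (fun c _ => c2 c)
  have e2 := card_fib (fun c => Fk K Ω ∩ D c) ((Fk K Ω ∩ orb (sb A γ) u).ncard + 1)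
    (Fk K Ω ∩ orb A γ) (fun c hc => ⟨⟨hc.1, Or.inl rfl⟩, Set.inter_subset_inter_right _ (c3 c hc.2), by
      rw [← R_cardF hP hA hγ hc.1 hc.2, Set.inter_insert_of_mem hc.1]
      exact Set.ncard_insert_of_notMem (s := Fk K Ω ∩ {d | R A γ u c d})
        (fun h' => R.ne h'.2 hu.2 rfl)⟩)
    (fun c _ d hd => by simp only [c2 c d hd.2])
  simp only [df] at hd h1
  generalize (D '' orb A γ).ncard = w at *
  generalize ((fun c => Fk K Ω ∩ D c) '' (Fk K Ω ∩ orb A γ)).ncard = w' at *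
  generalize (Fk K Ω ∩ orb (sb A γ) u).ncard = f at *
  have e3 : (orb (sb A γ) u).ncard + 1 = 2 * (f + 1) := by omega
  rw [e3, mul_assoc] at e1
  have e4 : (f + 1) * w = (f + 1) * w' + 1 := by omega
  have : f + 1 ∣ 1 := (Nat.dvd_add_right (dvd_mul_right _ _)).1 (e4 ▸ dvd_mul_right _ _)
  have := Nat.le_of_dvd one_pos this
  omega

/-- the fourth point of a block -/
def c4 (G : Type) [Group G] [MulAction G Ω] (F : Set Ω) (a b c d : Ω) : Prop :=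
  d ≠ a ∧ d ≠ b ∧ d ≠ c ∧ ∀ g : G, a ∈ g • F → b ∈ g • F → c ∈ g • F → d ∈ g • F

theorem c4.smul {F : Set Ω} {a b c d : Ω} (h : c4 G F a b c d) (g : G) :
    c4 G F (g • a) (g • b) (g • c) (g • d) := by
  refine ⟨sne h.1, sne h.2.1, sne h.2.2.1, fun u => ?_⟩
  have := h.2.2.2 (g⁻¹ * u)
  simpa only [Set.mem_smul_set_iff_inv_smul_mem, mul_inv_rev, inv_inv, mul_smul] using this

namespace Bad
variable {m : ℕ} (H : Bad K Ω m)
include H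

theorem orb2 {x x' y : Ω} (n : x ≠ x') (h : y ≠ x) (h' : y ≠ x') :
    orb (sb (sb (⊤ : Subgroup G) x) x') y = (Set.univ \ {x}) \ {x'} := by
  ext z
  constructor
  · rintro ⟨g, hg, rfl⟩
    exact ⟨⟨trivial, fun e => h (smul_left_cancel g (e.trans hg.1.2.symm))⟩,
      fun e => h' (smul_left_cancel g (e.trans hg.2.symm))⟩
  · intro hz
    obtain ⟨g, g1, g2, g3⟩ := H.t3 x x' y x x' z n h.symm h'.symm n (Ne.symm hz.1.2) (Ne.symm hz.2)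
    exact ⟨g, ⟨⟨trivial, g1⟩, g2⟩, g3⟩

theorem df2 {x x' : Ω} (hx : x ∈ Fk K Ω) (hx' : x' ∈ Fk K Ω) (n : x ≠ x') :
    df K ((Set.univ \ {x}) \ {x'} : Set Ω) = 2 := by
  have e1 := df_sdiff (K := K) (Set.subset_univ {x})
  have e2 := df_sdiff (K := K) (S := Set.univ \ {x}) (T := {x'}) (by simpa using n.symm)
  rw [H.df_univ, df_single hx] at e1
  rw [df_single hx'] at e2
  omega

theorem exFM {g : G} (hg : g • Fk K Ω ≠ Fk K Ω) : ∃ b ∈ Fk K Ω, b ∉ g • Fk K Ω :=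
  Set.not_subset.1 fun h => hg (Set.eq_of_subset_of_ncard_le h (by rw [H.cM, H.cF])).symm

theorem sqs {α β γ : Ω} (hα : α ∈ Fk K Ω) (hβ : β ∈ Fk K Ω) (hγ : γ ∈ Fk K Ω) (n1 : α ≠ β)
    (n2 : α ≠ γ) (n3 : β ≠ γ) : ¬ 2 ≤ (cl K (sb (sb (⊤ : Subgroup G) α) β) γ).ncard := by
  intro hb
  set A := sb (sb (⊤ : Subgroup G) α) β with hAd
  have hA : K ≤ A := le_sb (le_sb le_top hα) hβ
  have eo : orb A γ = (Set.univ \ {α}) \ {β} := H.orb2 n1 n2.symm n3.symm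
  obtain ⟨δ, hδ⟩ := H.exΔ
  have b2 := blk H.pron H.tb hA hγ (fun h => hδ (h (eo ▸ ⟨⟨trivial, fun e => hδ (e ▸ hα)⟩,
    fun e => hδ (e ▸ hβ)⟩))) hb
  rw [eo, H.df2 hα hβ n1] at b2
  obtain ⟨γ', n4, ecl⟩ : ∃ γ', γ' ≠ γ ∧ cl K A γ = {γ, γ'} := by
    obtain ⟨x, y, n, e⟩ := Set.ncard_eq_two.1 (show (cl K A γ).ncard = 2 by omega)
    rcases (e ▸ mem_cl_self γ : γ ∈ ({x, y} : Set Ω)) with rfl | rfl
    · exact ⟨y, n.symm, e⟩
    · exact ⟨x, n, e.trans (Set.pair_comm _ _)⟩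
  have m1 : γ' ∈ cl K A γ := ecl ▸ Or.inr rfl
  have m2 := eo ▸ m1.1
  have cj : ∀ g : G, α ∈ g • Fk K Ω → β ∈ g • Fk K Ω → (γ ∈ g • Fk K Ω ↔ γ' ∈ g • Fk K Ω) := by
    intro g h1 h2
    obtain ⟨w, hw, e⟩ := H.pron.pr Ω g A hA fun k hk => ⟨⟨trivial, conj_fix h1 hk⟩, conj_fix h2 hk⟩
    rw [← e, Set.mem_smul_set_iff_inv_smul_mem, Set.mem_smul_set_iff_inv_smul_mem]
    exact m1.2 _ (A.inv_mem hw)
  have ex : ∀ a b c : Ω, a ≠ b → a ≠ c → b ≠ c → ∃ d, c4 G (Fk K Ω) a b c d ∧ c4 G (Fk K Ω) a b d c ∧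
      ∀ d', c4 G (Fk K Ω) a b c d' → d' = d := by
    intro a b c u1 u2 u3
    obtain ⟨g, rfl, rfl, rfl⟩ := H.t3 α β γ a b c n1 n2 n3 u1 u2 u3
    refine ⟨g • γ', c4.smul ⟨m2.1.2, m2.2, n4, fun g h1 h2 => (cj g h1 h2).1⟩ g,
      c4.smul ⟨n2.symm, n3.symm, n4.symm, fun g h1 h2 => (cj g h1 h2).2⟩ g, fun d' hd => ?_⟩
    have h := hd.smul g⁻¹
    simp only [inv_smul_smul] at h
    have : g⁻¹ • d' ∈ cl K A γ := mem_cl_of_imp (eo ▸ ⟨⟨trivial, h.1⟩, h.2.1⟩) fun a ha h' => by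
      have := h.2.2.2 a⁻¹
      simp only [Set.mem_smul_set_iff_inv_smul_mem, inv_inv] at this
      exact this (ha.1.2.symm ▸ hα) (ha.2.symm ▸ hβ) h'
    rw [ecl] at this
    rw [← this.resolve_left h.2.2.1]; simp
  have half : ∀ g : G, 2 * ((Fk K Ω)ᶜ ∩ g • Fk K Ω).ncard ≤ m := by
    intro g
    by_cases hg : g • Fk K Ω = Fk K Ω
    · simp [hg]
    obtain ⟨b, hb, hb'⟩ := H.exFM hg
    obtain ⟨a, ha, ha'⟩ : ∃ a ∈ Fk K Ω, a ∈ g • Fk K Ω := by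
      by_contra hc
      push Not at hc
      have : g • Fk K Ω ⊆ (Fk K Ω)ᶜ := fun p hp hp' => hc p hp' hp
      exact H.noΔ g (Set.eq_of_subset_of_ncard_le this (by rw [H.cM, H.cΔ])).symm.subset
    have nab : a ≠ b := fun e => hb' (e ▸ ha')
    have : ∀ c : Ω, ∃ d, c ∈ (Fk K Ω)ᶜ → c4 G (Fk K Ω) a b c d ∧ c4 G (Fk K Ω) a b d c := fun c => by
      by_cases hc : c ∈ (Fk K Ω)ᶜ
      · obtain ⟨d, h1, h2, -⟩ := ex a b c nab (fun e => hc (e ▸ ha)) (fun e => hc (e ▸ hb))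
        exact ⟨d, fun _ => ⟨h1, h2⟩⟩
      · exact ⟨c, fun h => absurd h hc⟩
    choose σ hσ using this
    have le := Set.ncard_le_ncard_of_injOn (s := (Fk K Ω)ᶜ ∩ g • Fk K Ω)
      (t := (Fk K Ω)ᶜ \ g • Fk K Ω) σ (fun c hc => by
        obtain ⟨h1, h2⟩ := hσ c hc.1
        refine ⟨fun h => hc.1 (by simpa using h2.2.2.2 1 (by simpa) (by simpa) (by simpa)), fun h => ?_⟩
        obtain ⟨d, -, h3, h4⟩ := ex a c b h2.1.symm nab h2.2.1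
        rw [← h4 (σ c) ⟨h1.1, h1.2.2.1, h1.2.1, fun g u v w => h1.2.2.2 g u w v⟩] at h3
        exact hb' (h3.2.2.2 g ha' hc.2 h))
      (fun c hc c' hc' e => by
        obtain ⟨h1, h2⟩ := hσ c hc.1
        obtain ⟨d, -, -, h4⟩ := ex a b (σ c) nab h1.1.symm h1.2.1.symm
        exact (h4 c h2).trans (h4 c' (e ▸ (hσ c' hc'.1).2)).symm)
    have := Set.ncard_inter_add_ncard_diff_eq_ncard (Fk K Ω)ᶜ (g • Fk K Ω)
    rw [H.cΔ] at this
    omega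
  have := Fintype.ofFinite G
  have s1 := mom0 (Fk K Ω) (Fk K Ω)ᶜ 2 H.homs2 1 (by omega)
  have s2 := lam_mul (Fk K Ω) 2 H.homs2 1 (by omega)
  simp only [Nat.descFactorial_one, H.cΔ, H.cF, H.cΩ] at s1 s2
  have s3 : ∑ g : G, 2 * ((Fk K Ω)ᶜ ∩ g • Fk K Ω).ncard < ∑ g : G, m :=
    Finset.sum_lt_sum (fun g _ => half g) ⟨1, Finset.mem_univ _, by simpa using H.pos⟩
  rw [← Finset.mul_sum, s1, Finset.sum_const, Finset.card_univ, smul_eq_mul, ← s2] at s3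
  linarith

end Bad

end CfsgH8.Pron
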