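import Cfsg.Agent.H8.PronD

set_option autoImplicit false
set_option linter.unusedSectionVars false

/-! Fixed points of pronormal subgroups: the critical case is four-fold transitive. -/

namespace CfsgH8.Pron

open scoped Pointwise

variable {G Ω : Type} [Group G] [Finite G] [MulAction G Ω] [Finite Ω] {K A : Subgroup G}

/-- orbits on quadruples -/
def Q4 (G : Type) [Group G] [MulAction G Ω] (α β γ u a b c d : Ω) : Prop :=
  ∃ g : G, g • α = a ∧ g • β = b ∧ g • γ = c ∧ g • u = d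

theorem Q4.smul {α β γ u a b c d : Ω} (h : Q4 G α β γ u a b c d) (g : G) :
    Q4 G α β γ u (g • a) (g • b) (g • c) (g • d) := by
  obtain ⟨x, rfl, rfl, rfl, rfl⟩ := h
  exact ⟨g * x, mul_smul _ _ _, mul_smul _ _ _, mul_smul _ _ _, mul_smul _ _ _⟩

theorem Q4_R {α β γ u c d : Ω} : Q4 G α β γ u α β c d ↔ R (sb (sb (⊤ : Subgroup G) α) β) γ u c d :=
  ⟨fun ⟨g, h1, h2, h3⟩ => ⟨g, ⟨⟨trivial, h1⟩, h2⟩, h3⟩, fun ⟨g, h1, h3⟩ => ⟨g, h1.1.2, h1.2, h3⟩⟩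

theorem Q4_out {α β γ u d : Ω} :
    Q4 G α β γ u α β γ d ↔ d ∈ orb (sb (sb (sb (⊤ : Subgroup G) α) β) γ) u := Q4_R.trans R_out

theorem arith {f1 f2 μ μ' : ℕ} (h1 : (2 * f1 + 1) * (2 * f1) = (2 * f2 + 2) * μ)
    (h2 : f1 * (f1 - 1) = f2 * μ') (h3 : 3 * μ ≤ 2 * f1 + 1) (h4 : 1 ≤ f1) :
    μ = 1 ∧ μ' = 0 := by
  obtain ⟨e, rfl⟩ : ∃ e, f1 = e + 1 := ⟨f1 - 1, by omega⟩
  simp only [Nat.add_sub_cancel] at h2
  have a1 : 3 * (e + 1) ≤ f2 + 1 := by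
    by_contra hc
    have : f2 + 1 + 1 ≤ 3 * (e + 1) := by omega
    nlinarith
  have a2 : 2 * μ' < μ := by
    by_contra hc
    have h5 : μ ≤ 2 * μ' := by omega
    have : f2 * ((2 * f2 + 2) * μ) ≤ (2 * f2 + 2) * (2 * (f2 * μ')) := by nlinarith
    rw [← h1, ← h2] at this
    nlinarith
  have a3 : f2 * ((2 * f2 + 2) * (2 * μ' + 1)) ≤ f2 * ((2 * f2 + 2) * μ) :=
    Nat.mul_le_mul_left _ (Nat.mul_le_mul_left _ a2)
  rw [← h1, show f2 * ((2 * f2 + 2) * (2 * μ' + 1)) = (2 * f2 + 2) * (2 * (f2 * μ') + f2) by ring,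
    ← h2] at a3
  have a4 : e = 0 := by nlinarith
  subst a4
  have a5 : f2 = 2 := by nlinarith
  subst a5
  omega

namespace Bad
variable {m : ℕ} (H : Bad K Ω m)
include H

theorem pet {α β γ u v : Ω} (hα : α ∈ Fk K Ω) (hβ : β ∈ Fk K Ω) (hγ : γ ∈ Fk K Ω) (n1 : α ≠ β)
    (n2 : α ≠ γ) (n3 : β ≠ γ) (hu : u ≠ α ∧ u ≠ β ∧ u ≠ γ) (hv : v ≠ α ∧ v ≠ β ∧ v ≠ γ)
    (cov : ∀ d, d ≠ α → d ≠ β → d ≠ γ → Q4 G α β γ u α β γ d ∨ Q4 G α β γ v α β γ d)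
    (dis : ¬ Q4 G α β γ u α β γ v) (d1 : df K {d | Q4 G α β γ u α β γ d} = 1)
    (d2 : df K {d | Q4 G α β γ v α β γ d} = 2) (k3 : 3 ≤ {d | Q4 G α β γ u α β γ d}.ncard)
    (tri : ∀ p q, Q4 G α β γ u α β γ p → Q4 G α β γ u α β γ q → p ≠ q → Q4 G α β γ v α β p q) :
    False := by
  set A := sb (sb (⊤ : Subgroup G) α) β with hAd
  have hA : K ≤ A := le_sb (le_sb le_top hα) hβ
  have ne : ∀ {w a b c d}, w ≠ α ∧ w ≠ β ∧ w ≠ γ → Q4 G α β γ w a b c d →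
      a ≠ b ∧ a ≠ c ∧ b ≠ c ∧ d ≠ a ∧ d ≠ b ∧ d ≠ c := by
    rintro w _ _ _ _ hw ⟨g, rfl, rfl, rfl, rfl⟩
    exact ⟨sne n1, sne n2, sne n3, sne hw.1, sne hw.2.1, sne hw.2.2⟩
  have cov' : ∀ {a b c d}, a ≠ b → a ≠ c → b ≠ c → d ≠ a → d ≠ b → d ≠ c →
      Q4 G α β γ u a b c d ∨ Q4 G α β γ v a b c d := by
    intro a b c d u1 u2 u3 u4 u5 u6
    obtain ⟨g, rfl, rfl, rfl⟩ := H.t3 α β γ a b c n1 n2 n3 u1 u2 u3
    rcases cov (g⁻¹ • d) (fun e => u4 (by rw [← e]; simp)) (fun e => u5 (by rw [← e]; simp))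
      (fun e => u6 (by rw [← e]; simp)) with h | h
    · left; simpa using h.smul g
    · right; simpa using h.smul g
  have dis' : ∀ {a b c d}, Q4 G α β γ u a b c d → ¬ Q4 G α β γ v a b c d := by
    rintro _ _ _ _ h ⟨g, rfl, rfl, rfl, rfl⟩
    exact dis (by simpa using h.smul g⁻¹)
  have card : ∀ {w a b c}, a ≠ b → a ≠ c → b ≠ c →
      {d | Q4 G α β γ w a b c d}.ncard = {d | Q4 G α β γ w α β γ d}.ncard := by
    intro w a b c u1 u2 u3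
    obtain ⟨g, rfl, rfl, rfl⟩ := H.t3 α β γ a b c n1 n2 n3 u1 u2 u3
    exact le_antisymm (le_of_smul g⁻¹ fun d hd => by simpa using Q4.smul hd g⁻¹)
      (le_of_smul g fun d hd => Q4.smul hd g)
  have par : {d | Q4 G α β γ u α β γ d}.ncard ≠ {d | Q4 G α β γ v α β γ d}.ncard := by
    simp only [df] at d1 d2; omega
  have sw : ∀ {a b c}, a ≠ b → a ≠ c → b ≠ c → (∀ g : G, g • α = α → g • β = β → g • γ = γ →
      g • a = a ∧ g • b = b ∧ g • c = c) → (∀ d, d ≠ α ∧ d ≠ β ∧ d ≠ γ → d ≠ a ∧ d ≠ b ∧ d ≠ c) →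
      Q4 G α β γ u a b c u := by
    intro a b c u1 u2 u3 hg hd
    have tr : ∀ {w w' d}, Q4 G α β γ w a b c w' → Q4 G α β γ w' α β γ d → Q4 G α β γ w a b c d := by
      rintro w w' _ h ⟨g, g1, g2, g3, rfl⟩
      obtain ⟨e1, e2, e3⟩ := hg g g1 g2 g3
      have := h.smul g
      rwa [e1, e2, e3] at this
    refine (cov' u1 u2 u3 (hd u hu).1 (hd u hu).2.1 (hd u hu).2.2).resolve_right fun h => ?_
    rcases cov' u1 u2 u3 (hd v hv).1 (hd v hv).2.1 (hd v hv).2.2 with h' | h'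
    · apply par
      apply le_antisymm
      · rw [← card (w := v) u1 u2 u3]
        exact Set.ncard_le_ncard fun d hd => tr h hd
      · rw [← card (w := u) u1 u2 u3]
        exact Set.ncard_le_ncard fun d hd => tr h' hd
    · have := Set.ncard_lt_ncard (s := {d | Q4 G α β γ v α β γ d}) (t := {d | Q4 G α β γ v a b c d})
        ⟨fun d hd => tr h' hd, fun hs => dis' ⟨1, by simp⟩ (hs h)⟩
      rw [card u1 u2 u3] at this
      omega
  have s12 : ∀ {a b c d}, Q4 G α β γ u a b c d → Q4 G α β γ u b a c d := by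
    rintro _ _ _ _ ⟨g, rfl, rfl, rfl, rfl⟩
    exact (sw n1.symm n3 n2 (by tauto) (by tauto)).smul g
  have s23 : ∀ {a b c d}, Q4 G α β γ u a b c d → Q4 G α β γ u a c b d := by
    rintro _ _ _ _ ⟨g, rfl, rfl, rfl, rfl⟩
    exact (sw n2 n1 n3.symm (by tauto) (by tauto)).smul g
  obtain ⟨p, hp, q, hq, npq⟩ := (Set.one_lt_ncard (Set.toFinite _)).1
    (show 1 < {d | Q4 G α β γ u α β γ d}.ncard by omega)
  have s34 : ∀ {a b c d}, Q4 G α β γ u a b c d → Q4 G α β γ u a b d c := by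
    rintro _ _ _ _ ⟨g, rfl, rfl, rfl, rfl⟩
    refine ((cov' n1 hu.1.symm hu.2.1.symm n2.symm n3.symm hu.2.2.symm).resolve_right
      fun h => ?_).smul g
    have sy : R A γ v v γ := (Q4_R.1 (tri q p hq hp npq.symm)).trans (Q4_R.1 (tri p q hp hq npq)).swap.symm
    exact dis' ⟨1, by simp⟩ (Q4_R.2 (sy.trans (Q4_R.1 h).swap))
  have tri' : ∀ {a b c d d'}, Q4 G α β γ u a b c d → Q4 G α β γ u a b c d' → d ≠ d' →
      Q4 G α β γ v a b d d' := by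
    rintro _ _ _ _ d' ⟨g, rfl, rfl, rfl, rfl⟩ h n
    simpa using (tri u (g⁻¹ • d') ⟨1, by simp⟩ (by simpa using h.smul g⁻¹)
      (fun e => n (by rw [e]; simp))).smul g
  set μ := {c | Q4 G α β γ u α β c γ ∧ Q4 G α β γ u α β c v}.ncard with hμ
  have cμ : ∀ {a b d d'}, Q4 G α β γ v a b d d' →
      {c | Q4 G α β γ u a b c d ∧ Q4 G α β γ u a b c d'}.ncard = μ := by
    rintro _ _ _ _ ⟨g, rfl, rfl, rfl, rfl⟩
    exact le_antisymm (le_of_smul g⁻¹ fun d hd => by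
      simpa using And.intro (hd.1.smul g⁻¹) (hd.2.smul g⁻¹))
      (le_of_smul g fun d hd => ⟨hd.1.smul g, hd.2.smul g⟩)
  have e1 : ∀ c, Q4 G α β γ u α β γ c → {d | Q4 G α β γ v α β γ d ∧ Q4 G α β γ u α β c d} =
      {d | Q4 G α β γ u α β c d} \ {γ} := fun c hc => by
    ext d
    exact ⟨fun h => ⟨h.2, (ne hv h.1).2.2.2.2.2⟩, fun h => ⟨tri' (s34 hc) h.1 (Ne.symm h.2), h.1⟩⟩
  have c1 := dcount {c | Q4 G α β γ u α β γ c} {d | Q4 G α β γ v α β γ d}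
    (fun c d => Q4 G α β γ u α β c d) ({d | Q4 G α β γ u α β γ d}.ncard - 1) μ
    (fun c hc => by
      refine (congrArg Set.ncard (e1 c hc)).trans ?_
      rw [Set.ncard_diff_singleton_of_mem (s := {d | Q4 G α β γ u α β c d}) (s34 hc), card n1 (ne hu hc).2.2.2.1.symm
        (ne hu hc).2.2.2.2.1.symm])
    (fun d hd => by
      rw [← cμ hd]
      congr 1; ext c
      exact ⟨fun h => ⟨s34 h.1, h.2⟩, fun h => ⟨s34 h.1, h.2⟩⟩)
  have base : Q4 G α β γ v α β γ v := ⟨1, by simp⟩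
  have c3 : 3 * μ ≤ {d | Q4 G α β γ u α β γ d}.ncard := by
    have b2 : Q4 G α β γ v α γ β v := (cov' n2 n1 n3.symm hv.1 hv.2.2 hv.2.1).resolve_left
      fun h => dis (s23 h)
    have b3 : Q4 G α β γ v β γ α v := (cov' n3 n1.symm n2.symm hv.2.1 hv.2.2 hv.1).resolve_left
      fun h => dis (s12 (s23 h))
    have l := Set.ncard_le_ncard (s := ({c | Q4 G α β γ u α β c γ ∧ Q4 G α β γ u α β c v} ∪
      {c | Q4 G α β γ u α γ c β ∧ Q4 G α β γ u α γ c v}) ∪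
      {c | Q4 G α β γ u β γ c α ∧ Q4 G α β γ u β γ c v}) (t := {d | Q4 G α β γ u α β γ d}) (by
        rintro c ((h | h) | h)
        · exact s34 h.1
        · exact s23 (s34 h.1)
        · exact s12 (s23 (s34 h.1)))
    rw [Set.ncard_union_eq, Set.ncard_union_eq, cμ b2, cμ b3] at l
    · omega
    · exact Set.disjoint_left.2 fun c h h' => dis' (s23 h'.2) (tri' (s23 h.1) (s23 h.2) hv.2.2.symm)
    · refine Set.disjoint_left.2 ?_
      rintro c (h | h) h'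
      · exact dis' (s23 h'.2) (tri' (s23 (s12 h.1)) (s23 (s12 h.2)) hv.2.2.symm)
      · exact dis' (s23 (s12 h'.2)) (tri' (s23 (s12 h.1)) (s23 (s12 h.2)) hv.2.1.symm)
  simp only [df] at d1 d2
  rcases (Fk K Ω ∩ {d | Q4 G α β γ v α β γ d}).eq_empty_or_nonempty with he | ⟨d0, hd0⟩
  · rw [he, Set.ncard_empty] at d2
    generalize {d | Q4 G α β γ u α β γ d}.ncard = k1 at *
    obtain ⟨k, rfl⟩ : ∃ k, k1 = k + 3 := ⟨k1 - 3, by omega⟩
    rw [show {d | Q4 G α β γ v α β γ d}.ncard = 2 by omega, show k + 3 - 1 = k + 2 by omega] at c1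
    nlinarith
  set μ' := (Fk K Ω ∩ {c | Q4 G α β γ u α β c γ ∧ Q4 G α β γ u α β c d0}).ncard with hμ'
  have c2 := dcount (Fk K Ω ∩ {c | Q4 G α β γ u α β γ c}) (Fk K Ω ∩ {d | Q4 G α β γ v α β γ d})
    (fun c d => Q4 G α β γ u α β c d) ((Fk K Ω ∩ {d | Q4 G α β γ u α β γ d}).ncard - 1) μ'
    (fun c hc => by
      have e : {q | q ∈ Fk K Ω ∩ {d | Q4 G α β γ v α β γ d} ∧ Q4 G α β γ u α β c q} =
          (Fk K Ω ∩ {d | R A γ u c d}) \ {γ} := by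
        ext d
        have := Set.ext_iff.1 (e1 c hc.2) d
        simp only [Set.mem_setOf_eq, Set.mem_diff, Set.mem_inter_iff, ← Q4_R, hAd] at this ⊢
        tauto
      have e' : orb (sb A γ) u = {d | Q4 G α β γ u α β γ d} := Set.ext fun d => Q4_out.symm
      rw [e, Set.ncard_diff_singleton_of_mem (s := Fk K Ω ∩ {d | R A γ u c d})
        ⟨hγ, Q4_R.1 (s34 hc.2)⟩, R_cardF H.pron hA hγ hc.1, e']
      rw [H.orb2 n1 n2.symm n3.symm]
      exact ⟨⟨trivial, (ne hu hc.2).2.2.2.1⟩, (ne hu hc.2).2.2.2.2.1⟩)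
    (fun d hd => by
      obtain ⟨a, ha, e⟩ := orb_tr (Q4_out.1 hd0.2) (Q4_out.1 hd.2)
      obtain ⟨n, hn, e1, e2⟩ := H.pron.witt (le_sb hA hγ) ha {d0} (by simpa using hd0.1)
        (by simpa [e] using hd.1)
      have e3 := (e2 d0 rfl).trans e
      have f1 : n • α = α := hn.1.1.2
      have f2 : n • β = β := hn.1.2
      have f3 : n • γ = γ := hn.2
      have g1 : n⁻¹ • α = α := inv_smul_eq_iff.2 f1.symm
      have g2 : n⁻¹ • β = β := inv_smul_eq_iff.2 f2.symm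
      have g3 : n⁻¹ • γ = γ := inv_smul_eq_iff.2 f3.symm
      have g4 : n⁻¹ • d = d0 := inv_smul_eq_iff.2 e3.symm
      apply le_antisymm
      · refine le_of_smul n⁻¹ fun c hc => ⟨(mem_of_norm e1).1 (by simpa using hc.1.1), ?_, ?_⟩
        · simpa only [g1, g2, g3] using (s34 hc.1.2).smul n⁻¹
        · simpa only [g1, g2, g4] using hc.2.smul n⁻¹
      · refine le_of_smul n fun c hc => ⟨⟨(mem_of_norm e1).2 hc.1, ?_⟩, ?_⟩
        · simpa only [f1, f2, f3, Set.mem_setOf_eq] using (s34 hc.2.1).smul n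
        · simpa only [f1, f2, e3] using hc.2.2.smul n)
  obtain ⟨r1, r2⟩ := arith (f1 := (Fk K Ω ∩ {d | Q4 G α β γ u α β γ d}).ncard)
    (f2 := (Fk K Ω ∩ {d | Q4 G α β γ v α β γ d}).ncard) (μ := μ) (μ' := μ')
    (by convert c1 using 2 <;> omega) c2 (by omega) (by omega)
  obtain ⟨c, hc⟩ := Set.ncard_eq_one.1 ((cμ hd0.2).trans r1)
  have hc' := hc.symm.subset (Set.mem_singleton c)
  rw [hμ', Set.ncard_eq_zero] at r2
  refine (r2.subset ⟨fun k hk => hc.subset ⟨?_, ?_⟩, hc'⟩ : c ∈ (∅ : Set Ω))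
  · simpa only [hα k hk, hβ k hk, hγ k hk] using hc'.1.smul k
  · simpa only [hα k hk, hβ k hk, hd0.1 k hk] using hc'.2.smul k

theorem t4 : T4 G Ω := by
  obtain ⟨α, hα, β, hβ, γ, hγ, n1, n2, n3⟩ := (Set.two_lt_ncard (Set.toFinite _)).1
    (show 2 < (Fk K Ω).ncard by have := H.lt 2 H.homs2; rw [H.cF]; omega)
  refine H.t3.t4 n1 n2 n3 fun y z y1 y2 y3 z1 z2 z3 => ?_
  by_contra hc
  set A := sb (sb (⊤ : Subgroup G) α) β with hAd
  have hA : K ≤ A := le_sb (le_sb le_top hα) hβ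
  have eo : orb A γ = (Set.univ \ {α}) \ {β} := H.orb2 n1 n2.symm n3.symm
  have mo : ∀ d, d ∈ orb A γ \ {γ} ↔ d ≠ α ∧ d ≠ β ∧ d ≠ γ := fun d => by simp [eo, and_assoc]
  have hb := H.sqs hα hβ hγ n1 n2 n3
  have d2 : df K (orb A γ) = 2 := eo ▸ H.df2 hα hβ n1
  obtain ⟨u, hu, du⟩ : ∃ u ∈ orb A γ \ {γ}, df K (orb (sb A γ) u) = 1 := by
    have := two_orb H.pron H.tb hA hγ hb ((mo y).2 ⟨y1, y2, y3⟩) ((mo z).2 ⟨z1, z2, z3⟩)
      fun ⟨g, hg, e⟩ => hc ⟨g, hg.1.1.2, hg.1.2, hg.2, e⟩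
    by_cases h : df K (orb (sb A γ) y) = 1
    · exact ⟨y, (mo y).2 ⟨y1, y2, y3⟩, h⟩
    · exact ⟨z, (mo z).2 ⟨z1, z2, z3⟩, by omega⟩
  have nF : ∀ p ∈ orb A γ \ {γ}, ¬ orb (sb A γ) p ⊆ Fk K Ω := fun p hp =>
    nb H.pron hA hγ hp.1 (cl_single hb hp.2)
  obtain ⟨k3, tw⟩ := d1two H.pron H.tb (le_sb hA hγ) du (nF u hu)
  obtain ⟨p, hp, q, hq, r, hr, m1, m2, m3⟩ := (Set.two_lt_ncard (Set.toFinite _)).1 k3
  have so := orb_sub (inv_sdiff γ) hu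
  obtain ⟨a, ha, e⟩ := orb_symm (so hp).1
  have hv : a • q ∈ orb A γ \ {γ} := ⟨smul_mem_orb ha (so hq).1, e ▸ sne m1.symm⟩
  have r0 : R A γ (a • q) p q := R.symm ⟨a, ha, e, rfl⟩
  have tri : ∀ p' ∈ orb (sb A γ) u, ∀ q' ∈ orb (sb A γ) u, p' ≠ q' → R A γ (a • q) p' q' :=
    fun p' hp' q' hq' n => r0.trans ((tw p hp q hq p' hp' q' hq' m1 n).mono inf_le_left)
  have dv : df K (orb (sb A γ) (a • q)) ≠ 1 := fun dv =>
    clique H.pron H.tb hA hγ d2 hv dv (nF _ hv) (mem_orb_self _)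
      (R_out.1 (e ▸ (tri p hp r hr m2).smul ha)) (sne m3) ((tri q hq r hr m3).smul ha)
  have nv : a • q ∉ orb (sb A γ) u := fun h => dv (orb_eq h ▸ du)
  obtain ⟨a1, a2, a3, a4, a5⟩ := two_orb H.pron H.tb hA hγ hb hu hv nv
  have eq : ∀ w, {d | Q4 G α β γ w α β γ d} = orb (sb A γ) w := fun w => Set.ext fun d => Q4_out
  refine H.pet hα hβ hγ n1 n2 n3 ((mo _).1 hu) ((mo _).1 hv) (fun d u1 u2 u3 => ?_)
    (fun h => nv (Q4_out.1 h)) (by rw [eq]; exact du) (by rw [eq]; omega) (by rw [eq]; exact k3)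
    fun p q hp hq n => Q4_R.2 (tri p (Q4_out.1 hp) q (Q4_out.1 hq) n)
  by_contra hc
  push Not at hc
  have := a4 ⟨d, ⟨(mo d).2 ⟨u1, u2, u3⟩, fun h => hc.1 (Q4_out.2 h)⟩, fun h => hc.2 (Q4_out.2 h)⟩
  omega

end Bad

end CfsgH8.Pron
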