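import Cfsg.Agent.H8.PronE

set_option autoImplicit false
set_option linter.unusedSectionVars false

/-! Fixed points of pronormal subgroups: distinct members differ in at least three points. -/

namespace CfsgH8.Pron

open scoped Pointwise

variable {G Ω : Type} [Group G] [Finite G] [MulAction G Ω] [Finite Ω] {K A : Subgroup G}

/-- members -/
def Mb (K : Subgroup G) (M : Set Ω) : Prop := ∃ g : G, g • Fk K Ω = M

theorem Mb.smul {M : Set Ω} (h : Mb K M) (g : G) : Mb K (g • M) := by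
  obtain ⟨u, rfl⟩ := h
  exact ⟨g * u, mul_smul _ _ _⟩

theorem Mb_F : Mb K (Fk K Ω) := ⟨1, one_smul _ _⟩

theorem smul_F {k : G} (hk : k ∈ K) : k • Fk K Ω = Fk K Ω := by
  ext p
  rw [Set.mem_smul_set_iff_inv_smul_mem]
  exact ⟨fun h => by_contra fun h' => smul_Fk (K.inv_mem hk) h' h, fun h => by
    rwa [h _ (K.inv_mem hk)]⟩

theorem ncard_diff_comm {M M' : Set Ω} (h : M.ncard = M'.ncard) : (M \ M').ncard = (M' \ M).ncard := by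
  have e1 := Set.ncard_inter_add_ncard_diff_eq_ncard M M'
  have e2 := Set.ncard_inter_add_ncard_diff_eq_ncard M' M
  rw [Set.inter_comm] at e2
  omega

namespace Bad
variable {m : ℕ} (H : Bad K Ω m)
include H

theorem cMb {M : Set Ω} (h : Mb K M) : M.ncard = m := by
  obtain ⟨g, rfl⟩ := h; exact H.cM g

theorem exMF {M : Set Ω} (h : Mb K M) : ∃ p ∈ M, p ∈ Fk K Ω := by
  obtain ⟨g, rfl⟩ := h
  by_contra hc
  push Not at hc
  exact H.noΔ g (Set.eq_of_subset_of_ncard_le (s := g • Fk K Ω) (t := (Fk K Ω)ᶜ) hc (by rw [H.cM, H.cΔ])).symm.subset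

theorem w3 {a b c a' b' c' : Ω} (ha : a ∈ Fk K Ω) (hb : b ∈ Fk K Ω) (hc : c ∈ Fk K Ω)
    (ha' : a' ∈ Fk K Ω) (hb' : b' ∈ Fk K Ω) (hc' : c' ∈ Fk K Ω)
    (h : ∃ g : G, g • a = a' ∧ g • b = b' ∧ g • c = c') :
    ∃ n : G, n • Fk K Ω = Fk K Ω ∧ n • a = a' ∧ n • b = b' ∧ n • c = c' := by
  obtain ⟨g, rfl, rfl, rfl⟩ := h
  obtain ⟨n, -, e1, e2⟩ := H.pron.witt le_top (Subgroup.mem_top g) {a, b, c}
    (by rintro _ (rfl | rfl | rfl) <;> assumption) (by rintro _ (rfl | rfl | rfl) <;> assumption)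
  exact ⟨n, e1, e2 _ (by simp), e2 _ (by simp), e2 _ (by simp)⟩

theorem ex1 {M : Set Ω} (hM : Mb K M) {η η' δ : Ω} (h1 : η ∈ M) (h2 : η' ∈ M) (h3 : δ ∉ M)
    (h : Mb K (insert δ (M \ {η}))) : Mb K (insert δ (M \ {η'})) := by
  have inv : ∀ (n : G) (η δ : Ω), n • Fk K Ω = Fk K Ω → Mb K (insert δ (Fk K Ω \ {η})) →
      Mb K (insert (n • δ) (Fk K Ω \ {n • η})) := fun n η δ hn h => by
    simpa [Set.smul_set_insert, Set.smul_set_sdiff, hn] using h.smul n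
  have hle : ∀ η ∈ Fk K Ω, ∀ η' ∈ Fk K Ω, ∀ θ ∈ Fk K Ω, ∀ θ' ∈ Fk K Ω,
      (∃ g : G, g • η = θ ∧ g • η' = θ') →
      {p | p ∈ (Fk K Ω)ᶜ ∧ Mb K (insert p (Fk K Ω \ {η})) ∧ Mb K (insert p (Fk K Ω \ {η'}))}.ncard ≤
      {p | p ∈ (Fk K Ω)ᶜ ∧ Mb K (insert p (Fk K Ω \ {θ})) ∧ Mb K (insert p (Fk K Ω \ {θ'}))}.ncard := by
    rintro η h1 η' h2 θ h3 θ' h4 ⟨g, g1, g2⟩
    obtain ⟨n, e, rfl, rfl, -⟩ := H.w3 h1 h2 h2 h3 h4 h4 ⟨g, g1, g2, g2⟩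
    exact le_of_smul n fun p hp => ⟨fun h => hp.1 ((mem_of_norm e).1 h), inv n _ _ e hp.2.1,
      inv n _ _ e hp.2.2⟩
  have fi := fisherK (K := K) (Fk K Ω) (Fk K Ω)ᶜ (fun η δ => Mb K (insert δ (Fk K Ω \ {η})))
    (fun k hk p hp => smul_Fk hk hp) (fun p hp => hp)
    (fun η hη k hk p hp h => by simpa only [hη k hk] using inv k _ _ (smul_F hk) h)
    (fun η h1 θ h3 => by
      obtain ⟨g, e⟩ := H.t1 η θ
      obtain ⟨g', e'⟩ := H.t1 θ η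
      have u1 := hle η h1 η h1 θ h3 θ h3 ⟨g, e, e⟩
      have u2 := hle θ h3 θ h3 η h1 η h1 ⟨g', e', e'⟩
      simp only [and_self] at u1 u2
      omega)
    (fun η h1 η' h2 θ h3 θ' h4 n1 n2 => le_antisymm (hle _ h1 _ h2 _ h3 _ h4 (H.t2 _ _ _ _ n1 n2))
      (hle _ h3 _ h4 _ h1 _ h2 (H.t2 _ _ _ _ n2 n1)))
    (by rw [H.cΔ, H.cF]; have := H.pos; omega)
  obtain ⟨g, rfl⟩ := hM
  rw [Set.mem_smul_set_iff_inv_smul_mem] at h1 h2 h3
  have := (fi _ h1 _ h2 _ h3 (by simpa [Set.smul_set_insert, Set.smul_set_sdiff] using h.smul g⁻¹)).smul g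
  simpa [Set.smul_set_insert, Set.smul_set_sdiff] using this

theorem no1 {M M' : Set Ω} (hM : Mb K M) (hM' : Mb K M') : (M \ M').ncard ≠ 1 := by
  intro h
  have h' := (ncard_diff_comm ((H.cMb hM').trans (H.cMb hM).symm)).trans h
  obtain ⟨η, e1⟩ := Set.ncard_eq_one.1 h
  obtain ⟨δ, e2⟩ := Set.ncard_eq_one.1 h'
  have e : M' = insert δ (M \ {η}) := by
    ext p
    have u1 := Set.ext_iff.1 e1 p
    have u2 := Set.ext_iff.1 e2 p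
    simp only [Set.mem_diff, Set.mem_singleton_iff, Set.mem_insert_iff] at u1 u2 ⊢
    tauto
  have m1 := (e1.symm.subset (Set.mem_singleton η)).1
  have m2 := (e2.symm.subset (Set.mem_singleton δ)).2
  obtain ⟨g, rfl⟩ := hM
  rw [Set.mem_smul_set_iff_inv_smul_mem] at m1 m2
  have m3 : Mb K (insert (g⁻¹ • δ) (Fk K Ω \ {g⁻¹ • η})) := by
    simpa [e, Set.smul_set_insert, Set.smul_set_sdiff] using hM'.smul g⁻¹
  generalize g⁻¹ • δ = δ0 at *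
  generalize g⁻¹ • η = η0 at *
  set D := {δ | δ ∉ Fk K Ω ∧ Mb K (insert δ (Fk K Ω \ {η0}))} with hD
  have key : ∀ n, ∀ M : Set Ω, Mb K M → (D \ M).ncard = n → M ⊆ Fk K Ω ∪ D →
      (∀ δ ∈ D \ M, ∀ η ∈ M, Mb K (insert δ (M \ {η}))) → False := by
    intro n
    induction n using Nat.strong_induction_on with
    | _ n ih =>
    intro M hM hn h1 h2
    rcases (D \ M).eq_empty_or_nonempty with he | ⟨δ, hδ⟩
    · rw [Set.diff_eq_empty] at he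
      obtain ⟨g, rfl⟩ := hM
      have dk : ∀ k ∈ K, ∀ p ∈ g • Fk K Ω, k • p ∈ g • Fk K Ω := fun k hk p hp => by
        rcases h1 hp with h | h
        · rwa [h k hk]
        · refine he ⟨smul_Fk hk h.1, ?_⟩
          simpa [Set.smul_set_insert, Set.smul_set_sdiff, smul_F hk, m1 k hk] using h.2.smul k
      have := H.pron.noinv (Y := Ω) (g := g) fun k hk => by
        ext p
        rw [Set.mem_smul_set_iff_inv_smul_mem]
        exact ⟨fun h => by simpa using dk k hk _ h, dk _ (K.inv_mem hk) p⟩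
      exact m2 (this ▸ he ⟨m2, m3⟩)
    obtain ⟨η, hη, hηF⟩ := H.exMF hM
    have hM' := h2 δ hδ η hη
    have sub : D \ insert δ (M \ {η}) ⊆ (D \ M) \ {δ} := fun p hp =>
      ⟨⟨hp.1, fun h => hp.2 (Or.inr ⟨h, fun e => hp.1.1 (e ▸ hηF)⟩)⟩, fun h => hp.2 (Or.inl h)⟩
    refine ih _ ?_ _ hM' rfl ?_ fun δ' hδ' η' hη' => H.ex1 hM' (Or.inl rfl) hη' hδ'.2 ?_
    · exact (Set.ncard_le_ncard sub).trans_lt (hn ▸ Set.ncard_diff_singleton_lt_of_mem hδ)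
    · rintro p (rfl | hp)
      exacts [Or.inr hδ.1, h1 hp.1]
    · convert h2 δ' (sub hδ').1 η hη using 2
      ext p
      simp only [Set.mem_diff, Set.mem_singleton_iff, Set.mem_insert_iff]
      have : p = δ → p ∉ M := fun e => e ▸ hδ.2
      tauto
  exact key _ _ Mb_F rfl Set.subset_union_left fun δ hδ η hη => H.ex1 Mb_F m1 hη hδ.2 hδ.1.2

theorem ex2 {z y δ δ' : Ω} (hz : z ∈ Fk K Ω) (hy : y ∈ Fk K Ω) (n : y ≠ z) (hδ : δ ∉ Fk K Ω)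
    (hδ' : δ' ∉ Fk K Ω) (n' : δ' ≠ δ) (h : Mb K ((Fk K Ω \ {z, y}) ∪ {δ, δ'})) {ε : Ω}
    (hε : ε ∉ Fk K Ω) (n2 : ε ≠ δ) :
    ∃ y' ∈ Fk K Ω, y' ≠ z ∧ Mb K ((Fk K Ω \ {z, y'}) ∪ {δ, ε}) := by
  let Rl : Ω → Ω → Prop := fun y δ => ∃ δ' ∉ Fk K Ω, δ' ≠ δ ∧ Mb K ((Fk K Ω \ {z, y}) ∪ {δ, δ'})
  have inv : ∀ (n : G) (y δ : Ω), n • Fk K Ω = Fk K Ω → n • z = z → Rl y δ → Rl (n • y) (n • δ) := by
    rintro n y δ hn hz ⟨δ', h1, h2, h3⟩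
    refine ⟨n • δ', fun h => h1 ((mem_of_norm hn).1 h), sne h2, ?_⟩
    simpa [Set.smul_set_insert, Set.smul_set_sdiff, Set.smul_set_union, hn, hz] using h3.smul n
  have hle : ∀ η ∈ Fk K Ω \ {z}, ∀ η' ∈ Fk K Ω \ {z}, ∀ θ ∈ Fk K Ω \ {z}, ∀ θ' ∈ Fk K Ω \ {z},
      (∃ g : G, g • z = z ∧ g • η = θ ∧ g • η' = θ') →
      {p | p ∈ (Fk K Ω)ᶜ ∧ Rl η p ∧ Rl η' p}.ncard ≤ {p | p ∈ (Fk K Ω)ᶜ ∧ Rl θ p ∧ Rl θ' p}.ncard := by
    rintro η h1 η' h2 θ h3 θ' h4 hg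
    obtain ⟨n, e, e', rfl, rfl⟩ := H.w3 hz h1.1 h2.1 hz h3.1 h4.1 hg
    exact le_of_smul n fun p hp => ⟨fun h => hp.1 ((mem_of_norm e).1 h), inv n _ _ e e' hp.2.1,
      inv n _ _ e e' hp.2.2⟩
  have cz : (Fk K Ω \ {z}).ncard = m - 1 := by rw [Set.ncard_diff_singleton_of_mem hz, H.cF]
  have fi := fisherK (K := K) (Fk K Ω \ {z}) (Fk K Ω)ᶜ Rl
    (fun k hk p hp => smul_Fk hk hp) (fun p hp => hp)
    (fun η hη k hk p hp h => by simpa only [hη.1 k hk] using inv k _ _ (smul_F hk) (hz k hk) h)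
    (fun η h1 θ h3 => by
      obtain ⟨g, e0, e⟩ := H.t2 z η z θ (Ne.symm h1.2) (Ne.symm h3.2)
      obtain ⟨g', e0', e'⟩ := H.t2 z θ z η (Ne.symm h3.2) (Ne.symm h1.2)
      have u1 := hle η h1 η h1 θ h3 θ h3 ⟨g, e0, e, e⟩
      have u2 := hle θ h3 θ h3 η h1 η h1 ⟨g', e0', e', e'⟩
      simp only [and_self] at u1 u2
      omega)
    (fun η h1 η' h2 θ h3 θ' h4 n1 n2 => le_antisymm (hle _ h1 _ h2 _ h3 _ h4
      (H.t3 _ _ _ _ _ _ (Ne.symm h1.2) (Ne.symm h2.2) n1 (Ne.symm h3.2) (Ne.symm h4.2) n2))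
      (hle _ h3 _ h4 _ h1 _ h2
        (H.t3 _ _ _ _ _ _ (Ne.symm h3.2) (Ne.symm h4.2) n2 (Ne.symm h1.2) (Ne.symm h2.2) n1)))
    (by rw [H.cΔ, cz]; have := H.lt 2 H.homs2; omega)
  have : ∀ y', ∃ δ', y' ∈ Fk K Ω \ {z} → δ' ∉ Fk K Ω ∧ δ' ≠ δ ∧ Mb K ((Fk K Ω \ {z, y'}) ∪ {δ, δ'}) := by
    intro y'
    by_cases hy' : y' ∈ Fk K Ω \ {z}
    · obtain ⟨ε, h⟩ := fi y ⟨hy, n⟩ y' hy' δ hδ ⟨δ', hδ', n', h⟩
      exact ⟨ε, fun _ => h⟩
    · exact ⟨δ, fun h => absurd h hy'⟩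
  choose σ hσ using this
  have inj : Set.InjOn σ (Fk K Ω \ {z}) := fun a ha b hb e => by
    by_contra nab
    refine H.no1 (hσ a ha).2.2 (hσ b hb).2.2 (Set.ncard_eq_one.2 ⟨b, ?_⟩)
    ext p
    have := (hσ b hb).1
    have := hb.2
    simp only [e, Set.mem_diff, Set.mem_singleton_iff, Set.mem_insert_iff, Set.mem_union] at *
    constructor
    · tauto
    · rintro rfl
      grind
  have im : σ '' (Fk K Ω \ {z}) = (Fk K Ω)ᶜ \ {δ} := by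
    refine Set.eq_of_subset_of_ncard_le ?_ ?_
    · rintro _ ⟨a, ha, rfl⟩
      exact ⟨(hσ a ha).1, (hσ a ha).2.1⟩
    · rw [Set.InjOn.ncard_image inj, cz, Set.ncard_diff_singleton_of_mem (s := (Fk K Ω)ᶜ) hδ, H.cΔ]
  obtain ⟨a, ha, rfl⟩ := im.symm.subset ⟨hε, n2⟩
  exact ⟨a, ha.1, ha.2, (hσ a ha).2.2⟩

theorem no2 {M M' : Set Ω} (hM : Mb K M) (hM' : Mb K M') : (M \ M').ncard ≠ 2 := by
  intro h
  have h' := (ncard_diff_comm ((H.cMb hM').trans (H.cMb hM).symm)).trans h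
  obtain ⟨z, y, n1, e1⟩ := Set.ncard_eq_two.1 h
  obtain ⟨δ, δ', n2, e2⟩ := Set.ncard_eq_two.1 h'
  have e : M' = (M \ {z, y}) ∪ {δ, δ'} := by
    rw [← e1, ← e2]; ext p; simp; tauto
  have m1 := (e1.symm.subset (Or.inl rfl)).1
  have m2 := (e1.symm.subset (Or.inr rfl)).1
  have m3 := (e2.symm.subset (Or.inl rfl)).2
  have m4 := (e2.symm.subset (Or.inr rfl)).2
  obtain ⟨g, rfl⟩ := hM
  rw [Set.mem_smul_set_iff_inv_smul_mem] at m1 m2 m3 m4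
  have m5 : Mb K ((Fk K Ω \ {g⁻¹ • z, g⁻¹ • y}) ∪ {g⁻¹ • δ, g⁻¹ • δ'}) := by
    simpa [e, Set.smul_set_insert, Set.smul_set_sdiff, Set.smul_set_union] using hM'.smul g⁻¹
  have n3 := sne (g := g⁻¹) n1
  have n4 := sne (g := g⁻¹) n2
  generalize g⁻¹ • δ = δ0 at *
  generalize g⁻¹ • δ' = δ1 at *
  generalize g⁻¹ • z = z0 at *
  generalize g⁻¹ • y = y0 at *
  have k1 : ∀ ε ∉ Fk K Ω, ∀ ε' ∉ Fk K Ω, ε' ≠ ε →
      ∃ y' ∈ Fk K Ω, y' ≠ z0 ∧ Mb K ((Fk K Ω \ {z0, y'}) ∪ {ε, ε'}) := by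
    intro ε h1 ε' h2 n
    by_cases hε : ε = δ0
    · subst hε
      exact H.ex2 m1 m2 n3.symm m3 m4 n4.symm m5 h2 n
    · obtain ⟨y', a1, a2, a3⟩ := H.ex2 m1 m2 n3.symm m3 m4 n4.symm m5 h1 hε
      rw [Set.pair_comm δ0] at a3
      exact H.ex2 m1 a1 a2 h1 m3 (Ne.symm hε) a3 h2 n
  have k2 : ∀ M : Set Ω, Mb K M → ∀ z ∈ M, ∀ ε ∉ M, ∀ ε' ∉ M, ε' ≠ ε →
      ∃ y', Mb K ((M \ {z, y'}) ∪ {ε, ε'}) := by
    rintro _ ⟨u, rfl⟩ z hz ε h1 ε' h2 nn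
    rw [Set.mem_smul_set_iff_inv_smul_mem] at hz
    obtain ⟨w, hw⟩ := H.t1 z0 (u⁻¹ • z)
    obtain ⟨n, e, e', -⟩ := H.w3 m1 m1 m1 hz hz hz ⟨w, hw, hw, hw⟩
    have e2 : (u * n) • Fk K Ω = u • Fk K Ω := by rw [mul_smul, e]
    have e3 : (u * n) • z0 = z := by rw [mul_smul, e']; simp
    rw [← e2, Set.mem_smul_set_iff_inv_smul_mem] at h1 h2
    obtain ⟨y', -, -, a3⟩ := k1 _ h1 _ h2 (sne nn)
    refine ⟨(u * n) • y', ?_⟩
    have := a3.smul (u * n)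
    rwa [Set.smul_set_union, Set.smul_set_sdiff, Set.smul_set_insert, Set.smul_set_insert,
      Set.smul_set_singleton, Set.smul_set_singleton, smul_inv_smul, smul_inv_smul, e2, e3] at this
  have key : ∀ n, ∀ M : Set Ω, Mb K M → ((Fk K Ω)ᶜ \ M).ncard ≠ n := by
    intro n
    induction n using Nat.strong_induction_on with
    | _ n ih =>
    intro M hM hn
    by_cases h2 : 1 < n
    · obtain ⟨ε, h1, ε', h2, n⟩ := (Set.one_lt_ncard (Set.toFinite _)).1 (hn ▸ h2)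
      obtain ⟨z, hz, hzF⟩ := H.exMF hM
      obtain ⟨y', hM'⟩ := k2 M hM z hz ε h1.2 ε' h2.2 n.symm
      refine ih _ ?_ _ hM' rfl
      have l1 := Set.ncard_le_ncard (s := (Fk K Ω)ᶜ \ ((M \ {z, y'}) ∪ {ε, ε'}))
        (t := insert y' (((Fk K Ω)ᶜ \ M) \ {ε, ε'})) (fun p hp => by
          have : p = z → p ∈ Fk K Ω := fun e => e ▸ hzF
          simp only [Set.mem_diff, Set.mem_singleton_iff, Set.mem_insert_iff, Set.mem_union,
            Set.mem_compl_iff] at *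
          tauto)
      have l2 := Set.ncard_insert_le y' (((Fk K Ω)ᶜ \ M) \ {ε, ε'})
      have l3 := Set.ncard_sdiff_add_ncard_of_subset (s := {ε, ε'}) (t := (Fk K Ω)ᶜ \ M)
        (by rintro _ (rfl | rfl) <;> assumption)
      rw [Set.ncard_pair n] at l3
      omega
    obtain rfl | rfl : n = 0 ∨ n = 1 := by omega
    · obtain ⟨u, rfl⟩ := hM
      exact H.noΔ u (Set.diff_eq_empty.1 ((Set.ncard_eq_zero (Set.toFinite _)).1 hn))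
    obtain ⟨ε, e⟩ := Set.ncard_eq_one.1 hn
    have hε := e.symm.subset (Set.mem_singleton ε)
    obtain ⟨k, hk, hkε⟩ := exists_move hε.1
    refine H.no1 hM (hM.smul k) (Set.ncard_eq_one.2 ⟨k • ε, ?_⟩)
    ext p
    rw [Set.mem_diff, Set.mem_smul_set_iff_inv_smul_mem]
    constructor
    · rintro ⟨h1, h2⟩
      have : p ∉ Fk K Ω := fun h => h2 (by rwa [h _ (K.inv_mem hk)])
      have := e.subset ⟨smul_Fk (K.inv_mem hk) this, h2⟩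
      rw [Set.mem_singleton_iff, ← this]; simp
    · rintro rfl
      refine ⟨by_contra fun h => hkε (e.subset ⟨smul_Fk hk hε.1, h⟩), by simpa using hε.2⟩
  exact key _ _ Mb_F rfl

theorem c3 {M M' : Set Ω} (hM : Mb K M) (hM' : Mb K M') (h : ¬ M ⊆ M') : 3 ≤ (M \ M').ncard := by
  have := H.no1 hM hM'
  have := H.no2 hM hM'
  have : (M \ M').ncard ≠ 0 := fun h' =>
    h (Set.diff_eq_empty.1 ((Set.ncard_eq_zero (Set.toFinite _)).1 h'))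
  omega

end Bad

end CfsgH8.Pron
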