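import Cfsg.Agent.H8.PronF

set_option autoImplicit false
set_option linter.unusedSectionVars false

/-! Fixed points of pronormal subgroups: Bochert's bound for the minimal degree. -/

namespace CfsgH8.Pron

open scoped Pointwise

variable {G Ω : Type} [Group G] [Finite G] [MulAction G Ω] [Finite Ω] {K A : Subgroup G}

theorem cnt0 {Y : Type} [MulAction G Y] [Finite Y] (y : Y) (P : Set Y) (hP : P ⊆ orb A y) :
    {a | a ∈ A ∧ a • y ∈ P}.ncard = P.ncard * {a | a ∈ A ∧ a • y = y}.ncard := by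
  have := dcount {a | a ∈ A ∧ a • y ∈ P} P (fun a z => a • y = z) 1 {a | a ∈ A ∧ a • y = y}.ncard
    (fun a ha => Set.ncard_eq_one.2 ⟨a • y, by
      ext q; exact ⟨fun h => h.2.symm, fun h => ⟨h ▸ ha.2, h.symm⟩⟩⟩)
    (fun z hz => by
      obtain ⟨u, hu, rfl⟩ := hP hz
      rw [← Set.ncard_image_of_injective {a | a ∈ A ∧ a • y = y} (mul_right_injective u)]
      congr 1
      ext a
      constructor
      · rintro ⟨⟨h1, -⟩, h2⟩
        exact ⟨u⁻¹ * a, ⟨A.mul_mem (A.inv_mem hu) h1, by rw [mul_smul, h2, inv_smul_smul]⟩, by simp⟩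
      · rintro ⟨b, ⟨h1, h2⟩, rfl⟩
        have : (u * b) • y = u • y := by rw [mul_smul, h2]
        exact ⟨⟨A.mul_mem hu h1, this ▸ hz⟩, this⟩)
  rwa [mul_one] at this

theorem cnt {Y : Type} [MulAction G Y] [Finite Y] (y : Y) (P : Set Y) (hP : P ⊆ orb A y) :
    {a | a ∈ A ∧ a • y ∈ P}.ncard * (orb A y).ncard = P.ncard * (A : Set G).ncard := by
  have e : (A : Set G) = {a | a ∈ A ∧ a • y ∈ orb A y} := by
    ext a; exact ⟨fun h => ⟨h, a, h, rfl⟩, fun h => h.1⟩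
  rw [e, cnt0 y P hP, cnt0 y _ subset_rfl]; ring

theorem sum_ge {β : Type} [Finite β] [Fintype G] (S : Set β) (Rl : G → β → Prop) (c d : ℕ)
    (h : ∀ p ∈ S, d ≤ {g | Rl g p}.ncard * c) :
    S.ncard * d ≤ (∑ g, {p | p ∈ S ∧ Rl g p}.ncard) * c := by
  classical
  have := Fintype.ofFinite β
  rw [dsum, Finset.sum_mul, ← sum_const_on S (fun p => if p ∈ S then d else 0) d
    (fun p hp => if_pos hp) (fun p hp => if_neg hp)]
  refine Finset.sum_le_sum fun p _ => ?_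
  split_ifs with hp
  · simpa [hp] using h p hp
  · exact Nat.zero_le _

/-- ordered pairs of distinct points -/
def od (S : Set Ω) : Set (Ω × Ω) := {e | e.1 ∈ S ∧ e.2 ∈ S ∧ e.1 ≠ e.2}

theorem od_card (S : Set Ω) : (od S).ncard = S.ncard * (S.ncard - 1) := by
  have := dcount S (od S) (fun p e => e.1 = p) (S.ncard - 1) 1 (fun p hp => by
      rw [← Set.ncard_diff_singleton_of_mem hp,
        ← Set.ncard_image_of_injective (S \ {p}) (Prod.mk_right_injective p)]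
      refine congrArg Set.ncard ?_
      ext ⟨a, b⟩
      constructor
      · rintro ⟨h, rfl⟩; exact ⟨b, ⟨h.2.1, h.2.2.symm⟩, rfl⟩
      · rintro ⟨c, h, e⟩
        obtain ⟨rfl, rfl⟩ := Prod.ext_iff.1 e
        exact ⟨⟨hp, h.1, Ne.symm h.2⟩, rfl⟩)
    (fun e he => Set.ncard_eq_one.2 ⟨e.1, by
      ext p; exact ⟨fun h => h.2.symm, fun h => ⟨h ▸ he.1, h.symm⟩⟩⟩)
  rw [this, mul_one]

/-- support -/
def supp (Ω : Type) [MulAction G Ω] (w : G) : Set Ω := {p | w • p ≠ p}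

theorem supp_conj (g w : G) : (supp Ω (g * w * g⁻¹)).ncard = (supp Ω w).ncard := by
  rw [← Set.ncard_smul_set g (supp Ω w)]
  congr 1
  ext p
  simp [supp, Set.mem_smul_set_iff_inv_smul_mem, mul_smul, smul_eq_iff_eq_inv_smul g]

theorem boch_arith {a b h S1 S2 S3 : ℕ} (ha : 5 ≤ a) (hb : a + 4 ≤ b) (h0 : 0 < h)
    (h1 : (b + 2) * ((b + 1) * h) ≤ S1 * (a + b + 2))
    (h2 : a * ((b + 1) * b * h) ≤ S2 * ((a + b + 2) * (a + b + 1)))
    (h3 : (b + 2) * (b + 1) * (a * h) ≤ S3 * ((a + b + 2) * (a + b + 1)))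
    (h4 : S1 + S2 + S3 ≤ h * (b + 2)) : False := by
  have e1 := Nat.mul_le_mul_right (a + b + 1) h1
  have e2 := Nat.mul_le_mul_right ((a + b + 2) * (a + b + 1)) h4
  have e3 : h * (2 * a * (b + 1) ^ 2) ≤ h * ((b + 2) * (a + b + 1) * (a + 1)) := by nlinarith
  have e4 := Nat.le_of_mul_le_mul_left e3 h0
  obtain ⟨s, rfl⟩ := Nat.exists_eq_add_of_le ha
  obtain ⟨t, rfl⟩ := Nat.exists_eq_add_of_le hb
  nlinarith [Nat.zero_le (s * t), Nat.zero_le (s * s * t), Nat.zero_le (s * t * t), Nat.zero_le (t * t),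
    Nat.zero_le (s * s)]

namespace Bad
variable {m : ℕ} (H : Bad K Ω m)
include H

theorem homs4 : ∀ i ≤ 4, Hom G Ω i := fun i hi => by
  interval_cases i
  exacts [hom0, H.t1.hom, H.t2.hom, H.t3.hom, H.t4.hom]

theorem tl {w : G} {a : Ω} (ha : a ∈ Fk K Ω) (hb : w • a ∉ Fk K Ω) : 6 ≤ (supp Ω w).ncard ∧
    ∀ c ∉ Fk K Ω, w • c ∉ Fk K Ω → w • c ≠ c → 7 ≤ (supp Ω w).ncard := by
  have c3 := H.c3 Mb_F (Mb_F.smul w⁻¹) fun h => hb (by
    simpa [Set.mem_smul_set_iff_inv_smul_mem] using h ha)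
  have mem : ∀ p, p ∈ Fk K Ω \ w⁻¹ • Fk K Ω ↔ p ∈ Fk K Ω ∧ w • p ∉ Fk K Ω := fun p => by
    simp [Set.mem_smul_set_iff_inv_smul_mem]
  have l1 := Set.ncard_le_ncard (s := Fk K Ω \ w⁻¹ • Fk K Ω) (t := supp Ω w ∩ Fk K Ω) fun p hp =>
    ⟨fun e => ((mem p).1 hp).2 (e.symm ▸ hp.1), hp.1⟩
  have s2 : w • (Fk K Ω \ w⁻¹ • Fk K Ω) ⊆ supp Ω w \ Fk K Ω := by
    rintro _ ⟨p, hp, rfl⟩
    exact ⟨sne (a := w • p) (b := p) fun e => ((mem p).1 hp).2 (e.symm ▸ hp.1), ((mem p).1 hp).2⟩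
  have l2 := Set.ncard_le_ncard s2
  have e := Set.ncard_inter_add_ncard_diff_eq_ncard (supp Ω w) (Fk K Ω)
  have e2 := Set.ncard_smul_set w (Fk K Ω \ w⁻¹ • Fk K Ω)
  refine ⟨by omega, fun c h1 h2 h3 => ?_⟩
  have l3 := Set.ncard_lt_ncard (s := w • (Fk K Ω \ w⁻¹ • Fk K Ω)) (t := supp Ω w \ Fk K Ω)
    ⟨s2, fun h => h1 (Set.smul_mem_smul_set_iff.1 (h ⟨sne h3, h2⟩)).1⟩
  omega

theorem s7 {w : G} {α : Ω} (h : w • α ≠ α) : 7 ≤ (supp Ω w).ncard := by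
  have m4 := H.lt 4 H.homs4
  obtain ⟨a, ha⟩ : (Fk K Ω).Nonempty := by rw [← Set.ncard_pos, H.cF]; omega
  obtain ⟨b1, h1, b2, h2, b3, h3, n1, n2, n3⟩ := (Set.two_lt_ncard (Set.toFinite _)).1
    (show 2 < (Fk K Ω)ᶜ.ncard by rw [H.cΔ]; omega)
  have ne : ∀ b ∈ (Fk K Ω)ᶜ, a ≠ b := fun b hb e => hb (e ▸ ha)
  obtain ⟨g, g1, g2⟩ := H.t2 α (w • α) a b1 h.symm (ne _ h1)
  have s6 := (H.tl (w := g * w * g⁻¹) ha (by rw [← g1]; simpa [mul_smul, g2] using h1)).1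
  rw [supp_conj] at s6
  obtain ⟨γ, hγ, hγ'⟩ : ∃ γ ∈ supp Ω w, γ ∉ ({α, w • α, w⁻¹ • α} : Set Ω) :=
    Set.not_subset.1 fun hs => by
      have := (Set.ncard_le_ncard hs).trans (Set.ncard_insert_le _ _)
      have := Set.ncard_insert_le (w • α) {w⁻¹ • α}
      rw [Set.ncard_singleton] at this
      omega
  simp only [Set.mem_insert_iff, Set.mem_singleton_iff, not_or] at hγ'
  obtain ⟨g, g1, g2, g3, g4⟩ := H.t4 α (w • α) γ (w • γ) a b1 b2 b3 h.symm (Ne.symm hγ'.1)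
    (fun e => hγ'.2.2 (by rw [e]; simp)) (Ne.symm hγ'.2.1) (sne (Ne.symm hγ'.1)) (Ne.symm hγ)
    (ne _ h1) (ne _ h2) (ne _ h3) n1 n2 n3
  have e : (g * w * g⁻¹) • b2 = b3 := by rw [← g3]; simp [mul_smul, g4]
  rw [← supp_conj g]
  exact (H.tl (w := g * w * g⁻¹) ha (by rw [← g1]; simpa [mul_smul, g2] using h1)).2 b2 h2
    (e ▸ h3) (e ▸ n3.symm)

theorem orb3 {α β γ γ' : Ω} (n : α ≠ β) (h : (γ, γ') ∈ od ((Set.univ \ {α}) \ {β})) :
    orb (sb (sb (⊤ : Subgroup G) α) β) (γ, γ') = od ((Set.univ \ {α}) \ {β}) := by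
  ext ⟨p, q⟩
  constructor
  · rintro ⟨g, hg, e⟩
    obtain ⟨rfl, rfl⟩ := Prod.ext_iff.1 e
    have f1 : g • α = α := hg.1.2
    have f2 : g • β = β := hg.2
    exact ⟨⟨⟨trivial, f1 ▸ sne h.1.1.2⟩, f2 ▸ sne h.1.2⟩, ⟨⟨trivial, f1 ▸ sne h.2.1.1.2⟩,
      f2 ▸ sne h.2.1.2⟩, sne h.2.2⟩
  · intro h'
    obtain ⟨g, g1, g2, g3, g4⟩ := H.t4 α β γ γ' α β p q n (Ne.symm h.1.1.2) (Ne.symm h.2.1.1.2)
      (Ne.symm h.1.2) (Ne.symm h.2.1.2) h.2.2 n (Ne.symm h'.1.1.2) (Ne.symm h'.2.1.1.2)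
      (Ne.symm h'.1.2) (Ne.symm h'.2.1.2) h'.2.2
    exact ⟨g, ⟨⟨trivial, g1⟩, g2⟩, Prod.ext g3 g4⟩

theorem bochert {z : G} {α : Ω} (h : z • α ≠ α) : m ≤ (supp Ω z).ncard + 1 := by
  induction hn : (supp Ω z).ncard using Nat.strong_induction_on generalizing z α with
  | _ μ ih =>
  by_contra hc
  have mn : ∀ (w : G) (p : Ω), w • p ≠ p → μ ≤ (supp Ω w).ncard := fun w p hp => by
    by_contra hw
    have := ih _ (not_le.1 hw) hp rfl
    omega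
  have h7 := H.s7 h
  have cc : ∀ w : G, (supp Ω w).ncard + (supp Ω w)ᶜ.ncard = 2 * m := fun w =>
    H.cΩ ▸ Set.ncard_add_ncard_compl _
  obtain ⟨a, rfl⟩ : ∃ a, μ = a + 2 := ⟨μ - 2, by omega⟩
  obtain ⟨b, hb⟩ : ∃ b, 2 * m = a + b + 4 := ⟨2 * m - a - 4, by omega⟩
  have cΦ : (supp Ω z)ᶜ.ncard = b + 2 := by have := cc z; omega
  obtain ⟨u, hu⟩ : (supp Ω z)ᶜ.Nonempty := by rw [← Set.ncard_pos]; omega
  have hu' : z • u = u := not_not.1 hu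
  set β := z • α with hβ
  obtain ⟨g0, g1, g2⟩ := H.t2 u α α β (fun e => h (by rw [hβ, ← e, hu'])) h.symm
  obtain ⟨z0, y1, y2, y3⟩ : ∃ z0 : G, z0 • α = α ∧ z0 • β ≠ β ∧ (supp Ω z0).ncard = a + 2 :=
    ⟨g0 * z * g0⁻¹, by rw [← g1]; simp [mul_smul, hu'], by
      rw [← g2]; simpa [mul_smul] using h, by rw [supp_conj, hn]⟩
  set A := sb (sb (⊤ : Subgroup G) α) β with hAd
  have cΦ0 : ((supp Ω z0)ᶜ \ {α}).ncard = b + 1 := by
    rw [Set.ncard_diff_singleton_of_mem (s := (supp Ω z0)ᶜ) (not_not.2 y1)]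
    have := cc z0; omega
  have sΦ0 : (supp Ω z0)ᶜ \ {α} ⊆ (Set.univ \ {α}) \ {β} := fun p hp =>
    ⟨⟨trivial, hp.2⟩, fun e => hp.1 (e ▸ y2)⟩
  have cO : ((Set.univ \ {α}) \ {β} : Set Ω).ncard = a + b + 2 := by
    rw [Set.ncard_diff_singleton_of_mem (s := Set.univ \ {α}) ⟨trivial, h⟩,
      Set.ncard_diff_singleton_of_mem (Set.mem_univ _), Set.ncard_univ, H.cΩ]
    omega
  have sΦ : (supp Ω z)ᶜ ⊆ (Set.univ \ {α}) \ {β} := fun p hp =>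
    ⟨⟨trivial, fun e => hp (e ▸ h)⟩, fun e => hp (e ▸ sne h)⟩
  have := Fintype.ofFinite G
  have S1 := sum_ge (supp Ω z)ᶜ (fun g p => g ∈ A ∧ g • p ∈ (supp Ω z0)ᶜ \ {α}) (a + b + 2)
    ((b + 1) * (A : Set G).ncard) fun p hp => by
      have e := H.orb2 h.symm (sΦ hp).1.2 (sΦ hp).2
      have := cnt (A := A) p _ (e ▸ sΦ0)
      rw [e, cO, cΦ0] at this
      exact this.ge
  have S2 := sum_ge (supp Ω z \ {α, β}) (fun g p => g ∈ A ∧ z0 • g • p = g • p ∧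
      z0 • g • z • p = g • z • p) ((a + b + 2) * (a + b + 1)) ((b + 1) * b * (A : Set G).ncard)
    fun p hp => by
      have hp2 : p ≠ α ∧ p ≠ β := by simpa using hp.2
      obtain ⟨p', h1, h2⟩ : ∃ p', (p, p') ∈ od ((Set.univ \ {α}) \ {β}) ∧ (z • p = α ∨ z • p = p') := by
        by_cases hz : z • p = α
        · exact ⟨u, ⟨⟨⟨trivial, hp2.1⟩, hp2.2⟩, sΦ hu, fun (e : p = u) => hu (e ▸ hp.1)⟩, Or.inl hz⟩
        · exact ⟨z • p, ⟨⟨⟨trivial, hp2.1⟩, hp2.2⟩, ⟨⟨trivial, hz⟩, sne hp2.1⟩, Ne.symm hp.1⟩, Or.inr rfl⟩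
      have e := H.orb3 h.symm h1
      have := cnt (A := A) (p, p') (od ((supp Ω z0)ᶜ \ {α}))
        (e ▸ fun x hx => ⟨sΦ0 hx.1, sΦ0 hx.2.1, hx.2.2⟩)
      rw [e, od_card, od_card, cO, cΦ0] at this
      refine this.ge.trans (Nat.mul_le_mul_right _ (Set.ncard_le_ncard fun g hg =>
        ⟨hg.1, not_not.1 hg.2.1.1, ?_⟩))
      rcases h2 with h2 | h2
      · rw [h2, show g • α = α from hg.1.1.2, y1]
      · rw [h2]; exact not_not.1 hg.2.2.1.1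
  have S3 := sum_ge (od (supp Ω z)ᶜ) (fun g e => g ∈ A ∧ z0 • g • e.1 = g • e.2)
    ((a + b + 2) * (a + b + 1)) (a * (A : Set G).ncard) fun ⟨p, p'⟩ hp => by
      have e := H.orb3 (γ := p) (γ' := p') h.symm ⟨sΦ hp.1, sΦ hp.2.1, hp.2.2⟩
      have := cnt (A := A) (p, p') ((fun x => (x, z0 • x)) '' (supp Ω z0 \ {β, z0⁻¹ • β})) (e ▸ by
        rintro _ ⟨x, hx, rfl⟩
        have hx2 : x ≠ β ∧ x ≠ z0⁻¹ • β := by simpa using hx.2
        have hx3 : x ≠ α := fun e => hx.1 (e ▸ y1)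
        exact ⟨⟨⟨trivial, hx3⟩, hx2.1⟩, ⟨⟨trivial, y1 ▸ sne hx3⟩, fun e => hx2.2 (by
          rw [← Set.mem_singleton_iff.1 e]; simp)⟩, Ne.symm hx.1⟩)
      have n0 : β ≠ z0⁻¹ • β := fun e => y2 (by conv_lhs => rw [e]; simp)
      have c1 := Set.ncard_sdiff_add_ncard_of_subset (s := {β, z0⁻¹ • β}) (t := supp Ω z0) (by
        rintro _ (rfl | rfl)
        · exact y2
        · simpa [supp] using n0)
      rw [Set.ncard_pair n0, y3] at c1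
      rw [e, od_card, cO, Set.ncard_image_of_injective _ (fun x y e => congrArg Prod.fst e),
        show (supp Ω z0 \ {β, z0⁻¹ • β}).ncard = a by omega] at this
      refine this.ge.trans (Nat.mul_le_mul_right _ (Set.ncard_le_ncard ?_))
      rintro g ⟨hg, x, -, e⟩
      obtain ⟨rfl, e2⟩ := Prod.ext_iff.1 e
      exact ⟨hg, e2⟩
  have c2 := Set.ncard_sdiff_add_ncard_of_subset (s := {α, β}) (t := supp Ω z) (by
    rintro _ (rfl | rfl)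
    · exact h
    · exact sne h)
  rw [Set.ncard_pair h.symm, hn] at c2
  rw [cΦ] at S1
  rw [show (supp Ω z \ {α, β}).ncard = a by omega] at S2
  rw [od_card, cΦ] at S3
  refine boch_arith (by omega) (by omega) ((Set.ncard_pos (Set.toFinite _)).2 ⟨1, A.one_mem⟩) S1 S2 S3 ?_
  classical
  rw [← Finset.sum_add_distrib, ← Finset.sum_add_distrib, ← sum_const_on (A : Set G)
    (fun g => if g ∈ A then b + 2 else 0) (b + 2) (fun g hg => if_pos hg) (fun g hg => if_neg hg)]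
  refine Finset.sum_le_sum fun g _ => ?_
  split_ifs with hg
  swap
  · simp [hg]
  have f1 : g • α = α := hg.1.2
  have f2 : g • β = β := hg.2
  set y := g⁻¹ * z0 * g with hy
  have hy' : ∀ p q : Ω, z0 • g • p = g • q → y • p = q := fun p q e => by
    rw [hy, mul_smul, mul_smul, e, inv_smul_smul]
  have mem : ∀ p, p ∈ (supp Ω ((z * y)⁻¹ * (y * z)))ᶜ ↔ y • z • p = z • y • p := fun p => by
    simp only [supp, Set.mem_compl_iff, Set.mem_setOf_eq, not_not, mul_smul, inv_smul_eq_iff]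
  have l0 := mn ((z * y)⁻¹ * (y * z)) α fun e => by
    have := (mem α).1 (not_not.2 e)
    rw [hy' α α (by rw [f1, y1]), ← hβ, hy, mul_smul, mul_smul, f2, inv_smul_eq_iff, f2] at this
    exact y2 this
  have l1 := cc ((z * y)⁻¹ * (y * z))
  have l2 := Set.ncard_le_ncard_of_injOn
    (s := {e | e ∈ od (supp Ω z)ᶜ ∧ g ∈ A ∧ z0 • g • e.1 = g • e.2})
    (t := {p | z • p = p ∧ y • p ≠ p ∧ z • y • p = y • p}) Prod.fst
    (fun e he => ⟨not_not.1 he.1.1, by rw [hy' _ _ he.2.2]; exact ⟨he.1.2.2.symm, not_not.1 he.1.2.1⟩⟩)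
    (fun e he e' he' h => Prod.ext h (by rw [← hy' _ _ he.2.2, ← hy' _ _ he'.2.2, h]))
  have l3 := Set.ncard_le_ncard (s := ({p | p ∈ (supp Ω z)ᶜ ∧ g ∈ A ∧ g • p ∈ (supp Ω z0)ᶜ \ {α}} ∪
    {p | p ∈ supp Ω z \ {α, β} ∧ g ∈ A ∧ z0 • g • p = g • p ∧ z0 • g • z • p = g • z • p}) ∪
    {p | z • p = p ∧ y • p ≠ p ∧ z • y • p = y • p}) (t := (supp Ω ((z * y)⁻¹ * (y * z)))ᶜ) (by
      rintro p ((hp | hp) | hp) <;> rw [mem]
      · rw [hy' _ _ (not_not.1 hp.2.2.1), not_not.1 hp.1, hy' _ _ (not_not.1 hp.2.2.1)]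
      · rw [hy' _ _ hp.2.2.1, hy' _ _ hp.2.2.2]
      · rw [hp.1, hp.2.2])
  rw [Set.ncard_union_eq, Set.ncard_union_eq] at l3
  · omega
  · exact Set.disjoint_left.2 fun p h1 h2 => h1.1 h2.1.1
  · refine Set.disjoint_left.2 ?_
    rintro p (h1 | h1) h2
    · exact h2.2.1 (hy' _ _ (not_not.1 h1.2.2.1))
    · exact h1.1.1 h2.1

end Bad

end CfsgH8.Pron
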