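import Cfsg.Agent.H8.PronG

set_option autoImplicit false
set_option linter.unusedSectionVars false

/-! Fixed points of pronormal subgroups: the moment inequality and the theorem. -/

namespace CfsgH8.Pron

open scoped Pointwise

variable {G Ω : Type} [Group G] [Finite G] [MulAction G Ω] [Finite Ω] {K A : Subgroup G}

theorem cast_desc (n k : ℕ) : ((n.descFactorial (k + 1) : ℕ) : ℚ) = n.descFactorial k * ((n : ℚ) - k) := by
  rcases le_or_gt k n with h | h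
  · rw [Nat.descFactorial_succ, Nat.cast_mul, Nat.cast_sub h, mul_comm]
  · rw [Nat.descFactorial_of_lt h, Nat.descFactorial_of_lt (by omega)]; simp

theorem mom_arith {m a N l1 l2 l3 l4 : ℚ} (ha : 2 ≤ a) (hm : m = 2 * a + 2 ∨ m = 2 * a + 3) (hN : 0 < N)
    (h1 : 2 * m * l1 = N * m) (h2 : 2 * m * (2 * m - 1) * l2 = N * (m * (m - 1)))
    (h3 : 2 * m * (2 * m - 1) * (2 * m - 2) * l3 = N * (m * (m - 1) * (m - 2)))
    (h4 : 2 * m * (2 * m - 1) * (2 * m - 2) * (2 * m - 3) * l4 = N * (m * (m - 1) * (m - 2) * (m - 3))) :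
    m * (m - 1) * (m - 2) * l3 + (3 - 2 * a) * (m * (m - 1) * l2) + (a ^ 2 - 3 * a) * (m * l1) +
      a * (a + 1) * N < 2 * (m * ((m - 2) * (m - 3) * l4 + (4 - 2 * a) * ((m - 2) * l3) +
        (2 - a) * (1 - a) * l2)) := by
  have m6 : 6 ≤ m := by rcases hm with h | h <;> linarith
  have p0 : 0 < m := by linarith
  have p1 : 0 < 2 * m - 1 := by linarith
  have p2 : 0 < m - 1 := by linarith
  have p3 : 0 < 2 * m - 3 := by linarith
  have e1 : l1 = N / 2 := by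
    apply mul_left_cancel₀ p0.ne'; linarith
  have e2 : l2 = N * (m - 1) / (2 * (2 * m - 1)) := by
    rw [eq_div_iff (by positivity)]
    apply mul_left_cancel₀ p0.ne'; linarith
  have e3 : l3 = N * (m - 2) / (4 * (2 * m - 1)) := by
    rw [eq_div_iff (by positivity)]
    apply mul_left_cancel₀ (mul_pos p0 p2).ne'; linarith
  have e4 : l4 = N * ((m - 2) * (m - 3)) / (4 * (2 * m - 1) * (2 * m - 3)) := by
    rw [eq_div_iff (by positivity)]
    apply mul_left_cancel₀ (mul_pos p0 p2).ne'; linarith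
  rw [← sub_pos]
  have key : 2 * (m * ((m - 2) * (m - 3) * l4 + (4 - 2 * a) * ((m - 2) * l3) + (2 - a) * (1 - a) * l2)) -
      (m * (m - 1) * (m - 2) * l3 + (3 - 2 * a) * (m * (m - 1) * l2) + (a ^ 2 - 3 * a) * (m * l1) +
      a * (a + 1) * N) = N / (4 * (2 * m - 1) * (2 * m - 3)) *
      (2 * m * ((m - 2) ^ 2 * (m - 3) ^ 2 + (4 - 2 * a) * (m - 2) ^ 2 * (2 * m - 3) +
        2 * (2 - a) * (1 - a) * (m - 1) * (2 * m - 3)) - (m * (m - 1) * (m - 2) ^ 2 * (2 * m - 3) +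
        2 * (3 - 2 * a) * m * (m - 1) ^ 2 * (2 * m - 3) + 2 * (a ^ 2 - 3 * a) * m * (2 * m - 1) * (2 * m - 3) +
        4 * a * (a + 1) * (2 * m - 1) * (2 * m - 3))) := by
    rw [e1, e2, e3, e4]; field_simp; ring
  rw [key]
  refine mul_pos (by positivity) ?_
  obtain ⟨s, hs, rfl⟩ : ∃ s : ℚ, 0 ≤ s ∧ a = s + 2 := ⟨a - 2, by linarith, by ring⟩
  rcases hm with rfl | rfl
  · ring_nf; positivity
  · ring_nf; positivity

/-- number of points of a member outside `F` -/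
noncomputable def jj (K : Subgroup G) (Ω : Type) [MulAction G Ω] (g : G) : ℕ :=
  ((Fk K Ω)ᶜ ∩ g • Fk K Ω).ncard

/-- number of arcs of `x` inside a member -/
noncomputable def ee (K : Subgroup G) (Ω : Type) [MulAction G Ω] (x g : G) : ℕ :=
  {p | p ∈ (Fk K Ω)ᶜ ∧ p ∈ g • Fk K Ω ∧ x • p ∈ g • Fk K Ω}.ncard

theorem ee_le (x g : G) : ee K Ω x g ≤ jj K Ω g := Set.ncard_le_ncard fun _ hp => ⟨hp.1, hp.2.1⟩

theorem ee_eq {x g : G} (h : x • g • Fk K Ω = g • Fk K Ω) : ee K Ω x g = jj K Ω g := by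
  simp only [ee, jj, mem_of_norm h, and_self]; rfl

theorem jj_eq (g : G) : jj K Ω g = (Fk K Ω \ g • Fk K Ω).ncard := by
  rw [ncard_diff_comm (Set.ncard_smul_set g _).symm, jj, Set.inter_comm]; rfl

theorem jj_inv (g : G) : jj K Ω g⁻¹ = jj K Ω g := by
  rw [jj_eq, ← Set.ncard_smul_set g, Set.smul_set_sdiff, smul_inv_smul, jj, Set.inter_comm]; rfl

namespace Bad
variable {m : ℕ} (H : Bad K Ω m)
include H

theorem fix_le {w : G} {p : Ω} (h : w • p ≠ p) : (supp Ω w)ᶜ.ncard ≤ m + 1 := by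
  have := H.bochert h
  have := Set.ncard_add_ncard_compl (supp Ω w)
  rw [H.cΩ] at this
  omega

theorem pres {x y : G} (hx : x ∈ K) {q : Ω} (hq : x • q ≠ q) (hc : ∀ p : Ω, x • y • p = y • x • p) :
    y • Fk K Ω = Fk K Ω := by
  refine Set.eq_of_subset_of_ncard_le ?_ (by rw [H.cM, H.cF])
  by_contra hs
  have c3 := H.c3 (Mb_F.smul y) Mb_F hs
  have l1 := Set.ncard_le_ncard (s := y • Fk K Ω \ Fk K Ω) (t := (supp Ω x)ᶜ \ Fk K Ω) (by
    rintro _ ⟨⟨p, hp, rfl⟩, h⟩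
    exact ⟨not_not.2 (by rw [hc, hp x hx]), h⟩)
  have l2 := Set.ncard_sdiff_add_ncard_of_subset (s := Fk K Ω) (t := (supp Ω x)ᶜ)
    fun p hp => not_not.2 (hp x hx)
  have := H.fix_le hq
  rw [H.cF] at l2
  omega

theorem core {x x' : G} (hx : x ∈ K) {q : Ω} (hq : x • q ≠ q) (hx' : x' ∈ K) {q' : Ω}
    (hq' : x' • q' ≠ q') (g : G) : ee K Ω x g + ee K Ω x' g⁻¹ ≤ jj K Ω g + 1 ∨
      (x • g • Fk K Ω = g • Fk K Ω ∧ x' • g⁻¹ • Fk K Ω = g⁻¹ • Fk K Ω) := by
  set y := g * x' * g⁻¹ with hy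
  by_cases hc : ∀ p : Ω, x • y • p = y • x • p
  · right
    have e1 := H.pres hx hq hc
    have e2 := H.pres (y := g⁻¹ * x * g) hx' hq' fun p => by
      have := hc (g • p)
      simp only [hy, mul_smul, inv_smul_smul] at this ⊢
      rw [this, inv_smul_smul]
    rw [mul_smul, mul_smul, inv_smul_eq_iff] at e2
    rw [hy, mul_smul, mul_smul, smul_eq_iff_eq_inv_smul] at e1
    exact ⟨e2, e1⟩
  left
  push Not at hc
  obtain ⟨p, hp⟩ := hc
  have mem : ∀ p, p ∈ (supp Ω ((y * x)⁻¹ * (x * y)))ᶜ ↔ x • y • p = y • x • p := fun p => by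
    simp only [supp, Set.mem_compl_iff, Set.mem_setOf_eq, not_not, mul_smul, inv_smul_eq_iff]
  have l0 := H.fix_le (w := (y * x)⁻¹ * (x * y)) (p := p) fun e => hp ((mem p).1 (not_not.2 e))
  have l2 : ee K Ω x' g⁻¹ ≤ {p | p ∈ Fk K Ω ∧ p ∉ g • Fk K Ω ∧ y • p ∈ Fk K Ω}.ncard :=
    le_of_smul g fun p hp => by
      simp only [Set.mem_setOf_eq, Set.mem_smul_set_iff_inv_smul_mem, inv_inv, hy, mul_smul,
        inv_smul_smul] at hp ⊢
      exact ⟨hp.2.1, hp.1, hp.2.2⟩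
  have l3 := Set.ncard_le_ncard (s := ((Fk K Ω ∩ g • Fk K Ω) ∪
    {p | p ∈ (Fk K Ω)ᶜ ∧ p ∈ g • Fk K Ω ∧ x • p ∈ g • Fk K Ω}) ∪
    {p | p ∈ Fk K Ω ∧ p ∉ g • Fk K Ω ∧ y • p ∈ Fk K Ω}) (t := (supp Ω ((y * x)⁻¹ * (x * y)))ᶜ) (by
      rintro p ((hp | hp) | hp) <;> rw [mem]
      · rw [conj_fix hp.2 hx', hp.1 x hx, conj_fix hp.2 hx']
      · rw [conj_fix hp.2.1 hx', conj_fix hp.2.2 hx']
      · rw [hp.1 x hx, hp.2.2 x hx])
  have l4 := Set.ncard_inter_add_ncard_diff_eq_ncard (Fk K Ω) (g • Fk K Ω)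
  rw [← jj_eq, H.cF] at l4
  rw [Set.ncard_union_eq, Set.ncard_union_eq] at l3
  · simp only [ee] at l2 ⊢; omega
  · exact Set.disjoint_left.2 fun p h1 h2 => h2.1 h1.1
  · refine Set.disjoint_left.2 ?_
    rintro p (h1 | h1) h2
    · exact h2.2.1 h1.2
    · exact h1.1 h2.1

theorem jj3 {g : G} (hg : g • Fk K Ω ≠ Fk K Ω) : 3 ≤ jj K Ω g := by
  rw [jj_eq]
  obtain ⟨b, h1, h2⟩ := H.exFM hg
  exact H.c3 Mb_F (Mb_F.smul g) fun h => h2 (h h1)

open Classical in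
theorem half [Fintype G] {g : G} (hg : g • Fk K Ω ≠ Fk K Ω)
    (h : ∀ x ∈ K, (∃ q : Ω, x • q ≠ q) → x • g • Fk K Ω ≠ g • Fk K Ω → ee K Ω x g ≤ 1) :
    2 * ∑ x with x ∈ K ∧ ∃ q : Ω, x • q ≠ q, ee K Ω x g ≤
      (Finset.univ.filter fun x => x ∈ K ∧ ∃ q : Ω, x • q ≠ q).card * (jj K Ω g + 1) := by
  set S := Finset.univ.filter fun x => x ∈ K ∧ ∃ q : Ω, x • q ≠ q with hS
  have mS : ∀ x, x ∈ S ↔ x ∈ K ∧ ∃ q : Ω, x • q ≠ q := fun x => by simp [hS]
  obtain ⟨k, hk, hk'⟩ : ∃ k ∈ K, k • g • Fk K Ω ≠ g • Fk K Ω := by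
    by_contra hc
    push Not at hc
    exact hg (H.pron.noinv hc)
  have l1 : (S.filter fun x => x • g • Fk K Ω = g • Fk K Ω).card ≤
      (S.filter fun x => ¬ x • g • Fk K Ω = g • Fk K Ω).card := by
    refine Finset.card_le_card_of_injOn (k * ·) (fun x hx => ?_) (fun a _ b _ e => mul_left_cancel e)
    simp only [Finset.coe_filter, Set.mem_setOf_eq, mS] at hx ⊢
    have : ¬ (k * x) • g • Fk K Ω = g • Fk K Ω := by rwa [mul_smul, hx.2]
    refine ⟨⟨K.mul_mem hk hx.1.1, ?_⟩, this⟩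
    by_contra hc
    push Not at hc
    exact this (by ext p; simp [Set.mem_smul_set, hc])
  have l2 := Finset.card_filter_add_card_filter_not (s := S) fun x => x • g • Fk K Ω = g • Fk K Ω
  have l3 := Finset.sum_le_card_nsmul (S.filter fun x => x • g • Fk K Ω = g • Fk K Ω)
    (fun x => ee K Ω x g) _ fun x _ => ee_le x g
  have l4 := Finset.sum_le_card_nsmul (S.filter fun x => ¬ x • g • Fk K Ω = g • Fk K Ω)
    (fun x => ee K Ω x g) 1 fun x hx => by
      rw [Finset.mem_filter, mS] at hx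
      exact h x hx.1.1 hx.1.2 hx.2
  rw [← Finset.sum_filter_add_sum_filter_not S fun x => x • g • Fk K Ω = g • Fk K Ω, ← l2]
  obtain ⟨j, hj⟩ := Nat.exists_eq_add_of_le (H.jj3 hg)
  rw [smul_eq_mul] at l3 l4
  rw [hj] at l3 ⊢
  nlinarith [Nat.mul_le_mul_right (j + 2) l1]

open Classical in
theorem per [Fintype G] (g : G) :
    ∑ x with x ∈ K ∧ ∃ q : Ω, x • q ≠ q, (ee K Ω x g + ee K Ω x g⁻¹) ≤
      (Finset.univ.filter fun x => x ∈ K ∧ ∃ q : Ω, x • q ≠ q).card * (jj K Ω g + 1) := by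
  by_cases h : ∀ x ∈ K, (∃ q : Ω, x • q ≠ q) → ee K Ω x g + ee K Ω x g⁻¹ ≤ jj K Ω g + 1
  · exact Finset.sum_le_card_nsmul _ _ _ fun x hx => by
      rw [Finset.mem_filter] at hx
      exact h x hx.2.1 hx.2.2
  push Not at h
  obtain ⟨x, hx, ⟨q, hq⟩, h⟩ := h
  obtain ⟨e1, e2⟩ := (H.core hx hq hx hq g).resolve_left (by omega)
  have hg : g • Fk K Ω ≠ Fk K Ω := fun e => by
    have := ee_le (K := K) (Ω := Ω) x g
    have := ee_le (K := K) (Ω := Ω) x g⁻¹
    have : jj K Ω g = 0 := by simp [jj, e]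
    rw [jj_inv] at *
    omega
  have l1 := H.half hg fun y hy ⟨r, hr⟩ hn => by
    have := (H.core hy hr hx hq g).resolve_right fun h => hn h.1
    rw [ee_eq e2, jj_inv] at this
    omega
  have l2 := H.half (g := g⁻¹) (fun e => hg (inv_smul_eq_iff.1 e).symm) fun y hy ⟨r, hr⟩ hn => by
    have := (H.core hx hq hy hr g).resolve_right fun h => hn h.2
    rw [ee_eq e1] at this
    omega
  rw [jj_inv] at l2
  rw [Finset.sum_add_distrib]
  omega

theorem m6 : 6 ≤ m := by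
  obtain ⟨p, hp⟩ := H.exΔ
  obtain ⟨a, ha⟩ : (Fk K Ω).Nonempty := by rw [← Set.ncard_pos, H.cF]; exact H.pos
  obtain ⟨g, rfl⟩ := H.t1 a p
  obtain ⟨k, hk, hk'⟩ : ∃ k ∈ K, k • g • Fk K Ω ≠ g • Fk K Ω := by
    by_contra hc
    push Not at hc
    exact hp (H.pron.noinv hc ▸ Set.smul_mem_smul_set ha)
  have c : (k • g • Fk K Ω).ncard = (g • Fk K Ω).ncard := Set.ncard_smul_set _ _
  have l1 := H.c3 ((Mb_F.smul g).smul k) (Mb_F.smul g) fun h =>
    hk' (Set.eq_of_subset_of_ncard_le h c.ge)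
  have l2 := H.c3 (Mb_F.smul g) ((Mb_F.smul g).smul k) fun h =>
    hk' (Set.eq_of_subset_of_ncard_le h c.le).symm
  have l3 := Set.ncard_le_ncard (s := (k • g • Fk K Ω \ g • Fk K Ω) ∪ (g • Fk K Ω \ k • g • Fk K Ω))
    (t := (Fk K Ω)ᶜ) (by
      rintro p (h | h) hp <;> rw [Set.mem_diff, Set.mem_smul_set_iff_inv_smul_mem (a := k),
        hp _ (K.inv_mem hk)] at h <;> exact h.2 h.1)
  rw [Set.ncard_union_eq (Set.disjoint_left.2 fun p h1 h2 => h1.2 h2.1), H.cΔ] at l3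
  omega

theorem false : False := by
  classical
  have := Fintype.ofFinite G
  have := Fintype.ofFinite Ω
  have m6 := H.m6
  obtain ⟨a, ha, hm⟩ : ∃ a : ℕ, 2 ≤ a ∧ (m = 2 * a + 2 ∨ m = 2 * a + 3) := ⟨(m - 2) / 2, by omega⟩
  let h : G → ℚ := fun g => ((jj K Ω g : ℚ) - a) * (jj K Ω g - a - 1)
  have h0 : ∀ g, 0 ≤ h g := fun g => by
    rcases le_or_gt (jj K Ω g) a with l | l
    · have : (jj K Ω g : ℚ) ≤ a := by exact_mod_cast l
      exact mul_nonneg_of_nonpos_of_nonpos (by linarith) (by linarith)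
    · have : (a : ℚ) + 1 ≤ jj K Ω g := by exact_mod_cast l
      exact mul_nonneg (by linarith) (by linarith)
  set W : ℚ := (m - 2) * (m - 3) * lam G (Fk K Ω) 4 + (4 - 2 * a) * ((m - 2) * lam G (Fk K Ω) 3) +
    (2 - a) * (1 - a) * lam G (Fk K Ω) 2 with hW
  have w1 : ∀ p ∉ Fk K Ω, ∀ p' ∉ Fk K Ω, p ≠ p' →
      ∑ g : G, (if ({p, p'} : Set Ω) ⊆ g • Fk K Ω then h g else 0) = W := by
    intro p hp p' hp' n
    have sub : ({p, p'} : Set Ω) ⊆ (Fk K Ω)ᶜ := by rintro _ (rfl | rfl) <;> assumption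
    have q := fun i hi => congrArg (Nat.cast : ℕ → ℚ)
      (mom (G := G) (Fk K Ω) (Fk K Ω)ᶜ 4 H.homs4 i {p, p'} sub hi)
    simp only [Set.ncard_pair n, H.cΔ, Nat.cast_sum, Nat.cast_mul, Nat.cast_ite, Nat.cast_zero] at q
    have q0 := q 0 (by omega)
    have q1 := q 1 (by omega)
    have q2 := q 2 (by omega)
    simp only [cast_desc, Nat.descFactorial_zero, Nat.cast_sub (show 2 ≤ m by omega)] at q0 q1 q2
    push_cast at q0 q1 q2
    simp only [one_mul, sub_zero] at q0 q1 q2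
    rw [hW, show (m : ℚ) - 3 = m - 2 - 1 by ring, ← q0, ← q1, ← q2, Finset.mul_sum, Finset.mul_sum,
      ← Finset.sum_add_distrib, ← Finset.sum_add_distrib]
    refine Finset.sum_congr rfl fun g _ => ?_
    split_ifs with hg
    · have : 2 ≤ ((Fk K Ω)ᶜ ∩ g • Fk K Ω).ncard :=
        Set.ncard_pair n ▸ Set.ncard_le_ncard (Set.subset_inter sub hg)
      simp only [h, jj, Nat.cast_sub this]
      push_cast; ring
    · simp
  have w2 : ∀ x ∈ K, m * W ≤ ∑ g : G, h g * ee K Ω x g := by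
    intro x hx
    have e : ∀ g, h g * ee K Ω x g = ∑ p, if p ∈ (Fk K Ω)ᶜ then
        (if p ∈ g • Fk K Ω ∧ x • p ∈ g • Fk K Ω then h g else 0) else 0 := fun g => by
      rw [ee, ncard_eq_sum]
      push_cast
      rw [Finset.mul_sum]
      refine Finset.sum_congr rfl fun p _ => ?_
      simp only [Set.mem_setOf_eq]
      split_ifs <;> first | simp; done | tauto
    have e2 : m * W = ∑ p, if p ∈ (Fk K Ω)ᶜ then W else 0 := by
      rw [← H.cΔ, ncard_eq_sum]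
      push_cast
      rw [Finset.sum_mul]
      simp
    rw [Finset.sum_congr rfl fun g _ => e g, Finset.sum_comm, e2]
    refine Finset.sum_le_sum fun p _ => ?_
    split_ifs with hp
    swap
    · simp
    obtain ⟨p', h1, h2, h3⟩ : ∃ p' ∉ Fk K Ω, p ≠ p' ∧ (x • p = p ∨ x • p = p') := by
      by_cases hxp : x • p = p
      · obtain ⟨p', h1, h2⟩ := Set.exists_ne_of_one_lt_ncard
          (show 1 < (Fk K Ω)ᶜ.ncard by rw [H.cΔ]; omega) p
        exact ⟨p', h1, h2.symm, Or.inl hxp⟩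
      · exact ⟨x • p, smul_Fk hx hp, Ne.symm hxp, Or.inr rfl⟩
    rw [← w1 p hp p' h1 h2]
    refine Finset.sum_le_sum fun g _ => ?_
    split_ifs with u1 u2
    · rfl
    · refine absurd ⟨u1 (Or.inl rfl), ?_⟩ u2
      rcases h3 with e | e <;> rw [e]
      exacts [u1 (Or.inl rfl), u1 (Or.inr rfl)]
    · exact h0 g
    · rfl
  have w3 : ∀ x : G, ∑ g : G, h g * ee K Ω x g⁻¹ = ∑ g : G, h g * ee K Ω x g := fun x => by
    rw [← Equiv.sum_comp (Equiv.inv G)]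
    simp [h, jj_inv]
  set S := Finset.univ.filter fun x => x ∈ K ∧ ∃ q : Ω, x • q ≠ q with hS
  have w4 : S.card * (2 * (m * W)) ≤ S.card * ∑ g : G, h g * (jj K Ω g + 1) := by
    calc S.card * (2 * (m * W)) = ∑ x ∈ S, 2 * (m * W) := by simp
      _ ≤ ∑ x ∈ S, ∑ g : G, h g * ((ee K Ω x g + ee K Ω x g⁻¹ : ℕ) : ℚ) :=
        Finset.sum_le_sum fun x hx => by
          have := w2 x (Finset.mem_filter.1 hx).2.1
          simp only [Nat.cast_add, mul_add, Finset.sum_add_distrib, w3]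
          linarith
      _ = ∑ g : G, h g * ((∑ x ∈ S, (ee K Ω x g + ee K Ω x g⁻¹) : ℕ) : ℚ) := by
        rw [Finset.sum_comm]
        simp only [Nat.cast_sum, Finset.mul_sum]
      _ ≤ ∑ g : G, h g * ((S.card * (jj K Ω g + 1) : ℕ) : ℚ) :=
        Finset.sum_le_sum fun g _ => mul_le_mul_of_nonneg_left (by exact_mod_cast H.per g) (h0 g)
      _ = _ := by
        rw [Finset.mul_sum]
        refine Finset.sum_congr rfl fun g _ => ?_
        push_cast; ring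
  have sp : (0 : ℚ) < S.card := by
    obtain ⟨p, hp⟩ := H.exΔ
    obtain ⟨k, hk, hk'⟩ := exists_move hp
    exact_mod_cast Finset.card_pos.2 ⟨k, by simpa [hS] using ⟨hk, p, hk'⟩⟩
  have w5 := le_of_mul_le_mul_left w4 sp
  have q := fun i hi => congrArg (Nat.cast : ℕ → ℚ) (mom0 (G := G) (Fk K Ω) (Fk K Ω)ᶜ 4 H.homs4 i hi)
  have r := fun i hi => congrArg (Nat.cast : ℕ → ℚ) (lam_mul (G := G) (Fk K Ω) 4 H.homs4 i hi)
  simp only [H.cΔ, H.cF, H.cΩ, Nat.cast_sum, Nat.cast_mul] at q r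
  have q1 := q 1 (by omega)
  have q2 := q 2 (by omega)
  have q3 := q 3 (by omega)
  have r1 := r 1 (by omega)
  have r2 := r 2 (by omega)
  have r3 := r 3 (by omega)
  have r4 := r 4 (by omega)
  simp only [cast_desc, Nat.descFactorial_zero] at q1 q2 q3 r1 r2 r3 r4
  push_cast at q1 q2 q3 r1 r2 r3 r4
  simp only [one_mul, sub_zero] at q1 q2 q3 r1 r2 r3 r4
  have w6 := mom_arith (a := a) (by exact_mod_cast ha) (by exact_mod_cast hm)
    (by exact_mod_cast Fintype.card_pos) r1 r2 r3 r4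
  rw [← q1, ← q2, ← q3, ← hW] at w6
  refine absurd (w6.trans_le w5) (not_lt.2 (le_of_eq ?_))
  rw [show (a : ℚ) * (a + 1) * Fintype.card G = ∑ g : G, (a : ℚ) * (a + 1) by simp [mul_comm],
    Finset.mul_sum, Finset.mul_sum, ← Finset.sum_add_distrib, ← Finset.sum_add_distrib,
    ← Finset.sum_add_distrib]
  refine Finset.sum_congr rfl fun g _ => ?_
  simp only [h, jj]
  ring

end Bad

theorem main (hP : Pron K) (hT : TB (Nat.card Ω)) (h1 : T1 G Ω) (hF : Fk K Ω ≠ Set.univ) :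
    2 * (Fk K Ω).ncard + 1 ≤ Nat.card Ω := by
  by_contra h
  obtain ⟨m, H⟩ := exists_bad hP hT h1 hF h
  exact H.false

theorem tb (n : ℕ) : TB n := by
  induction n with
  | zero => intro G Y _ _ _ K A y _ _ h; omega
  | succ n ih =>
    intro G Y _ _ _ K A y hP hA hn hF
    have := (orb_finite (A := A) y).to_subtype
    let act : MulAction A (orb A y) :=
      { smul := fun a p => ⟨a.1 • p.1, smul_mem_orb a.2 p.2⟩
        one_smul := fun p => Subtype.ext (one_smul _ _)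
        mul_smul := fun a b p => Subtype.ext (mul_smul _ _ _) }
    have sm : ∀ (a : A) (p : orb A y), (a • p).1 = a.1 • p.1 := fun _ _ => rfl
    have eF : Fk (K.subgroupOf A) (orb A y) = Subtype.val ⁻¹' Fk K Y := by
      ext p
      exact ⟨fun h k hk => congrArg Subtype.val (h ⟨k, hA hk⟩ hk), fun h k hk => Subtype.ext (h k hk)⟩
    have := main (G := A) (Ω := orb A y) (K := K.subgroupOf A) (fun g L h1 h2 => by
      obtain ⟨_, ⟨w, hw, rfl⟩, h⟩ := hP g (L.map A.subtype)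
        (fun k hk => ⟨⟨k, hA hk⟩, h1 hk, rfl⟩) (fun k hk => ⟨_, h2 ⟨k, hA hk⟩ hk, rfl⟩)
      exact ⟨w, hw, fun x => h x⟩)
      (fun G Y _ _ _ K B z h1 h2 h3 => ih G Y K B z h1 h2 (by
        rw [Nat.card_coe_set_eq] at h3; omega))
      (fun p q => by
        obtain ⟨a, ha, e⟩ := orb_tr p.2 q.2
        exact ⟨⟨a, ha⟩, Subtype.ext e⟩)
      (fun h => hF fun p hp => (eF ▸ h ▸ Set.mem_univ _ : (⟨p, hp⟩ : orb A y) ∈ Subtype.val ⁻¹' Fk K Y))
    rwa [eF, Nat.card_coe_set_eq, ← Set.ncard_image_of_injective _ Subtype.val_injective,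
      Subtype.image_preimage_val, Set.inter_comm] at this

end CfsgH8.Pron
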