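import Cfsg.Agent.H9.Q4C1
import Cfsg.Agent.H8.MatLocA

set_option autoImplicit false
set_option linter.unusedSectionVars false

/-! S3404, case B3, end-game E1: the involution has five fixed points. -/

namespace CfsgH8.Q4E

open Subgroup CfsgH5 CfsgH6 CfsgFT CfsgH1.Q4 CfsgL.Q4B CfsgH9.Q4C
open scoped commutatorElement

universe u

variable {G : Type u} {Ω : Type*} [Group G] [Finite G] [MulAction G Ω] [Finite Ω]
variable {F : BB G Ω} {τ k g w c j : G} {x y a b p : Ω}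

theorem st (E : EG F τ x y a b) (hc : Commute g τ) (hk : F.Rm τ x y a b k) (k1 : k ≠ 1)
    (hk' : F.Rm τ x y a b (g * k * g⁻¹)) (ga : g • a = a) :
    g ∈ St G ({a, b, x, y} : Set Ω) ∨ g * τ ∈ St G ({a, b, x, y} : Set Ω) := by
  obtain ⟨h1, h2, h3, h4, h5, h6⟩ := E.d4
  have m : ∀ z, z ∈ ({a, b, x, y} : Set Ω) → g • z ∈ ({a, b, x, y} : Set Ω) := fun z hz => by
    rw [← E.fr hk' (conj_ne_one k1), smul_mem_Fx_conj, E.fr hk k1]; exact hz
  have ct : ∀ z : Ω, g • τ • z = τ • g • z := fun z => by rw [← mul_smul, hc.eq, mul_smul]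
  have gb : g • b = b := by
    have t := fix_of_comm hc E.fb
    rcases m b (by simp) with e | e | e | e
    · exact absurd (ga.trans e.symm) (smul_ne h1)
    · exact e
    · rw [e, E.sw] at t; exact absurd t.symm h6
    · rw [e, E.toCf.sw'] at t; exact absurd t h6
  rcases m x (by simp) with e | e | e | e
  · exact absurd (ga.trans e.symm) (smul_ne h2)
  · exact absurd (gb.trans e.symm) (smul_ne h4)
  · exact .inl (mem_St4.2 ⟨ga, gb, e, by rw [← E.sw, ct, e]⟩)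
  · exact .inr (mem_St4.2 ⟨by rw [mul_smul, E.fa, ga], by rw [mul_smul, E.fb, gb],
      by rw [mul_smul, ct, e, E.toCf.sw'], by rw [mul_smul, E.toCf.sw', e]⟩)

/-- the end-game configuration with a chosen element of order three and a chosen point -/
structure EK (F : BB G Ω) (τ : G) (x y a b : Ω) (k : G) (p : Ω) : Prop extends EG F τ x y a b where
  rk : F.Rm τ x y a b k
  k1 : k ≠ 1
  fp : τ • p = p
  pa : p ≠ a
  pb : p ≠ b

/-- the four-set -/
def Bk (k : G) (a p : Ω) : Set Ω := {a, p, k • p, k • k • p}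

/-- the complement -/
abbrev Wk (τ k : G) (a p : Ω) : Subgroup G := St G (Bk k a p) ⊓ C1 τ

theorem mem_Wk : w ∈ Wk τ k a p ↔
    (w • a = a ∧ w • p = p ∧ w • k • p = k • p ∧ w • k • k • p = k • k • p) ∧ Commute w τ := by
  rw [mem_inf, Bk, mem_St4, mem_C1]; rfl

namespace EK

variable (K : EK F τ x y a b k p)
include K

theorem k3 : k ^ 3 = 1 := K.r3 K.rk
theorem k3p : k • k • k • p = p := by
  rw [← mul_smul, ← mul_smul, ← pow_three', K.k3, one_smul]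
theorem ka : k • a = a := ((F.memK4 K.d4).1 K.rk.mem).1.1
theorem kb : k • b = b := ((F.memK4 K.d4).1 K.rk.mem).1.2.1
theorem kp : k • p ≠ p := fun e => K.k1 (K.semi K.rk K.fp e K.pa K.pb)
theorem fq : τ • k • p = k • p := fix_of_comm K.rk.cm K.fp
theorem fs : τ • k • k • p = k • k • p := fix_of_comm K.rk.cm K.fq
theorem D : D4 a p (k • p) (k • k • p) := by
  have h1 : a ≠ k • p := K.ka ▸ smul_ne K.pa.symm
  refine ⟨K.pa.symm, h1, K.ka ▸ smul_ne h1, K.kp.symm, fun e => K.kp ?_, smul_ne K.kp.symm⟩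
  rw [e, K.k3p]; exact e
theorem bq : b ≠ k • p := K.kb ▸ smul_ne K.pb.symm
theorem bs : b ≠ k • k • p := K.kb ▸ smul_ne K.bq
theorem c4 : (Bk k a p).ncard = 4 := K.D.ncard
theorem maps : ∀ z ∈ Bk k a p, k • z ∈ Bk k a p := by
  rintro z (rfl | rfl | rfl | rfl) <;> simp [Bk, K.ka, K.k3p]
theorem τB : τ ∈ St G (Bk k a p) := mem_St4.2 ⟨K.fa, K.fp, K.fq, K.fs⟩

theorem cen (hw : w ∈ Wk τ k a p) (h : k * w * k⁻¹ = w) : w = 1 ∨ w = τ := by
  obtain ⟨⟨h1, h2, -⟩, hc⟩ := mem_Wk.1 hw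
  have c1 : Commute w k := (mul_inv_eq_iff_eq_mul.1 h).symm
  have aux : ∀ {v : G}, v ∈ St G ({a, b, x, y} : Set Ω) → Commute v k → Commute v τ → v • p = p → v = 1 :=
    fun hv h1 h2 h3 => K.semi ⟨F.cen K.d4.ncard K.rk.mem K.k1 hv h1, h2⟩ K.fp h3 K.pa K.pb
  rcases st K.toEG hc K.rk K.k1 (by rw [c1.eq, mul_inv_cancel_right]; exact K.rk) h1 with e | e
  · exact .inl (aux e c1 hc h2)
  · have := aux e (c1.mul_left K.rk.cm.symm) (hc.mul_left (Commute.refl τ)) (by rw [mul_smul, K.fp, h2])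
    exact .inr (by rw [eq_inv_of_mul_eq_one_left this, K.toIv.inv])

/-- an element of `C(τ)` acting as `k` centralises only `1, τ` in `W`. -/
theorem key (hc : Commute c τ) (c1 : c • a = a) (c2 : c • p = k • p) (c3 : c • k • p = k • k • p)
    (c4 : c • k • k • p = p) (hw : w ∈ Wk τ k a p) (h : Commute c w) : w = 1 ∨ w = τ := by
  have e : ∀ z ∈ Bk k a p, c • z = k • z := by
    rintro z (rfl | rfl | rfl | rfl)
    exacts [c1.trans K.ka.symm, c2, c3, c4.trans K.k3p.symm]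
  have m : c ^ 3 ∈ Wk τ k a p := ⟨fun z hz => by rw [pow_act K.maps e 3 z hz, K.k3, one_smul],
    mem_C1.2 (hc.pow_left 3)⟩
  have cp := (W_cop F K.toIv K.c4 K.τB m).coprime_dvd_right K.three
  generalize hm : orderOf (c ^ 3) = m at cp
  obtain ⟨n, hn⟩ : ∃ n, m * m = 3 * n + 1 := by
    have : m % 3 ≠ 0 := fun e => by
      have := Nat.eq_one_of_dvd_coprimes cp (Nat.dvd_of_mod_eq_zero e) dvd_rfl
      omega
    refine ⟨m * m / 3, ?_⟩
    have h1 : m % 3 = 1 ∨ m % 3 = 2 := by omega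
    have h2 : m * m % 3 = 1 := by rcases h1 with h | h <;> simp [Nat.mul_mod, h]
    omega
  obtain ⟨v, hv, ev⟩ := conj3 F K.three K.toIv K.c4 K.τB K.rk.cm (hc.pow_left (m * m)) K.k3
    (by rw [← pow_mul, mul_comm, pow_mul, pow_mul, ← hm, pow_orderOf_eq_one, one_pow]) K.maps
    fun z hz => by rw [pow_act K.maps e _ z hz, hn, pow_succ, pow_mul, K.k3, one_pow, one_mul]
  have c5 := (h.pow_left (m * m)).eq
  rw [← ev] at c5
  have vt := (mem_Wk.1 hv).2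
  rcases K.cen (w := v⁻¹ * w * v) (mul_mem (mul_mem (inv_mem hv) hw) hv) (by
    calc k * (v⁻¹ * w * v) * k⁻¹ = v⁻¹ * (v * k * v⁻¹ * w) * v * k⁻¹ := by group
      _ = _ := by rw [c5]; group) with t | t
  · exact .inl (by calc w = v * (v⁻¹ * w * v) * v⁻¹ := by group
      _ = 1 := by rw [t]; group)
  · exact .inr (by calc w = v * (v⁻¹ * w * v) * v⁻¹ := by group
      _ = τ := by rw [t, vt.eq]; group)

theorem fc : CfsgH3.IsFC (Wk τ k a p) := by
  obtain ⟨u, hu, u1⟩ := F.exists_K K.c4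
  refine CfsgH3.isFC_of_subgroups _ (F.K (Bk k a p)) (fun e => u1 (by rwa [e] at hu))
    (fun h hh v hv => F.conj_mem_St K.c4 hh.1 hv) fun h hh h1 v hv e => F.fpf K.c4 hh.1 (fun m => h1 ?_) hv e
  exact F.fpf K.c4 K.τB (F.notK K.c4 K.toIv) m (mem_C1.1 hh.2).symm

theorem two : IsPGroup 2 (Wk τ k a p) := by
  refine IsPGroup.of_card (Nat.eq_prime_pow_of_unique_prime_dvd (card_pos _).ne' fun {r} hr hd => ?_)
  by_contra r2
  have := Fact.mk hr
  obtain ⟨x0, hx, ox⟩ := exists_mem_orderOf_eq hr hd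
  obtain ⟨P, h1, hP⟩ := exists_sylIn_ge (p := r) (zpowers_le.2 hx)
    (isPGroup_zpowers (k := 1) (by rw [pow_one, ← ox, pow_orderOf_eq_one]))
  have cy : IsCyclic P := by
    have := K.fc.isCyclic_of_odd r2 (P.subgroupOf _) hP.toSylow.isPGroup'
    exact (subgroupOfEquivOfLe hP.le).isCyclic.1 this
  have fr : ∀ u : G, Commute u τ → (∀ z ∈ Bk k a p, u • z ∈ Bk k a p) →
      ∃ n ∈ N P, Commute n τ ∧ ∀ z ∈ Bk k a p, n • z = u • z := fun u hu hm => by
    obtain ⟨v, hv, e⟩ := hP.frattini (g := u) (mem_N.1 (mem_N_of_conj fun w hw => W_conj hu hm hw))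
    exact ⟨v * u, mem_N.2 e, (mem_Wk.1 hv).2.mul_left hu,
      fun z hz => by rw [mul_smul, hv.1 _ (hm z hz)]⟩
  obtain ⟨h12, h13, h14, h23, h24, h34⟩ := K.D
  obtain ⟨s, hs, s1, s2, s3, s4⟩ := F.witt K.toIv K.D (show D4 a p (k • k • p) (k • p) from
    ⟨h12, h14, h13, h24, h23, h34.symm⟩) K.fa K.fp K.fq K.fs K.fa K.fp K.fs K.fq
  obtain ⟨n1, m1, t1, e1⟩ := fr (k * k) (K.rk.cm.mul_left K.rk.cm) fun z hz => by
    rw [mul_smul]; exact K.maps _ (K.maps _ hz)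
  obtain ⟨n2, m2, t2, e2⟩ := fr s (mem_C1.1 hs) (by
    rintro z (rfl | rfl | rfl | rfl) <;> simp [Bk, s1, s2, s3, s4])
  have a1 : n1 • a = a := by rw [e1 a (by simp [Bk]), mul_smul, K.ka, K.ka]
  have a2 : n1 • p = k • k • p := by rw [e1 p (by simp [Bk]), mul_smul]
  have a3 : n1 • k • p = p := by rw [e1 _ (by simp [Bk]), mul_smul, K.k3p]
  have a4 : n1 • k • k • p = k • p := by rw [e1 _ (by simp [Bk]), mul_smul, K.k3p]
  have b1 : n2 • a = a := by rw [e2 a (by simp [Bk]), s1]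
  have b2 : n2 • p = p := by rw [e2 p (by simp [Bk]), s2]
  have b3 : n2 • k • p = k • k • p := by rw [e2 _ (by simp [Bk]), s3]
  have b4 : n2 • k • k • p = k • p := by rw [e2 _ (by simp [Bk]), s4]
  have iv : ∀ {n : G} {z z' : Ω}, n • z = z' → n⁻¹ • z' = z := fun e => by rw [← e, inv_smul_smul]
  have cc : ⁅n1, n2⁆ ∈ C P := D_le_C_of_isCyclic cy (nrm_N P) (commutator_mem_commutator m1 m2)
  rcases K.key (c := ⁅n1, n2⁆) (((t1.mul_left t2).mul_left t1.inv_left).mul_left t2.inv_left)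
    (by simp only [commutatorElement_def, mul_smul, iv a1, iv b1, a1, b1])
    (by simp only [commutatorElement_def, mul_smul, iv b2, iv a3, b3, a4])
    (by simp only [commutatorElement_def, mul_smul, iv b4, iv a2, b2, a2])
    (by simp only [commutatorElement_def, mul_smul, iv b3, iv a4, b4, a3]) hx
    (mem_C.1 cc x0 (h1 (mem_zpowers x0))).symm with t | t
  · rw [t, orderOf_one] at ox; exact hr.one_lt.ne ox
  · rw [t, K.toIv.orderOf] at ox; exact r2 ox.symm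

theorem eight : Nat.card (Wk τ k a p) = 8 ∨ ∀ w ∈ Wk τ k a p, w = 1 ∨ w = τ :=
  quat K.fc K.two K.k3 K.sq (fun _ hw => W_conj K.rk.cm K.maps hw) fun _ hw h => K.cen hw h

omit K in
theorem card_le_two {W : Subgroup G} (h : ∀ w ∈ W, w = 1 ∨ w = τ) : Nat.card W ≤ 2 :=
  (Set.ncard_le_ncard (s := (W : Set G)) (t := {1, τ}) h).trans ((Set.ncard_insert_le _ _).trans (by simp))

theorem big (h : (Fx Ω τ).ncard = 11) (hj : In τ x y a b j) :
    8 ≤ Nat.card (C1 j ⊓ (St G ({a, b, x, y} : Set Ω) ⊓ C1 τ) : Subgroup G) := by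
  have hR : {r | F.Rm τ x y a b r}.ncard = 9 := by have := K.card; omega
  have h1 := cls (St G ({a, b, x, y} : Set Ω) ⊓ C1 τ) j
  have h2 : {v | ∃ g ∈ St G ({a, b, x, y} : Set Ω) ⊓ C1 τ, g * j * g⁻¹ = v}.ncard ≤ 9 := by
    rw [← hR]
    refine Set.ncard_le_ncard_of_injOn (j * ·) ?_ (mul_right_injective j).injOn
    rintro _ ⟨g, hg, rfl⟩
    obtain ⟨g1, g2, g3, g4⟩ := mem_St4.1 (mul_mem (mul_mem hg.1 hj.mem) (inv_mem hg.1))
    have c := mem_C1.1 hg.2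
    exact F.In_mul K.toCf hj ⟨hj.toIv.conj g, g1, g2, g3, g4, (Commute.mul_left c hj.cm).mul_left
      (Commute.inv_left c)⟩
  have h3 : 72 ≤ Nat.card (St G ({a, b, x, y} : Set Ω) ⊓ C1 τ : Subgroup G) := by
    have e1 : ({r | F.Rm τ x y a b r} \ {1}).ncard = 8 := by
      rw [Set.ncard_diff_singleton_of_mem (show (1 : G) ∈ {r | F.Rm τ x y a b r} from
        ⟨one_mem _, Commute.one_left _⟩), hR]
    have e2 : (Fx Ω τ \ {a, b}).ncard = 9 := by
      rw [Set.ncard_diff (by rintro z (rfl | rfl); exacts [K.fa, K.fb]), Set.ncard_pair K.toCf.ab, h]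
    refine le_trans ?_ (Set.ncard_le_ncard (s := ({r | F.Rm τ x y a b r} \ {1}) ×ˢ (Fx Ω τ \ {a, b}))
      (t := (fun g : G => (g * k * g⁻¹, g • p)) '' (St G ({a, b, x, y} : Set Ω) ⊓ C1 τ : Subgroup G)) ?_ |>.trans
      (Set.ncard_image_le (Set.toFinite _)))
    · rw [Set.ncard_prod, e1, e2]
    rintro ⟨k', p'⟩ ⟨⟨u1, u2⟩, u3, u4⟩
    simp only [Set.mem_insert_iff, Set.mem_singleton_iff, not_or] at u2 u4
    obtain ⟨g, g1, g2, g3, g4⟩ := K.move K.rk K.k1 u1 u2 K.fp K.pa K.pb u3 u4.1 u4.2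
    rcases st K.toEG g1 K.rk K.k1 (g2 ▸ u1) g3 with e | e
    · exact ⟨g, ⟨e, mem_C1.2 g1⟩, Prod.ext g2 g4⟩
    · refine ⟨g * τ, ⟨e, mem_C1.2 (g1.mul_left (Commute.refl τ))⟩, Prod.ext ?_ (by simp only [mul_smul, K.fp, g4])⟩
      rw [← g2]
      calc g * τ * k * (g * τ)⁻¹ = g * (τ * k) * τ⁻¹ * g⁻¹ := by group
        _ = _ := by rw [← K.rk.cm.eq]; group
  by_contra! hc
  have := Nat.mul_le_mul (Nat.le_of_lt_succ hc) h2
  omega

theorem not11 : (Fx Ω τ).ncard ≠ 11 := fun h => by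
  obtain ⟨j, hj⟩ := F.exists_In K.toCf
  have h8 := K.big h hj
  have hW : Nat.card (Wk τ k a p) ≤ 8 := K.eight.elim le_of_eq fun e => (card_le_two e).trans (by omega)
  obtain ⟨g0, e0⟩ := F.TT_conj (hj.tt K.toCf) K.toTT
  have aux : ∀ {q r s : Ω}, D4 a q r s → τ • q = q → τ • r = r → τ • s = s → Bk k a p = {a, q, r, s} →
      8 ≤ Nat.card (Wk τ k a p) ∧ ∃ z : G, Commute z τ ∧ z • a = a ∧ z • q = q ∧ z • r = s ∧ z • s = r ∧
        ∀ w ∈ Wk τ k a p, Commute z w := by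
    intro q r s D t1 t2 t3 hB
    have m : ∀ z : Ω, j • z = z → g0 • z ∈ Fx Ω τ := fun z hz => e0 ▸ conj_smul hz
    obtain ⟨v, hv, v1, v2, v3, v4⟩ := F.witt K.toIv (D4.smul K.d4 g0) D (m a hj.fa) (m b hj.fb) (m x hj.fx)
      (m y hj.fy) K.fa t1 t2 t3
    rw [← mul_smul] at v1 v2 v3 v4
    have e : v * g0 * j * (v * g0)⁻¹ = τ := by
      calc _ = v * (g0 * j * g0⁻¹) * v⁻¹ := by group
        _ = τ := by rw [e0, mem_C1.1 hv]; group
    generalize v * g0 = g at v1 v2 v3 v4 e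
    have le : cj g (C1 j ⊓ (St G ({a, b, x, y} : Set Ω) ⊓ C1 τ)) ≤ Wk τ k a p := by
      rw [cj_inf, cj_inf, cj_C1, cj_St, e, Wk, hB]
      simp only [Set.image_insert_eq, Set.image_singleton, v1, v2, v3, v4]
      exact le_inf (inf_le_right.trans inf_le_left) inf_le_left
    have eq := eq_of_le_of_card_le le (by rw [card_cj]; omega)
    refine ⟨by rwa [← eq, card_cj], g * τ * g⁻¹, ?_, by rw [← v1, conj_smul K.fa], by rw [← v2, conj_smul K.fb],
      by rw [← v3, conj_smul K.sw, v4], by rw [← v4, conj_smul K.toCf.sw', v3], fun w hw => ?_⟩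
    · nth_rewrite 2 [← e]
      exact hj.cm.symm.map (MulAut.conj g)
    · rw [← eq, cj_inf, cj_inf, cj_C1, cj_C1] at hw
      exact (mem_C1.1 hw.2.2).symm
  obtain ⟨h12, h13, h14, h23, h24, h34⟩ := K.D
  obtain ⟨h9, z1, c1, a1, a2, a3, a4, a5⟩ := aux (show D4 a (k • k • p) p (k • p) from
    ⟨h14, h12, h13, h24.symm, h34.symm, h23⟩) K.fs K.fp K.fq (by ext; simp [Bk]; tauto)
  obtain ⟨-, z2, c2, b1, b2, b3, b4, b5⟩ := aux (show D4 a (k • p) p (k • k • p) from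
    ⟨h13, h12, h14, h23.symm, h34, h24⟩) K.fq K.fp K.fs (by ext; simp [Bk]; tauto)
  have := card_le_two fun w hw => K.key (c := z2 * z1) (c2.mul_left c1) (by rw [mul_smul, a1, b1])
    (by rw [mul_smul, a3, b2]) (by rw [mul_smul, a4, b3]) (by rw [mul_smul, a2, b4]) hw
    ((b5 w hw).mul_left (a5 w hw))
  omega

theorem mem5 (h : (Fx Ω τ).ncard = 5) {z : Ω} (hz : τ • z = z) :
    z = a ∨ z = b ∨ z = p ∨ z = k • p ∨ z = k • k • p := by
  obtain ⟨h12, h13, h14, h23, h24, h34⟩ := K.D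
  have e : ({b, a, p, k • p, k • k • p} : Set Ω) = Fx Ω τ := Set.eq_of_subset_of_ncard_le (by
    rintro z (rfl | rfl | rfl | rfl | rfl)
    exacts [K.fb, K.fa, K.fp, K.fq, K.fs]) (by
    rw [h, Set.ncard_insert_of_notMem (by simp [K.toCf.ab.symm, K.pb.symm, K.bq, K.bs]), K.D.ncard])
  have : z ∈ ({b, a, p, k • p, k • k • p} : Set Ω) := e ▸ hz
  simp only [Set.mem_insert_iff, Set.mem_singleton_iff] at this
  tauto

theorem memW (h : (Fx Ω τ).ncard = 5) : w ∈ Wk τ k a p ↔ Commute w τ ∧ ∀ z : Ω, τ • z = z → w • z = z := by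
  rw [mem_Wk]
  refine ⟨fun ⟨⟨h1, h2, h3, h4⟩, hc⟩ => ⟨hc, fun z hz => ?_⟩,
    fun ⟨hc, e⟩ => ⟨⟨e _ K.fa, e _ K.fp, e _ K.fq, e _ K.fs⟩, hc⟩⟩
  rcases K.mem5 h hz with rfl | rfl | rfl | rfl | rfl <;> try assumption
  rcases K.mem5 h (fix_of_comm hc hz) with t | t | t | t | t
  · exact absurd (h1.trans t.symm) (smul_ne K.toCf.ab)
  · exact t
  · exact absurd (h2.trans t.symm) (smul_ne K.pb)
  · exact absurd (h3.trans t.symm) (smul_ne K.bq.symm)
  · exact absurd (h4.trans t.symm) (smul_ne K.bs.symm)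

theorem cyc5 (h : (Fx Ω τ).ncard = 5) (h8 : Nat.card (Wk τ k a p) = 8) {σ : G} (hc : Commute σ τ)
    (h5 : ∀ z : Ω, τ • z = z → σ • σ • σ • σ • σ • z = z) :
    (∀ z : Ω, τ • z = z → σ ^ 16 • z = σ • z) ∧ ∀ w ∈ Wk τ k a p, Commute (σ ^ 16) w := by
  have m : σ ^ 5 ∈ Wk τ k a p := (K.memW h).2 ⟨hc.pow_left 5, fun z hz => by
    simpa only [pow_succ, pow_zero, one_mul, mul_smul] using h5 z hz⟩
  have e : (σ ^ 16) ^ 5 = 1 := by
    have : (σ ^ 5) ^ 8 = 1 := by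
      rw [← h8]; exact congrArg Subtype.val (pow_card_eq_one' (x := (⟨_, m⟩ : Wk τ k a p)))
    rw [← pow_mul, show 16 * 5 = 5 * 8 * 2 from rfl, pow_mul, pow_mul, this, one_pow]
  refine ⟨fun z hz => ?_, fun w hw => ?_⟩
  · rw [show 16 = 1 + 5 * 3 from rfl, pow_add, pow_one, pow_mul, mul_smul,
      ((K.memW h).1 (pow_mem m 3)).2 z hz]
  have c := hc.pow_left 16
  generalize σ ^ 16 = s at e c
  have h1 := CfsgH8.Mat.card_modEq_C1 Nat.prime_five e (K := Wk τ k a p) (mem_N_of_conj fun v hv => by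
    obtain ⟨v1, v2⟩ := (K.memW h).1 hv
    refine (K.memW h).2 ⟨(c.mul_left v1).mul_left c.inv_left, fun z hz => ?_⟩
    rw [mul_smul, mul_smul, v2 _ (fix_of_comm c.inv_left hz), smul_inv_smul])
  have h2 := card_dvd_of_le (inf_le_left : Wk τ k a p ⊓ C1 s ≤ _)
  rw [h8] at h1 h2
  have h3 : Nat.card (Wk τ k a p ⊓ C1 s : Subgroup G) = 8 := by
    have := Nat.le_of_dvd (by omega) h2
    unfold Nat.ModEq at h1
    generalize Nat.card (Wk τ k a p ⊓ C1 s : Subgroup G) = n at *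
    interval_cases n <;> omega
  have := eq_of_le_of_card_eq (inf_le_left : Wk τ k a p ⊓ C1 s ≤ _) (h3.trans h8.symm)
  rw [← this] at hw
  exact (mem_C1.1 hw.2).symm

theorem five (h : (Fx Ω τ).ncard = 5) : ∀ w ∈ Wk τ k a p, w = 1 ∨ w = τ := by
  refine K.eight.elim (fun h8 w hw => ?_) id
  obtain ⟨h12, h13, h14, h23, h24, h34⟩ := K.D
  obtain ⟨σ, hσ, s1, s2, s3, s4⟩ := F.witt K.toIv (show D4 a b p (k • k • p) from
    ⟨K.toCf.ab, h12, h14, K.pb.symm, K.bs, h24⟩) (show D4 b p (k • k • p) (k • p) from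
    ⟨K.pb.symm, K.bs, K.bq, h24, h23, h34.symm⟩) K.fa K.fb K.fp K.fs K.fb K.fp K.fs K.fq
  have c1 : Commute σ τ := mem_C1.1 hσ
  have s5 : σ • k • p = a := by
    rcases K.mem5 h (fix_of_comm c1 K.fq) with t | t | t | t | t
    · exact t
    · exact absurd (s1.trans t.symm) (smul_ne h13)
    · exact absurd (s2.trans t.symm) (smul_ne K.bq)
    · exact absurd (s4.trans t.symm) (smul_ne h34.symm)
    · exact absurd (s3.trans t.symm) (smul_ne h23)
  have iv : ∀ {n : G} {z z' : Ω}, n • z = z' → n⁻¹ • z' = z := fun e => by rw [← e, inv_smul_smul]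
  have c2 : Commute (σ⁻¹ * k) τ := c1.inv_left.mul_left K.rk.cm
  have t1 : (σ⁻¹ * k) • a = k • p := by rw [mul_smul, K.ka, iv s5]
  have t2 : (σ⁻¹ * k) • b = a := by rw [mul_smul, K.kb, iv s1]
  have t3 : (σ⁻¹ * k) • p = k • k • p := by rw [mul_smul, iv s4]
  have t4 : (σ⁻¹ * k) • k • p = p := by rw [mul_smul, iv s3]
  have t5 : (σ⁻¹ * k) • k • k • p = b := by rw [mul_smul, K.k3p, iv s2]
  obtain ⟨u1, u2⟩ := K.cyc5 h h8 c1 fun z hz => by
    rcases K.mem5 h hz with rfl | rfl | rfl | rfl | rfl <;> simp only [s1, s2, s3, s4, s5]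
  obtain ⟨v1, v2⟩ := K.cyc5 h h8 c2 fun z hz => by
    generalize σ⁻¹ * k = ρ at t1 t2 t3 t4 t5
    rcases K.mem5 h hz with rfl | rfl | rfl | rfl | rfl <;> simp only [t1, t2, t3, t4, t5]
  exact K.key (c := σ ^ 16 * (σ⁻¹ * k) ^ 16) ((c1.pow_left 16).mul_left (c2.pow_left 16))
    (by rw [mul_smul, v1 _ K.fa, t1, u1 _ K.fq, s5]) (by rw [mul_smul, v1 _ K.fp, t3, u1 _ K.fs, s4])
    (by rw [mul_smul, v1 _ K.fq, t4, u1 _ K.fp, s3]) (by rw [mul_smul, v1 _ K.fs, t5, u1 _ K.fb, s2]) hw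
    ((u2 w hw).mul_left (v2 w hw))

end EK

theorem exists_EK (E : EG F τ x y a b) : ∃ k p, EK F τ x y a b k p := by
  have h1 := E.card
  have h2 := E.phi
  obtain ⟨k, hk, k1⟩ : ∃ k ∈ {r | F.Rm τ x y a b r}, k ∉ ({1} : Set G) := by
    by_contra! hc
    have := Set.ncard_le_ncard (t := {1}) hc
    rw [Set.ncard_singleton] at this
    omega
  obtain ⟨p, hp, p1⟩ := exists_not_mem_of_lt (S := Fx Ω τ) (T := {a, b})
    (by rw [Set.ncard_pair E.toCf.ab]; omega)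
  simp only [Set.mem_insert_iff, Set.mem_singleton_iff, not_or] at p1
  exact ⟨k, p, E, hk, k1, hp, p1.1, p1.2⟩

end CfsgH8.Q4E

namespace CfsgH9.Q4C

open CfsgH1.Q4 CfsgL.Q4B CfsgH8.Q4E

universe u

theorem EG.five {G : Type u} {Ω : Type*} [Group G] [Finite G] [MulAction G Ω] [Finite Ω] {F : BB G Ω}
    {τ : G} {x y a b : Ω} (E : EG F τ x y a b) :
    (Fx Ω τ).ncard = 5 ∧ ∀ w : G, Commute w τ → (∀ p : Ω, τ • p = p → w • p = p) → w = 1 ∨ w = τ := by
  obtain ⟨k, p, K⟩ := exists_EK E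
  have h := E.phi.resolve_right K.not11
  exact ⟨h, fun w h1 h2 => K.five h w ((K.memW h).2 ⟨h1, h2⟩)⟩

end CfsgH9.Q4C
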