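import Cfsg.Agent.H1.Q4Def

set_option autoImplicit false
set_option linter.unusedSectionVars false

/-! M. Hall's theorem on four-fold transitive groups, part A: involutions. -/

namespace CfsgH8.Hall

open MulAction Subgroup CfsgH1.Q4

/-- faithful, four-fold transitive, four-point stabilizers of odd order -/
structure HH (X Ω : Type*) [Group X] [MulAction X Ω] : Prop where
  faith : ∀ g : X, (∀ x : Ω, g • x = x) → g = 1
  tr : ∀ ⦃a b c d a' b' c' d' : Ω⦄, D4 a b c d → D4 a' b' c' d' →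
    ∃ g : X, g • a = a' ∧ g • b = b' ∧ g • c = c' ∧ g • d = d'
  odd : ∀ ⦃a b c d : Ω⦄ ⦃g : X⦄, D4 a b c d → g • a = a → g • b = b → g • c = c → g • d = d →
    Odd (orderOf g)

section
variable {Ω : Type*} [Finite Ω]

theorem le_card (l : List Ω) (h : l.Nodup) : l.length ≤ Nat.card Ω := by
  have := Fintype.ofFinite Ω
  rw [Nat.card_eq_fintype_card]
  exact h.length_le_card

theorem card_le (l : List Ω) (h : ∀ x, x ∈ l) : Nat.card Ω ≤ l.length := by
  classical
  have := Fintype.ofFinite Ω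
  rw [Nat.card_eq_fintype_card, ← Finset.card_univ]
  exact (Finset.card_le_card fun x _ => List.mem_toFinset.2 (h x)).trans l.toFinset_card_le

theorem ex_out (l : List Ω) (h : l.length < Nat.card Ω) : ∃ x, x ∉ l := by
  by_contra! hc
  exact absurd (card_le l hc) (by omega)

end

variable {X Ω : Type*} [Group X] [Finite X] [MulAction X Ω] [Finite Ω]
variable {a b c g : X} {p q r s x y : Ω}

theorem ss (h : a * a = 1) (x : Ω) : a • a • x = x := by rw [← mul_smul, h, one_smul]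

theorem sw (h : a * a = 1) (e : a • x = y) : a • y = x := by rw [← e, ss h]

theorem pow_fix (h : g • x = x) (n : ℕ) : g ^ n • x = x := Fx_le_pow g n h

theorem odd_pow_smul (h : g • g • x = x) {m : ℕ} (hm : Odd m) : g ^ m • x = g • x := by
  obtain ⟨k, rfl⟩ := hm
  rw [pow_succ', mul_smul, pow_mul, pow_fix (by rw [pow_two, mul_smul, h])]

theorem fix_of_odd (h : g • g • x = x) (ho : Odd (orderOf g)) : g • x = x := by
  rw [← odd_pow_smul h ho, pow_orderOf_eq_one, one_smul]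

theorem eq_one_of_odd (h : a * a = 1) (ho : Odd (orderOf a)) : a = 1 := by
  obtain ⟨k, hk⟩ := ho
  have := pow_orderOf_eq_one a
  rwa [hk, pow_succ, pow_mul, pow_two, h, one_pow, one_mul] at this

theorem cj_inv (h : a * a = 1) (g : X) : g * a * g⁻¹ * (g * a * g⁻¹) = 1 := by
  rw [conj_mul, h]; simp

theorem cj_smul (g a : X) (x : Ω) : (g * a * g⁻¹) • g • x = g • a • x := by simp [mul_smul]

theorem comm_fix (hc : Commute a b) (h : b • x = x) : b • a • x = a • x := smul_mem_Fx hc h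

theorem mul_inv2 (ha : a * a = 1) (hb : b * b = 1) (hc : Commute a b) : a * b * (a * b) = 1 := by
  rw [mul_assoc, ← mul_assoc b, ← hc.eq, mul_assoc, hb, mul_one, ha]

theorem dih_pow (ha : a * a = 1) (hb : b * b = 1) (k : ℕ) :
    (b * (a * b) ^ k = ((a * b) ^ k)⁻¹ * b) ∧ a * (a * b) ^ k = ((a * b) ^ k)⁻¹ * a := by
  have ea := inv_eq_of_mul_eq_one_right ha
  have eb := inv_eq_of_mul_eq_one_right hb
  have e1 : b * (a * b) * b⁻¹ = (a * b)⁻¹ := by rw [mul_inv_rev, ea, eb, mul_assoc, mul_assoc, hb, mul_one]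
  have e2 : a * (a * b) * a⁻¹ = (a * b)⁻¹ := by rw [mul_inv_rev, ea, eb, ← mul_assoc, ha, one_mul]
  constructor
  · rw [← inv_pow, ← e1, conj_pow]; simp
  · rw [← inv_pow, ← e2, conj_pow]; simp

namespace HH

variable (H : HH X Ω)
include H

theorem inv1 (h : a * a = 1) (D : D4 p q r s) (hp : a • p = p) (hq : a • q = q) (hr : a • r = r)
    (hs : a • s = s) : a = 1 := eq_one_of_odd h (H.odd D hp hq hr hs)

theorem mk_inv (D : D4 p q r s) (hp : g • g • p = p) (hq : g • g • q = q) (hr : g • g • r = r)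
    (hs : g • g • s = s) : ∃ m, Odd m ∧ g ^ m * g ^ m = 1 :=
  ⟨orderOf (g * g), H.odd D (by rwa [mul_smul]) (by rwa [mul_smul]) (by rwa [mul_smul])
    (by rwa [mul_smul]), by rw [← (Commute.refl g).mul_pow, pow_orderOf_eq_one]⟩

theorem ex_sw (D : D4 p q r s) : ∃ b : X, b * b = 1 ∧ b • p = p ∧ b • q = q ∧ b • r = s ∧ b • s = r := by
  obtain ⟨h1, h2, h3, h4, h5, h6⟩ := id D
  obtain ⟨g, e1, e2, e3, e4⟩ := H.tr D (show D4 p q s r from ⟨h1, h3, h2, h5, h4, h6.symm⟩)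
  have k3 : g • g • r = r := by rw [e3, e4]
  have k4 : g • g • s = s := by rw [e4, e3]
  obtain ⟨m, hm, h⟩ := H.mk_inv (g := g) D (by rw [e1, e1]) (by rw [e2, e2]) k3 k4
  exact ⟨g ^ m, h, pow_fix e1 m, pow_fix e2 m, by rw [odd_pow_smul k3 hm, e3], by rw [odd_pow_smul k4 hm, e4]⟩

theorem ex_dd (D : D4 p q r s) : ∃ b : X, b * b = 1 ∧ b • p = q ∧ b • q = p ∧ b • r = s ∧ b • s = r := by
  obtain ⟨h1, h2, h3, h4, h5, h6⟩ := id D
  obtain ⟨g, e1, e2, e3, e4⟩ := H.tr D (show D4 q p s r from ⟨h1.symm, h5, h4, h3, h2, h6.symm⟩)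
  have k1 : g • g • p = p := by rw [e1, e2]
  have k2 : g • g • q = q := by rw [e2, e1]
  have k3 : g • g • r = r := by rw [e3, e4]
  have k4 : g • g • s = s := by rw [e4, e3]
  obtain ⟨m, hm, h⟩ := H.mk_inv (g := g) D k1 k2 k3 k4
  exact ⟨g ^ m, h, by rw [odd_pow_smul k1 hm, e1], by rw [odd_pow_smul k2 hm, e2],
    by rw [odd_pow_smul k3 hm, e3], by rw [odd_pow_smul k4 hm, e4]⟩

/-- two involutions agreeing on four points are conjugate -/
theorem conj (ha : a * a = 1) (hb : b * b = 1) (D : D4 p q r s) (hp : a • p = b • p) (hq : a • q = b • q)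
    (hr : a • r = b • r) (hs : a • s = b • s) :
    ∃ h : X, h * b * h⁻¹ = a ∧ h • p = p ∧ h • q = q ∧ h • r = r ∧ h • s = s ∧
      ∀ c, Commute c a → Commute c b → Commute c h := by
  have k : ∀ x : Ω, a • x = b • x → (a * b) • x = x := fun x e => by rw [mul_smul, ← e, ss ha]
  obtain ⟨m, hm⟩ := H.odd D (k p hp) (k q hq) (k r hr) (k s hs)
  refine ⟨(a * b) ^ (m + 1), ?_, pow_fix (k p hp) _, pow_fix (k q hq) _, pow_fix (k r hr) _,
    pow_fix (k s hs) _, fun c h1 h2 => (h1.mul_right h2).pow_right _⟩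
  have h1 := (dih_pow ha hb (m + 1)).1
  have h2 : (a * b) ^ (m + 1) * (a * b) ^ (m + 1) = a * b := by
    rw [← pow_add, show m + 1 + (m + 1) = 2 * m + 1 + 1 by ring, pow_succ, ← hm, pow_orderOf_eq_one, one_mul]
  generalize (a * b) ^ (m + 1) = t at h1 h2
  have h3 : b * t⁻¹ = t * b := by
    calc b * t⁻¹ = b * (t⁻¹ * b) * b := by rw [mul_assoc, mul_assoc, hb, mul_one]
      _ = t * b := by rw [← h1, ← mul_assoc, hb, one_mul]
  rw [mul_assoc, h3, ← mul_assoc, h2, mul_assoc, hb, mul_one]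

/-- an involution with a given action on four points commuting with `a` -/
theorem comm (ha : a * a = 1) (hb : b * b = 1) (D : D4 p q r s) (hp : a • b • a • p = b • p)
    (hq : a • b • a • q = b • q) (hr : a • b • a • r = b • r) (hs : a • b • a • s = b • s) :
    ∃ c : X, c * c = 1 ∧ Commute a c ∧ c • p = b • p ∧ c • q = b • q ∧ c • r = b • r ∧ c • s = b • s := by
  have hb' : a * b * a * (a * b * a) = 1 := by
    calc _ = a * (b * (a * a) * b) * a := by group
      _ = 1 := by rw [ha, mul_one, hb, mul_one, ha]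
  have k : ∀ x : Ω, a • b • a • x = b • x → (b * (a * b * a)) • x = x := fun x e => by
    rw [mul_smul, mul_smul, mul_smul, e, ss hb]
  obtain ⟨m, hm⟩ := H.odd D (k p hp) (k q hq) (k r hr) (k s hs)
  have h1 := (dih_pow hb hb' (m + 1)).2
  have h2 : (b * (a * b * a)) ^ (m + 1) * (b * (a * b * a)) ^ (m + 1) = b * (a * b * a) := by
    rw [← pow_add, show m + 1 + (m + 1) = 2 * m + 1 + 1 by ring, pow_succ, ← hm, pow_orderOf_eq_one, one_mul]
  have h3 : a * (b * (a * b * a)) ^ (m + 1) * a⁻¹ = ((b * (a * b * a)) ^ (m + 1))⁻¹ := by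
    rw [← conj_pow, ← inv_pow]
    congr 1
    rw [eq_inv_iff_mul_eq_one, inv_eq_of_mul_eq_one_right ha]
    calc _ = a * b * a * b * (a * a) * b * a * b * a := by group
      _ = a * b * a * (b * b) * a * b * a := by rw [ha]; group
      _ = a * b * a * (a * b * a) := by rw [hb]; group
      _ = 1 := hb'
  refine ⟨b * (b * (a * b * a)) ^ (m + 1), ?_, ?_, by rw [mul_smul, pow_fix (k p hp)],
    by rw [mul_smul, pow_fix (k q hq)], by rw [mul_smul, pow_fix (k r hr)], by rw [mul_smul, pow_fix (k s hs)]⟩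
  · generalize (b * (a * b * a)) ^ (m + 1) = t at h1 h2 h3
    calc b * t * (b * t) = b * t * (t⁻¹ * b) := by rw [← h1]
      _ = 1 := by rw [← hb]; group
  · generalize (b * (a * b * a)) ^ (m + 1) = t at h1 h2 h3
    have h4 : a * t = t⁻¹ * a := by rw [← h3]; group
    have h5 : a * b * a = b * t * t := by rw [mul_assoc b, h2, ← mul_assoc b, hb, one_mul]
    calc a * (b * t) = a * b * (a * a) * t := by rw [ha]; group
      _ = a * b * a * (a * t) := by group
      _ = b * t * a := by rw [h4, h5]; group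

theorem csw (ha : a * a = 1) (D : D4 p q r s) (h1 : a • p = p ∧ a • q = q ∨ a • p = q)
    (h2 : a • r = r ∧ a • s = s ∨ a • r = s) :
    ∃ c : X, c * c = 1 ∧ Commute a c ∧ c • p = p ∧ c • q = q ∧ c • r = s ∧ c • s = r := by
  obtain ⟨b, hb, e1, e2, e3, e4⟩ := H.ex_sw D
  have k1 : a • b • a • p = b • p ∧ a • b • a • q = b • q := by
    rcases h1 with ⟨u, v⟩ | u
    · simp only [u, v, e1, e2, and_self]
    · simp only [u, sw ha u, e1, e2, and_self]
  have k2 : a • b • a • r = b • r ∧ a • b • a • s = b • s := by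
    rcases h2 with ⟨u, v⟩ | u
    · simp only [u, v, e3, e4, and_self]
    · simp only [u, sw ha u, e3, e4, and_self]
  obtain ⟨c, hc, hac, f1, f2, f3, f4⟩ := H.comm ha hb D k1.1 k1.2 k2.1 k2.2
  exact ⟨c, hc, hac, f1.trans e1, f2.trans e2, f3.trans e3, f4.trans e4⟩

theorem moved (h : g ≠ 1) : ∃ x : Ω, g • x ≠ x := by
  by_contra! hc
  exact h (H.faith g hc)

/-- an involution has two cycles -/
theorem two_cyc (h6 : 6 ≤ Nat.card Ω) (ha : a * a = 1) (h1 : a ≠ 1) :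
    ∃ p r : Ω, D4 p (a • p) r (a • r) := by
  obtain ⟨p, hp⟩ := H.moved h1
  by_contra hc
  have k : ∀ r, r ≠ p → r ≠ a • p → a • r = r := fun r u v => by
    by_contra w
    exact hc ⟨p, r, hp.symm, u.symm, fun e => v (sw ha e.symm).symm, v.symm,
      fun e => u (MulAction.injective a e).symm, fun e => w e.symm⟩
  obtain ⟨x1, u1⟩ := ex_out [p, a • p] (by simp; omega)
  obtain ⟨x2, u2⟩ := ex_out [p, a • p, x1] (by simp; omega)
  obtain ⟨x3, u3⟩ := ex_out [p, a • p, x1, x2] (by simp; omega)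
  obtain ⟨x4, u4⟩ := ex_out [p, a • p, x1, x2, x3] (by simp; omega)
  simp only [List.mem_cons, List.not_mem_nil, or_false, not_or] at u1 u2 u3 u4
  exact h1 (H.inv1 ha (show D4 x4 x3 x2 x1 from ⟨u4.2.2.2.2, u4.2.2.2.1, u4.2.2.1, u3.2.2.2, u3.2.2.1, u2.2.2⟩)
    (k _ u4.1 u4.2.1) (k _ u3.1 u3.2.1) (k _ u2.1 u2.2.1) (k _ u1.1 u1.2))

/-- all involutions are conjugate -/
theorem all_conj (h6 : 6 ≤ Nat.card Ω) (ha : a * a = 1) (h1 : a ≠ 1) (hb : b * b = 1) (h2 : b ≠ 1) :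
    ∃ g : X, g * a * g⁻¹ = b := by
  obtain ⟨p, r, D⟩ := H.two_cyc h6 ha h1
  obtain ⟨p', r', D'⟩ := H.two_cyc h6 hb h2
  obtain ⟨g, e1, e2, e3, e4⟩ := H.tr D D'
  obtain ⟨h, hh, -⟩ := H.conj hb (cj_inv ha g) D' (by rw [← e2, ← e1, cj_smul])
    (by rw [ss hb, ← e2, cj_smul, ss ha, e1]) (by rw [← e4, ← e3, cj_smul])
    (by rw [ss hb, ← e4, cj_smul, ss ha, e3])
  exact ⟨h * g, by rw [← hh]; group⟩

theorem exD4 (h4 : 4 ≤ Nat.card Ω) : ∃ p q r s : Ω, D4 p q r s := by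
  obtain ⟨p, -, q, -, r, -, s, -, D⟩ := exists_D4_mem (F := (Set.univ : Set Ω)) (by rwa [Set.ncard_univ])
  exact ⟨p, q, r, s, D⟩

theorem two_fix (h6 : 6 ≤ Nat.card Ω) (ha : a * a = 1) : ∃ x y : Ω, x ≠ y ∧ a • x = x ∧ a • y = y := by
  obtain ⟨p, q, r, s, D⟩ := H.exD4 (by omega)
  by_cases h1 : a = 1
  · exact ⟨p, q, D.1, by simp [h1], by simp [h1]⟩
  obtain ⟨b, hb, e1, e2, e3, -⟩ := H.ex_sw D
  obtain ⟨g, rfl⟩ := H.all_conj h6 hb (fun e => D.2.2.2.2.2 (by rw [← e3, e, one_smul])) ha h1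
  exact ⟨g • p, g • q, (MulAction.injective g).ne D.1, by rw [cj_smul, e1], by rw [cj_smul, e2]⟩

theorem fix3 (ha : a * a = 1) (h1 : a ≠ 1) (hpq : p ≠ q) (hpr : p ≠ r) (hqr : q ≠ r) (hp : a • p = p)
    (hq : a • q = q) (hr : a • r = r) (hx : a • x = x) : x = p ∨ x = q ∨ x = r := by
  by_contra! hc
  exact h1 (H.inv1 ha (show D4 p q r x from ⟨hpq, hpr, hc.1.symm, hqr, hc.2.1.symm, hc.2.2.symm⟩) hp hq hr hx)

theorem fix2 (ha : a * a = 1) (h1 : a ≠ 1) (hpq : p ≠ q) (hp : a • p = p) (hq : a • q = q) :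
    ∃ z : Ω, ∀ x : Ω, a • x = x → x = p ∨ x = q ∨ x = z := by
  by_cases h : ∃ z : Ω, a • z = z ∧ p ≠ z ∧ q ≠ z
  · obtain ⟨z, u, v, w⟩ := h
    exact ⟨z, fun x hx => H.fix3 ha h1 hpq v w hp hq u hx⟩
  · refine ⟨p, fun x hx => ?_⟩
    by_contra! hc
    exact h ⟨x, hx, hc.1.symm, hc.2.1.symm⟩

theorem fix1 (ha : a * a = 1) (h1 : a ≠ 1) (hp : a • p = p) :
    ∃ y z : Ω, ∀ x : Ω, a • x = x → x = p ∨ x = y ∨ x = z := by
  by_cases h : ∃ q : Ω, a • q = q ∧ p ≠ q
  · obtain ⟨q, u, v⟩ := h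
    exact ⟨q, H.fix2 ha h1 v hp u⟩
  · refine ⟨p, p, fun x hx => ?_⟩
    by_contra! hc
    exact h ⟨x, hx, hc.1.symm⟩

omit H in
theorem regD (ha : a * a = 1) (hc : Commute a b) (h1 : a • x ≠ x) (h2 : b • x ≠ x) (h3 : (a * b) • x ≠ x) :
    D4 x (a • x) (b • x) ((a * b) • x) := by
  refine ⟨h1.symm, h2.symm, h3.symm, fun e => h3 (by rw [mul_smul, ← e, ss ha]),
    by rw [mul_smul]; exact (MulAction.injective a).ne h2.symm, ?_⟩
  rw [hc.eq, mul_smul]
  exact (MulAction.injective b).ne h1.symm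

/-- four-groups with a regular orbit are conjugate -/
theorem conj4 {u v : X} (ha : a * a = 1) (hb : b * b = 1) (hc : Commute a b) (hu : u * u = 1)
    (hv : v * v = 1) (hc' : Commute u v) (D : D4 x (a • x) (b • x) ((a * b) • x))
    (D' : D4 y (u • y) (v • y) ((u * v) • y)) : ∃ g : X, g * a * g⁻¹ = u ∧ g * b * g⁻¹ = v := by
  obtain ⟨g, e1, e2, e3, e4⟩ := H.tr D D'
  have c1 : ∀ z : Ω, b • a • z = a • b • z := fun z => by rw [← mul_smul, ← hc.eq, mul_smul]
  have c2 : ∀ z : Ω, v • u • z = u • v • z := fun z => by rw [← mul_smul, ← hc'.eq, mul_smul]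
  rw [mul_smul, mul_smul] at e4
  rw [mul_smul] at D'
  obtain ⟨h, hh, f1, f2, f3, f4, -⟩ := H.conj hu (cj_inv ha g) D' (by rw [← e2, ← e1, cj_smul])
    (by rw [ss hu, ← e2, cj_smul, ss ha, e1]) (by rw [← e4, ← e3, cj_smul])
    (by rw [ss hu, ← e4, cj_smul, ss ha, e3])
  have e : h * g * a * (h * g)⁻¹ = u := by rw [← hh]; group
  have g1 : (h * g) • x = y := by rw [mul_smul, e1, f1]
  have g2 : (h * g) • a • x = u • y := by rw [mul_smul, e2, f2]
  have g3 : (h * g) • b • x = v • y := by rw [mul_smul, e3, f3]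
  have g4 : (h * g) • a • b • x = u • v • y := by rw [mul_smul, e4, f4]
  generalize h * g = k at e g1 g2 g3 g4
  obtain ⟨l, hl, -, -, -, -, hcl⟩ := H.conj hv (cj_inv hb k) D' (by rw [← g3, ← g1, cj_smul])
    (by rw [c2, ← g4, ← g2, cj_smul, c1]) (by rw [ss hv, ← g3, cj_smul, ss hb, g1])
    (by rw [c2, ss hv, ← g4, cj_smul, c1, ss hb, g2])
  have := hcl u hc' (by rw [← e]; exact hc.map (MulAut.conj k))
  refine ⟨l * k, ?_, by rw [← hl]; group⟩
  calc l * k * a * (l * k)⁻¹ = l * u * l⁻¹ := by rw [← e]; group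
    _ = u := by rw [← this.eq]; group

/-- the standard four-group has a regular orbit -/
theorem v0_reg (h8 : 8 ≤ Nat.card Ω) (D : D4 p q r s) (ha : a * a = 1) (hb : b * b = 1)
    (hc : Commute a b) (a1 : a • p = p) (a2 : a • q = q) (a3 : a • r = s) (b1 : b • p = q)
    (b3 : b • r = r) (b4 : b • s = s) : ∃ x : Ω, D4 x (a • x) (b • x) ((a * b) • x) := by
  obtain ⟨h1, h2, h3, h4, h5, h6⟩ := id D
  have na : a ≠ 1 := fun e => h6 (by rw [← a3, e, one_smul])
  have nb : b ≠ 1 := fun e => h1 (by rw [← b1, e, one_smul])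
  have nab : a * b ≠ 1 := fun e => h1 (by rw [← a2, ← b1, ← mul_smul, e, one_smul])
  have hab := mul_inv2 ha hb hc
  have key : ∃ l : List Ω, l.length ≤ 7 ∧ ∀ x : Ω, a • x = x ∨ b • x = x ∨ (a * b) • x = x → x ∈ l := by
    by_cases he : ∃ e : Ω, a • e = e ∧ p ≠ e ∧ q ≠ e
    · obtain ⟨e, u, v, w⟩ := he
      have be : b • e = e := by
        rcases H.fix3 ha na h1 v w a1 a2 u (comm_fix hc.symm u) with t | t | t
        · exact absurd ((sw hb t).symm.trans b1) w.symm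
        · exact absurd ((sw hb t).symm.trans (sw hb b1)) v.symm
        · exact t
      have re : r ≠ e := fun t => h6 (by rw [← a3, t, u])
      have se : s ≠ e := fun t => h6 (by rw [← sw ha a3, t, u])
      obtain ⟨y, z, hyz⟩ := H.fix1 hab nab (show (a * b) • e = e by rw [mul_smul, be, u])
      refine ⟨[p, q, e, r, s, y, z], le_rfl, fun x hx => ?_⟩
      rcases hx with t | t | t
      · rcases H.fix3 ha na h1 v w a1 a2 u t with t | t | t <;> simp [t]
      · rcases H.fix3 hb nb h6 re se b3 b4 be t with t | t | t <;> simp [t]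
      · rcases hyz x t with t | t | t <;> simp [t]
    · have fa : ∀ x : Ω, a • x = x → x = p ∨ x = q := fun x hx => by
        by_contra! hc
        exact he ⟨x, hx, hc.1.symm, hc.2.symm⟩
      obtain ⟨e, -, -, u, -⟩ := H.two_fix (by omega) hab
      obtain ⟨y, z, hyz⟩ := H.fix1 hab nab u
      refine ⟨[p, q, r, s, e, y, z], le_rfl, fun x hx => ?_⟩
      rcases hx with t | t | t
      · rcases fa x t with t | t <;> simp [t]
      · by_contra hn
        simp only [List.mem_cons, List.not_mem_nil, or_false, not_or] at hn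
        rcases H.fix3 hb nb h6 (Ne.symm hn.2.2.1) (Ne.symm hn.2.2.2.1) b3 b4 t (comm_fix hc t) with k | k | k
        · exact hn.2.2.2.1 ((sw ha k).symm.trans a3)
        · exact hn.2.2.1 ((sw ha k).symm.trans (sw ha a3))
        · exact (fa x k).elim hn.1 hn.2.1
      · rcases hyz x t with t | t | t <;> simp [t]
  obtain ⟨l, hl, hk⟩ := key
  obtain ⟨x, hx⟩ := ex_out l (by omega)
  exact ⟨x, regD ha hc (fun e => hx (hk x (.inl e))) (fun e => hx (hk x (.inr (.inl e))))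
    fun e => hx (hk x (.inr (.inr e)))⟩

/-- no four-group fixes two points -/
theorem no_four (h8 : 8 ≤ Nat.card Ω) {u v : X} (hu : u * u = 1) (hv : v * v = 1) (hc : Commute u v)
    (nu : u ≠ 1) (hxy : x ≠ y) (u1 : u • x = x) (u2 : u • y = y) (v1 : v • x = x) (v2 : v • y = y) :
    v = 1 ∨ v = u := by
  by_contra! hn
  have nuv : u * v ≠ 1 := fun e => hn.2 (by rw [← one_mul v, ← hu, mul_assoc, e, mul_one])
  obtain ⟨z1, k1⟩ := H.fix2 hu nu hxy u1 u2
  obtain ⟨z2, k2⟩ := H.fix2 hv hn.1 hxy v1 v2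
  obtain ⟨z3, k3⟩ := H.fix2 (mul_inv2 hu hv hc) nuv hxy (by rw [mul_smul, v1, u1]) (by rw [mul_smul, v2, u2])
  obtain ⟨w, hw⟩ := ex_out [x, y, z1, z2, z3] (by simp; omega)
  simp only [List.mem_cons, List.not_mem_nil, or_false, not_or] at hw
  have D' := regD hu hc (x := w) (fun e => by rcases k1 w e with t | t | t <;> tauto)
    (fun e => by rcases k2 w e with t | t | t <;> tauto) (fun e => by rcases k3 w e with t | t | t <;> tauto)
  obtain ⟨p, q, r, s, D⟩ := H.exD4 (by omega)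
  obtain ⟨h1, h2, h3, h4, h5, h6⟩ := id D
  obtain ⟨a, ha, a1, a2, a3, a4⟩ := H.ex_sw D
  obtain ⟨b, hb, hab, b3, b4, b1, b2⟩ := H.csw ha (show D4 r s p q from ⟨h6, h2.symm, h4.symm, h3.symm, h5.symm, h1⟩)
    (.inr a3) (.inl ⟨a1, a2⟩)
  obtain ⟨t, D0⟩ := H.v0_reg h8 D ha hb hab a1 a2 a3 b1 b3 b4
  obtain ⟨g, rfl, rfl⟩ := H.conj4 hu hv hc ha hb hab D' D0
  have na : g * u * g⁻¹ ≠ 1 := by simpa using nu
  have m : ∀ z : Ω, v • z = z → p ≠ g • z ∧ q ≠ g • z := fun z hz =>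
    ⟨fun e => h1 (by rw [← b1, e, cj_smul, hz]), fun e => h1 (by rw [← b2, e, cj_smul, hz])⟩
  exact na (H.inv1 ha (show D4 p q (g • x) (g • y) from ⟨h1, (m x v1).1, (m y v2).1, (m x v1).2, (m y v2).2,
    (MulAction.injective g).ne hxy⟩) a1 a2 (by rw [cj_smul, u1]) (by rw [cj_smul, u2]))

end HH

end CfsgH8.Hall
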