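import Cfsg.Agent.H8.Q4HallA
import Cfsg.Agent.SZ.ZS_fin
import Cfsg.Agent.FT.Main

set_option autoImplicit false
set_option linter.unusedSectionVars false

/-! M. Hall's theorem on four-fold transitive groups, part B: the two-point stabilizer. -/

namespace CfsgH8.Hall

open MulAction Subgroup CfsgH1.Q4 CfsgH5 CfsgH6 CfsgFT CfsgSZ

variable {X Ω : Type*} [Group X] [Finite X] [MulAction X Ω] [Finite Ω]
variable {a b c g : X} {p q r s x y : Ω}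

theorem mem_St2 : g ∈ St X ({p, q} : Set Ω) ↔ g • p = p ∧ g • q = q := by simp [mem_St]

theorem ne_fix (h : g • p = p) (hx : p ≠ x) : p ≠ g • x := fun e => hx (MulAction.injective g (h.trans e))

namespace HH

variable (H : HH X Ω)
include H

theorem exE (h8 : 8 ≤ Nat.card Ω) (hpq : p ≠ q) : ∃ E : Subgroup X, E ≤ St X ({p, q} : Set Ω) ∧
    Nrm (St X ({p, q} : Set Ω)) E ∧ Ab E ∧ (∀ k ∈ E, Odd (orderOf k)) ∧
    ∀ z w : Ω, p ≠ z → q ≠ z → p ≠ w → q ≠ w → ∃ k ∈ E, k • z = w := by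
  obtain ⟨r, u1⟩ := ex_out [p, q] (by simp; omega)
  obtain ⟨s, u2⟩ := ex_out [p, q, r] (by simp; omega)
  obtain ⟨t, u3⟩ := ex_out [p, q, r, s] (by simp; omega)
  simp only [List.mem_cons, List.not_mem_nil, or_false, not_or] at u1 u2 u3
  have D : D4 p q r s := ⟨hpq, Ne.symm u1.1, Ne.symm u2.1, Ne.symm u1.2, Ne.symm u2.2.1, Ne.symm u2.2.2⟩
  have D' : D4 p q r t := ⟨hpq, Ne.symm u1.1, Ne.symm u3.1, Ne.symm u1.2, Ne.symm u3.2.1, Ne.symm u3.2.2.1⟩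
  obtain ⟨a, ha, a1, a2, a3, a4⟩ := H.ex_sw D
  have na : a ≠ 1 := fun e => u2.2.2 (by rw [← a3, e, one_smul])
  set Y := St X ({p, q} : Set Ω) with hY
  have bs := brauer_suzuki (H := Y) (mem_St2.2 ⟨a1, a2⟩) na ha fun v hv h2 hc =>
    H.no_four h8 ha h2 hc na hpq a1 a2 (mem_St2.1 hv).1 (mem_St2.1 hv).2
  have hO : Opc 2 Y ≠ ⊥ := fun e => by
    rw [e, bot_sup_eq, inf_eq_left] at bs
    obtain ⟨g, e1, e2, e3, e4⟩ := H.tr D D'
    have := mem_C1.1 (bs (mem_St2.2 ⟨e1, e2⟩))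
    exact u3.2.2.2 (by rw [← e4, ← a3, ← mul_smul, this, mul_smul, e3])
  have ho : ∀ k ∈ Opc 2 Y, Odd (orderOf k) := fun k hk =>
    Nat.not_even_iff_odd.1 (by rw [even_iff_two_dvd]; exact not_two_dvd_of_piE ((piG_Opi _ _).piE hk))
  have hs : Group.IsSolvable (Opc 2 Y) := feit_thompson _ (Nat.not_even_iff_odd.1 (by
    rw [even_iff_two_dvd]; exact fun hd => piG_Opi _ Y 2 Nat.prime_two hd rfl))
  obtain ⟨E, ⟨k1, k2, k3⟩, hm⟩ := WellFounded.has_min (wellFounded_lt (α := Subgroup X))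
    {E | E ≤ Opc 2 Y ∧ E ≠ ⊥ ∧ Nrm Y E} ⟨_, le_rfl, hO, nrm_Opi _ _⟩
  have hab : Ab E := D_eq_bot.1 (by
    by_contra e
    exact hm _ ⟨(D_le E).trans k1, e, k3.D⟩ (D_lt_of_solvable (solvable_of_le hs k1) k2))
  have hEY : E ≤ Y := k1.trans (Opi_le _ _)
  refine ⟨E, hEY, k3, hab, fun k hk => ho k (k1 hk), fun z w z1 z2 w1 w2 => ?_⟩
  by_cases hzw : z = w
  · exact ⟨1, E.one_mem, by rw [one_smul, hzw]⟩
  obtain ⟨⟨k, hk⟩, nk⟩ := (Subgroup.ne_bot_iff_exists_ne_one).1 k2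
  obtain ⟨x, hx⟩ := H.moved (g := k) fun e => nk (Subtype.ext e)
  obtain ⟨f1, f2⟩ := mem_St2.1 (hEY hk)
  have x1 : p ≠ x := fun e => hx (e ▸ f1)
  have x2 : q ≠ x := fun e => hx (e ▸ f2)
  obtain ⟨g, e1, e2, e3, e4⟩ := H.tr (show D4 p q x (k • x) from
    ⟨hpq, x1, ne_fix f1 x1, x2, ne_fix f2 x2, hx.symm⟩) (show D4 p q z w from ⟨hpq, z1, w1, z2, w2, hzw⟩)
  exact ⟨g * k * g⁻¹, k3 g (mem_St2.2 ⟨e1, e2⟩) k hk, by rw [← e3, cj_smul, e4]⟩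

theorem reg {E : Subgroup X} (h1 : E ≤ St X ({p, q} : Set Ω)) (h2 : ∀ z w : Ω, p ≠ z → q ≠ z → p ≠ w → q ≠ w →
    ∃ k ∈ E, k • z = w) (hc : ∀ k ∈ E, k * g = g * k) (g1 : g • p = p) (g2 : g • q = q) (x1 : p ≠ x)
    (x2 : q ≠ x) (g3 : g • x = x) : g = 1 := H.faith g fun w => by
  by_cases w1 : p = w
  · rw [← w1, g1]
  by_cases w2 : q = w
  · rw [← w2, g2]
  obtain ⟨k, hk, rfl⟩ := h2 x w x1 x2 w1 w2
  rw [← mul_smul, ← hc k hk, mul_smul, g3]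

/-- every involution fixes a third point -/
theorem third (h8 : 8 ≤ Nat.card Ω) (ha : a * a = 1) (na : a ≠ 1) (hpq : p ≠ q) (a1 : a • p = p)
    (a2 : a • q = q) : ∃ e : Ω, p ≠ e ∧ q ≠ e ∧ a • e = e := by
  obtain ⟨E, h1, h2, h3, h4, h5⟩ := H.exE h8 hpq
  obtain ⟨x, hx⟩ := H.moved na
  have x1 : p ≠ x := fun e => hx (e ▸ a1)
  have x2 : q ≠ x := fun e => hx (e ▸ a2)
  have aY := mem_St2.2 ⟨a1, a2⟩
  have ea := inv_eq_of_mul_eq_one_right ha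
  obtain ⟨k, hk, e⟩ := h5 x (a • x) x1 x2 (ne_fix a1 x1) (ne_fix a2 x2)
  have m1 := E.mul_mem (h2 a aY k hk) hk
  have i1 : a * k * a⁻¹ * k = 1 := H.reg h1 h5 (fun l hl => h3.comm hl m1) (mem_St2.1 (h1 m1)).1
    (mem_St2.1 (h1 m1)).2 x1 x2 (by rw [mul_smul, e, cj_smul, e, ss ha])
  obtain ⟨j, hj⟩ := h4 k hk
  have h6 : k ^ (j + 1) * k ^ (j + 1) = k := by
    rw [← pow_add, show j + 1 + (j + 1) = 2 * j + 1 + 1 by ring, pow_succ, ← hj, pow_orderOf_eq_one, one_mul]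
  have h7 : a * k ^ (j + 1) * a⁻¹ = (k ^ (j + 1))⁻¹ := by
    rw [← conj_pow, eq_inv_of_mul_eq_one_left i1, inv_pow]
  have h8 := mem_St2.1 (h1 (E.pow_mem hk (j + 1)))
  generalize k ^ (j + 1) = m at h6 h7 h8
  refine ⟨m • x, ne_fix h8.1 x1, ne_fix h8.2 x2, ?_⟩
  rw [← cj_smul, h7, ← e, ← h6, mul_smul, inv_smul_smul]

/-- a unique involution fixes three given points -/
theorem uniq (h8 : 8 ≤ Nat.card Ω) (ha : a * a = 1) (na : a ≠ 1) (hb : b * b = 1) (nb : b ≠ 1)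
    (hpq : p ≠ q) (hpr : p ≠ r) (hqr : q ≠ r) (a1 : a • p = p) (a2 : a • q = q) (a3 : a • r = r)
    (b1 : b • p = p) (b2 : b • q = q) (b3 : b • r = r) : a = b := by
  obtain ⟨E, h1, h2, h3, h4, h5⟩ := H.exE h8 hpq
  have iv : ∀ {c : X}, c * c = 1 → c ≠ 1 → c • p = p → c • q = q → c • r = r →
      ∀ k ∈ E, c * k * c⁻¹ = k⁻¹ := fun {c} hc nc c1 c2 c3 k hk => by
    have m0 := h2 c (mem_St2.2 ⟨c1, c2⟩) k hk
    have m1 := E.mul_mem m0 hk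
    obtain ⟨f1, f2⟩ := mem_St2.1 (h1 m1)
    have cm : Commute (c * k * c⁻¹ * k) c := by
      have ec := inv_eq_of_mul_eq_one_right hc
      have := h3.comm m0 hk
      rw [ec] at this ⊢
      calc c * k * c * k * c = c * (k * (c * k * c)) := by group
        _ = _ := by rw [← this]
    refine eq_inv_of_mul_eq_one_left (H.reg h1 h5 (fun l hl => h3.comm hl m1) f1 f2 hpr hqr ?_)
    rcases H.fix3 hc nc hpq hpr hqr c1 c2 c3 (comm_fix cm c3) with t | t | t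
    · exact absurd t.symm (ne_fix f1 hpr)
    · exact absurd t.symm (ne_fix f2 hqr)
    · exact t
  have : a * b = 1 := H.reg h1 h5 (fun k hk => by
    have e1 := iv hb nb b1 b2 b3 k hk
    have e2 := iv ha na a1 a2 a3 _ (E.inv_mem hk)
    calc k * (a * b) = a * k⁻¹ * a⁻¹ * (a * b) := by rw [e2, inv_inv]
      _ = a * b * k := by rw [← e1]; group) (by rw [mul_smul, b1, a1]) (by rw [mul_smul, b2, a2]) hpr hqr
    (by rw [mul_smul, b3, a3])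
  rw [← mul_one a, ← hb, ← mul_assoc, this, one_mul]

end HH

end CfsgH8.Hall
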