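import Cfsg.Agent.H8.Q4HallB

set_option autoImplicit false
set_option linter.unusedSectionVars false

/-! M. Hall's theorem on four-fold transitive groups, part C: the faithful case. -/

namespace CfsgH8.Hall

open MulAction Subgroup CfsgH1.Q4

variable {X Ω : Type*} [Group X] [Finite X] [MulAction X Ω] [Finite Ω]
variable {a b c g : X} {i j k p q r s x y : Ω}

theorem ne_one_of (h : g • x ≠ x) : g ≠ 1 := fun e => h (by rw [e, one_smul])

theorem comm_of_cj (h : g * a * g⁻¹ = a) : Commute g a := mul_inv_eq_iff_eq_mul.1 h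

theorem cyc_D (ha : a * a = 1) (hp : a • p ≠ p) (hr : a • r ≠ r) (h1 : r ≠ p) (h2 : r ≠ a • p) :
    D4 p (a • p) r (a • r) :=
  ⟨hp.symm, h1.symm, fun e => h2 (sw ha e.symm).symm, h2.symm, (MulAction.injective a).ne h1.symm, hr.symm⟩

/-- an involution with fixed points `i, j, k` -/
structure Tri (a : X) (i j k : Ω) : Prop where
  sq : a * a = 1
  ne : a ≠ 1
  ij : i ≠ j
  ik : i ≠ k
  jk : j ≠ k
  fi : a • i = i
  fj : a • j = j
  fk : a • k = k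

theorem Tri.s12 (T : Tri a i j k) : Tri a j i k := ⟨T.sq, T.ne, T.ij.symm, T.jk, T.ik, T.fj, T.fi, T.fk⟩

theorem Tri.s13 (T : Tri a i j k) : Tri a k j i :=
  ⟨T.sq, T.ne, T.jk.symm, T.ik.symm, T.ij.symm, T.fk, T.fj, T.fi⟩

theorem Tri.cj (T : Tri a i j k) (g : X) : Tri (g * a * g⁻¹) (g • i) (g • j) (g • k) :=
  ⟨cj_inv T.sq g, by simpa using T.ne, (MulAction.injective g).ne T.ij, (MulAction.injective g).ne T.ik,
    (MulAction.injective g).ne T.jk, by rw [cj_smul, T.fi], by rw [cj_smul, T.fj], by rw [cj_smul, T.fk]⟩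

namespace HH

variable (H : HH X Ω)
include H

theorem tfix (T : Tri a i j k) (h : a • x = x) : x = i ∨ x = j ∨ x = k :=
  H.fix3 T.sq T.ne T.ij T.ik T.jk T.fi T.fj T.fk h

theorem tmov (T : Tri a i j k) (h1 : x ≠ i) (h2 : x ≠ j) (h3 : x ≠ k) : a • x ≠ x := fun e => by
  rcases H.tfix T e with t | t | t <;> contradiction

theorem tuniq (h8 : 8 ≤ Nat.card Ω) (T : Tri a i j k) (T' : Tri b i j k) : a = b :=
  H.uniq h8 T.sq T.ne T'.sq T'.ne T.ij T.ik T.jk T.fi T.fj T.fk T'.fi T'.fj T'.fk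

theorem tcomm (h8 : 8 ≤ Nat.card Ω) (T : Tri a i j k) (g1 : g • i = i) (g2 : g • j = j) (g3 : g • k = k) :
    Commute g a := comm_of_cj (H.tuniq h8 (by have := T.cj g; rwa [g1, g2, g3] at this) T)

theorem tri (h8 : 8 ≤ Nat.card Ω) (ij : i ≠ j) (ik : i ≠ k) (jk : j ≠ k) : ∃ a : X, Tri a i j k := by
  obtain ⟨x, u⟩ := ex_out [i, j, k] (by simp; omega)
  simp only [List.mem_cons, List.not_mem_nil, or_false, not_or] at u
  obtain ⟨a, ha, a1, a2, a3, -⟩ := H.ex_sw (show D4 i j k x from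
    ⟨ij, ik, Ne.symm u.1, jk, Ne.symm u.2.1, Ne.symm u.2.2⟩)
  have na : a ≠ 1 := ne_one_of (x := k) (by rw [a3]; exact u.2.2)
  obtain ⟨e, e1, e2, e3⟩ := H.third h8 ha na ij a1 a2
  have ek : e ≠ k := fun t => u.2.2 (by rw [← a3, ← t, e3])
  obtain ⟨t, -, t1, t2, t3, -⟩ := H.ex_sw (show D4 i j e k from ⟨ij, e1, ik, e2, jk, ek⟩)
  have := (show Tri a i j e from ⟨ha, na, ij, e1, e2, a1, a2, e3⟩).cj t
  rw [t1, t2, t3] at this
  exact ⟨_, this⟩

theorem partner (T : Tri a i j k) (hp : a • p ≠ p) (hr : a • r ≠ r) (h1 : r ≠ p) (h2 : r ≠ a • p) :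
    ∃ b : X, ∃ l : Ω, Commute a b ∧ Tri b p (a • p) l ∧ Tri (a * b) l r (a • r) ∧ b • r = a • r ∧
      (l = i ∨ l = j ∨ l = k) := by
  have D := cyc_D T.sq hp hr h1 h2
  obtain ⟨b, hb, hab, b1, b2, b3, b4⟩ := H.csw T.sq D (.inr rfl) (.inr rfl)
  have key : ∃ l : Ω, b • l = l ∧ (l = i ∨ l = j ∨ l = k) := by
    have aux : ∀ {i j k : Ω}, Tri a i j k → b • i = j → b • k = k := fun {i j k} T e => by
      rcases H.tfix T (comm_fix hab.symm T.fk) with t | t | t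
      · exact absurd ((sw hb t).symm.trans e) T.jk.symm
      · exact absurd ((sw hb t).symm.trans (sw hb e)) T.ik.symm
      · exact t
    rcases H.tfix T (comm_fix hab.symm T.fi) with t | t | t
    · exact ⟨i, t, .inl rfl⟩
    · exact ⟨k, aux T t, .inr (.inr rfl)⟩
    · exact ⟨j, aux T.s12.s13.s12 t, .inr (.inl rfl)⟩
  obtain ⟨l, hl, hl'⟩ := key
  have al : a • l = l := by rcases hl' with rfl | rfl | rfl; exacts [T.fi, T.fj, T.fk]
  have n : ∀ x : Ω, a • x ≠ x → x ≠ l ∧ a • x ≠ l := fun x hx =>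
    ⟨fun e => hx (e ▸ al), fun e => hx (by rw [e, ← sw T.sq e, al])⟩
  refine ⟨b, l, hab, ⟨hb, ne_one_of (x := r) (by rwa [b3]), hp.symm, (n p hp).1, (n p hp).2, b1, b2, hl⟩,
    ⟨mul_inv2 T.sq hb hab, ne_one_of (x := p) (by rwa [mul_smul, b1]), (n r hr).1.symm, (n r hr).2.symm,
      hr.symm, by rw [mul_smul, hl, al], by rw [mul_smul, b3, ss T.sq], by rw [mul_smul, b4]⟩, b3, hl'⟩

theorem triv8 (h8 : 8 ≤ Nat.card Ω) (D : D4 i j k p) (g1 : g • i = i) (g2 : g • j = j) (g3 : g • k = k)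
    (g4 : g • p = p) : g = 1 := by
  obtain ⟨h1, h2, h3, h4, h5, h6⟩ := id D
  obtain ⟨a, T⟩ := H.tri h8 h1 h2 h4
  have hc := H.tcomm h8 T g1 g2 g3
  have hp := H.tmov T h3.symm h5.symm h6.symm
  have g5 : g • a • p = a • p := comm_fix hc.symm g4
  refine H.faith g fun r => ?_
  by_cases hr : a • r = r
  · rcases H.tfix T hr with rfl | rfl | rfl <;> assumption
  by_cases r1 : r = p
  · rwa [r1]
  by_cases r2 : r = a • p
  · rwa [r2]
  obtain ⟨b, l, hab, T1, T2, -, hl⟩ := H.partner T hp hr r1 r2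
  have gl : g • l = l := by rcases hl with rfl | rfl | rfl <;> assumption
  have c2 : Commute g (a * b) := hc.mul_right (H.tcomm h8 T1 g4 g5 gl)
  rcases H.tfix T2 (comm_fix c2 T2.fj) with t | t | t
  · exact absurd t.symm (ne_fix gl T2.ij)
  · exact t
  · exact fix_of_odd (by rw [t, ← mul_smul, hc.eq, mul_smul, t, ss T.sq]) (H.odd D g1 g2 g3 g4)

theorem exp4 (h8 : 8 ≤ Nat.card Ω) (ij : i ≠ j) (ik : i ≠ k) (jk : j ≠ k) (g1 : g • i = i) (g2 : g • j = j)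
    (g3 : g • k = k) : g ^ 4 = 1 := by
  obtain ⟨a, T⟩ := H.tri h8 ij ik jk
  obtain ⟨p, u⟩ := ex_out [i, j, k] (by simp; omega)
  simp only [List.mem_cons, List.not_mem_nil, or_false, not_or] at u
  have D : D4 i j k p := ⟨ij, ik, Ne.symm u.1, jk, Ne.symm u.2.1, Ne.symm u.2.2⟩
  have hp := H.tmov T u.1 u.2.1 u.2.2
  have aux : ∀ {g : X}, g • i = i → g • j = j → g • k = k → g • p = p ∨ g • p = a • p → g * g = 1 :=
    fun {g} g1 g2 g3 h => H.triv8 h8 D (by rw [mul_smul, g1, g1]) (by rw [mul_smul, g2, g2])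
      (by rw [mul_smul, g3, g3]) (by
        rcases h with h | h
        · rw [mul_smul, h, h]
        · rw [mul_smul, h, ← mul_smul, (H.tcomm h8 T g1 g2 g3).eq, mul_smul, h, ss T.sq])
  have hc := H.tcomm h8 T g1 g2 g3
  have e4 : g ^ 4 = g * g * (g * g) := by rw [show 4 = 2 + 2 from rfl, pow_add, pow_two]
  by_cases h : g • p = p ∨ g • p = a • p
  · rw [e4, aux g1 g2 g3 h, one_mul]
  rw [not_or] at h
  have ga : ∀ x : Ω, g • a • x = a • g • x := fun x => by rw [← mul_smul, hc.eq, mul_smul]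
  obtain ⟨b, l, hab, T1, T2, -, hl⟩ := H.partner T hp (r := g • p)
    (by rw [← ga]; exact (MulAction.injective g).ne hp) h.1 h.2
  have gl : g • l = l := by rcases hl with rfl | rfl | rfl <;> assumption
  have e1 : g * b * g⁻¹ = a * b := H.tuniq h8 (by have := T1.s13.s12.s13.s12.cj g; rwa [gl, ga] at this) T2
  have e2 : Commute (g * g) b := comm_of_cj (by
    calc g * g * b * (g * g)⁻¹ = g * (g * b * g⁻¹) * g⁻¹ := by group
      _ = a * (g * b * g⁻¹) := by rw [e1, ← mul_assoc, hc.eq, ← e1]; group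
      _ = b := by rw [e1, ← mul_assoc, T.sq, one_mul])
  rw [e4]
  refine aux (by rw [mul_smul, g1, g1]) (by rw [mul_smul, g2, g2]) (by rw [mul_smul, g3, g3]) ?_
  rcases H.tfix T1 (comm_fix e2 T1.fi) with t | t | t
  · exact .inl t
  · exact .inr t
  · exact absurd t.symm (ne_fix (by rw [mul_smul, gl, gl]) T1.ik.symm)

theorem blk (h8 : 8 ≤ Nat.card Ω) (T : Tri a i j k) (hp : a • p ≠ p) :
    ∃ b : X, ∃ L : List Ω, L.length = 2 ∧ L.Nodup ∧ Tri b p (a • p) i ∧ b • j = k ∧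
      (∀ x : Ω, x ∈ L ↔ b • x = a • x ∧ x ≠ i) ∧ ∀ x ∈ L, a • x ≠ x ∧ x ≠ p ∧ x ≠ a • p := by
  have n : ∀ l : Ω, a • l = l → p ≠ l ∧ a • p ≠ l := fun l al =>
    ⟨fun e => hp (e ▸ al), fun e => hp (by rw [e, ← sw T.sq e, al])⟩
  obtain ⟨b, hb, hab, b1, b2, b3, b4⟩ := H.csw T.sq (show D4 p (a • p) j k from
    ⟨hp.symm, (n j T.fj).1, (n k T.fk).1, (n j T.fj).2, (n k T.fk).2, T.jk⟩) (.inr rfl) (.inl ⟨T.fj, T.fk⟩)
  have bi : b • i = i := by
    rcases H.tfix T (comm_fix hab.symm T.fi) with t | t | t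
    · exact t
    · exact absurd ((sw hb t).symm.trans b3) T.ik
    · exact absurd ((sw hb t).symm.trans b4) T.ij
  have hc := mul_inv2 T.sq hb hab
  have nc : a * b ≠ 1 := ne_one_of (x := p) (by rwa [mul_smul, b1])
  have ci : (a * b) • i = i := by rw [mul_smul, bi, T.fi]
  obtain ⟨r, ir, cr⟩ : ∃ r : Ω, i ≠ r ∧ (a * b) • r = r := by
    obtain ⟨x, y, xy, u, v⟩ := H.two_fix (by omega) hc
    by_cases e : i = x
    · exact ⟨y, e ▸ xy, v⟩
    · exact ⟨x, e, u⟩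
  obtain ⟨s, is, rs, cs⟩ := H.third h8 hc nc ir ci cr
  have eq : ∀ x : Ω, (a * b) • x = x ↔ b • x = a • x := fun x =>
    ⟨fun e => (sw T.sq (by rwa [mul_smul] at e)).symm, fun e => by rw [mul_smul, e, ss T.sq]⟩
  have hL : ∀ x : Ω, x ∈ [r, s] ↔ b • x = a • x ∧ x ≠ i := fun x => by
    simp only [List.mem_cons, List.not_mem_nil, or_false, ← eq]
    constructor
    · rintro (rfl | rfl)
      exacts [⟨cr, ir.symm⟩, ⟨cs, is.symm⟩]
    · exact fun h => (H.fix3 hc nc ir is rs ci cr cs h.1).resolve_left h.2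
  refine ⟨b, [r, s], rfl, by simp [rs], ⟨hb, ne_one_of (x := j) (by rw [b3]; exact T.jk.symm), hp.symm,
    (n i T.fi).1, (n i T.fi).2, b1, b2, bi⟩, b3, hL, fun x hx => ?_⟩
  obtain ⟨u, v⟩ := (hL x).1 hx
  refine ⟨fun e => ?_, fun e => hp (by rw [e, b1] at u; exact u.symm), fun e => hp (by rwa [e, b2, ss T.sq] at u)⟩
  rcases H.tfix T e with t | t | t
  · exact v t
  · exact T.jk (by rw [t, b3, T.fj] at u; exact u.symm)
  · exact T.jk (by rwa [t, b4, T.fk] at u)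

theorem card11 (h8 : 8 ≤ Nat.card Ω) : Nat.card Ω = 11 := by
  obtain ⟨i, j, k, p, h1, h2, h3, h4, h5, h6⟩ := H.exD4 (by omega)
  obtain ⟨a, T⟩ := H.tri h8 h1 h2 h4
  have hp := H.tmov T h3.symm h5.symm h6.symm
  obtain ⟨b1, L1, l1, n1, T1, e1, m1, o1⟩ := H.blk h8 T hp
  obtain ⟨b2, L2, l2, n2, T2, e2, m2, o2⟩ := H.blk h8 T.s12 hp
  obtain ⟨b3, L3, l3, n3, T3, e3, m3, o3⟩ := H.blk h8 T.s13 hp
  have hl : ([i, j, k, p, a • p] ++ (L1 ++ (L2 ++ L3))).length = 11 := by simp [l1, l2, l3]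
  refine le_antisymm (hl ▸ card_le _ fun r => ?_) (hl ▸ le_card _ ?_)
  · by_cases hr : a • r = r
    · rcases H.tfix T hr with t | t | t <;> simp [t]
    by_cases r1 : r = p
    · simp [r1]
    by_cases r2 : r = a • p
    · simp [r2]
    obtain ⟨b, l, -, T4, T5, br, rfl | rfl | rfl⟩ := H.partner T hp hr r1 r2
    · simp [(m1 r).2 ⟨H.tuniq h8 T4 T1 ▸ br, T5.ij.symm⟩]
    · simp [(m2 r).2 ⟨H.tuniq h8 T4 T2 ▸ br, T5.ij.symm⟩]
    · simp [(m3 r).2 ⟨H.tuniq h8 T4 T3 ▸ br, T5.ij.symm⟩]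
  · have o : ∀ {L : List Ω}, (∀ x ∈ L, a • x ≠ x ∧ x ≠ p ∧ x ≠ a • p) →
        List.Disjoint [i, j, k, p, a • p] L := fun {L} h x hx hx' => by
      obtain ⟨u, v, w⟩ := h x hx'
      simp only [List.mem_cons, List.not_mem_nil, or_false] at hx
      rcases hx with rfl | rfl | rfl | rfl | rfl
      exacts [u T.fi, u T.fj, u T.fk, v rfl, w rfl]
    have d : ∀ {b c : X} {l m x : Ω}, Tri b p (a • p) l → Tri c p (a • p) m → b • x = a • x → c • x = a • x →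
        (a • x ≠ x ∧ x ≠ p ∧ x ≠ a • p) → l ≠ m → False := fun {b c l m x} Tb Tc u v w lm => by
      have e : b * c = 1 := H.triv8 h8 (show D4 p (a • p) x (a • x) from cyc_D T.sq hp w.1 w.2.1 w.2.2)
        (by rw [mul_smul, Tc.fi, Tb.fi]) (by rw [mul_smul, Tc.fj, Tb.fj]) (by rw [mul_smul, v, sw Tb.sq u])
        (by rw [mul_smul, sw Tc.sq v, u])
      have e' : b = c := by rw [← mul_one b, ← Tc.sq, ← mul_assoc, e, one_mul]
      rcases H.tfix Tb (e' ▸ Tc.fk) with t | t | t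
      exacts [Tc.ik t.symm, Tc.jk t.symm, lm t.symm]
    refine List.Nodup.append ?_ (n1.append (n2.append n3 fun x u v => ?_) (List.disjoint_append_right.2
      ⟨fun x u v => ?_, fun x u v => ?_⟩)) (by simp only [List.disjoint_append_right]; exact ⟨o o1, o o2, o o3⟩)
    · simp [h1, h2, h3, h4, h5, h6, T1.jk.symm, T2.jk.symm, T3.jk.symm, hp.symm]
    · exact d T2 T3 ((m2 x).1 u).1 ((m3 x).1 v).1 (o2 x u) h4
    · exact d T1 T2 ((m1 x).1 u).1 ((m2 x).1 v).1 (o1 x u) h1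
    · exact d T1 T3 ((m1 x).1 u).1 ((m3 x).1 v).1 (o1 x u) h2

theorem triv (h7 : Nat.card Ω ≠ 7) (D : D4 p q r s) (g1 : g • p = p) (g2 : g • q = q) (g3 : g • r = r)
    (g4 : g • s = s) : g = 1 := by
  by_cases h8 : 8 ≤ Nat.card Ω
  · exact H.triv8 h8 D g1 g2 g3 g4
  refine H.faith g fun x => ?_
  by_contra hx
  have hx2 : g • g • x ≠ x := fun e => hx (fix_of_odd e (H.odd D g1 g2 g3 g4))
  have n : ∀ l : Ω, g • l = l → l ≠ x ∧ l ≠ g • x ∧ l ≠ g • g • x := fun l hl =>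
    have : l ≠ x := fun e => hx (e ▸ hl)
    ⟨this, ne_fix hl this, ne_fix hl (ne_fix hl this)⟩
  have hx3 : g • x ≠ g • g • x := (MulAction.injective g).ne (Ne.symm hx)
  obtain ⟨h1, h2, h3, h4, h5, h6⟩ := D
  have := le_card [p, q, r, s, x, g • x, g • g • x] (by
    simp [h1, h2, h3, h4, h5, h6, n p g1, n q g2, n r g3, n s g4, Ne.symm hx, hx2.symm, -smul_left_cancel_iff, hx3])
  simp at this
  omega

theorem dd7 (h7 : Nat.card Ω = 7) (D : D4 p q r s) : ∃ b : X, b • p = q ∧ b • q = p ∧ b • r = s ∧ b • s = r ∧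
    ∀ x : Ω, x ≠ p → x ≠ q → x ≠ r → x ≠ s → b • x = x := by
  obtain ⟨b, hb, b1, b2, b3, b4⟩ := H.ex_dd D
  refine ⟨b, b1, b2, b3, b4, fun z z1 z2 z3 z4 => ?_⟩
  by_contra hz
  obtain ⟨h1, h2, h3, h4, h5, h6⟩ := D
  obtain ⟨x, y, xy, u, v⟩ := H.two_fix (by omega) hb
  have n : ∀ l : Ω, b • l = l → p ≠ l ∧ q ≠ l ∧ r ≠ l ∧ s ≠ l ∧ l ≠ z ∧ l ≠ b • z := fun l hl =>
    have : l ≠ z := fun e => hz (e ▸ hl)
    ⟨fun e => h1 (by rw [← b1, e, hl]), fun e => h1 (by rw [← b2, e, hl]), fun e => h6 (by rw [← b3, e, hl]),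
      fun e => h6 (by rw [← b4, e, hl]), this, ne_fix hl this⟩
  have y1 : p ≠ b • z := fun e => z2 ((sw hb e.symm).symm.trans b1)
  have y2 : q ≠ b • z := fun e => z1 ((sw hb e.symm).symm.trans b2)
  have y3 : r ≠ b • z := fun e => z4 ((sw hb e.symm).symm.trans b3)
  have y4 : s ≠ b • z := fun e => z3 ((sw hb e.symm).symm.trans b4)
  have := le_card [p, q, r, s, x, y, z, b • z] (by
    simp [h1, h2, h3, h4, h5, h6, n x u, n y v, xy, z1.symm, z2.symm, z3.symm, z4.symm, y1, y2, y3, y4, Ne.symm hz])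
  simp at this
  omega

theorem cyc (h7 : Nat.card Ω = 7) (ij : i ≠ j) (ik : i ≠ k) (jk : j ≠ k) :
    ∃ g : X, g • i = j ∧ g • j = k ∧ g • k = i ∧ ∀ x : Ω, x ≠ i → x ≠ j → x ≠ k → g • x = x := by
  obtain ⟨p, u1⟩ := ex_out [i, j, k] (by simp; omega)
  obtain ⟨q, u2⟩ := ex_out [i, j, k, p] (by simp; omega)
  simp only [List.mem_cons, List.not_mem_nil, or_false, not_or] at u1 u2
  obtain ⟨u, a1, a2, a3, a4, a5⟩ := H.dd7 h7 (show D4 q p i j from ⟨u2.2.2.2, u2.1, u2.2.1, u1.1, u1.2.1, ij⟩)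
  obtain ⟨v, b1, b2, b3, b4, b5⟩ := H.dd7 h7 (show D4 q p i k from ⟨u2.2.2.2, u2.1, u2.2.2.1, u1.1, u1.2.2, ik⟩)
  refine ⟨v * u, by rw [mul_smul, a3, b5 j (Ne.symm u2.2.1) (Ne.symm u1.2.1) ij.symm jk],
    by rw [mul_smul, a4, b3], by rw [mul_smul, a5 k (Ne.symm u2.2.2.1) (Ne.symm u1.2.2) ik.symm jk.symm, b4],
    fun x x1 x2 x3 => ?_⟩
  by_cases e1 : x = q
  · rw [e1, mul_smul, a1, b2]
  by_cases e2 : x = p
  · rw [e2, mul_smul, a2, b1]
  rw [mul_smul, a5 x e1 e2 x1 x2, b5 x e1 e2 x1 x3]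

section idx
variable {X0 : Subgroup X} (h6 : 6 ≤ Nat.card Ω) (h2 : X0.index = 2)
include h6 h2

theorem inv_mem (ha : a * a = 1) : a ∈ X0 := by
  by_cases na : a = 1
  · exact na ▸ X0.one_mem
  have hn := normal_of_index_eq_two h2
  obtain ⟨p, q, r, s, D⟩ := H.exD4 (by omega)
  obtain ⟨h1, -, -, -, -, h3⟩ := id D
  obtain ⟨u, hu, a1, a2, a3, a4⟩ := H.ex_sw D
  obtain ⟨v, hv, huv, b3, b4, b1, b2⟩ := H.csw hu (show D4 r s p q from
    ⟨h3, D.2.1.symm, D.2.2.2.1.symm, D.2.2.1.symm, D.2.2.2.2.1.symm, h1⟩) (.inr a3) (.inl ⟨a1, a2⟩)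
  have k : ∀ {c : X}, c * c = 1 → c ≠ 1 → c ∈ X0 → a ∈ X0 := fun {c} hc nc h => by
    obtain ⟨g, rfl⟩ := H.all_conj h6 hc nc ha na
    exact hn.conj_mem _ h g
  by_contra h
  refine h (k (mul_inv2 hu hv huv) (ne_one_of (x := p) (by rw [mul_smul, b1, a2]; exact h1.symm)) ?_)
  rw [mul_mem_iff_of_index_two h2]
  exact iff_of_false (fun e => h (k hu (ne_one_of (x := r) (by rw [a3]; exact h3.symm)) e))
    fun e => h (k hv (ne_one_of (x := p) (by rw [b1]; exact h1.symm)) e)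

omit H h6 in
theorem odd_mem {m : ℕ} (hm : Odd m) (h : g ^ m ∈ X0) : g ∈ X0 := by
  obtain ⟨k, rfl⟩ := hm
  rw [pow_succ, pow_mul, pow_two] at h
  exact (X0.mul_mem_cancel_left (X0.pow_mem (mul_self_mem_of_index_two h2 g) k)).1 h

theorem four_mem (h : g ^ 4 = 1) : g ∈ X0 := by
  by_cases e : g * g = 1
  · exact H.inv_mem h6 h2 e
  obtain ⟨x, hx⟩ := H.moved e
  rw [mul_smul] at hx
  have h4 : g • g • g • g • x = x := by
    rw [← mul_smul, ← mul_smul, ← mul_smul, show g * g * g * g = g ^ 4 by simp [pow_succ], h, one_smul]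
  have h1 : g • x ≠ x := fun t => hx (by rw [t, t])
  have inj := MulAction.injective (β := Ω) g
  have D : D4 (g • x) (g • g • g • x) x (g • g • x) := ⟨inj.ne hx.symm, h1, inj.ne h1.symm,
    fun t => h1 (by rw [t] at h4; exact h4), inj.ne (inj.ne h1), hx.symm⟩
  obtain ⟨t, ht, t1, t2, t3, t4⟩ := H.ex_sw D
  obtain ⟨m, hm, k⟩ := H.mk_inv (g := t * g) D (by simp only [mul_smul, t1, t4])
    (by simp only [mul_smul, h4, t3, t2]) (by simp only [mul_smul, t1, t4])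
    (by simp only [mul_smul, h4, t2, t3])
  exact (X0.mul_mem_cancel_left (H.inv_mem h6 h2 ht)).1 (odd_mem h2 hm (H.inv_mem h6 h2 k))

theorem mv2 (pq : p ≠ q) (x1 : p ≠ x) (x2 : q ≠ x) (y1 : p ≠ y) (y2 : q ≠ y) :
    ∃ t ∈ X0, t • p = p ∧ t • q = q ∧ t • x = y := by
  by_cases e : x = y
  · exact ⟨1, X0.one_mem, by simp, by simp, by simp [e]⟩
  obtain ⟨t, ht, t1, t2, t3, -⟩ := H.ex_sw (show D4 p q x y from ⟨pq, x1, y1, x2, y2, e⟩)
  exact ⟨t, H.inv_mem h6 h2 ht, t1, t2, t3⟩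

theorem mv1 (x1 : p ≠ x) (y1 : p ≠ y) : ∃ t ∈ X0, t • p = p ∧ t • x = y := by
  obtain ⟨q, u⟩ := ex_out [p, x, y] (by simp; omega)
  simp only [List.mem_cons, List.not_mem_nil, or_false, not_or] at u
  obtain ⟨t, h, t1, -, t3⟩ := H.mv2 h6 h2 (Ne.symm u.1) x1 u.2.1 y1 u.2.2
  exact ⟨t, h, t1, t3⟩

theorem idx : False := by
  suffices h : X0 = ⊤ by rw [h, index_top] at h2; omega
  refine eq_top_iff.2 fun g _ => ?_
  by_cases h8 : 8 ≤ Nat.card Ω
  · obtain ⟨i, j, k, -, ij, ik, -, jk, -, -⟩ := H.exD4 (by omega)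
    obtain ⟨p, u⟩ := ex_out [g • i, i] (by simp; omega)
    simp only [List.mem_cons, List.not_mem_nil, or_false, not_or] at u
    obtain ⟨t1, m1, -, e1⟩ := H.mv1 h6 h2 u.1 u.2
    rw [← mul_smul] at e1
    obtain ⟨t2, m2, e2, e3⟩ := H.mv1 h6 h2 (ne_fix e1 ij) ij
    rw [← mul_smul] at e3
    have e4 : (t2 * (t1 * g)) • i = i := by rw [mul_smul, e1, e2]
    obtain ⟨t3, m3, e5, e6, e7⟩ := H.mv2 h6 h2 ij (ne_fix e4 ik) (ne_fix e3 jk) ik jk
    rw [← mul_smul] at e7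
    have := H.four_mem h6 h2 (H.exp4 h8 ij ik jk (by rw [mul_smul, e4, e5]) (by rw [mul_smul, e3, e6]) e7)
    rwa [X0.mul_mem_cancel_left m3, X0.mul_mem_cancel_left m2, X0.mul_mem_cancel_left m1] at this
  · obtain ⟨n, m, hm, e⟩ := Nat.exists_eq_two_pow_mul_odd (orderOf_pos g).ne'
    refine odd_mem h2 hm (H.four_mem h6 h2 (H.faith _ fun x => ?_))
    have h1 : (g ^ m) ^ 2 ^ n • x = x := by rw [← pow_mul, mul_comm, ← e, pow_orderOf_eq_one, one_smul]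
    rw [pow_smul_eq_iff_period_dvd] at h1 ⊢
    obtain ⟨l, -, hl⟩ := (Nat.dvd_prime_pow Nat.prime_two).1 h1
    have := Fintype.ofFinite Ω
    have h3 : period (g ^ m) x ≤ Fintype.card Ω := Function.minimalPeriod_le_card
    rw [← Nat.card_eq_fintype_card, hl] at h3
    rw [hl]
    have : l ≤ 2 := by
      by_contra! hc
      have := Nat.pow_le_pow_right (show 0 < 2 by omega) hc
      omega
    exact Nat.pow_dvd_pow 2 this

end idx

end HH

end CfsgH8.Hall
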