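import Cfsg.Agent.H6.VC0
import Cfsg.Agent.H4.VQH

set_option autoImplicit false
set_option linter.unusedSectionVars false

/-! The regular normal subgroup `Q` of a point stabiliser in the `V`-case. -/

namespace CfsgSE

open Subgroup CfsgH5 CfsgH6 CfsgFT CfsgSZ CfsgSZ.PS

universe u

variable {G Ω : Type u} [Group G] [Finite G] [MulAction G Ω] {V : Ω → Subgroup G}
  {α β : Ω} {Y : Subgroup G}

/-- what the induction gives for the proper subgroups containing `V α` and `V β`. -/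
def VQT (V : Ω → Subgroup G) (α β : Ω) : Prop :=
  ∀ M : Subgroup G, V α ≤ M → V β ≤ M → M ≠ ⊤ → ∃ T ≤ M ⊓ St G α, IsPGroup 2 T ∧
    ∀ c ∈ Orb M α, ∀ d ∈ Orb M α, c ≠ α → d ≠ α → ∃ t ∈ T, t • c = d

namespace VN

variable (h : VN V)
include h

theorem vq_le_C (hne : β ≠ α) (h1 : Y ≤ C (V α)) (h2 : Y ≤ St G β) : V β ≤ C Y :=
  le_C_symm fun _ hy => h.step4 hne ⟨⟨h2 hy, h.C_le α (h1 hy)⟩, h1 hy⟩

theorem vq_two_le (hne : α ≠ β) (LS : C (V α) ⊔ St G α ⊓ St G β = St G α) {T : Subgroup G}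
    (hT : IsPGroup 2 T) (h1 : T ≤ St G α) : T ≤ C (V α) := by
  refine le_of_coprime_relIndex h1 (h.nrm_C α) (coprime_of_isPGroup_of_not_dvd Nat.prime_two hT ?_)
  have e : (C (V α)).relIndex (St G α) = (C (V α)).relIndex (St G α ⊓ St G β) := by
    conv_lhs => rw [← LS]
    exact relIndex_sup (Or.inr ((h.nrm_C α).mono inf_le_left))
  rw [e]
  exact fun d => (h.se.odd_D hne).not_two_dvd_nat (d.trans (relIndex_dvd_card' _ _))

theorem vq_fix (hne : α ≠ β) (LS : C (V α) ⊔ St G α ⊓ St G β = St G α) (QT : VQT V α β)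
    (hY : Y ≤ C (V α) ⊓ St G β) (Y1 : Y ≠ ⊥) : ∃ T ≤ C (V α) ⊓ C Y, IsPGroup 2 T ∧
      ∀ c d : Ω, Y ≤ St G c → Y ≤ St G d → c ≠ α → d ≠ α → ∃ t ∈ T, t • c = d := by
  have hX : Y ≤ C (V α) := hY.trans inf_le_left
  have a1 : V α ≤ C Y := le_C_symm hX
  have a2 : V β ≤ C Y := h.vq_le_C hne.symm hX (hY.trans inf_le_right)
  have a3 : C Y ≠ ⊤ := fun e => Y1 (h.eq_bot fun γ y hy => by
    obtain ⟨g, rfl⟩ := h.se.trans α γ
    have hg : g ∈ C Y := e ▸ mem_top g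
    exact smul_of_comm (h.C_le α (hX hy)) (mem_C.1 hg y hy).symm)
  obtain ⟨T, t1, t2, t3⟩ := QT (C Y) a1 a2 a3
  have orb : ∀ c : Ω, Y ≤ St G c → c ≠ α → c ∈ Orb (C Y) α := fun c hc e => by
    obtain ⟨s, s1, s2⟩ := h.exists_mem α
    obtain ⟨d, d1, d2⟩ := h.exists_mem c
    exact h.se.mem_Orb (h.iv s1 s2) (h.iv d1 d2) (a1 s1) (h.vq_le_C e hX hc d1) (h.le α s1)
      (h.le c d1)
  exact ⟨T, le_inf (h.vq_two_le hne LS t2 (t1.trans inf_le_right)) (t1.trans inf_le_left), t2,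
    fun c d hc hd e1 e2 => t3 c (orb c hc e1) d (orb d hd e2) e1 e2⟩

theorem vq_moves {g : G} (hne : α ≠ β) (hg : g ∈ St G α) : g • β ≠ α := fun e =>
  hne (MulAction.injective g (show g • α = g • β by rw [e]; exact hg))

theorem vq_hall (hne : α ≠ β) (LS : C (V α) ⊔ St G α ⊓ St G β = St G α) (QT : VQT V α β) :
    (Nat.card ↥(C (V α) ⊓ St G β)).Coprime ((C (V α) ⊓ St G β).relIndex (C (V α))) := by
  refine Nat.coprime_of_dvd fun r hr h1 h2 => ?_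
  haveI := Fact.mk hr
  obtain ⟨Y, hY⟩ := exists_sylIn r (C (V α) ⊓ St G β)
  obtain ⟨T, t1, t2, t3⟩ := h.vq_fix hne LS QT hY.le (hY.ne_bot hr h1)
  have r2 : r ≠ 2 := by
    rintro rfl
    exact (h.se.odd_of_le hne (inf_le_left.trans (h.C_le α)) inf_le_right).not_two_dvd_nat h1
  have Yβ : Y ≤ St G β := hY.le.trans inf_le_right
  have TN : T ≤ C (V α) ⊓ N Y := t1.trans (inf_le_inf_left _ (centralizer_le_normalizer _))
  have eO : Orb (C (V α) ⊓ N Y) β = Orb T β := by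
    refine Set.Subset.antisymm ?_ (Orb_mono TN β)
    rintro _ ⟨g, hg, rfl⟩
    refine t3 β _ Yβ ?_ hne.symm (h.vq_moves hne (h.C_le α hg.1))
    rw [← cj_St, ← mem_N.1 hg.2]
    exact cj_le_cj.2 Yβ
  have e1 : (St G β).relIndex (C (V α) ⊓ N Y) = (St G β).relIndex T := by
    rw [← ncard_Orb, ← ncard_Orb, eO]
  have s1 : SylIn r Y ((C (V α) ⊓ N Y) ⊓ St G β) :=
    hY.of_le (le_inf (le_inf (hY.le.trans inf_le_left) le_normalizer) Yβ)
      (inf_le_inf_right _ inf_le_left)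
  have s2 : SylIn r Y (C (V α) ⊓ N Y) := s1.trans_not_dvd hr inf_le_left (by
    rw [inf_relIndex_left, e1]
    intro d
    obtain ⟨n, hn⟩ := (IsPGroup.iff_card (p := 2)).1 t2
    have := d.trans (relIndex_dvd_card' _ _)
    rw [hn] at this
    exact r2 ((Nat.prime_dvd_prime_iff_eq hr Nat.prime_two).1 (hr.dvd_of_dvd_pow this)))
  exact (sylIn_of_sylIn_N hr s2).not_dvd_relIndex
    (h2.trans (relIndex_dvd_of_le_left _ hY.le))

theorem vq_exists_Q (hne : α ≠ β) (LS : C (V α) ⊔ St G α ⊓ St G β = St G α) (QT : VQT V α β) :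
    ∃ Q, SDP Q (St G α ⊓ St G β) (St G α) ∧ V α ≤ Q := by
  obtain ⟨Q, q1, q2, q3, q4, q5⟩ := hall_compl (h.solv_C α) (inf_le_left (b := St G β))
    (h.vq_hall hne LS QT) (fun Y hY Y1 g hg hc => by
      obtain ⟨T, t1, -, t3⟩ := h.vq_fix hne LS QT hY Y1
      have a : Y ≤ St G (g⁻¹ • β) := by
        rw [← cj_St, le_cj_iff, inv_inv]
        exact hc.trans inf_le_right
      obtain ⟨t, ht, e⟩ := t3 _ β a (hY.trans inf_le_right)
        (h.vq_moves hne (inv_mem (h.C_le α hg))) hne.symm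
      have tX : t ∈ C (V α) := (t1.trans inf_le_left) ht
      refine ⟨t, t1 ht, (t * g⁻¹)⁻¹, inv_mem (mem_inf.2 ⟨mul_mem tX (inv_mem hg), ?_⟩),
        Or.inr (by group)⟩
      show (t * g⁻¹) • β = β
      rw [mul_smul, e])
  have nX : Nrm (St G α ⊓ St G β) (C (V α)) := (h.nrm_C α).mono inf_le_left
  have ED : C (V α) ⊓ St G β ≤ St G α ⊓ St G β := inf_le_inf_right _ (h.C_le α)
  refine ⟨Q, ⟨q2 _ nX (nX.inf ((Nrm.self _).mono inf_le_right)), ?_, ?_⟩, q5 _ (h.ab α) ?_⟩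
  · exact le_bot_iff.1 (q3 ▸ le_inf inf_le_left
      (le_inf (inf_le_left.trans q1) (inf_le_right.trans inf_le_right)))
  · refine le_antisymm (sup_le (q1.trans (h.C_le α)) inf_le_left) ?_
    conv_lhs => rw [← LS, ← q4]
    exact sup_le (sup_le le_sup_left (ED.trans le_sup_right)) le_sup_right
  · exact coprime_of_isPGroup_of_not_dvd Nat.prime_two (h.two_V α)
      (h.se.odd_of_le hne (inf_le_left.trans (h.C_le α)) inf_le_right).not_two_dvd_nat

/-- a complement to `D` is normal and transitive on the other points. -/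
theorem vq_trans (hne : α ≠ β) {Q : Subgroup G} (hQ : SDP Q (St G α ⊓ St G β) (St G α)) :
    NormalIn Q (St G α) ∧ ∀ γ δ : Ω, γ ≠ α → δ ≠ α → ∃ t ∈ Q, t • γ = δ := by
  have key : ∀ γ : Ω, γ ≠ α → ∃ t ∈ Q, t • β = γ := fun γ e => by
    obtain ⟨g, hg, rfl⟩ := h.two hne.symm e
    rw [← hQ.2.2] at hg
    obtain ⟨x, hx, y, hy, rfl⟩ := (mem_sup_nrm' hQ.1).1 hg
    exact ⟨x, hx, by rw [mul_smul, show y • β = β from hy.2]⟩
  refine ⟨⟨hQ.2.2 ▸ le_sup_left, ?_⟩, fun γ δ e1 e2 => ?_⟩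
  · rw [← hQ.2.2]
    exact nrm_iff.2 (sup_le le_normalizer hQ.1.le_N)
  · obtain ⟨a, ha, rfl⟩ := key γ e1
    obtain ⟨b, hb, rfl⟩ := key δ e2
    exact ⟨b * a⁻¹, mul_mem hb (inv_mem ha), by rw [mul_smul, inv_smul_smul]⟩

end VN

end CfsgSE
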