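import Cfsg.Agent.H8.VQ1
import Cfsg.Agent.H4.VQT

set_option autoImplicit false

/-! The induction of the `V`-case, from the linear step and the last step. -/

namespace CfsgSE

open Subgroup CfsgH5 CfsgH6 CfsgFT CfsgSZ CfsgSZ.PS

universe u

/-- the linear step for all groups of the universe. -/
def VLS : Prop := ∀ (G Ω : Type u) [Group G] [Finite G] [MulAction G Ω] (V : Ω → Subgroup G),
  VN V → ∀ α β : Ω, α ≠ β → C (V α) ⊔ St G α ⊓ St G β = St G α

/-- the last step (Suzuki's theorem) for all groups of the universe. -/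
def VTG : Prop := ∀ (G Ω : Type u) [Group G] [Finite G] [MulAction G Ω] (V : Ω → Subgroup G),
  VN V → ∀ (α β : Ω) (Q : Subgroup G), α ≠ β → SDP Q (St G α ⊓ St G β) (St G α) → V α ≤ Q →
    IsPGroup 2 Q

theorem vq_concl (LS : VLS.{u}) (TG : VTG.{u}) (n : ℕ) : ∀ (G Ω : Type u) [Group G] [Finite G]
    [MulAction G Ω] (V : Ω → Subgroup G), Nat.card G = n → VN V → ∀ α : Ω, ∃ T : Subgroup G,
      IsPGroup 2 T ∧ NormalIn T (St G α) ∧ ∀ β γ : Ω, β ≠ α → γ ≠ α → ∃ t ∈ T, t • β = γ := by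
  induction n using Nat.strong_induction_on with
  | _ n ih =>
  intro G Ω _ _ _ V hn h α
  obtain ⟨β, hβ⟩ := h.pts α
  obtain ⟨Q, q1, q2⟩ := h.vq_exists_Q hβ.symm (LS G Ω V h α β hβ.symm) fun M a b c =>
    h.exists_T (fun G1 Ω1 _ _ _ V1 lt h1 a =>
      let ⟨T, t1, t2, t3⟩ := ih _ (hn ▸ lt) G1 Ω1 V1 rfl h1 a
      ⟨T, t1, t2.1, t3⟩) c a b hβ.symm
  exact ⟨Q, TG G Ω V h α β Q hβ.symm q1 q2, h.vq_trans hβ.symm q1⟩

variable {G Ω : Type u} [Group G] [Finite G] [MulAction G Ω] {V : Ω → Subgroup G}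

theorem VN.concl_of (h : VN V) (LS : VLS.{u}) (TG : VTG.{u}) (α : Ω) : ∃ T : Subgroup G,
    IsPGroup 2 T ∧ NormalIn T (St G α) ∧ ∀ β γ : Ω, β ≠ α → γ ≠ α → ∃ t ∈ T, t • β = γ :=
  vq_concl LS TG _ G Ω V rfl h α

/-- the odd core of a point stabiliser is trivial. -/
theorem VN.core_of (h : VN V) (LS : VLS.{u}) (TG : VTG.{u}) (α : Ω) : Opc 2 (St G α) = ⊥ := by
  obtain ⟨T, t1, t2, t3⟩ := h.concl_of LS TG α
  obtain ⟨β, hβ⟩ := h.pts α
  have oW : ¬ 2 ∣ Nat.card (Opc 2 (St G α)) := not_dvd_card_Opc Nat.prime_two _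
  have WH : Opc 2 (St G α) ≤ St G α := Opc_le _ _
  have nW : Nrm (St G α) (Opc 2 (St G α)) := nrm_Opc 2 _
  have c : T ≤ C (Opc 2 (St G α)) := le_C_of_coprime (nW.mono t2.1) (t2.2.mono WH)
    (coprime_of_isPGroup_of_not_dvd Nat.prime_two t1 oW)
  -- the orbit of `β` under the core has odd length dividing the order of `T`
  have fix : Opc 2 (St G α) ≤ St G β := by
    intro w hw
    obtain ⟨t, ht, e⟩ := t3 β (w • β) hβ (h.vq_moves hβ.symm (WH hw))
    have tw : w * t = t * w := mem_C.1 (c ht) w hw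
    have pw : ∀ n : ℕ, w ^ n • β = t ^ n • β := fun n => by
      induction n with
      | zero => simp
      | succ n ih =>
        rw [pow_succ, pow_succ, mul_smul, mul_smul, ← e, ← mul_smul,
          show w ^ n * t = t * w ^ n from ((Commute.pow_left tw n).eq), mul_smul, ih, ← mul_smul,
          ← mul_smul, ← pow_succ, ← pow_succ']
    obtain ⟨k, hk⟩ := t1 ⟨t, ht⟩
    have hk' : t ^ 2 ^ k = 1 := congrArg Subtype.val hk
    refine mem_of_pow_mem_of_coprime' (n := 2 ^ k) ?_ ?_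
    · exact Nat.Coprime.pow_right _ ((Nat.coprime_comm.1 ((Nat.Prime.coprime_iff_not_dvd
        Nat.prime_two).2 fun d => oW (d.trans (Subgroup.orderOf_dvd_natCard _ hw)))))
    · show w ^ 2 ^ k • β = β
      rw [pw, hk', one_smul]
  refine h.eq_bot fun γ => ?_
  by_cases e : γ = α
  · exact e ▸ WH
  · obtain ⟨g, hg, rfl⟩ := h.two hβ e
    rw [← cj_St, ← mem_N.1 (nW.le_N hg)]
    exact cj_le_cj.2 fix

end CfsgSE
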