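import Cfsg.Agent.H8.VQ2
import Cfsg.Agent.H1.VZ
import Cfsg.Agent.H9.VA2

set_option autoImplicit false

/-! The `V`-case from the linear lemma. -/

namespace CfsgSE

open Subgroup CfsgH5 CfsgH6 CfsgFT CfsgSZ CfsgSZ.PS

universe u

theorem vtg : VTG.{u} := fun _ _ _ _ _ _ h _ _ _ a b c => h.two_group a b c

theorem vls_of (lin : LINh.{u}) : VLS.{u} := fun _ _ _ _ _ _ h _ _ a => VN.C_sup_D_of lin h a

variable {G Ω : Type u} [Group G] [Finite G] [MulAction G Ω]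

theorem VN.core_of_lin {V : Ω → Subgroup G} (h : VN V) (lin : LINh.{u}) (α : Ω) :
    Opc 2 (St G α) = ⊥ := h.core_of (vls_of lin) vtg α

/-- the `V`-case. -/
theorem SE.vcase_of (S : SE G Ω) (lin : LINh.{u})
    (faith : ∀ g : G, (∀ β : Ω, g • β = β) → g = 1)
    (solv : ∀ t : G, Iv t → Group.IsSolvable (C1 t))
    (comm : ∀ (α : Ω) (s t : G), Iv s → Iv t → s • α = α → t • α = α → s * t = t * s)
    {B : Subgroup G} (hB : ElAb 2 B) (h16 : 16 ≤ Nat.card B) {α β : Ω} (hne : α ≠ β) :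
    Opc 2 (St G α) = ⊥ := by
  let V : Ω → Subgroup G := fun a =>
    { carrier := {s | s * s = 1 ∧ s • a = a}
      one_mem' := ⟨mul_one 1, one_smul _ _⟩
      mul_mem' := fun {x y} hx hy => by
        refine ⟨?_, by rw [mul_smul, hy.2, hx.2]⟩
        by_cases x1 : x = 1
        · rw [x1, one_mul]; exact hy.1
        by_cases y1 : y = 1
        · rw [y1, mul_one]; exact hx.1
        have c := comm a x y ⟨hx.1, x1⟩ ⟨hy.1, y1⟩ hx.2 hy.2
        rw [mul_assoc, ← mul_assoc y, ← c, mul_assoc, hy.1, mul_one, hx.1]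
      inv_mem' := fun {x} hx => by
        rw [show x⁻¹ = x from inv_eq_of_mul_eq_one_right hx.1]; exact hx }
  have sq : ∀ b ∈ B, b * b = 1 := fun b hb => by rw [← _root_.sq]; exact hB.2 b hb
  obtain ⟨b, hb, b1⟩ : ∃ b ∈ B, b ≠ 1 := by
    by_contra e
    push Not at e
    have : B = ⊥ := (Subgroup.eq_bot_iff_forall _).2 e
    rw [this, card_bot] at h16
    omega
  obtain ⟨γ, hγ⟩ := S.ex b ⟨sq b hb, b1⟩
  have BV : B ≤ V γ := fun x hx =>
    ⟨sq x hx, S.smul_eq ⟨sq b hb, b1⟩ hγ (hB.1 x hx b hb)⟩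
  have h : VN V := by
    refine ⟨S, fun _ _ => Iff.rfl, fun a => ?_, fun a => ?_, solv, faith⟩
    · obtain ⟨g, rfl⟩ := S.trans γ a
      refine (h16.trans_eq (card_cj g B).symm).trans (card_le_of_le ?_)
      intro x hx
      obtain ⟨y, hy, rfl⟩ := mem_cj'.1 hx
      exact ⟨pt_sq_conj (BV hy).1 g, conj_smul (BV hy).2 g⟩
    · by_cases e : α = a
      · exact ⟨β, e ▸ hne.symm⟩
      · exact ⟨α, e⟩
  exact h.core_of_lin lin α

end CfsgSE
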